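import Mathlib

/-!
# TI-subgroups inverted by an involution: cosets containing an involution

`M` is a TI-subgroup of the finite group `G`, `z` an involution in `N = N_G(M)` with
`N = M C_N(z)`, no involution of `G` centralises a non-trivial element of `M`.  If `G` has more
involutions than `|G : M|`, then every coset `gM` with `g ∉ N` contains exactly one involution.
On the `G`-set `G/N` this gives a linear space: two points lie on a unique "line", the line being
the fixed point set of an involution.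
-/

set_option autoImplicit false
set_option linter.style.haveILetI false
set_option linter.unusedSectionVars false

namespace Cfsg.Agent.Lib.Perm.TICount

open MulAction Subgroup

variable {G : Type*} [Group G]

/-- An involution. -/
def IsInv (t : G) : Prop := t * t = 1 ∧ t ≠ 1

theorem IsInv.inv_eq {t : G} (h : IsInv t) : t⁻¹ = t := inv_eq_of_mul_eq_one_left h.1

theorem IsInv.conj {t : G} (h : IsInv t) (g : G) : IsInv (g * t * g⁻¹) := by
  refine ⟨?_, ?_⟩
  · have : g * t * g⁻¹ * (g * t * g⁻¹) = g * (t * t) * g⁻¹ := by group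
    rw [this, h.1]; simp
  · intro h1
    apply h.2
    have : t = g⁻¹ * (g * t * g⁻¹) * g := by group
    rw [this, h1]; simp

theorem isInv_iff_orderOf (t : G) : IsInv t ↔ orderOf t = 2 := by
  constructor
  · intro h
    apply orderOf_eq_prime
    · rw [pow_two]; exact h.1
    · exact h.2
  · intro h
    refine ⟨?_, ?_⟩
    · rw [← pow_two, ← h]; exact pow_orderOf_eq_one t
    · rintro rfl
      simp at h

/-- The hypotheses. -/
structure TIHyp (M : Subgroup G) (z : G) : Prop where
  ne_bot : M ≠ ⊥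
  ti : ∀ g x : G, x ∈ M → x ≠ 1 → g * x * g⁻¹ ∈ M → g ∈ normalizer (M : Set G)
  zinv : IsInv z
  zN : z ∈ normalizer (M : Set G)
  fac : ∀ g ∈ normalizer (M : Set G), ∃ m ∈ M, ∃ c ∈ normalizer (M : Set G),
    c * z = z * c ∧ g = m * c
  noinv : ∀ x ∈ M, x ≠ 1 → ∀ i : G, IsInv i → i * x ≠ x * i

namespace TIHyp

variable {M : Subgroup G} {z : G} (S : TIHyp M z)

include S

theorem conj_mem {g x : G} (hg : g ∈ normalizer (M : Set G)) (hx : x ∈ M) : g * x * g⁻¹ ∈ M :=
  (mem_normalizer_iff.mp hg x).mp hx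

theorem le_normalizer : M ≤ normalizer (M : Set G) := by
  intro x hx
  rw [mem_normalizer_iff]
  intro y
  constructor
  · intro hy
    exact M.mul_mem (M.mul_mem hx hy) (M.inv_mem hx)
  · intro hy
    have : y = x⁻¹ * (x * y * x⁻¹) * x := by group
    rw [this]
    exact M.mul_mem (M.mul_mem (M.inv_mem hx) hy) hx

theorem inv_conj_mem {g x : G} (hg : g ∈ normalizer (M : Set G)) (hx : x ∈ M) :
    g⁻¹ * x * g ∈ M := by
  have := S.conj_mem ((normalizer (M : Set G)).inv_mem hg) hx
  simpa using this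

/-- An involution in `N` inverts `M`. -/
theorem inverts [Finite G] {i : G} (hi : i ∈ normalizer (M : Set G)) (hii : IsInv i) {x : G}
    (hx : x ∈ M) : i * x * i = x⁻¹ := by
  classical
  let φ : M →* M :=
    { toFun := fun x => ⟨i * x * i⁻¹, S.conj_mem hi x.2⟩
      map_one' := by ext; simp
      map_mul' := fun x y => by ext; simp [mul_assoc] }
  have hfp : MonoidHom.FixedPointFree (φ : M → M) := by
    intro y hy
    by_contra hy1
    have h1 : (y : G) ≠ 1 := fun h => hy1 (Subtype.ext h)
    have h2 : i * y * i⁻¹ = y := congrArg Subtype.val hy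
    apply S.noinv y y.2 h1 i hii
    rw [mul_inv_eq_iff_eq_mul] at h2
    exact h2
  have hinvol : Function.Involutive (φ : M → M) := by
    intro y
    apply Subtype.ext
    show i * (i * y * i⁻¹) * i⁻¹ = y
    have : i * (i * y * i⁻¹) * i⁻¹ = (i * i) * y * (i * i)⁻¹ := by group
    rw [this, hii.1]; simp
  have h := congrFun (hfp.coe_eq_inv_of_involutive hinvol) (⟨x, hx⟩ : M)
  have h2 : i * x * i⁻¹ = x⁻¹ := congrArg Subtype.val h
  rwa [hii.inv_eq] at h2

/-- `M` is abelian. -/
theorem comm [Finite G] {x y : G} (hx : x ∈ M) (hy : y ∈ M) : x * y = y * x := by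
  have h1 := S.inverts S.zN S.zinv hx
  have h2 := S.inverts S.zN S.zinv hy
  have h3 := S.inverts S.zN S.zinv (M.mul_mem hx hy)
  have h4 : z * (x * y) * z = (z * x * z) * (z * y * z) := by
    have : z * x * z * (z * y * z) = z * x * (z * z) * y * z := by group
    rw [this, S.zinv.1]; group
  rw [h4, h1, h2, ← mul_inv_rev, inv_inj] at h3
  exact h3.symm

theorem no_invol_mem {i : G} (hi : i ∈ M) (hii : IsInv i) : False :=
  S.noinv i hi hii.2 i hii rfl

theorem z_not_mem : z ∉ M := fun h => S.no_invol_mem h S.zinv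

theorem odd_card [Finite G] : Odd (Nat.card M) := by
  rw [← Nat.not_even_iff_odd]
  intro h
  haveI : Fact (Nat.Prime 2) := ⟨Nat.prime_two⟩
  obtain ⟨x, hx⟩ := exists_prime_orderOf_dvd_card' (G := M) 2 (even_iff_two_dvd.mp h)
  have h1 : IsInv (x : G) := by
    rw [isInv_iff_orderOf, Subgroup.orderOf_coe]
    exact hx
  exact S.no_invol_mem x.2 h1

/-- Square roots in `M`. -/
theorem exists_sqrt [Finite G] {m : G} (hm : m ∈ M) : ∃ u ∈ M, u * u = m := by
  have hc : Nat.Coprime (Nat.card M) 2 := Nat.coprime_two_right.mpr S.odd_card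
  obtain ⟨u, hu⟩ := (powCoprime hc).surjective ⟨m, hm⟩
  refine ⟨u, u.2, ?_⟩
  have h2 : (u : M) ^ 2 = ⟨m, hm⟩ := hu
  have h3 := congrArg Subtype.val h2
  simpa [pow_two] using h3

theorem exists_ne_one : ∃ x ∈ M, x ≠ 1 := (Subgroup.ne_bot_iff_exists_ne_one.mp S.ne_bot).elim
  (fun x hx => ⟨x, x.2, fun h => hx (Subtype.ext h)⟩)

/-- The involutions of `N` lie in `Mz`. -/
theorem mul_z_mem [Finite G] {i : G} (hi : i ∈ normalizer (M : Set G)) (hii : IsInv i) :
    i * z ∈ M := by
  obtain ⟨m, hm, c, hc, hcz, rfl⟩ := S.fac i hi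
  have hzz := S.zinv.1
  have hcc : c * c = 1 := by
    have h1 : m * c * (m * c) = 1 := hii.1
    have h3 : c * c ∈ M := by
      have h5 : c * c = m⁻¹ * (c * m⁻¹ * c⁻¹)  := by
        have h6 : m * (c * m * c⁻¹) * (c * c) = 1 := by
          rw [← h1]; group
        have h7 : c * c = (m * (c * m * c⁻¹))⁻¹ := eq_inv_of_mul_eq_one_right h6
        rw [h7]
        have h8 : m * (c * m * c⁻¹) = (c * m * c⁻¹) * m :=
          S.comm hm (S.conj_mem hc hm)
        rw [h8]
        group
      rw [h5]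
      exact M.mul_mem (M.inv_mem hm) (S.conj_mem hc (M.inv_mem hm))
    by_contra hne
    apply S.noinv _ h3 hne z S.zinv
    calc z * (c * c) = (z * c) * c := by group
      _ = (c * z) * c := by rw [hcz]
      _ = c * (z * c) := by group
      _ = c * (c * z) := by rw [hcz]
      _ = c * c * z := by group
  set d := c * z with hd
  have hdd : d * d = 1 := by
    have : c * z * (c * z) = c * (z * c) * z := by group
    rw [hd, this, ← hcz]
    have : c * (c * z) * z = (c * c) * (z * z) := by group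
    rw [this, hcc, hzz, one_mul]
  have hdN : d ∈ normalizer (M : Set G) := (normalizer (M : Set G)).mul_mem hc S.zN
  -- `w = (mc) z` centralises `M`
  obtain ⟨x, hx, hx1⟩ := S.exists_ne_one
  have hwx : (m * c * z) * x = x * (m * c * z) := by
    have h1 := S.inverts hi hii hx
    have h2 := S.inverts S.zN S.zinv hx
    have h3 := S.inverts hi hii (M.inv_mem hx)
    have h4 : z * x * z * z = x⁻¹ * z := by rw [h2]
    have h5 : z * x = x⁻¹ * z := by
      rw [← h4, mul_assoc (z * x), hzz, mul_one]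
    have h6 : m * c * x⁻¹ * (m * c) * (m * c) = x * (m * c) := by
      rw [inv_inv] at h3
      rw [h3]
    have h7 : m * c * x⁻¹ = x * (m * c) := by
      rw [← h6]
      have := hii.1
      rw [mul_assoc _ (m * c) (m * c), this, mul_one]
    calc (m * c * z) * x = m * c * (z * x) := by group
      _ = m * c * (x⁻¹ * z) := by rw [h5]
      _ = (m * c * x⁻¹) * z := by group
      _ = x * (m * c) * z := by rw [h7]
      _ = x * (m * c * z) := by group
  set w := m * c * z with hw
  have hwd : w = m * d := by rw [hw, hd]; group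
  -- `w` has odd order
  have hodd : Odd (orderOf w) := by
    rw [← Nat.not_even_iff_odd]
    intro he
    have h2 : 2 ∣ orderOf w := even_iff_two_dvd.mp he
    have h3 := orderOf_pow_orderOf_div (x := w) (orderOf_pos w).ne' h2
    have h4 : IsInv (w ^ (orderOf w / 2)) := (isInv_iff_orderOf _).mpr h3
    apply S.noinv x hx hx1 _ h4
    exact ((Commute.pow_left (show Commute w x from hwx) _) : _)
  -- powers
  have hpow : ∀ k : ℕ, ∃ m' ∈ M, w ^ k = m' * d ^ k := by
    intro k
    induction k with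
    | zero => exact ⟨1, M.one_mem, by simp⟩
    | succ k ih =>
      obtain ⟨m', hm', h⟩ := ih
      refine ⟨m' * (d ^ k * m * (d ^ k)⁻¹), M.mul_mem hm'
        (S.conj_mem ((normalizer (M : Set G)).pow_mem hdN k) hm), ?_⟩
      rw [pow_succ, h, pow_succ, hwd]
      group
  obtain ⟨m', hm', h⟩ := hpow (orderOf w)
  rw [pow_orderOf_eq_one] at h
  obtain ⟨k, hk⟩ := hodd
  have hdpow : d ^ orderOf w = d := by
    rw [hk, pow_succ, pow_mul, pow_two, hdd, one_pow, one_mul]
  rw [hdpow] at h
  have hdM : d ∈ M := by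
    have : d = m'⁻¹ := eq_inv_of_mul_eq_one_right h.symm
    rw [this]
    exact M.inv_mem hm'
  have hd1 : d = 1 := by
    by_contra hne
    exact S.no_invol_mem hdM ⟨hdd, hne⟩
  rw [hwd, hd1, mul_one]
  exact hm

/-- Elements of `Mz` are involutions. -/
theorem isInv_mul_z [Finite G] {m : G} (hm : m ∈ M) : IsInv (m * z) := by
  refine ⟨?_, ?_⟩
  · have h1 := S.inverts S.zN S.zinv hm
    have : m * z * (m * z) = m * (z * m * z) := by group
    rw [this, h1]; simp
  · intro h
    apply S.z_not_mem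
    have : z = m⁻¹ := eq_inv_of_mul_eq_one_right h
    rw [this]
    exact M.inv_mem hm

theorem mul_mem_of_inv [Finite G] {s s' : G} (hs : s ∈ normalizer (M : Set G)) (hsi : IsInv s)
    (hs' : s' ∈ normalizer (M : Set G)) (hsi' : IsInv s') : s * s' ∈ M := by
  have h1 := S.mul_z_mem hs hsi
  have h2 := S.mul_z_mem hs' hsi'
  have h3 := M.mul_mem h1 (M.inv_mem h2)
  have : s * z * (s' * z)⁻¹ = s * s'⁻¹ := by group
  rw [this, hsi'.inv_eq] at h3
  exact h3

/-- An involution of `N` is `M`-conjugate to `z`. -/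
theorem exists_conj_z [Finite G] {s : G} (hs : s ∈ normalizer (M : Set G)) (hsi : IsInv s) :
    ∃ u ∈ M, s = u * z * u⁻¹ := by
  obtain ⟨u, hu, huu⟩ := S.exists_sqrt (S.mul_z_mem hs hsi)
  refine ⟨u, hu, ?_⟩
  have h1 := S.inverts S.zN S.zinv (M.inv_mem hu)
  rw [inv_inv] at h1
  have h2 : u * z * u⁻¹ = u * (z * u⁻¹ * z) * z := by
    have := S.zinv.1
    calc u * z * u⁻¹ = u * z * u⁻¹ * (z * z) := by rw [this, mul_one]
      _ = u * (z * u⁻¹ * z) * z := by group
  rw [h2, h1, huu]
  calc s = s * (z * z) := by rw [S.zinv.1, mul_one]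
    _ = s * z * z := by group

/-- Two involutions in a coset of `M` outside `N` coincide. -/
theorem invol_unique {t t' : G} (ht : IsInv t) (ht' : IsInv t') (htN : t ∉ normalizer (M : Set G))
    (h : t⁻¹ * t' ∈ M) : t = t' := by
  by_contra hne
  rw [ht.inv_eq] at h
  have h1 : t * t' ≠ 1 := by
    intro h2
    apply hne
    have := eq_inv_of_mul_eq_one_left h2
    rw [this, ht'.inv_eq]
  apply htN
  apply S.ti t _ h h1
  have h2 : t * (t * t') * t⁻¹ = (t * t') ⁻¹ := by
    rw [mul_inv_rev, ht.inv_eq, ht'.inv_eq, ← mul_assoc, ht.1, one_mul]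
  rw [h2]
  exact M.inv_mem h

/-- The counting step: every coset of `M` outside `N` contains an involution. -/
theorem exists_invol [Finite G] (hI : M.index < Nat.card {g : G // orderOf g = 2}) (g₀ : G)
    (hg₀ : g₀ ∉ normalizer (M : Set G)) : ∃ t, IsInv t ∧ g₀⁻¹ * t ∈ M := by
  classical
  by_contra hno
  push Not at hno
  haveI : Fintype G := Fintype.ofFinite G
  haveI : Fintype M := Fintype.ofFinite M
  haveI : Fintype (G ⧸ M) := Fintype.ofFinite _
  let π : G → G ⧸ M := QuotientGroup.mk
  have hπ : ∀ a b : G, π a = π b ↔ a⁻¹ * b ∈ M := fun a b => QuotientGroup.eq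
  have hMN := S.le_normalizer
  let I₁ : Finset G := Finset.univ.filter fun t => IsInv t ∧ t ∉ normalizer (M : Set G)
  let I₂ : Finset G := Finset.univ.filter fun t => IsInv t ∧ t ∈ normalizer (M : Set G)
  let T : Finset (G ⧸ M) := insert (π 1) (Finset.univ.image fun x : M => π (x * g₀))
  have hinj : Function.Injective fun x : M => π (x * g₀) := by
    intro x x' h
    by_contra hne
    have h1 : (x * g₀)⁻¹ * (x' * g₀) ∈ M := (hπ _ _).mp h
    have h2 : (x * g₀)⁻¹ * (x' * g₀) = g₀⁻¹ * ((x : G)⁻¹ * x') * g₀⁻¹⁻¹ := by group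
    rw [h2] at h1
    have h3 : (x : G)⁻¹ * x' ≠ 1 := by
      intro h4
      apply hne
      rw [inv_mul_eq_one] at h4
      exact Subtype.ext h4
    have h4 := S.ti _ _ (M.mul_mem (M.inv_mem x.2) x'.2) h3 h1
    exact hg₀ (by simpa using (normalizer (M : Set G)).inv_mem h4)
  have hTcard : T.card = Nat.card M + 1 := by
    rw [Finset.card_insert_of_notMem, Finset.card_image_of_injective _ hinj, Finset.card_univ,
      Nat.card_eq_fintype_card]
    intro h
    obtain ⟨x, -, hx⟩ := Finset.mem_image.mp h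
    have h1 : (x * g₀ : G)⁻¹ * 1 ∈ M := (hπ _ _).mp hx
    rw [mul_one] at h1
    have h2 : x * g₀ ∈ M := by simpa using M.inv_mem h1
    have h3 : g₀ ∈ M := by
      have : g₀ = (x : G)⁻¹ * (x * g₀) := by group
      rw [this]
      exact M.mul_mem (M.inv_mem x.2) h2
    exact hg₀ (hMN h3)
  have himg : Disjoint (I₁.image π) T := by
    rw [Finset.disjoint_left]
    intro c hc hcT
    obtain ⟨t, ht, rfl⟩ := Finset.mem_image.mp hc
    have ht' := (Finset.mem_filter.mp ht).2
    rcases Finset.mem_insert.mp hcT with h | h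
    · have h1 : t⁻¹ * 1 ∈ M := (hπ _ _).mp h
      rw [mul_one] at h1
      have h2 : t ∈ M := by simpa using M.inv_mem h1
      exact ht'.2 (hMN h2)
    · obtain ⟨x, -, hx⟩ := Finset.mem_image.mp h
      have h1 : (x * g₀ : G)⁻¹ * t ∈ M := (hπ _ _).mp hx
      apply hno ((x : G)⁻¹ * t * x) _
      · have h2 : g₀⁻¹ * ((x : G)⁻¹ * t * x) = (x * g₀ : G)⁻¹ * t * x := by group
        rw [h2]
        exact M.mul_mem h1 x.2
      · have := ht'.1.conj (x : G)⁻¹
        simpa using this
  have hinjI : Set.InjOn π I₁ := by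
    intro t ht t' ht' h
    have h1 := (Finset.mem_filter.mp (Finset.mem_coe.mp ht)).2
    have h2 := (Finset.mem_filter.mp (Finset.mem_coe.mp ht')).2
    exact S.invol_unique h1.1 h2.1 h1.2 ((hπ _ _).mp h)
  have hle : I₁.card + (Nat.card M + 1) ≤ Fintype.card (G ⧸ M) := by
    rw [← hTcard, ← Finset.card_image_of_injOn hinjI, ← Finset.card_union_of_disjoint himg]
    exact Finset.card_le_univ _
  have hI₂ : I₂.card ≤ Nat.card M := by
    have h1 : I₂ ⊆ Finset.univ.image fun m : M => (m : G) * z := by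
      intro s hs
      have h2 := (Finset.mem_filter.mp hs).2
      have h3 := S.mul_z_mem h2.2 h2.1
      refine Finset.mem_image.mpr ⟨⟨_, h3⟩, Finset.mem_univ _, ?_⟩
      show s * z * z = s
      rw [mul_assoc, S.zinv.1, mul_one]
    refine (Finset.card_le_card h1).trans ?_
    refine Finset.card_image_le.trans ?_
    rw [Finset.card_univ, Nat.card_eq_fintype_card]
  have hcardI : Nat.card {g : G // orderOf g = 2} = I₁.card + I₂.card := by
    rw [Nat.card_eq_fintype_card, Fintype.card_subtype]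
    rw [← Finset.card_union_of_disjoint]
    · congr 1
      ext t
      simp only [Finset.mem_filter, Finset.mem_univ, true_and, Finset.mem_union, I₁, I₂]
      rw [← isInv_iff_orderOf]
      by_cases h1 : t ∈ normalizer (M : Set G) <;> simp [h1]
    · rw [Finset.disjoint_left]
      intro t h1 h2
      exact (Finset.mem_filter.mp h1).2.2 (Finset.mem_filter.mp h2).2.2
  have hidx : M.index = Fintype.card (G ⧸ M) := by
    rw [Subgroup.index, Nat.card_eq_fintype_card]
  omega

end TIHyp

/-- The linear space: a transitive `G`-set with point stabiliser `N`, and the conclusion of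
`TIHyp.exists_invol`. -/
structure PlaneHyp (M : Subgroup G) (z : G) {Ω : Type*} [MulAction G Ω] (p₀ : Ω) : Prop
    extends TIHyp M z where
  trans : ∀ p : Ω, ∃ g : G, g • p₀ = p
  stab : ∀ g : G, g • p₀ = p₀ ↔ g ∈ normalizer (M : Set G)
  hU : ∀ g ∉ normalizer (M : Set G), ∃ t, IsInv t ∧ g⁻¹ * t ∈ M

namespace PlaneHyp

variable {M : Subgroup G} {z : G} {Ω : Type*} [MulAction G Ω] {p₀ : Ω}
  (P : PlaneHyp M z p₀)

include P

theorem mem_N_iff {g : G} : g ∈ normalizer (M : Set G) ↔ g • p₀ = p₀ := (P.stab g).symm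

/-- The involution of `N` commuting with a given involution. -/
theorem base_exists_unique [Finite G] {t : G} (ht : IsInv t) :
    ∃! s, IsInv s ∧ s ∈ normalizer (M : Set G) ∧ s * t = t * s := by
  have S := P.toTIHyp
  have hzz := S.zinv.1
  by_cases htN : t ∈ normalizer (M : Set G)
  · refine ⟨t, ⟨ht, htN, rfl⟩, ?_⟩
    rintro s ⟨hs, hsN, hst⟩
    by_contra hne
    have hx := S.mul_mem_of_inv hsN hs htN ht
    have hx1 : s * t ≠ 1 := by
      intro h
      apply hne
      have := eq_inv_of_mul_eq_one_left h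
      rw [this, ht.inv_eq]
    apply S.noinv _ hx hx1 t ht
    calc t * (s * t) = (t * s) * t := by group
      _ = (s * t) * t := by rw [hst]
  · have htz : t * z ∉ normalizer (M : Set G) := by
      intro h
      apply htN
      have : t = t * z * z⁻¹ := by group
      rw [this]
      exact (normalizer (M : Set G)).mul_mem h ((normalizer (M : Set G)).inv_mem S.zN)
    obtain ⟨t', ht', hy⟩ := P.hU _ htz
    set y := (t * z)⁻¹ * t' with hydef
    have ht'eq : t' = t * z * y := by rw [hydef]; group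
    have hzy : IsInv (z * y) := by
      have h1 := S.isInv_mul_z (M.inv_mem hy)
      have h2 := S.inverts S.zN S.zinv hy
      have h3 : y⁻¹ * z = z * y := by
        have h4 : y⁻¹ * z = (z * y * z) * z := by rw [h2]
        rw [h4, mul_assoc, hzz, mul_one]
      rwa [h3] at h1
    have hzyN : z * y ∈ normalizer (M : Set G) :=
      (normalizer (M : Set G)).mul_mem S.zN (S.le_normalizer hy)
    have hcomm : z * y * t = t * (z * y) := by
      have h1 : (t * (z * y)) * (t * (z * y)) = 1 := by
        have := ht'.1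
        rw [ht'eq] at this
        rw [← this]; group
      have h2 : t * (z * y) = ((z * y)) * t := by
        have h3 := eq_inv_of_mul_eq_one_left h1
        rw [h3, mul_inv_rev, hzy.inv_eq, ht.inv_eq]
      exact h2.symm
    refine ⟨z * y, ⟨hzy, hzyN, hcomm⟩, ?_⟩
    rintro s ⟨hs, hsN, hst⟩
    have hts : IsInv (t * s) := by
      refine ⟨?_, ?_⟩
      · calc t * s * (t * s) = t * (s * t) * s := by group
          _ = t * (t * s) * s := by rw [hst]
          _ = (t * t) * (s * s) := by group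
          _ = 1 := by rw [ht.1, hs.1, one_mul]
      · intro h
        apply htN
        have : t = s⁻¹ := eq_inv_of_mul_eq_one_left h
        rw [this]
        exact (normalizer (M : Set G)).inv_mem hsN
    have ht'N : t' ∉ normalizer (M : Set G) := by
      intro h
      apply htN
      have h1 : t = t' * (z * y)⁻¹ := by rw [ht'eq]; group
      rw [h1]
      exact (normalizer (M : Set G)).mul_mem h ((normalizer (M : Set G)).inv_mem hzyN)
    have h1 : t'⁻¹ * (t * s) ∈ M := by
      have h2 : t'⁻¹ * (t * s) = y⁻¹ * (z * s) := by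
        have h5 : t'⁻¹ * (t * s) = y⁻¹ * (z⁻¹ * s) := by rw [ht'eq]; group
        rw [h5, S.zinv.inv_eq]
      rw [h2]
      refine M.mul_mem (M.inv_mem hy) ?_
      exact S.mul_mem_of_inv S.zN S.zinv hsN hs
    have h2 := S.invol_unique ht' hts ht'N h1
    have h3 : t * (z * y) = t * s := by
      rw [← h2, ht'eq]; group
    exact (mul_left_cancel h3).symm

/-- The involution fixing `p` and commuting with a given involution. -/
theorem commuting_unique [Finite G] {t : G} (ht : IsInv t) (p : Ω) :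
    ∃! s, IsInv s ∧ s • p = p ∧ s * t = t * s := by
  obtain ⟨g, rfl⟩ := P.trans p
  have ht' := ht.conj g⁻¹
  obtain ⟨s, ⟨hs, hsN, hst⟩, huniq⟩ := P.base_exists_unique ht'
  simp only [inv_inv] at hst
  refine ⟨g * s * g⁻¹, ⟨hs.conj g, ?_, ?_⟩, ?_⟩
  · rw [mul_smul, mul_smul, inv_smul_smul, (P.stab s).mpr hsN]
  · have : s * (g⁻¹ * t * g) = g⁻¹ * t * g * s := hst
    calc g * s * g⁻¹ * t = g * (s * (g⁻¹ * t * g)) * g⁻¹ := by group
      _ = g * (g⁻¹ * t * g * s) * g⁻¹ := by rw [this]
      _ = t * (g * s * g⁻¹) := by group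
  · rintro s' ⟨hs', hfix, hcomm⟩
    have h1 : g⁻¹ * s' * g = s := by
      apply huniq
      refine ⟨?_, ?_, ?_⟩
      · have := hs'.conj g⁻¹
        simpa using this
      · rw [← P.stab, mul_smul, mul_smul, hfix, inv_smul_smul]
      · simp only [inv_inv]
        calc g⁻¹ * s' * g * (g⁻¹ * t * g) = g⁻¹ * (s' * t) * g := by group
          _ = g⁻¹ * (t * s') * g := by rw [hcomm]
          _ = g⁻¹ * t * g * (g⁻¹ * s' * g) := by group
    rw [← h1]; group

/-- Every two distinct points are swapped by an involution. -/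
theorem swap_exists [Finite G] {p q : Ω} (hpq : p ≠ q) : ∃ t : G, IsInv t ∧ t • p = q ∧ t • q = p := by
  obtain ⟨h, rfl⟩ := P.trans p
  obtain ⟨g, rfl⟩ := P.trans q
  have hN : h⁻¹ * g ∉ normalizer (M : Set G) := by
    rw [P.mem_N_iff]
    intro h1
    apply hpq
    rw [mul_smul, inv_smul_eq_iff] at h1
    exact h1.symm
  obtain ⟨t, ht, htM⟩ := P.hU _ hN
  have h2 : (h⁻¹ * g)⁻¹ * t ∈ normalizer (M : Set G) := P.le_normalizer htM
  rw [P.mem_N_iff] at h2
  have h3 : t • p₀ = (h⁻¹ * g) • p₀ := by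
    rw [mul_smul, inv_smul_eq_iff] at h2
    exact h2
  have h4 : (h * t * h⁻¹) • (h • p₀) = g • p₀ := by
    rw [mul_smul, mul_smul, inv_smul_smul, h3, mul_smul, smul_inv_smul]
  refine ⟨h * t * h⁻¹, ht.conj h, h4, ?_⟩
  rw [← h4, ← mul_smul, (ht.conj h).1, one_smul]

/-- Every two distinct points lie on a line. -/
theorem line_exists [Finite G] {p q : Ω} (hpq : p ≠ q) : ∃ s : G, IsInv s ∧ s • p = p ∧ s • q = q := by
  obtain ⟨t, ht, h1, h2⟩ := P.swap_exists hpq
  obtain ⟨s, ⟨hs, hsp, hst⟩, -⟩ := P.commuting_unique ht p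
  refine ⟨s, hs, hsp, ?_⟩
  rw [← h1, ← mul_smul, hst, mul_smul, hsp]

/-- The product of two involutions fixing `g • p₀` lies in the conjugate of `M`. -/
theorem conj_mul_mem [Finite G] {s s' g : G} (hs : IsInv s) (hs' : IsInv s')
    (h1 : s • (g • p₀) = g • p₀) (h2 : s' • (g • p₀) = g • p₀) : g⁻¹ * (s * s') * g ∈ M := by
  have h3 : g⁻¹ * s * g ∈ normalizer (M : Set G) := by
    rw [P.mem_N_iff, mul_smul, mul_smul, h1, inv_smul_smul]
  have h4 : g⁻¹ * s' * g ∈ normalizer (M : Set G) := by
    rw [P.mem_N_iff, mul_smul, mul_smul, h2, inv_smul_smul]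
  have h5 := P.toTIHyp.mul_mem_of_inv h3 (by simpa using hs.conj g⁻¹) h4 (by simpa using hs'.conj g⁻¹)
  have : g⁻¹ * s * g * (g⁻¹ * s' * g) = g⁻¹ * (s * s') * g := by group
  rwa [this] at h5

/-- Two points lie on at most one line. -/
theorem line_unique [Finite G] {p q : Ω} (hpq : p ≠ q) {s s' : G} (hs : IsInv s) (hs' : IsInv s')
    (h1 : s • p = p) (h2 : s • q = q) (h3 : s' • p = p) (h4 : s' • q = q) : s = s' := by
  by_contra hne
  obtain ⟨g, rfl⟩ := P.trans p
  obtain ⟨h, rfl⟩ := P.trans q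
  have hx := P.conj_mul_mem hs hs' h1 h3
  have hy := P.conj_mul_mem hs hs' h2 h4
  have hne1 : g⁻¹ * (s * s') * g ≠ 1 := by
    intro h5
    apply hne
    have h6 : s * s' = 1 := by
      have : s * s' = g * (g⁻¹ * (s * s') * g) * g⁻¹ := by group
      rw [this, h5]; simp
    have := eq_inv_of_mul_eq_one_left h6
    rw [this, hs'.inv_eq]
  have h7 := P.ti (h⁻¹ * g) _ hx hne1 (by
    have : h⁻¹ * g * (g⁻¹ * (s * s') * g) * (h⁻¹ * g)⁻¹ = h⁻¹ * (s * s') * h := by group
    rw [this]; exact hy)
  rw [P.mem_N_iff, mul_smul, inv_smul_eq_iff] at h7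
  exact hpq h7

/-- An involution with a fixed point is conjugate to `z`. -/
theorem conj_of_fix [Finite G] {s : G} (hs : IsInv s) {p : Ω} (h : s • p = p) :
    ∃ g, s = g * z * g⁻¹ ∧ g • p₀ = p := by
  obtain ⟨g, rfl⟩ := P.trans p
  have h3 : g⁻¹ * s * g ∈ normalizer (M : Set G) := by
    rw [P.mem_N_iff, mul_smul, mul_smul, h, inv_smul_smul]
  obtain ⟨u, hu, hs2⟩ := P.toTIHyp.exists_conj_z h3 (by simpa using hs.conj g⁻¹)
  refine ⟨g * u, ?_, ?_⟩
  · have : s = g * (g⁻¹ * s * g) * g⁻¹ := by group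
    rw [this, hs2]; group
  · rw [mul_smul, (P.stab u).mpr (P.le_normalizer hu)]

/-- `M` acts semiregularly off `p₀`. -/
theorem M_semireg [Finite G] {x : G} (hx : x ∈ M) {q : Ω} (hq : q ≠ p₀) (h : x • q = q) : x = 1 := by
  by_contra hx1
  obtain ⟨s, hs, h1, h2⟩ := P.line_exists hq.symm
  have hxp : x • p₀ = p₀ := (P.stab x).mpr (P.le_normalizer hx)
  have hxi : x⁻¹ • p₀ = p₀ := by rw [inv_smul_eq_iff, hxp]
  have hxq : x⁻¹ • q = q := by rw [inv_smul_eq_iff, h]
  have h3 : x * s * x⁻¹ = s := by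
    apply P.line_unique hq.symm (hs.conj x) hs _ _ h1 h2
    · rw [mul_smul, mul_smul, hxi, h1, hxp]
    · rw [mul_smul, mul_smul, hxq, h2, h]
  apply P.noinv x hx hx1 s hs
  rw [mul_inv_eq_iff_eq_mul] at h3
  exact h3.symm

/-- Elements of `C(z)` outside `N` are involutions. -/
theorem central_invol [Finite G] {g : G} (hg : g * z = z * g) (hgN : g ∉ normalizer (M : Set G)) :
    IsInv g := by
  have S := P.toTIHyp
  have hzz := S.zinv.1
  have hzi := S.zinv.inv_eq
  obtain ⟨t, ht, hx⟩ := P.hU g hgN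
  set x := g⁻¹ * t with hxdef
  have hteq : t = g * x := by rw [hxdef]; group
  have htN : t ∉ normalizer (M : Set G) := by
    intro h
    apply hgN
    have : g = t * x⁻¹ := by rw [hteq]; group
    rw [this]
    exact (normalizer (M : Set G)).mul_mem h (S.le_normalizer (M.inv_mem hx))
  have hzxz := S.inverts S.zN S.zinv hx
  have hconj : z * t * z = g * x⁻¹ := by
    rw [hteq]
    calc z * (g * x) * z = (z * g) * (x * z) := by group
      _ = (g * z) * (x * z) := by rw [hg]
      _ = g * (z * x * z) := by group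
      _ = g * x⁻¹ := by rw [hzxz]
  have hinvt : IsInv (z * t * z) := by
    have := ht.conj z
    rwa [hzi] at this
  have h1 : t⁻¹ * (z * t * z) ∈ M := by
    rw [hconj, hteq]
    have : (g * x)⁻¹ * (g * x⁻¹) = x⁻¹ * x⁻¹ := by group
    rw [this]
    exact M.mul_mem (M.inv_mem hx) (M.inv_mem hx)
  have h2 := S.invol_unique ht hinvt htN h1
  have h3 : x⁻¹ * x⁻¹ = 1 := by
    have : g * x = g * x⁻¹ := by rw [← hteq, ← hconj]; exact h2
    have h4 : x = x⁻¹ := mul_left_cancel this
    calc x⁻¹ * x⁻¹ = x⁻¹ * x := by rw [← h4]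
      _ = 1 := by simp
  have hx1 : x = 1 := by
    by_contra hne
    apply S.no_invol_mem (M.inv_mem hx)
    refine ⟨h3, fun h => hne (inv_eq_one.mp h)⟩
  rw [hx1, mul_one] at hteq
  rw [← hteq]
  exact ht

end PlaneHyp

end Cfsg.Agent.Lib.Perm.TICount
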