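import Mathlib
import Cfsg.Agent.Lib.Perm.TICount

/-!
# TI-subgroups: the counting

Fixed point sets of the involutions are the lines of a linear space on `G/N`.
-/

set_option autoImplicit false
set_option linter.style.haveILetI false
set_option linter.unusedSectionVars false

namespace Cfsg.Agent.Lib.Perm.TICount

open MulAction Subgroup

variable {G : Type*} [Group G] {M : Subgroup G} {z : G} {Ω : Type*} [MulAction G Ω] {p₀ : Ω}

open Classical in
/-- Fixed point set. -/
noncomputable def fixF (Ω : Type*) [MulAction G Ω] [Fintype Ω] (s : G) : Finset Ω :=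
  Finset.univ.filter fun q => s • q = q

open Classical in
/-- The involutions fixing a point. -/
noncomputable def lineSet [Fintype G] (q : Ω) : Finset G :=
  Finset.univ.filter fun s : G => IsInv s ∧ s • q = q

open Classical in
/-- The involutions with a fixed point. -/
noncomputable def I₀ (Ω : Type*) [MulAction G Ω] [Fintype G] : Finset G :=
  Finset.univ.filter fun s : G => IsInv s ∧ ∃ q : Ω, s • q = q

open Classical in
/-- The involutions with a fixed point commuting with `t`. -/
noncomputable def Par (Ω : Type*) [MulAction G Ω] [Fintype G] (t : G) : Finset G :=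
  Finset.univ.filter fun s : G => IsInv s ∧ (∃ q : Ω, s • q = q) ∧ s * t = t * s

/-- `C_N(z)`. -/
def subB (M : Subgroup G) (z : G) : Subgroup G :=
  centralizer ({z} : Set G) ⊓ normalizer (M : Set G)

theorem mem_fixF [Fintype Ω] {s : G} {q : Ω} : q ∈ fixF Ω s ↔ s • q = q := by
  simp [fixF]

theorem mem_lineSet [Fintype G] {s : G} {q : Ω} : s ∈ lineSet q ↔ IsInv s ∧ s • q = q := by
  simp [lineSet]

theorem mem_I₀ [Fintype G] {s : G} : s ∈ I₀ Ω ↔ IsInv s ∧ ∃ q : Ω, s • q = q := by
  simp [I₀]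

theorem mem_Par [Fintype G] {s t : G} :
    s ∈ Par Ω t ↔ IsInv s ∧ (∃ q : Ω, s • q = q) ∧ s * t = t * s := by
  simp [Par]

theorem card_fixF_conj [Fintype Ω] (g s : G) :
    (fixF Ω (g * s * g⁻¹)).card = (fixF Ω s).card := by
  classical
  have h : fixF Ω (g * s * g⁻¹) = (fixF Ω s).image (fun q => g • q) := by
    ext q
    simp only [mem_fixF, Finset.mem_image]
    constructor
    · intro h
      refine ⟨g⁻¹ • q, ?_, smul_inv_smul g q⟩
      rw [← mul_smul]
      have h2 := congrArg (fun w => g⁻¹ • w) h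
      simp only [mul_smul, inv_smul_smul] at h2
      rw [mul_smul]
      exact h2
    · rintro ⟨r, hr, rfl⟩
      rw [mul_smul, mul_smul, inv_smul_smul, hr]
  rw [h, Finset.card_image_of_injective _ (MulAction.injective g)]

namespace PlaneHyp

variable (P : PlaneHyp M z p₀)

include P

theorem z_fix : z • p₀ = p₀ := (P.stab z).mpr P.zN

theorem card_fixF_of_fix [Finite G] [Fintype Ω] {s : G} (hs : IsInv s) {p : Ω} (h : s • p = p) :
    (fixF Ω s).card = (fixF Ω z).card := by
  obtain ⟨g, rfl, -⟩ := P.conj_of_fix hs h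
  exact card_fixF_conj g z

theorem mem_lineSet_base [Fintype G] {s : G} : s ∈ lineSet p₀ ↔ s * z ∈ M := by
  rw [mem_lineSet]
  constructor
  · rintro ⟨h1, h2⟩
    exact P.toTIHyp.mul_z_mem ((P.stab s).mp h2) h1
  · intro h
    have h1 : s = s * z * z := by rw [mul_assoc, P.zinv.1, mul_one]
    have h2 := P.toTIHyp.isInv_mul_z h
    rw [← h1] at h2
    refine ⟨h2, ?_⟩
    rw [h1, mul_smul, P.z_fix]
    exact (P.stab _).mpr (P.le_normalizer h)

theorem card_lineSet_base [Fintype G] : (lineSet p₀ : Finset G).card = Nat.card M := by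
  classical
  haveI : Fintype M := Fintype.ofFinite M
  have h : (lineSet p₀ : Finset G) = Finset.univ.image (fun m : M => (m : G) * z) := by
    ext s
    rw [P.mem_lineSet_base, Finset.mem_image]
    constructor
    · intro h
      refine ⟨⟨_, h⟩, Finset.mem_univ _, ?_⟩
      show s * z * z = s
      rw [mul_assoc, P.zinv.1, mul_one]
    · rintro ⟨m, -, rfl⟩
      show (m : G) * z * z ∈ M
      rw [mul_assoc, P.zinv.1, mul_one]
      exact m.2
  rw [h, Finset.card_image_of_injective, Finset.card_univ, Nat.card_eq_fintype_card]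
  intro a b hab
  exact Subtype.ext (mul_right_cancel hab)

theorem card_lineSet [Fintype G] (q : Ω) : (lineSet q : Finset G).card = Nat.card M := by
  classical
  obtain ⟨g, rfl⟩ := P.trans q
  rw [← P.card_lineSet_base]
  have h : (lineSet (g • p₀) : Finset G) = (lineSet p₀).image (fun s => g * s * g⁻¹) := by
    ext s
    simp only [mem_lineSet, Finset.mem_image]
    constructor
    · rintro ⟨h1, h2⟩
      refine ⟨g⁻¹ * s * g, ⟨by simpa using h1.conj g⁻¹, ?_⟩, by group⟩
      rw [mul_smul, mul_smul, h2, inv_smul_smul]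
    · rintro ⟨r, ⟨h1, h2⟩, rfl⟩
      refine ⟨h1.conj g, ?_⟩
      rw [mul_smul, mul_smul, inv_smul_smul, h2]
  rw [h, Finset.card_image_of_injective]
  intro a b hab
  have : g * a * g⁻¹ = g * b * g⁻¹ := hab
  simpa using this

/-- Counting the points on the lines through `p₀`. -/
theorem card_points [Fintype G] [Fintype Ω] :
    Fintype.card Ω = 1 + Nat.card M * ((fixF Ω z).card - 1) := by
  classical
  have h : (Finset.univ.erase p₀ : Finset Ω) =
      (lineSet p₀ : Finset G).biUnion (fun s => (fixF Ω s).erase p₀) := by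
    ext q
    simp only [Finset.mem_erase, Finset.mem_univ, and_true, Finset.mem_biUnion, mem_lineSet,
      mem_fixF]
    constructor
    · intro hq
      obtain ⟨s, hs, h1, h2⟩ := P.line_exists (Ne.symm hq)
      exact ⟨s, ⟨hs, h1⟩, hq, h2⟩
    · rintro ⟨s, -, hq, -⟩
      exact hq
  have hcard : ((lineSet p₀ : Finset G).biUnion (fun s => (fixF Ω s).erase p₀)).card =
      ∑ s ∈ (lineSet p₀ : Finset G), ((fixF Ω s).erase p₀).card := by
    apply Finset.card_biUnion
    intro s hs s' hs' hne
    show Disjoint _ _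
    rw [Finset.disjoint_left]
    intro q hq hq'
    obtain ⟨hq1, hq2⟩ := Finset.mem_erase.mp hq
    obtain ⟨hq1', hq2'⟩ := Finset.mem_erase.mp hq'
    obtain ⟨h1, h2⟩ := mem_lineSet.mp (Finset.mem_coe.mp hs)
    obtain ⟨h1', h2'⟩ := mem_lineSet.mp (Finset.mem_coe.mp hs')
    exact hne (P.line_unique (Ne.symm hq1) h1 h1' h2 (mem_fixF.mp hq2) h2' (mem_fixF.mp hq2'))
  have hsum : ∑ s ∈ (lineSet p₀ : Finset G), ((fixF Ω s).erase p₀).card =
      ∑ s ∈ (lineSet p₀ : Finset G), ((fixF Ω z).card - 1) := by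
    apply Finset.sum_congr rfl
    intro s hs
    obtain ⟨h1, h2⟩ := mem_lineSet.mp hs
    rw [Finset.card_erase_of_mem (mem_fixF.mpr h2), P.card_fixF_of_fix h1 h2]
  have h3 : (Finset.univ.erase p₀ : Finset Ω).card = Fintype.card Ω - 1 := by
    rw [Finset.card_erase_of_mem (Finset.mem_univ _), Finset.card_univ]
  have hpos : 0 < Fintype.card Ω := Fintype.card_pos_iff.mpr ⟨p₀⟩
  rw [h, hcard, hsum, Finset.sum_const, smul_eq_mul, P.card_lineSet_base] at h3
  omega

/-- Each involution determines a parallel class partitioning `Ω`. -/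
theorem card_parallel [Fintype G] [Fintype Ω] {t : G} (ht : IsInv t) :
    Fintype.card Ω = (fixF Ω z).card * (Par Ω t).card := by
  classical
  have h : (Finset.univ : Finset Ω) = (Par Ω t).biUnion (fun s => fixF Ω s) := by
    ext q
    simp only [Finset.mem_univ, true_iff, Finset.mem_biUnion, mem_Par, mem_fixF]
    obtain ⟨s, ⟨h1, h2, h3⟩, -⟩ := P.commuting_unique ht q
    exact ⟨s, ⟨h1, ⟨q, h2⟩, h3⟩, h2⟩
  have hcard : ((Par Ω t).biUnion (fun s => fixF Ω s)).card =
      ∑ s ∈ Par Ω t, (fixF Ω s).card := by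
    apply Finset.card_biUnion
    intro s hs s' hs' hne
    show Disjoint _ _
    rw [Finset.disjoint_left]
    intro q hq hq'
    obtain ⟨h1, -, h3⟩ := mem_Par.mp (Finset.mem_coe.mp hs)
    obtain ⟨h1', -, h3'⟩ := mem_Par.mp (Finset.mem_coe.mp hs')
    obtain ⟨r, -, huniq⟩ := P.commuting_unique ht q
    exact hne ((huniq s ⟨h1, mem_fixF.mp hq, h3⟩).trans (huniq s' ⟨h1', mem_fixF.mp hq', h3'⟩).symm)
  have hsum : ∑ s ∈ Par Ω t, (fixF Ω s).card = ∑ s ∈ Par Ω t, (fixF Ω z).card := by
    apply Finset.sum_congr rfl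
    intro s hs
    obtain ⟨h1, ⟨q, h2⟩, -⟩ := mem_Par.mp hs
    exact P.card_fixF_of_fix h1 h2
  rw [← Finset.card_univ, h, hcard, hsum, Finset.sum_const, smul_eq_mul, mul_comm]

/-- The number of involutions with fixed points. -/
theorem card_I₀ [Fintype G] [Fintype Ω] :
    (I₀ Ω : Finset G).card * (fixF Ω z).card = Fintype.card Ω * Nat.card M := by
  classical
  have h := Finset.sum_card_bipartiteAbove_eq_sum_card_bipartiteBelow
    (s := (I₀ Ω : Finset G)) (t := (Finset.univ : Finset Ω)) (fun s q => s • q = q)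
  have h1 : ∑ s ∈ (I₀ Ω : Finset G), (Finset.bipartiteAbove (fun (s : G) (q : Ω) => s • q = q)
      Finset.univ s).card = ∑ s ∈ (I₀ Ω : Finset G), (fixF Ω z).card := by
    apply Finset.sum_congr rfl
    intro s hs
    obtain ⟨h1, ⟨q, h2⟩⟩ := mem_I₀.mp hs
    rw [← P.card_fixF_of_fix h1 h2]
    rfl
  have h2 : ∑ q ∈ (Finset.univ : Finset Ω), (Finset.bipartiteBelow (fun (s : G) (q : Ω) => s • q = q)
      (I₀ Ω : Finset G) q).card = ∑ q ∈ (Finset.univ : Finset Ω), Nat.card M := by
    apply Finset.sum_congr rfl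
    intro q _
    rw [← P.card_lineSet q]
    congr 1
    ext s
    simp only [Finset.bipartiteBelow, Finset.mem_filter, mem_I₀, mem_lineSet]
    constructor
    · rintro ⟨⟨h1, -⟩, h2⟩
      exact ⟨h1, h2⟩
    · rintro ⟨h1, h2⟩
      exact ⟨⟨h1, q, h2⟩, h2⟩
  rw [h1, h2, Finset.sum_const, Finset.sum_const, smul_eq_mul, smul_eq_mul, Finset.card_univ] at h
  exact h

/-! ### The centraliser of `z` -/

theorem mem_B {g : G} : g ∈ subB M z ↔ g * z = z * g ∧ g ∈ normalizer (M : Set G) := by
  rw [subB, Subgroup.mem_inf, Subgroup.mem_centralizer_singleton_iff]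

/-- The only involution of `B` is `z`. -/
theorem B_invol [Finite G] {h : G} (hh : h ∈ subB M z) (hi : IsInv h) : h = z := by
  obtain ⟨h1, h2⟩ := P.mem_B.mp hh
  have h3 := P.toTIHyp.mul_z_mem h2 hi
  by_contra hne
  have h4 : h * z ≠ 1 := by
    intro h5
    apply hne
    have := eq_inv_of_mul_eq_one_left h5
    rw [this, P.zinv.inv_eq]
  apply P.noinv _ h3 h4 z P.zinv
  calc z * (h * z) = (z * h) * z := by group
    _ = (h * z) * z := by rw [h1]

/-- Elements of `C(z)` outside `N` invert `B`. -/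
theorem inverts_B [Finite G] {a h : G} (ha : a * z = z * a) (haN : a ∉ normalizer (M : Set G))
    (hh : h ∈ subB M z) : a * h * a = h⁻¹ := by
  obtain ⟨h1, h2⟩ := P.mem_B.mp hh
  have haa := (P.central_invol ha haN).1
  have hahN : a * h ∉ normalizer (M : Set G) := by
    intro h3
    apply haN
    have : a = a * h * h⁻¹ := by group
    rw [this]
    exact (normalizer (M : Set G)).mul_mem h3 ((normalizer (M : Set G)).inv_mem h2)
  have hcomm : a * h * z = z * (a * h) := by
    calc a * h * z = a * (h * z) := by group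
      _ = a * (z * h) := by rw [h1]
      _ = (a * z) * h := by group
      _ = (z * a) * h := by rw [ha]
      _ = z * (a * h) := by group
  have h3 := (P.central_invol hcomm hahN).1
  have h4 : a * h * a * h = 1 := by rw [← h3]; group
  exact eq_inv_of_mul_eq_one_left h4

/-- `B` is abelian as soon as `C(z) ≠ B`. -/
theorem B_comm [Finite G] {a h h' : G} (ha : a * z = z * a) (haN : a ∉ normalizer (M : Set G))
    (hh : h ∈ subB M z) (hh' : h' ∈ subB M z) : h * h' = h' * h := by
  have haa := (P.central_invol ha haN).1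
  have h1 := P.inverts_B ha haN hh
  have h2 := P.inverts_B ha haN hh'
  have h3 := P.inverts_B ha haN ((subB M z).mul_mem hh hh')
  have h4 : a * (h * h') * a = (a * h * a) * (a * h' * a) := by
    have : a * h * a * (a * h' * a) = a * h * (a * a) * h' * a := by group
    rw [this, haa]; group
  rw [h4, h1, h2, ← mul_inv_rev, inv_inj] at h3
  exact h3.symm

/-- With index at least three, `B` has exponent two. -/
theorem B_small [Finite G] {a₁ a₂ h : G} (h1 : a₁ * z = z * a₁) (h2 : a₂ * z = z * a₂)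
    (h1N : a₁ ∉ normalizer (M : Set G)) (h2N : a₂ ∉ normalizer (M : Set G))
    (h12 : a₁⁻¹ * a₂ ∉ normalizer (M : Set G)) (hh : h ∈ subB M z) : h * h = 1 := by
  obtain ⟨h3, h4⟩ := P.mem_B.mp hh
  have ha1 := P.central_invol h1 h1N
  have ha2 := P.central_invol h2 h2N
  -- a general commuting statement
  have key : ∀ k ∈ subB M z, (a₁ * k) * a₂ = a₂ * (a₁ * k) := by
    intro k hk
    obtain ⟨h5, h6⟩ := P.mem_B.mp hk
    have h7 : a₁ * k ∉ normalizer (M : Set G) := by
      intro h8
      apply h1N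
      have : a₁ = a₁ * k * k⁻¹ := by group
      rw [this]
      exact (normalizer (M : Set G)).mul_mem h8 ((normalizer (M : Set G)).inv_mem h6)
    have hcomm : a₁ * k * z = z * (a₁ * k) := by
      calc a₁ * k * z = a₁ * (k * z) := by group
        _ = a₁ * (z * k) := by rw [h5]
        _ = (a₁ * z) * k := by group
        _ = (z * a₁) * k := by rw [h1]
        _ = z * (a₁ * k) := by group
    have hi := P.central_invol hcomm h7
    have hieq : (a₁ * k)⁻¹ = a₁ * k := hi.inv_eq
    have h8 : a₁ * k * a₂ ∉ normalizer (M : Set G) := by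
      intro h9
      apply h12
      have h10 : a₁⁻¹ * a₂ = k * (a₁ * k * a₂) := by
        calc a₁⁻¹ * a₂ = k * (a₁ * k)⁻¹ * a₂ := by group
          _ = k * (a₁ * k * a₂) := by rw [hieq]; group
      rw [h10]
      exact (normalizer (M : Set G)).mul_mem h6 h9
    have hcomm2 : a₁ * k * a₂ * z = z * (a₁ * k * a₂) := by
      calc a₁ * k * a₂ * z = a₁ * k * (a₂ * z) := by group
        _ = a₁ * k * (z * a₂) := by rw [h2]
        _ = (a₁ * k * z) * a₂ := by group
        _ = (z * (a₁ * k)) * a₂ := by rw [hcomm]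
        _ = z * (a₁ * k * a₂) := by group
    have hi2 := P.central_invol hcomm2 h8
    have h11 := eq_inv_of_mul_eq_one_left hi2.1
    rw [mul_inv_rev, hieq, ha2.inv_eq] at h11
    exact h11
  have k1 := key 1 (subB M z).one_mem
  have k2 := key h hh
  rw [mul_one] at k1
  have h5 : h * a₂ = a₂ * h := by
    have h6 : a₁ * (h * a₂) = a₁ * (a₂ * h) := by
      calc a₁ * (h * a₂) = a₁ * h * a₂ := by group
        _ = a₂ * (a₁ * h) := k2
        _ = (a₂ * a₁) * h := by group
        _ = (a₁ * a₂) * h := by rw [k1]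
        _ = a₁ * (a₂ * h) := by group
    exact mul_left_cancel h6
  have h6 := P.inverts_B h2 h2N hh
  rw [← h5, mul_assoc, ha2.1, mul_one] at h6
  calc h * h = h * h⁻¹ := by rw [← h6]
    _ = 1 := by simp

/-- Points fixed by `z` are `C(z)`-conjugate to `p₀`. -/
theorem exists_central [Finite G] {q : Ω} (hq : z • q = q) : ∃ a, a * z = z * a ∧ a • p₀ = q := by
  obtain ⟨g, h1, h2⟩ := P.conj_of_fix P.zinv hq
  refine ⟨g, ?_, h2⟩
  have h3 : g * z = z * g := by
    nth_rw 2 [h1]
    group
  exact h3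

/-! ### Orders -/

theorem card_N [Finite G] : Nat.card (normalizer (M : Set G)) = Nat.card M * Nat.card (subB M z) := by
  classical
  have hinj : Function.Bijective (fun x : M × subB M z =>
      (⟨(x.1 : G) * x.2, (normalizer (M : Set G)).mul_mem (P.le_normalizer x.1.2)
        (P.mem_B.mp x.2.2).2⟩ : normalizer (M : Set G))) := by
    constructor
    · rintro ⟨m, c⟩ ⟨m', c'⟩ h
      have h1 : (m : G) * c = m' * c' := congrArg Subtype.val h
      have h2 : (m' : G)⁻¹ * m = c' * (c : G)⁻¹ := by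
        calc (m' : G)⁻¹ * m = (m' : G)⁻¹ * (m * c) * (c : G)⁻¹ := by group
          _ = (m' : G)⁻¹ * (m' * c') * (c : G)⁻¹ := by rw [h1]
          _ = c' * (c : G)⁻¹ := by group
      have h3 : (m' : G)⁻¹ * m ∈ M := M.mul_mem (M.inv_mem m'.2) m.2
      have h4 : (c' : G) * (c : G)⁻¹ ∈ subB M z := (subB M z).mul_mem c'.2 ((subB M z).inv_mem c.2)
      rw [← h2] at h4
      have h5 : (m' : G)⁻¹ * m = 1 := by
        by_contra hne
        apply P.noinv _ h3 hne z P.zinv
        exact ((P.mem_B.mp h4).1).symm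
      have h6 : (m : G) = m' := by
        rwa [inv_mul_eq_one, eq_comm] at h5
      have h7 : (c : G) = c' := by
        rw [h6] at h1
        exact mul_left_cancel h1
      exact Prod.ext (Subtype.ext h6) (Subtype.ext h7)
    · rintro ⟨g, hg⟩
      obtain ⟨m, hm, c, hc, hcz, rfl⟩ := P.fac g hg
      exact ⟨(⟨m, hm⟩, ⟨c, P.mem_B.mpr ⟨hcz, hc⟩⟩), rfl⟩
  rw [← Nat.card_prod]
  exact (Nat.card_congr (Equiv.ofBijective _ hinj)).symm

theorem card_G [Finite G] [Finite Ω] :
    Nat.card G = Nat.card Ω * Nat.card (normalizer (M : Set G)) := by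
  haveI : IsPretransitive G Ω := ⟨fun x y => by
    obtain ⟨g, rfl⟩ := P.trans x
    obtain ⟨h, rfl⟩ := P.trans y
    exact ⟨h * g⁻¹, by rw [mul_smul, inv_smul_smul]⟩⟩
  have h1 : stabilizer G p₀ = normalizer (M : Set G) := by
    ext g
    rw [mem_stabilizer_iff, P.stab]
  have h2 := index_stabilizer_of_transitive G p₀
  have h3 := Subgroup.card_mul_index (stabilizer G p₀)
  rw [h2, h1] at h3
  rw [← h3, mul_comm]

theorem card_A [Finite G] [Fintype Ω] :
    Nat.card (centralizer ({z} : Set G)) = (fixF Ω z).card * Nat.card (subB M z) := by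
  classical
  set A := centralizer ({z} : Set G) with hA
  have h1 : orbit A p₀ = ((fixF Ω z : Finset Ω) : Set Ω) := by
    ext q
    rw [Finset.mem_coe, mem_fixF, mem_orbit_iff]
    constructor
    · rintro ⟨a, rfl⟩
      have h2 : (a : G) * z = z * a := Subgroup.mem_centralizer_singleton_iff.mp a.2
      show z • ((a : G) • p₀) = (a : G) • p₀
      rw [← mul_smul, ← h2, mul_smul, P.z_fix]
    · intro hq
      obtain ⟨a, h2, rfl⟩ := P.exists_central hq
      exact ⟨⟨a, Subgroup.mem_centralizer_singleton_iff.mpr h2⟩, rfl⟩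
  have h2 := MulAction.index_stabilizer A p₀
  have h3 := Subgroup.card_mul_index (stabilizer A p₀)
  rw [h2, h1, Set.ncard_coe_finset] at h3
  have h4 : Nat.card (stabilizer A p₀) = Nat.card (subB M z) := by
    apply Nat.card_congr
    refine ⟨fun x => ⟨x.1.1, ?_⟩, fun x => ⟨⟨x.1, ?_⟩, ?_⟩, ?_, ?_⟩
    · exact P.mem_B.mpr ⟨Subgroup.mem_centralizer_singleton_iff.mp x.1.2, (P.stab _).mp x.2⟩
    · exact Subgroup.mem_centralizer_singleton_iff.mpr (P.mem_B.mp x.2).1
    · exact (P.stab _).mpr (P.mem_B.mp x.2).2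
    · intro x; rfl
    · intro x; rfl
  rw [← h3, h4, mul_comm]

end PlaneHyp

end Cfsg.Agent.Lib.Perm.TICount
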