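import Mathlib
import Cfsg.Agent.Lib.Perm.TICountB

/-!
# TI-subgroups: lines with at least three points

`C(z)` is an elementary abelian 2-group and the order of `M` is `f + 1` or `2 f + 1`.  In the first
case the involutions without fixed points form a regular normal elementary abelian subgroup.
-/

set_option autoImplicit false
set_option linter.style.haveILetI false
set_option linter.unusedSectionVars false

namespace Cfsg.Agent.Lib.Perm.TICount

open MulAction Subgroup

variable {G : Type*} [Group G] {M : Subgroup G} {z : G} {Ω : Type*} [MulAction G Ω] {p₀ : Ω}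

open Classical in
/-- All involutions. -/
noncomputable def Iall [Fintype G] : Finset G := Finset.univ.filter fun g : G => IsInv g

theorem mem_Iall [Fintype G] {g : G} : g ∈ Iall ↔ IsInv g := by simp [Iall]

/-- The arithmetic of lines with at least three points. -/
theorem arith_cases {a f m : ℕ} (hf : 3 ≤ f) (ha : 1 < a) (h1 : f * m = 1 + a * (f - 1))
    (hm : m ≤ 2 * f - 1) : (a = f + 1 ∧ m = f) ∨ (a = 2 * f + 1 ∧ m = 2 * f - 1) := by
  obtain ⟨g, rfl⟩ : ∃ g, f = g + 1 := ⟨f - 1, by omega⟩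
  simp only [Nat.add_sub_cancel] at h1
  have hg : 2 ≤ g := by omega
  have h2 : ((g : ℤ) + 1) * m = 1 + a * g := by exact_mod_cast h1
  set k : ℤ := (a : ℤ) - m with hk
  have h3 : (m : ℤ) = 1 + g * k := by rw [hk]; linarith
  have h4 : (a : ℤ) = 1 + (g + 1) * k := by rw [hk] at h3 ⊢; linarith
  have hg' : (2 : ℤ) ≤ g := by exact_mod_cast hg
  have hm' : (m : ℤ) ≤ 2 * g + 1 := by
    have : m ≤ 2 * g + 1 := by omega
    exact_mod_cast this
  have ha' : (1 : ℤ) < a := by exact_mod_cast ha
  have hk1 : 1 ≤ k := by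
    by_contra hlt
    have : k ≤ 0 := by omega
    nlinarith
  have hk2 : k ≤ 2 := by
    by_contra hlt
    have : 3 ≤ k := by omega
    nlinarith
  have hcases : k = 1 ∨ k = 2 := by omega
  rcases hcases with hk3 | hk3
  · left
    rw [hk3] at h3 h4
    constructor <;> [skip; skip]
    · have : (a : ℤ) = (g + 1 : ℕ) + 1 := by push_cast; linarith
      exact_mod_cast this
    · have : (m : ℤ) = (g + 1 : ℕ) := by push_cast; linarith
      exact_mod_cast this
  · right
    rw [hk3] at h3 h4
    constructor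
    · have : (a : ℤ) = (2 * (g + 1) + 1 : ℕ) := by push_cast; linarith
      exact_mod_cast this
    · have h5 : m = 2 * g + 1 := by
        have : (m : ℤ) = (2 * g + 1 : ℕ) := by push_cast; linarith
        exact_mod_cast this
      omega

namespace PlaneHyp

variable (P : PlaneHyp M z p₀)

include P

/-- With at least three points on a line, `B = {1, z}` and `C(z)` has exponent two. -/
theorem three_data [Finite G] [Fintype Ω] (hf : 3 ≤ (fixF Ω z).card) :
    (∀ h ∈ subB M z, h = 1 ∨ h = z) ∧ (∀ g, g * z = z * g → g * g = 1) := by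
  classical
  have h1 : 1 < ((fixF Ω z).erase p₀).card := by
    rw [Finset.card_erase_of_mem (mem_fixF.mpr P.z_fix)]
    omega
  obtain ⟨q₁, hq₁, q₂, hq₂, hne⟩ := Finset.one_lt_card.mp h1
  obtain ⟨h3, h4⟩ := Finset.mem_erase.mp hq₁
  obtain ⟨h5, h6⟩ := Finset.mem_erase.mp hq₂
  obtain ⟨a₁, ha₁, rfl⟩ := P.exists_central (mem_fixF.mp h4)
  obtain ⟨a₂, ha₂, rfl⟩ := P.exists_central (mem_fixF.mp h6)
  have h7 : a₁ ∉ normalizer (M : Set G) := by rwa [P.mem_N_iff]
  have h8 : a₂ ∉ normalizer (M : Set G) := by rwa [P.mem_N_iff]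
  have h9 : a₁⁻¹ * a₂ ∉ normalizer (M : Set G) := by
    rw [P.mem_N_iff, mul_smul, inv_smul_eq_iff]
    exact fun h => hne h.symm
  have hsq : ∀ h ∈ subB M z, h * h = 1 := fun h hh => P.B_small ha₁ ha₂ h7 h8 h9 hh
  have hB : ∀ h ∈ subB M z, h = 1 ∨ h = z := by
    intro h hh
    by_cases h1 : h = 1
    · exact Or.inl h1
    · exact Or.inr (P.B_invol hh ⟨hsq h hh, h1⟩)
  refine ⟨hB, ?_⟩
  intro g hg
  by_cases hgN : g ∈ normalizer (M : Set G)
  · exact hsq g (P.mem_B.mpr ⟨hg, hgN⟩)
  · exact (P.central_invol hg hgN).1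

theorem card_B_two [Finite G] [Fintype Ω] (hf : 3 ≤ (fixF Ω z).card) :
    Nat.card (subB M z) = 2 := by
  classical
  obtain ⟨hB, -⟩ := P.three_data hf
  have hz : z ∈ subB M z := P.mem_B.mpr ⟨rfl, P.zN⟩
  rw [Nat.card_eq_two_iff]
  refine ⟨1, ⟨z, hz⟩, ?_, ?_⟩
  · intro h
    exact P.zinv.2 (congrArg Subtype.val h).symm
  · ext x
    simp only [Set.mem_insert_iff, Set.mem_singleton_iff, Set.mem_univ, iff_true]
    rcases hB x x.2 with h | h
    · left; exact Subtype.ext h
    · right; exact Subtype.ext h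

/-- `C(z)`-conjugates commute. -/
theorem comm_of_central [Finite G] [Fintype Ω] (hf : 3 ≤ (fixF Ω z).card) {g g' : G}
    (h : g * z = z * g) (h' : g' * z = z * g') : g * g' = g' * g := by
  obtain ⟨-, hsq⟩ := P.three_data hf
  have h1 := hsq g h
  have h2 := hsq g' h'
  have h3 : g * g' * z = z * (g * g') := by
    calc g * g' * z = g * (g' * z) := by group
      _ = g * (z * g') := by rw [h']
      _ = (g * z) * g' := by group
      _ = (z * g) * g' := by rw [h]
      _ = z * (g * g') := by group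
  have h4 := hsq _ h3
  have h5 := eq_inv_of_mul_eq_one_left h4
  rw [mul_inv_rev, inv_eq_of_mul_eq_one_left h1, inv_eq_of_mul_eq_one_left h2] at h5
  exact h5

/-- The centraliser of an involution with a fixed point is abelian. -/
theorem comm_of_conj [Finite G] [Fintype Ω] (hf : 3 ≤ (fixF Ω z).card) {s : G} (hs : IsInv s) {q : Ω}
    (hq : s • q = q) {u v : G} (hu : u * s = s * u) (hv : v * s = s * v) : u * v = v * u := by
  obtain ⟨g, rfl, -⟩ := P.conj_of_fix hs hq
  have h1 : (g⁻¹ * u * g) * z = z * (g⁻¹ * u * g) := by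
    calc (g⁻¹ * u * g) * z = g⁻¹ * (u * (g * z * g⁻¹)) * g := by group
      _ = g⁻¹ * ((g * z * g⁻¹) * u) * g := by rw [hu]
      _ = z * (g⁻¹ * u * g) := by group
  have h2 : (g⁻¹ * v * g) * z = z * (g⁻¹ * v * g) := by
    calc (g⁻¹ * v * g) * z = g⁻¹ * (v * (g * z * g⁻¹)) * g := by group
      _ = g⁻¹ * ((g * z * g⁻¹) * v) * g := by rw [hv]
      _ = z * (g⁻¹ * v * g) := by group
  have h3 := P.comm_of_central hf h1 h2
  have h4 : g⁻¹ * (u * v) * g = g⁻¹ * (v * u) * g := by
    calc g⁻¹ * (u * v) * g = (g⁻¹ * u * g) * (g⁻¹ * v * g) := by group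
      _ = (g⁻¹ * v * g) * (g⁻¹ * u * g) := h3
      _ = g⁻¹ * (v * u) * g := by group
  simpa using h4

theorem card_A_three [Finite G] [Fintype Ω] (hf : 3 ≤ (fixF Ω z).card) :
    Nat.card (centralizer ({z} : Set G)) = 2 * (fixF Ω z).card := by
  rw [P.card_A, P.card_B_two hf, mul_comm]

/-- The size of a parallel class is bounded by the number of involutions in `C(z)`. -/
theorem card_Par_le [Fintype G] [Fintype Ω] (hf : 3 ≤ (fixF Ω z).card) :
    (Par Ω z).card ≤ 2 * (fixF Ω z).card - 1 := by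
  classical
  have h1 : Par Ω z ⊆ (Finset.univ.filter fun g : G => g * z = z * g).erase 1 := by
    intro s hs
    obtain ⟨h1, -, h3⟩ := mem_Par.mp hs
    exact Finset.mem_erase.mpr ⟨h1.2, Finset.mem_filter.mpr ⟨Finset.mem_univ _, h3⟩⟩
  have h2 := Finset.card_le_card h1
  rw [Finset.card_erase_of_mem (Finset.mem_filter.mpr ⟨Finset.mem_univ _, by simp⟩)] at h2
  have h3 : (Finset.univ.filter fun g : G => g * z = z * g).card =
      Nat.card (centralizer ({z} : Set G)) := by
    rw [Nat.card_eq_fintype_card, Fintype.card_subtype]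
    congr 1
    ext g
    simp only [Finset.mem_filter, Finset.mem_univ, true_and]
    rw [Subgroup.mem_centralizer_singleton_iff]
  rw [h3, P.card_A_three hf] at h2
  exact h2

theorem one_lt_card_M [Finite G] : 1 < Nat.card M := by
  obtain ⟨x, hx, hx1⟩ := P.toTIHyp.exists_ne_one
  haveI : Nontrivial M := ⟨⟨⟨x, hx⟩, 1, fun h => hx1 (congrArg Subtype.val h)⟩⟩
  exact Finite.one_lt_card

/-- The two cases for lines with at least three points. -/
theorem three_cases [Fintype G] [Fintype Ω] (hf : 3 ≤ (fixF Ω z).card) :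
    (Nat.card M = (fixF Ω z).card + 1 ∧ (Par Ω z).card = (fixF Ω z).card) ∨
    (Nat.card M = 2 * (fixF Ω z).card + 1 ∧ (Par Ω z).card = 2 * (fixF Ω z).card - 1) := by
  apply arith_cases hf P.one_lt_card_M _ (P.card_Par_le hf)
  rw [← P.card_parallel P.zinv, P.card_points]

/-- All involutions are in `C(z)` or have the other kind... the number of involutions. -/
theorem card_invol_ge [Fintype G] [Fintype Ω] :
    Nat.card M + 2 * (Fintype.card Ω - 1) ≤ (Iall (G := G)).card := by
  classical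
  have h1 := Finset.card_eq_sum_card_fiberwise (s := (Iall : Finset G)) (t := (Finset.univ : Finset Ω))
    (f := fun t => t • p₀) (fun _ _ => Finset.mem_coe.mpr (Finset.mem_univ _))
  have h2 := Finset.add_sum_erase (Finset.univ : Finset Ω)
    (fun q => ((Iall : Finset G).filter fun t => t • p₀ = q).card) (Finset.mem_univ p₀)
  have h3 : ((Iall : Finset G).filter fun t => t • p₀ = p₀).card = Nat.card M := by
    rw [← P.card_lineSet_base]
    congr 1
    ext s
    simp [Iall, mem_lineSet]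
  have h4 : (Finset.univ.erase p₀).card • 2 ≤
      ∑ q ∈ Finset.univ.erase p₀, ((Iall : Finset G).filter fun t => t • p₀ = q).card := by
    apply Finset.card_nsmul_le_sum
    intro q hq
    obtain ⟨hq1, -⟩ := Finset.mem_erase.mp hq
    obtain ⟨g, rfl⟩ := P.trans q
    have hgN : g ∉ normalizer (M : Set G) := by rwa [P.mem_N_iff]
    have hgzN : g * z ∉ normalizer (M : Set G) := by
      rw [P.mem_N_iff, mul_smul, P.z_fix]
      exact hq1
    obtain ⟨t₁, ht₁, hx₁⟩ := P.hU g hgN
    obtain ⟨t₂, ht₂, hx₂⟩ := P.hU (g * z) hgzN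
    have hfix₁ : t₁ • p₀ = g • p₀ := by
      have := (P.stab _).mpr (P.le_normalizer hx₁)
      rwa [mul_smul, inv_smul_eq_iff] at this
    have hfix₂ : t₂ • p₀ = g • p₀ := by
      have := (P.stab _).mpr (P.le_normalizer hx₂)
      rw [mul_smul, inv_smul_eq_iff, mul_smul, P.z_fix] at this
      exact this
    have hne : t₁ ≠ t₂ := by
      rintro rfl
      apply P.z_not_mem
      have h5 : z = (g⁻¹ * t₁) * ((g * z)⁻¹ * t₁)⁻¹ := by group
      rw [h5]
      exact M.mul_mem hx₁ (M.inv_mem hx₂)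
    apply Finset.one_lt_card.mpr
    refine ⟨t₁, ?_, t₂, ?_, hne⟩
    · exact Finset.mem_filter.mpr ⟨mem_Iall.mpr ht₁, hfix₁⟩
    · exact Finset.mem_filter.mpr ⟨mem_Iall.mpr ht₂, hfix₂⟩
  have h5 : (Finset.univ.erase p₀ : Finset Ω).card = Fintype.card Ω - 1 := by
    rw [Finset.card_erase_of_mem (Finset.mem_univ _), Finset.card_univ]
  rw [h5, smul_eq_mul] at h4
  rw [h1, ← h2, h3]
  nlinarith

/-- Two lines are parallel or meet, if a parallel class is as large as a line. -/
theorem par_or_meet [Fintype G] [Fintype Ω] (hcard : Fintype.card Ω = (fixF Ω z).card * (fixF Ω z).card)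
    {s s' : G} (hs : IsInv s) (hs' : IsInv s') (h : ∃ q : Ω, s • q = q) (h' : ∃ q : Ω, s' • q = q) :
    s * s' = s' * s ∨ ∃ q : Ω, s • q = q ∧ s' • q = q := by
  classical
  by_contra hcon
  push Not at hcon
  obtain ⟨hne, hno⟩ := hcon
  have hfpos : 0 < (fixF Ω z).card := Finset.card_pos.mpr ⟨p₀, mem_fixF.mpr P.z_fix⟩
  have hPar : (Par Ω s').card = (fixF Ω z).card := by
    have h1 := P.card_parallel hs'
    rw [hcard] at h1
    exact (Nat.eq_of_mul_eq_mul_left hfpos h1).symm
  obtain ⟨q₀, hq₀⟩ := h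
  have hfixs : (fixF Ω s).card = (fixF Ω z).card := P.card_fixF_of_fix hs hq₀
  choose φ hφ hφu using fun q : Ω => P.commuting_unique hs' q
  have hsub : (fixF Ω s).image φ ⊆ Par Ω s' := by
    intro r hr
    obtain ⟨q, -, rfl⟩ := Finset.mem_image.mp hr
    obtain ⟨h1, h2, h3⟩ := hφ q
    exact mem_Par.mpr ⟨h1, ⟨q, h2⟩, h3⟩
  have hinj : Set.InjOn φ (fixF Ω s : Set Ω) := by
    intro q₁ h₁ q₂ h₂ heq
    by_contra hq
    obtain ⟨a1, a2, a3⟩ := hφ q₁
    obtain ⟨b1, b2, b3⟩ := hφ q₂
    rw [← heq] at b2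
    have h5 := P.line_unique hq a1 hs a2 b2 (mem_fixF.mp h₁) (mem_fixF.mp h₂)
    apply hne
    rw [← h5]
    exact a3
  have heq : (fixF Ω s).image φ = Par Ω s' := by
    apply Finset.eq_of_subset_of_card_le hsub
    rw [Finset.card_image_of_injOn hinj, hfixs, hPar]
  have hmem : s' ∈ Par Ω s' := mem_Par.mpr ⟨hs', h', rfl⟩
  rw [← heq] at hmem
  obtain ⟨q, hq, hqe⟩ := Finset.mem_image.mp hmem
  apply hno q (mem_fixF.mp hq)
  rw [← hqe]
  exact (hφ q).2.1

/-- **The regular normal elementary abelian subgroup.** -/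
theorem exists_regular_normal [Fintype G] [Fintype Ω] (hf : 3 ≤ (fixF Ω z).card)
    (ha : Nat.card M = (fixF Ω z).card + 1)
    (hcard : Fintype.card Ω = (fixF Ω z).card * (fixF Ω z).card) :
    ∃ E : Subgroup G, E.Normal ∧ (∀ e ∈ E, e * e = 1) ∧ E ⊓ normalizer (M : Set G) = ⊥ ∧
      E ⊔ normalizer (M : Set G) = ⊤ ∧ Nat.card E = (fixF Ω z).card * (fixF Ω z).card := by
  classical
  set f := (fixF Ω z).card with hfdef
  have hI0 : ∀ {s : G} (g : G), IsInv s → (∃ q : Ω, s • q = q) →
      IsInv (g * s * g⁻¹) ∧ ∃ q : Ω, (g * s * g⁻¹) • q = q := by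
    rintro s g hs ⟨q, hq⟩
    refine ⟨hs.conj g, g • q, ?_⟩
    rw [mul_smul, mul_smul, inv_smul_smul, hq]
  let E : Subgroup G :=
    { carrier := {g | ∀ s : G, IsInv s → (∃ q : Ω, s • q = q) → (g * s * g⁻¹) * s = s * (g * s * g⁻¹)}
      one_mem' := by
        intro s _ _
        simp
      mul_mem' := by
        intro g h hg hh s hs hq
        obtain ⟨h1, h2⟩ := hI0 h hs hq
        obtain ⟨q₁, hq₁⟩ := h2
        have h3 := hg _ h1 ⟨q₁, hq₁⟩
        have h4 := hh s hs hq
        have h5 : (g * h) * s * (g * h)⁻¹ = g * (h * s * h⁻¹) * g⁻¹ := by group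
        rw [h5]
        exact P.comm_of_conj hf h1 hq₁ h3 h4.symm
      inv_mem' := by
        intro g hg s hs hq
        obtain ⟨h1, h2⟩ := hI0 g⁻¹ hs hq
        have h3 := hg _ h1 h2
        simp only [inv_inv] at h3 h1
        have h4 : g * (g⁻¹ * s * g) * g⁻¹ = s := by group
        rw [h4] at h3
        simp only [inv_inv]
        exact h3.symm }
  have hEmem : ∀ g, g ∈ E ↔ ∀ s : G, IsInv s → (∃ q : Ω, s • q = q) →
      (g * s * g⁻¹) * s = s * (g * s * g⁻¹) := fun _ => Iff.rfl
  have hEn : E.Normal := by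
    refine ⟨fun g hg h s hs hq => ?_⟩
    obtain ⟨h1, h2⟩ := hI0 h⁻¹ hs hq
    have h3 := hg _ h1 h2
    simp only [inv_inv] at h3
    have h4 : (h * g * h⁻¹) * s * (h * g * h⁻¹)⁻¹ = h * (g * (h⁻¹ * s * h) * g⁻¹) * h⁻¹ := by group
    rw [h4]
    have h5 : h * (g * (h⁻¹ * s * h) * g⁻¹ * (h⁻¹ * s * h)) * h⁻¹ =
        h * ((h⁻¹ * s * h) * (g * (h⁻¹ * s * h) * g⁻¹)) * h⁻¹ := by rw [h3]
    have h6 : h * (g * (h⁻¹ * s * h) * g⁻¹ * (h⁻¹ * s * h)) * h⁻¹ =
        h * (g * (h⁻¹ * s * h) * g⁻¹) * h⁻¹ * s := by group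
    have h7 : h * ((h⁻¹ * s * h) * (g * (h⁻¹ * s * h) * g⁻¹)) * h⁻¹ =
        s * (h * (g * (h⁻¹ * s * h) * g⁻¹) * h⁻¹) := by group
    rw [h6, h7] at h5
    exact h5
  -- `E ∩ N = 1`
  have hEN : ∀ g ∈ E, g ∈ normalizer (M : Set G) → g = 1 := by
    intro g hg hgN
    have hgs : ∀ s : G, IsInv s → s ∈ normalizer (M : Set G) → g * s * g⁻¹ = s := by
      intro s hs hsN
      have h1 := hg s hs ⟨p₀, (P.stab s).mpr hsN⟩
      obtain ⟨r, -, huniq⟩ := P.base_exists_unique hs
      have h2 := huniq s ⟨hs, hsN, rfl⟩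
      have h3 := huniq (g * s * g⁻¹) ⟨hs.conj g, (normalizer (M : Set G)).mul_mem
        ((normalizer (M : Set G)).mul_mem hgN hsN) ((normalizer (M : Set G)).inv_mem hgN), h1⟩
      rw [h3, h2]
    have hgz := hgs z P.zinv P.zN
    have hgB : g ∈ subB M z := P.mem_B.mpr ⟨by rwa [mul_inv_eq_iff_eq_mul] at hgz, hgN⟩
    obtain ⟨hB, -⟩ := P.three_data hf
    rcases hB g hgB with h | h
    · exact h
    · exfalso
      obtain ⟨u, hu, hu1⟩ := P.toTIHyp.exists_ne_one
      have hs := (P.zinv.conj u)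
      have hsN : u * z * u⁻¹ ∈ normalizer (M : Set G) :=
        (normalizer (M : Set G)).mul_mem ((normalizer (M : Set G)).mul_mem (P.le_normalizer hu) P.zN)
          ((normalizer (M : Set G)).inv_mem (P.le_normalizer hu))
      have h1 := hgs _ hs hsN
      rw [h, P.zinv.inv_eq] at h1
      -- `z` commutes with `u z u⁻¹`, so they are equal
      obtain ⟨r, -, huniq⟩ := P.base_exists_unique P.zinv
      have h2 := huniq z ⟨P.zinv, P.zN, rfl⟩
      have h3 := huniq (u * z * u⁻¹) ⟨hs, hsN, by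
        have h4 : z * (u * z * u⁻¹) = (u * z * u⁻¹) * z := by
          nth_rw 1 [← h1]
          have h5 := P.zinv.1
          calc z * (z * (u * z * u⁻¹) * z) = (z * z) * (u * z * u⁻¹) * z := by group
            _ = u * z * u⁻¹ * z := by rw [h5, one_mul]
        exact h4.symm⟩
      have h3' : u * z * u⁻¹ = z := h3.trans h2.symm
      apply P.noinv u hu hu1 z P.zinv
      rw [mul_inv_eq_iff_eq_mul] at h3'
      exact h3'.symm
  -- `E` is semiregular
  have hEinj : Function.Injective (fun e : E => (e : G) • p₀) := by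
    intro e e' h
    have h1 : (e : G) • p₀ = (e' : G) • p₀ := h
    have h2 : (e' : G)⁻¹ * e ∈ normalizer (M : Set G) := by
      rw [P.mem_N_iff, mul_smul, h1, inv_smul_smul]
    have h3 := hEN _ (E.mul_mem (E.inv_mem e'.2) e.2) h2
    rw [inv_mul_eq_one] at h3
    exact Subtype.ext h3.symm
  have hEle : Nat.card E ≤ f * f := by
    rw [← hcard, ← Nat.card_eq_fintype_card]
    exact Nat.card_le_card_of_injective _ hEinj
  -- involutions without fixed points lie in `E`
  have hI₁ : ∀ y : G, IsInv y → (¬ ∃ q : Ω, y • q = q) → y ∈ E := by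
    intro y hy hno s hs hq
    rw [hy.inv_eq]
    have hs' : IsInv (y * s * y) := by
      have := hs.conj y
      rwa [hy.inv_eq] at this
    obtain ⟨h1, h2⟩ := hI0 y hs hq
    rw [hy.inv_eq] at h1 h2
    rcases P.par_or_meet hcard hs' hs h2 hq with h | ⟨q, hq1, hq2⟩
    · exact h
    · by_cases hss : y * s * y = s
      · rw [hss]
      · exfalso
        obtain ⟨g, rfl⟩ := P.trans q
        apply hno
        refine ⟨g • p₀, ?_⟩
        have hx := P.conj_mul_mem hs' hs hq1 hq2
        have hx1 : g⁻¹ * (y * s * y * s) * g ≠ 1 := by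
          intro h3
          apply hss
          have h4 : y * s * y * s = 1 := by
            have : y * s * y * s = g * (g⁻¹ * (y * s * y * s) * g) * g⁻¹ := by group
            rw [this, h3]; simp
          have := eq_inv_of_mul_eq_one_left h4
          rw [this, hs.inv_eq]
        have h5 := P.ti (g⁻¹ * y * g) _ hx hx1 (by
          have h6 : g⁻¹ * y * g * (g⁻¹ * (y * s * y * s) * g) * (g⁻¹ * y * g)⁻¹ =
              g⁻¹ * (y * (y * s * y * s) * y⁻¹) * g := by group
          rw [h6, hy.inv_eq]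
          have h7 : y * (y * s * y * s) * y = (y * y) * s * (y * s * y) := by group
          rw [h7, hy.1, one_mul]
          have h9 : (y * s * y * s) * (s * (y * s * y)) = 1 := by
            calc (y * s * y * s) * (s * (y * s * y)) = y * s * y * (s * s) * y * s * y := by group
              _ = y * s * (y * y) * s * y := by rw [hs.1]; group
              _ = y * (s * s) * y := by rw [hy.1]; group
              _ = y * y := by rw [hs.1]; group
              _ = 1 := hy.1
          have h10 : (y * s * y * s)⁻¹ = s * (y * s * y) := inv_eq_of_mul_eq_one_right h9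
          have h8 : g⁻¹ * (s * (y * s * y)) * g = (g⁻¹ * (y * s * y * s) * g)⁻¹ := by
            rw [← h10]; group
          rw [h8]
          exact M.inv_mem hx)
        rw [P.mem_N_iff, mul_smul, mul_smul, inv_smul_eq_iff] at h5
        exact h5
  -- counting
  set I₁ := (Iall (G := G)) \ (I₀ Ω : Finset G) with hI₁def
  have hsub : (I₀ Ω : Finset G) ⊆ Iall := by
    intro s hs
    exact mem_Iall.mpr (mem_I₀.mp hs).1
  have hI₀card : (I₀ Ω : Finset G).card = f * (f + 1) := by
    have h1 := P.card_I₀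
    rw [hcard, ha, ← hfdef] at h1
    have hf0 : 0 < f := by omega
    apply Nat.eq_of_mul_eq_mul_right hf0
    rw [h1]
    ring
  have hIall := P.card_invol_ge
  rw [hcard, ha] at hIall
  have hI₁card : f * f ≤ I₁.card + 1 := by
    rw [hI₁def, Finset.card_sdiff_of_subset hsub, hI₀card]
    have h5 : 1 ≤ f * f := Nat.mul_pos (by omega) (by omega)
    have h6 : f * (f + 1) = f * f + f := by ring
    rw [h6]
    omega
  -- `E` consists of the involutions without fixed points and `1`
  let Efin : Finset G := Finset.univ.filter fun g => g ∈ E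
  have hEfin : Efin.card = Nat.card E := by
    rw [Nat.card_eq_fintype_card, Fintype.card_subtype]
  have hsubE : insert 1 I₁ ⊆ Efin := by
    intro y hy
    rcases Finset.mem_insert.mp hy with rfl | hy
    · exact Finset.mem_filter.mpr ⟨Finset.mem_univ _, E.one_mem⟩
    · obtain ⟨h1, h2⟩ := Finset.mem_sdiff.mp hy
      refine Finset.mem_filter.mpr ⟨Finset.mem_univ _, hI₁ y (mem_Iall.mp h1) ?_⟩
      intro h3
      exact h2 (mem_I₀.mpr ⟨mem_Iall.mp h1, h3⟩)
  have h1I : (1 : G) ∉ I₁ := by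
    intro h
    exact (mem_Iall.mp (Finset.mem_sdiff.mp h).1).2 rfl
  have hcardins : (insert 1 I₁).card = I₁.card + 1 := Finset.card_insert_of_notMem h1I
  have hcardE : Nat.card E = f * f := by
    apply le_antisymm hEle
    rw [← hEfin]
    calc f * f ≤ I₁.card + 1 := hI₁card
      _ = (insert 1 I₁).card := hcardins.symm
      _ ≤ Efin.card := Finset.card_le_card hsubE
  have heq : insert 1 I₁ = Efin := by
    apply Finset.eq_of_subset_of_card_le hsubE
    rw [hEfin, hcardE, hcardins]
    exact hI₁card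
  have hsq : ∀ e ∈ E, e * e = 1 := by
    intro e he
    have h1 : e ∈ Efin := Finset.mem_filter.mpr ⟨Finset.mem_univ _, he⟩
    rw [← heq] at h1
    rcases Finset.mem_insert.mp h1 with rfl | h2
    · simp
    · exact (mem_Iall.mp (Finset.mem_sdiff.mp h2).1).1
  refine ⟨E, hEn, hsq, ?_, ?_, hcardE⟩
  · rw [eq_bot_iff]
    rintro g ⟨h1, h2⟩
    exact hEN g h1 h2
  · rw [eq_top_iff]
    intro g _
    have hbij : Function.Bijective (fun e : E => (e : G) • p₀) := by
      apply (Function.Injective.bijective_of_nat_card_le hEinj)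
      rw [Nat.card_eq_fintype_card (α := Ω), hcard, hcardE]
    obtain ⟨e, he⟩ := hbij.2 (g • p₀)
    have he' : (e : G) • p₀ = g • p₀ := he
    have h1 : (e : G)⁻¹ * g ∈ normalizer (M : Set G) := by
      rw [P.mem_N_iff, mul_smul, ← he', inv_smul_smul]
    have h2 : g = e * ((e : G)⁻¹ * g) := by group
    rw [h2]
    exact Subgroup.mul_mem_sup e.2 h1

end PlaneHyp

end Cfsg.Agent.Lib.Perm.TICount
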