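import Mathlib
import Cfsg.Agent.S0727
import Cfsg.Agent.Lib.Perm.TICount

/-!
# Recognition of `PGL(2, 2^e)` from an elementary abelian TI-subgroup

`A` is an elementary abelian subgroup of the finite group `G`, all its non-trivial elements are
conjugate and have centraliser `A`, and `|G| = (q + 1) q (q - 1)` with `q = |A|`.
Then `G` acts sharply triply transitively on the conjugates of `A`.
-/

set_option autoImplicit false
set_option linter.style.haveILetI false
set_option linter.unusedSectionVars false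

namespace Cfsg.Agent.Lib.Perm.TICount

open MulAction Subgroup

variable {G : Type*} [Group G]

/-- The data of the recognition theorem. -/
structure Sharp3Hyp (A : Subgroup G) (z : G) : Prop where
  zA : z ∈ A
  z1 : z ≠ 1
  sq : ∀ t ∈ A, t * t = 1
  cent : ∀ t ∈ A, t ≠ 1 → ∀ g : G, g * t = t * g → g ∈ A
  conj : ∀ t ∈ A, t ≠ 1 → ∃ g : G, t = g * z * g⁻¹

namespace Sharp3Hyp

variable {A : Subgroup G} {z : G} (H : Sharp3Hyp A z)

include H

theorem comm {a b : G} (ha : a ∈ A) (hb : b ∈ A) : a * b = b * a := by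
  have h1 := H.sq a ha
  have h2 := H.sq b hb
  have h3 := H.sq _ (A.mul_mem ha hb)
  have h5 := eq_inv_of_mul_eq_one_left h3
  rw [mul_inv_rev, inv_eq_of_mul_eq_one_left h1, inv_eq_of_mul_eq_one_left h2] at h5
  exact h5

/-- A conjugate meeting `A` non-trivially: `A` is a TI-subgroup. -/
theorem ti {t g : G} (ht : t ∈ A) (ht1 : t ≠ 1) (hg : g * t * g⁻¹ ∈ A) : g ∈ normalizer (A : Set G) := by
  have key : ∀ {t g : G}, t ∈ A → t ≠ 1 → g * t * g⁻¹ ∈ A → ∀ a ∈ A, g * a * g⁻¹ ∈ A := by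
    intro t g ht ht1 hg a ha
    apply H.cent _ hg (by
      intro h
      apply ht1
      have : t = g⁻¹ * (g * t * g⁻¹) * g := by group
      rw [this, h]; simp)
    calc g * a * g⁻¹ * (g * t * g⁻¹) = g * (a * t) * g⁻¹ := by group
      _ = g * (t * a) * g⁻¹ := by rw [H.comm ha ht]
      _ = g * t * g⁻¹ * (g * a * g⁻¹) := by group
  rw [mem_normalizer_iff]
  intro a
  constructor
  · exact key ht ht1 hg a
  · intro ha
    have h1 : g⁻¹ * (g * t * g⁻¹) * g⁻¹⁻¹ ∈ A := by
      have : g⁻¹ * (g * t * g⁻¹) * g⁻¹⁻¹ = t := by group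
      rw [this]; exact ht
    have h2 := key (g := g⁻¹) hg (by
      intro h
      apply ht1
      have : t = g⁻¹ * (g * t * g⁻¹) * g := by group
      rw [this, h]; simp) h1 _ ha
    have : g⁻¹ * (g * a * g⁻¹) * g⁻¹⁻¹ = a := by group
    rwa [this] at h2

theorem le_normalizer : A ≤ normalizer (A : Set G) := by
  intro x hx
  rw [mem_normalizer_iff]
  intro y
  constructor
  · intro hy
    exact A.mul_mem (A.mul_mem hx hy) (A.inv_mem hx)
  · intro hy
    have : y = x⁻¹ * (x * y * x⁻¹) * x := by group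
    rw [this]
    exact A.mul_mem (A.mul_mem (A.inv_mem hx) hy) hx

theorem conj_mem_of_N {g t : G} (hg : g ∈ normalizer (A : Set G)) (ht : t ∈ A) : g * t * g⁻¹ ∈ A :=
  (mem_normalizer_iff.mp hg t).mp ht

/-- `N(A)` is transitive on the non-trivial elements of `A`. -/
theorem exists_N_conj {t t' : G} (ht : t ∈ A) (ht1 : t ≠ 1) (ht' : t' ∈ A) (ht1' : t' ≠ 1) :
    ∃ g ∈ normalizer (A : Set G), g * t * g⁻¹ = t' := by
  obtain ⟨g, rfl⟩ := H.conj t ht ht1
  obtain ⟨g', rfl⟩ := H.conj t' ht' ht1'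
  have h1 : (g' * g⁻¹) * (g * z * g⁻¹) * (g' * g⁻¹)⁻¹ = g' * z * g'⁻¹ := by group
  refine ⟨g' * g⁻¹, ?_, h1⟩
  apply H.ti ht ht1
  rw [h1]
  exact ht'

/-- An involution in `N(A)` lies in `A`, if `|A| - 1` is odd. -/
theorem invol_mem [Finite G] (hodd : Odd (Nat.card A - 1)) {u : G} (hu : u ∈ normalizer (A : Set G))
    (huu : u * u = 1) : u ∈ A := by
  classical
  haveI : Fintype A := Fintype.ofFinite A
  let X := {t : A // t ≠ 1}
  have hcardX : Fintype.card X = Nat.card A - 1 := by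
    rw [Fintype.card_subtype_compl, Nat.card_eq_fintype_card]
    simp
  have hui : u⁻¹ = u := inv_eq_of_mul_eq_one_left huu
  let f : X → X := fun t => ⟨⟨u * t.1 * u⁻¹, H.conj_mem_of_N hu t.1.2⟩, by
    intro h
    apply t.2
    have h1 : u * (t.1 : G) * u⁻¹ = 1 := congrArg Subtype.val h
    apply Subtype.ext
    have : (t.1 : G) = u⁻¹ * (u * t.1 * u⁻¹) * u := by group
    show (t.1 : G) = 1
    rw [this, h1]; simp⟩
  have hinv : Function.Involutive f := by
    intro t
    apply Subtype.ext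
    apply Subtype.ext
    show u * (u * (t.1 : G) * u⁻¹) * u⁻¹ = t.1
    have : u * (u * (t.1 : G) * u⁻¹) * u⁻¹ = (u * u) * t.1 * (u * u)⁻¹ := by group
    rw [this, huu]; simp
  let σ : Equiv.Perm X := hinv.toPerm
  have hσ : σ ^ 2 = 1 := by
    rw [pow_two]
    exact Equiv.ext (fun t => hinv t)
  have h2 := Equiv.Perm.two_dvd_card_support hσ
  -- a fixed point
  by_contra hnot
  have hfree : ∀ t : X, σ t ≠ t := by
    intro t h
    have h1 : u * (t.1 : G) * u⁻¹ = t.1 := congrArg (fun w : X => ((w.1 : A) : G)) h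
    apply hnot
    apply H.cent _ t.1.2 (fun h3 => t.2 (Subtype.ext h3))
    rwa [mul_inv_eq_iff_eq_mul] at h1
  have hsupp : σ.support = Finset.univ := by
    ext t
    simp [hfree t]
  rw [hsupp, Finset.card_univ, hcardX] at h2
  exact (Nat.not_even_iff_odd.mpr hodd) (even_iff_two_dvd.mpr h2)

section action

variable {α : Type*} [Fintype α] [MulAction G α] {p₁ : α}
  (htrans : ∀ p : α, ∃ g : G, g • p₁ = p)
  (hstab : ∀ g : G, g • p₁ = p₁ ↔ g ∈ normalizer (A : Set G))
  (hodd : Odd (Nat.card A - 1))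
  (hcard : Fintype.card α = Nat.card A + 1)

include htrans hstab hodd hcard

/-- Non-trivial elements of `A` fix only `p₁`. -/
theorem fix_eq [Finite G] {t : G} {p : α} (ht : t ∈ A) (ht1 : t ≠ 1) (h : t • p = p) : p = p₁ := by
  obtain ⟨g, rfl⟩ := htrans p
  have h1 : g⁻¹ * t * g ∈ normalizer (A : Set G) := by
    rw [← hstab, mul_smul, mul_smul, h, inv_smul_smul]
  have h2 : (g⁻¹ * t * g) * (g⁻¹ * t * g) = 1 := by
    have : (g⁻¹ * t * g) * (g⁻¹ * t * g) = g⁻¹ * (t * t) * g := by group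
    rw [this, H.sq t ht]; simp
  have h3 := H.invol_mem hodd h1 h2
  have h4 := H.ti ht ht1 (g := g⁻¹) (by simpa using h3)
  have h5 := (normalizer (A : Set G)).inv_mem h4
  rw [inv_inv] at h5
  exact (hstab g).mpr h5

/-- `A` is transitive on the other points. -/
theorem A_trans [Finite G] {p p' : α} (hp : p ≠ p₁) (hp' : p' ≠ p₁) : ∃ a ∈ A, a • p = p' := by
  classical
  have hfixA : ∀ a ∈ A, a • p₁ = p₁ := fun a ha => (hstab a).mpr (H.le_normalizer ha)
  have hinj : Function.Injective (fun a : A => (⟨(a : G) • p, by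
      intro h
      apply hp
      rw [← hfixA a a.2] at h
      exact MulAction.injective _ h⟩ : {r : α // r ≠ p₁})) := by
    intro a a' h
    have h1 : (a : G) • p = (a' : G) • p := congrArg Subtype.val h
    by_contra hne
    have h2 : (a' : G)⁻¹ * a ≠ 1 := by
      intro h3
      rw [inv_mul_eq_one] at h3
      exact hne (Subtype.ext h3.symm)
    apply hp
    apply H.fix_eq htrans hstab hodd hcard (A.mul_mem (A.inv_mem a'.2) a.2) h2
    rw [mul_smul, h1, inv_smul_smul]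
  have hc : Nat.card {r : α // r ≠ p₁} ≤ Nat.card A := by
    rw [Nat.card_eq_fintype_card, Fintype.card_subtype_compl]
    simp [hcard]
  obtain ⟨a, ha⟩ := (hinj.bijective_of_nat_card_le hc).2 ⟨p', hp'⟩
  exact ⟨a, a.2, congrArg Subtype.val ha⟩

/-- The normal form of triples. -/
theorem triple_norm [Finite G] {p₂ : α} (hp₂ : p₂ ≠ p₁) {a b c : α} (hab : a ≠ b) (hac : a ≠ c)
    (hbc : b ≠ c) : ∃ g : G, g • a = p₁ ∧ g • b = p₂ ∧ g • c = z • p₂ := by
  have hfixA : ∀ a ∈ A, a • p₁ = p₁ := fun a ha => (hstab a).mpr (H.le_normalizer ha)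
  obtain ⟨g₁, hg₁⟩ := htrans a
  have hb₁ : g₁⁻¹ • b ≠ p₁ := by
    intro h
    apply hab
    rw [inv_smul_eq_iff, hg₁] at h
    exact h.symm
  have hc₁ : g₁⁻¹ • c ≠ p₁ := by
    intro h
    apply hac
    rw [inv_smul_eq_iff, hg₁] at h
    exact h.symm
  have hbc₁ : g₁⁻¹ • b ≠ g₁⁻¹ • c := fun h => hbc (MulAction.injective _ h)
  obtain ⟨g₂, hg₂A, hg₂⟩ := H.A_trans htrans hstab hodd hcard hb₁ hp₂
  have hc₂ : g₂ • g₁⁻¹ • c ≠ p₁ := by
    intro h
    apply hc₁
    rw [← hfixA g₂ hg₂A] at h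
    exact MulAction.injective _ h
  -- the third point
  obtain ⟨t, htA, ht⟩ := H.A_trans htrans hstab hodd hcard hp₂ hc₂
  have ht1 : t ≠ 1 := by
    rintro rfl
    rw [one_smul] at ht
    apply hbc₁
    apply MulAction.injective g₂
    show g₂ • g₁⁻¹ • b = g₂ • g₁⁻¹ • c
    rw [hg₂]
    exact ht
  obtain ⟨g₃, hg₃N, hg₃⟩ := H.exists_N_conj htA ht1 H.zA H.z1
  have hg₃fix : g₃ • p₁ = p₁ := (hstab g₃).mpr hg₃N
  have hr : g₃ • p₂ ≠ p₁ := by
    intro h
    apply hp₂
    rw [← hg₃fix] at h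
    exact MulAction.injective _ h
  obtain ⟨u, huA, hu⟩ := H.A_trans htrans hstab hodd hcard hr hp₂
  refine ⟨u * g₃ * g₂ * g₁⁻¹, ?_, ?_, ?_⟩
  · rw [mul_smul, mul_smul, mul_smul, ← hg₁, inv_smul_smul, hfixA g₂ hg₂A, hg₃fix, hfixA u huA]
  · rw [mul_smul, mul_smul, mul_smul, hg₂, hu]
  · rw [mul_smul, mul_smul, mul_smul, ← ht, ← mul_smul g₃ t, ← mul_smul u]
    have h1 : u * (g₃ * t) = z * (u * g₃) := by
      have h2 : g₃ * t = z * g₃ := by
        rwa [mul_inv_eq_iff_eq_mul] at hg₃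
      rw [h2, ← mul_assoc, H.comm huA H.zA, mul_assoc]
    rw [h1, mul_smul, mul_smul, hu]

/-- Triple transitivity. -/
theorem triple_trans [Finite G] {p₂ : α} (hp₂ : p₂ ≠ p₁) {a b c a' b' c' : α} (hab : a ≠ b)
    (hac : a ≠ c) (hbc : b ≠ c) (hab' : a' ≠ b') (hac' : a' ≠ c') (hbc' : b' ≠ c') :
    ∃ g : G, g • a = a' ∧ g • b = b' ∧ g • c = c' := by
  obtain ⟨g, h1, h2, h3⟩ := H.triple_norm htrans hstab hodd hcard hp₂ hab hac hbc
  obtain ⟨g', h1', h2', h3'⟩ := H.triple_norm htrans hstab hodd hcard hp₂ hab' hac' hbc'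
  refine ⟨g'⁻¹ * g, ?_, ?_, ?_⟩
  · rw [mul_smul, h1, ← h1', inv_smul_smul]
  · rw [mul_smul, h2, ← h2', inv_smul_smul]
  · rw [mul_smul, h3, ← h3', inv_smul_smul]

/-- The stabiliser of three points is trivial. -/
theorem triple_fix [Finite G] {p₂ : α} (hp₂ : p₂ ≠ p₁) {g : G} {a b c : α} (hab : a ≠ b)
    (hac : a ≠ c) (hbc : b ≠ c) (h1 : g • a = a) (h2 : g • b = b) (h3 : g • c = c) : g = 1 := by
  obtain ⟨k, hk1, hk2, hk3⟩ := H.triple_norm htrans hstab hodd hcard hp₂ hab hac hbc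
  set g₁ := k * g * k⁻¹ with hg₁
  have e1 : g₁ • p₁ = p₁ := by
    rw [← hk1, hg₁, mul_smul, mul_smul, inv_smul_smul, h1]
  have e2 : g₁ • p₂ = p₂ := by
    rw [← hk2, hg₁, mul_smul, mul_smul, inv_smul_smul, h2]
  have e3 : g₁ • (z • p₂) = z • p₂ := by
    rw [← hk3, hg₁, mul_smul, mul_smul, inv_smul_smul, h3]
  have hN : g₁ ∈ normalizer (A : Set G) := (hstab g₁).mp e1
  have h4 : g₁ * z * g₁⁻¹ ∈ A := H.conj_mem_of_N hN H.zA
  have e4 : g₁⁻¹ • p₂ = p₂ := inv_smul_eq_iff.mpr e2.symm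
  have h5 : z⁻¹ * (g₁ * z * g₁⁻¹) = 1 := by
    by_contra hne
    apply hp₂
    apply H.fix_eq htrans hstab hodd hcard (A.mul_mem (A.inv_mem H.zA) h4) hne
    rw [mul_smul, mul_smul, mul_smul, e4, e3, inv_smul_smul]
  rw [inv_mul_eq_one] at h5
  have h6 : g₁ * z = z * g₁ := by
    rw [eq_comm, mul_inv_eq_iff_eq_mul] at h5
    exact h5
  have h7 : g₁ ∈ A := H.cent z H.zA H.z1 g₁ h6
  have h8 : g₁ = 1 := by
    by_contra hne
    exact hp₂ (H.fix_eq htrans hstab hodd hcard h7 hne e2)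
  have h9 : g = k⁻¹ * g₁ * k := by rw [hg₁]; group
  rw [h9, h8]
  simp

end action

/-- The order of `N(A)`. -/
theorem card_normalizer [Finite G] :
    Nat.card (normalizer (A : Set G)) = Nat.card A * (Nat.card A - 1) := by
  classical
  haveI : Fintype A := Fintype.ofFinite A
  let X := {t : A // t ≠ 1}
  have hcardX : Nat.card X = Nat.card A - 1 := by
    rw [Nat.card_eq_fintype_card, Fintype.card_subtype_compl, Nat.card_eq_fintype_card]
    simp
  have hex : ∀ t : X, ∃ g ∈ normalizer (A : Set G), g * z * g⁻¹ = t.1 := fun t =>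
    H.exists_N_conj H.zA H.z1 t.1.2 (fun h => t.2 (Subtype.ext h))
  choose c hc1 hc2 using hex
  have hzcomm : ∀ a ∈ A, a * z = z * a := fun a ha => H.comm ha H.zA
  have hbij : Function.Bijective (fun x : A × X =>
      (⟨c x.2 * x.1, (normalizer (A : Set G)).mul_mem (hc1 x.2) (H.le_normalizer x.1.2)⟩ :
        normalizer (A : Set G))) := by
    constructor
    · rintro ⟨a, t⟩ ⟨a', t'⟩ h
      have h1 : c t * (a : G) = c t' * a' := congrArg Subtype.val h
      have h2 : ((t.1 : A) : G) = t'.1 := by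
        rw [← hc2 t, ← hc2 t']
        have h3 : c t * z * (c t)⁻¹ = (c t * a) * z * (c t * a)⁻¹ := by
          have h4 := hzcomm a a.2
          calc c t * z * (c t)⁻¹ = c t * (z * a) * (a : G)⁻¹ * (c t)⁻¹ := by group
            _ = c t * (a * z) * (a : G)⁻¹ * (c t)⁻¹ := by rw [h4]
            _ = (c t * a) * z * (c t * a)⁻¹ := by group
        have h5 : c t' * z * (c t')⁻¹ = (c t' * a') * z * (c t' * a')⁻¹ := by
          have h4 := hzcomm a' a'.2
          calc c t' * z * (c t')⁻¹ = c t' * (z * a') * (a' : G)⁻¹ * (c t')⁻¹ := by group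
            _ = c t' * (a' * z) * (a' : G)⁻¹ * (c t')⁻¹ := by rw [h4]
            _ = (c t' * a') * z * (c t' * a')⁻¹ := by group
        rw [h3, h5, h1]
      have h3 : t = t' := Subtype.ext (Subtype.ext h2)
      subst h3
      have h4 : (a : G) = a' := mul_left_cancel h1
      exact Prod.ext (Subtype.ext h4) rfl
    · rintro ⟨g, hg⟩
      have h1 : g * z * g⁻¹ ∈ A := H.conj_mem_of_N hg H.zA
      have h2 : g * z * g⁻¹ ≠ 1 := by
        intro h
        apply H.z1
        have : z = g⁻¹ * (g * z * g⁻¹) * g := by group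
        rw [this, h]; simp
      let t : X := ⟨⟨_, h1⟩, fun h => h2 (congrArg Subtype.val h)⟩
      have h3 : c t * z * (c t)⁻¹ = g * z * g⁻¹ := hc2 t
      have h4 : (c t)⁻¹ * g ∈ A := by
        apply H.cent z H.zA H.z1
        have h5 : (c t)⁻¹ * g * z * ((c t)⁻¹ * g)⁻¹ = z := by
          calc (c t)⁻¹ * g * z * ((c t)⁻¹ * g)⁻¹ = (c t)⁻¹ * (g * z * g⁻¹) * c t := by group
            _ = (c t)⁻¹ * (c t * z * (c t)⁻¹) * c t := by rw [h3]
            _ = z := by group
        rwa [mul_inv_eq_iff_eq_mul] at h5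
      refine ⟨(⟨_, h4⟩, t), ?_⟩
      apply Subtype.ext
      show c t * ((c t)⁻¹ * g) = g
      group
  rw [← hcardX, ← Nat.card_prod]
  exact (Nat.card_congr (Equiv.ofBijective _ hbij)).symm

/-- **Recognition of `PGL(2, q)`, `q` even.** -/
theorem exists_pgl [Finite G] (hodd : Odd (Nat.card A - 1))
    (hcardG : Nat.card G = (Nat.card A + 1) * (Nat.card A * (Nat.card A - 1))) :
    ∃ (F : Type) (_ : Field F) (_ : Fintype F), Fintype.card F = Nat.card A ∧
      Nonempty (G ≃* Matrix.ProjGenLinGroup (Fin 2) F) := by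
  classical
  haveI : Fintype G := Fintype.ofFinite G
  set N₂ : Subgroup G := normalizer (A : Set G) with hN₂
  let α := G ⧸ N₂
  haveI : Fintype α := Fintype.ofFinite α
  let p₁ : α := QuotientGroup.mk 1
  have hq2 : 2 ≤ Nat.card A := by
    haveI : Nontrivial A := ⟨⟨⟨z, H.zA⟩, 1, fun h => H.z1 (congrArg Subtype.val h)⟩⟩
    exact Finite.one_lt_card
  have htrans : ∀ p : α, ∃ g : G, g • p₁ = p := by
    intro p
    obtain ⟨g, rfl⟩ := QuotientGroup.mk_surjective p
    refine ⟨g, ?_⟩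
    show (QuotientGroup.mk (g * 1) : α) = _
    rw [mul_one]
  have hstab : ∀ g : G, g • p₁ = p₁ ↔ g ∈ normalizer (A : Set G) := by
    intro g
    show (QuotientGroup.mk (g * 1) : α) = QuotientGroup.mk 1 ↔ _
    rw [QuotientGroup.eq]
    simp [hN₂]
  have hcard : Fintype.card α = Nat.card A + 1 := by
    have h1 := Subgroup.card_mul_index N₂
    rw [H.card_normalizer, hcardG] at h1
    have hidx : N₂.index = Fintype.card α := by
      rw [Subgroup.index, Nat.card_eq_fintype_card]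
    have hpos : 0 < Nat.card A * (Nat.card A - 1) := Nat.mul_pos (by omega) (by omega)
    rw [hidx, mul_comm (Nat.card A + 1)] at h1
    exact Nat.eq_of_mul_eq_mul_left hpos h1
  haveI : Nontrivial α := by
    apply Fintype.one_lt_card_iff_nontrivial.mp
    omega
  obtain ⟨p₂, hp₂⟩ := exists_ne p₁
  have h3p : z • p₂ ≠ p₂ := fun h => hp₂ (H.fix_eq htrans hstab hodd hcard H.zA H.z1 h)
  have hzp : z • p₁ = p₁ := (hstab z).mpr (H.le_normalizer H.zA)
  have h3q : z • p₂ ≠ p₁ := by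
    intro h
    apply hp₂
    rw [← hzp] at h
    exact MulAction.injective _ h
  have hfix : ∀ (g : G) (a b c : α), a ≠ b → a ≠ c → b ≠ c → g • a = a → g • b = b → g • c = c →
      g = 1 := fun g a b c h1 h2 h4 h5 h6 h7 =>
    H.triple_fix htrans hstab hodd hcard hp₂ h1 h2 h4 h5 h6 h7
  haveI : FaithfulSMul G α := ⟨by
    intro g g' h
    have h1 : g'⁻¹ * g = 1 := by
      apply hfix _ p₁ p₂ (z • p₂) hp₂.symm h3q.symm h3p.symm
      · rw [mul_smul, h, inv_smul_smul]
      · rw [mul_smul, h, inv_smul_smul]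
      · rw [mul_smul, h, inv_smul_smul]
    rw [inv_mul_eq_one] at h1
    exact h1.symm⟩
  have hαodd : Odd (Fintype.card α) := by
    rw [hcard]
    obtain ⟨k, hk⟩ := hodd
    exact ⟨k + 1, by omega⟩
  obtain ⟨F, iF, iK, hF, he⟩ := Cfsg.Agent.S0727.main_theorem (G := G) (α := α)
    (fun a b c a' b' c' h1 h2 h4 h5 h6 h7 =>
      H.triple_trans htrans hstab hodd hcard hp₂ h1 h2 h4 h5 h6 h7)
    hfix hαodd (by omega)
  refine ⟨F, iF, iK, by omega, he⟩

end Sharp3Hyp

end Cfsg.Agent.Lib.Perm.TICount
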