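import Mathlib
import Cfsg.Agent.Lib.Perm.TICountC

/-!
# TI-subgroups: lines with two points

The action on `G/N` is doubly transitive, the two-point stabiliser is `B = C_N(z)`, it acts
semiregularly on the remaining points and `|M| - 1` is `|B|` or `2 |B|`.
-/

set_option autoImplicit false
set_option linter.style.haveILetI false
set_option linter.unusedSectionVars false

namespace Cfsg.Agent.Lib.Perm.TICount

open MulAction Subgroup

variable {G : Type*} [Group G] {M : Subgroup G} {z : G} {Ω : Type*} [MulAction G Ω] {p₀ : Ω}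

/-- A group acting freely on an invariant finite set: the order divides the size. -/
theorem dvd_card_of_free [Fintype G] (H : Subgroup G) (X : Finset Ω)
    (hinv : ∀ h ∈ H, ∀ r ∈ X, h • r ∈ X) (hfree : ∀ h ∈ H, ∀ r ∈ X, h • r = r → h = 1) :
    Nat.card H ∣ X.card := by
  classical
  induction X using Finset.strongInduction with
  | H X ih =>
    rcases X.eq_empty_or_nonempty with rfl | ⟨r, hr⟩
    · simp
    haveI : Fintype H := Fintype.ofFinite H
    let O : Finset Ω := Finset.univ.image fun h : H => (h : G) • r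
    have hOcard : O.card = Nat.card H := by
      rw [Finset.card_image_of_injective, Finset.card_univ, Nat.card_eq_fintype_card]
      intro h h' e
      have e' : (h : G) • r = (h' : G) • r := e
      have h1 : (h' : G)⁻¹ * h = 1 := by
        apply hfree _ (H.mul_mem (H.inv_mem h'.2) h.2) r hr
        rw [mul_smul, e', inv_smul_smul]
      rw [inv_mul_eq_one] at h1
      exact Subtype.ext h1.symm
    have hOsub : O ⊆ X := by
      intro w hw
      obtain ⟨h, -, rfl⟩ := Finset.mem_image.mp hw
      exact hinv _ h.2 r hr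
    have hrO : r ∈ O := Finset.mem_image.mpr ⟨1, Finset.mem_univ _, by simp⟩
    have hss : X \ O ⊂ X := by
      refine ⟨Finset.sdiff_subset, fun h => ?_⟩
      have := h hr
      exact (Finset.mem_sdiff.mp this).2 hrO
    have h1 := ih (X \ O) hss
      (by
        intro h hh w hw
        obtain ⟨h2, h3⟩ := Finset.mem_sdiff.mp hw
        refine Finset.mem_sdiff.mpr ⟨hinv h hh w h2, fun h4 => h3 ?_⟩
        obtain ⟨k, -, hk⟩ := Finset.mem_image.mp h4
        refine Finset.mem_image.mpr ⟨⟨h⁻¹ * k, H.mul_mem (H.inv_mem hh) k.2⟩, Finset.mem_univ _, ?_⟩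
        show (h⁻¹ * k) • r = w
        rw [mul_smul]
        have hk' : (k : G) • r = h • w := hk
        rw [hk', inv_smul_smul])
      (fun h hh w hw => hfree h hh w (Finset.mem_sdiff.mp hw).1)
    have h2 : X.card = (X \ O).card + O.card := by
      rw [Finset.card_sdiff_of_subset hOsub]
      have := Finset.card_le_card hOsub
      omega
    rw [h2, hOcard]
    exact dvd_add h1 (dvd_refl _)

namespace PlaneHyp

variable (P : PlaneHyp M z p₀)

include P

section two

variable [Fintype G] [Fintype Ω] (hf : (fixF Ω z).card = 2)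

include hf

theorem exists_other : ∃ q₀ : Ω, q₀ ≠ p₀ ∧ z • q₀ = q₀ ∧ ∀ r : Ω, z • r = r → r = p₀ ∨ r = q₀ := by
  classical
  obtain ⟨x, y, hxy, hfix⟩ := Finset.card_eq_two.mp hf
  have hp : p₀ ∈ fixF Ω z := mem_fixF.mpr P.z_fix
  have hmem : ∀ r : Ω, z • r = r ↔ r = x ∨ r = y := by
    intro r
    rw [← mem_fixF (Ω := Ω), hfix, Finset.mem_insert, Finset.mem_singleton]
  rcases (hmem p₀).mp P.z_fix with h | h
  · subst h
    exact ⟨y, hxy.symm, (hmem y).mpr (Or.inr rfl), fun r hr => (hmem r).mp hr⟩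
  · subst h
    refine ⟨x, hxy, (hmem x).mpr (Or.inl rfl), fun r hr => ?_⟩
    exact ((hmem r).mp hr).symm

theorem card_omega : Fintype.card Ω = Nat.card M + 1 := by
  rw [P.card_points, hf]
  simp [add_comm]

/-- `M` is regular on the other points. -/
theorem M_regular {y w : Ω} (hy : y ≠ p₀) (hw : w ≠ p₀) : ∃ u ∈ M, u • y = w := by
  classical
  haveI : Fintype M := Fintype.ofFinite M
  have hinj : Function.Injective (fun u : M => (⟨(u : G) • y, by
      intro h
      apply hy
      have h1 : (u : G) • p₀ = p₀ := (P.stab _).mpr (P.le_normalizer u.2)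
      rw [← h1] at h
      exact MulAction.injective _ h⟩ : {r : Ω // r ≠ p₀})) := by
    intro u u' h
    have h1 : (u : G) • y = (u' : G) • y := congrArg Subtype.val h
    have h2 : (u' : G)⁻¹ * u = 1 := by
      apply P.M_semireg (M.mul_mem (M.inv_mem u'.2) u.2) hy
      rw [mul_smul, h1, inv_smul_smul]
    rw [inv_mul_eq_one] at h2
    exact Subtype.ext h2.symm
  have hcard : Nat.card {r : Ω // r ≠ p₀} ≤ Nat.card M := by
    rw [Nat.card_eq_fintype_card, Fintype.card_subtype_compl]
    have := P.card_omega hf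
    simp [this]
  have hbij := hinj.bijective_of_nat_card_le hcard
  obtain ⟨u, hu⟩ := hbij.2 ⟨w, hw⟩
  exact ⟨u, u.2, congrArg Subtype.val hu⟩

variable {q₀ : Ω} (hq₀ : q₀ ≠ p₀) (hzq : z • q₀ = q₀) (hfixz : ∀ r : Ω, z • r = r → r = p₀ ∨ r = q₀)

include hq₀ hzq hfixz

omit hf hfixz in
theorem two_mem_B {g : G} (h1 : g • p₀ = p₀) (h2 : g • q₀ = q₀) : g ∈ subB M z := by
  refine P.mem_B.mpr ⟨?_, (P.stab g).mp h1⟩
  have h3 : g * z * g⁻¹ = z := by
    apply P.line_unique hq₀.symm (P.zinv.conj g) P.zinv _ _ P.z_fix hzq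
    · rw [mul_smul, mul_smul, inv_smul_eq_iff.mpr h1.symm, P.z_fix, h1]
    · rw [mul_smul, mul_smul, inv_smul_eq_iff.mpr h2.symm, hzq, h2]
  rwa [mul_inv_eq_iff_eq_mul] at h3

omit hf in
theorem B_fix_q {h : G} (hh : h ∈ subB M z) : h • q₀ = q₀ := by
  obtain ⟨h1, h2⟩ := P.mem_B.mp hh
  have h3 : z • (h • q₀) = h • q₀ := by
    rw [← mul_smul, ← h1, mul_smul, hzq]
  rcases hfixz _ h3 with h4 | h4
  · exfalso
    apply hq₀
    have h5 : h • p₀ = p₀ := (P.stab h).mpr h2
    rw [← h5] at h4
    exact MulAction.injective _ h4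
  · exact h4

omit hf in
/-- `B` acts semiregularly on the other points. -/
theorem B_semireg {h : G} (hh : h ∈ subB M z) {r : Ω} (h1 : r ≠ p₀) (h2 : r ≠ q₀) (h3 : h • r = r) :
    h = 1 := by
  obtain ⟨hz, hN⟩ := P.mem_B.mp hh
  have hzr : z • r ≠ r := by
    intro h4
    rcases hfixz r h4 with h5 | h5
    · exact h1 h5
    · exact h2 h5
  obtain ⟨s, hs, hs1, hs2⟩ := P.line_exists hzr.symm
  have hi : h⁻¹ • r = r := inv_smul_eq_iff.mpr h3.symm
  have hcomz : h⁻¹ * z = z * h⁻¹ := by
    rw [inv_mul_eq_iff_eq_mul, ← mul_assoc, hz, mul_assoc, mul_inv_cancel, mul_one]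
  have hiz : h⁻¹ • (z • r) = z • r := by
    rw [← mul_smul, hcomz, mul_smul, hi]
  have hhz : h • (z • r) = z • r := by
    rw [← mul_smul, hz, mul_smul, h3]
  have h5 : h * s * h⁻¹ = s := by
    apply P.line_unique hzr.symm (hs.conj h) hs _ _ hs1 hs2
    · rw [mul_smul, mul_smul, hi, hs1, h3]
    · rw [mul_smul, mul_smul, hiz, hs2, hhz]
  have h6 : z * s * z⁻¹ = s := by
    rw [P.zinv.inv_eq]
    have hzz : z • (z • r) = r := by
      rw [← mul_smul, P.zinv.1, one_smul]
    apply P.line_unique hzr.symm (by simpa [P.zinv.inv_eq] using hs.conj z) hs _ _ hs1 hs2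
    · rw [mul_smul, mul_smul, hs2, hzz]
    · rw [mul_smul, mul_smul, hzz, hs1]
  have hsz : s * z = z * s := by
    have h7 : z * s * z = s := by rwa [P.zinv.inv_eq] at h6
    calc s * z = (z * s * z) * z := by rw [h7]
      _ = z * s * (z * z) := by group
      _ = z * s := by rw [P.zinv.1, mul_one]
  have hsN : s ∉ normalizer (M : Set G) := by
    intro h7
    have h8 := P.B_invol (P.mem_B.mpr ⟨hsz, h7⟩) hs
    rw [h8] at hs1
    exact hzr hs1
  have h7 := P.inverts_B hsz hsN hh
  have h8 : h * s = s * h := by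
    rwa [mul_inv_eq_iff_eq_mul] at h5
  have h9 : h * h = 1 := by
    have h10 : s * h * s = h := by
      rw [← h8, mul_assoc, hs.1, mul_one]
    rw [h10] at h7
    calc h * h = h * h⁻¹ := by rw [← h7]
      _ = 1 := by simp
  by_contra hne
  have h10 := P.B_invol hh ⟨h9, hne⟩
  rw [h10] at h3
  exact hzr h3

/-- Double transitivity. -/
theorem pair_trans {a b : Ω} (hab : a ≠ b) : ∃ g : G, g • a = p₀ ∧ g • b = q₀ := by
  obtain ⟨g, rfl⟩ := P.trans a
  have h1 : g⁻¹ • b ≠ p₀ := by
    intro h
    apply hab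
    rw [inv_smul_eq_iff] at h
    exact h.symm
  obtain ⟨u, hu, hue⟩ := P.M_regular hf h1 hq₀
  refine ⟨u * g⁻¹, ?_, ?_⟩
  · rw [mul_smul, inv_smul_smul]
    exact (P.stab u).mpr (P.le_normalizer hu)
  · rw [mul_smul, hue]

/-- No non-trivial element fixes three points. -/
theorem three_fix {g : G} {a b c : Ω} (hab : a ≠ b) (hbc : b ≠ c) (hac : a ≠ c) (h1 : g • a = a)
    (h2 : g • b = b) (h3 : g • c = c) : g = 1 := by
  obtain ⟨k, hk1, hk2⟩ := P.pair_trans hf hq₀ hzq hfixz hab
  have h4 : k * g * k⁻¹ ∈ subB M z := by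
    apply P.two_mem_B hq₀ hzq
    · rw [← hk1, mul_smul, mul_smul, inv_smul_smul, h1]
    · rw [← hk2, mul_smul, mul_smul, inv_smul_smul, h2]
  have h5 := P.B_semireg hq₀ hzq hfixz h4 (r := k • c) (by
      rw [← hk1]
      exact fun h => hac (MulAction.injective _ h).symm) (by
      rw [← hk2]
      exact fun h => hbc (MulAction.injective _ h).symm) (by
      rw [mul_smul, mul_smul, inv_smul_smul, h3])
  have h6 : g = k⁻¹ * (k * g * k⁻¹) * k := by group
  rw [h6, h5]
  simp

/-- The divisibility. -/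
theorem card_B_dvd : Nat.card (subB M z) ∣ Nat.card M - 1 := by
  classical
  let X : Finset Ω := (Finset.univ.erase p₀).erase q₀
  have hX : X.card = Nat.card M - 1 := by
    have h1 : q₀ ∈ (Finset.univ.erase p₀ : Finset Ω) := Finset.mem_erase.mpr ⟨hq₀, Finset.mem_univ _⟩
    rw [Finset.card_erase_of_mem h1, Finset.card_erase_of_mem (Finset.mem_univ _), Finset.card_univ,
      P.card_omega hf]
    omega
  rw [← hX]
  apply dvd_card_of_free
  · intro h hh r hr
    obtain ⟨h1, h2⟩ := Finset.mem_erase.mp hr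
    obtain ⟨h3, -⟩ := Finset.mem_erase.mp h2
    have hp : h • p₀ = p₀ := (P.stab h).mpr (P.mem_B.mp hh).2
    have hq := P.B_fix_q hq₀ hzq hfixz hh
    refine Finset.mem_erase.mpr ⟨?_, Finset.mem_erase.mpr ⟨?_, Finset.mem_univ _⟩⟩
    · rw [← hq]
      exact fun h5 => h1 (MulAction.injective _ h5)
    · rw [← hp]
      exact fun h5 => h3 (MulAction.injective _ h5)
  · intro h hh r hr hfix
    obtain ⟨h1, h2⟩ := Finset.mem_erase.mp hr
    obtain ⟨h3, -⟩ := Finset.mem_erase.mp h2
    exact P.B_semireg hq₀ hzq hfixz hh h3 h1 hfix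

/-- The bound from the involutions in `C(z) \ B`. -/
theorem le_two_card_B : Nat.card M - 1 ≤ 2 * Nat.card (subB M z) := by
  classical
  let X : Finset Ω := (Finset.univ.erase p₀).erase q₀
  have hX : X.card = Nat.card M - 1 := by
    have h1 : q₀ ∈ (Finset.univ.erase p₀ : Finset Ω) := Finset.mem_erase.mpr ⟨hq₀, Finset.mem_univ _⟩
    rw [Finset.card_erase_of_mem h1, Finset.card_erase_of_mem (Finset.mem_univ _), Finset.card_univ,
      P.card_omega hf]
    omega
  let T : Finset G := Finset.univ.filter fun g : G => g * z = z * g ∧ g ∉ normalizer (M : Set G)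
  let T' : Finset G := Finset.univ.filter fun g : G => g ∈ subB M z
  let TA : Finset G := Finset.univ.filter fun g : G => g * z = z * g
  have hTA : TA.card = 2 * Nat.card (subB M z) := by
    have h1 := P.card_A (Ω := Ω)
    rw [hf] at h1
    rw [← h1, Nat.card_eq_fintype_card, Fintype.card_subtype]
    congr 1
    ext g
    simp only [TA, Finset.mem_filter, Finset.mem_univ, true_and]
    rw [Subgroup.mem_centralizer_singleton_iff]
  have hT' : T'.card = Nat.card (subB M z) := by
    rw [Nat.card_eq_fintype_card, Fintype.card_subtype]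
  have hTT : TA.card = T.card + T'.card := by
    rw [← Finset.card_union_of_disjoint]
    · congr 1
      ext g
      simp only [TA, T, T', Finset.mem_filter, Finset.mem_univ, true_and, Finset.mem_union, P.mem_B]
      by_cases h1 : g ∈ normalizer (M : Set G) <;> simp [h1]
    · rw [Finset.disjoint_left]
      intro g h1 h2
      exact (Finset.mem_filter.mp h1).2.2 (P.mem_B.mp (Finset.mem_filter.mp h2).2).2
  have hT : T.card = Nat.card (subB M z) := by omega
  -- the lines through `r` and `z r`
  have hline : ∀ r : Ω, r ∈ X → ∃ s : G, s ∈ T ∧ s • r = r := by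
    intro r hr
    obtain ⟨h1, h2⟩ := Finset.mem_erase.mp hr
    obtain ⟨h3, -⟩ := Finset.mem_erase.mp h2
    have hzr : z • r ≠ r := by
      intro h4
      rcases hfixz r h4 with h5 | h5
      · exact h3 h5
      · exact h1 h5
    obtain ⟨s, hs, hs1, hs2⟩ := P.line_exists hzr.symm
    refine ⟨s, ?_, hs1⟩
    have hzz : z • (z • r) = r := by
      rw [← mul_smul, P.zinv.1, one_smul]
    have h6 : z * s * z⁻¹ = s := by
      rw [P.zinv.inv_eq]
      apply P.line_unique hzr.symm (by simpa [P.zinv.inv_eq] using hs.conj z) hs _ _ hs1 hs2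
      · rw [mul_smul, mul_smul, hs2, hzz]
      · rw [mul_smul, mul_smul, hzz, hs1]
    have hsz : s * z = z * s := by
      have h7 : z * s * z = s := by rwa [P.zinv.inv_eq] at h6
      calc s * z = (z * s * z) * z := by rw [h7]
        _ = z * s * (z * z) := by group
        _ = z * s := by rw [P.zinv.1, mul_one]
    have hsN : s ∉ normalizer (M : Set G) := by
      intro h7
      have h8 := P.B_invol (P.mem_B.mpr ⟨hsz, h7⟩) hs
      rw [h8] at hs1
      exact hzr hs1
    exact Finset.mem_filter.mpr ⟨Finset.mem_univ _, hsz, hsN⟩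
  choose! φ hφ1 hφ2 using hline
  have h := Finset.card_le_mul_card_image_of_maps_to (s := X) (t := T) (f := φ) hφ1 2 (by
    intro s hs
    have hsi : IsInv s := P.central_invol (Finset.mem_filter.mp hs).2.1 (Finset.mem_filter.mp hs).2.2
    have h1 : X.filter (fun r => φ r = s) ⊆ fixF Ω s := by
      intro r hr
      obtain ⟨h2, h3⟩ := Finset.mem_filter.mp hr
      rw [mem_fixF, ← h3]
      exact hφ2 r h2
    by_cases hex : (X.filter (fun r => φ r = s)).Nonempty
    · obtain ⟨r, hr⟩ := hex
      have h2 := Finset.card_le_card h1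
      rw [P.card_fixF_of_fix hsi (mem_fixF.mp (h1 hr)), hf] at h2
      exact h2
    · rw [Finset.not_nonempty_iff_eq_empty.mp hex]
      simp)
  rw [hX, hT] at h
  exact h

/-- The two cases for lines with two points. -/
theorem two_cases :
    Nat.card M - 1 = Nat.card (subB M z) ∨ Nat.card M - 1 = 2 * Nat.card (subB M z) := by
  obtain ⟨k, hk⟩ := P.card_B_dvd hf hq₀ hzq hfixz
  have h1 := P.le_two_card_B hf hq₀ hzq hfixz
  have h2 := P.one_lt_card_M
  have hb : 0 < Nat.card (subB M z) := Nat.card_pos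
  have hk2 : k ≤ 2 := by
    rw [hk] at h1
    by_contra h3
    have h4 : 3 ≤ k := by omega
    nlinarith
  have hk1 : k ≠ 0 := by
    rintro rfl
    omega
  have hk3 : k = 1 ∨ k = 2 := by omega
  rcases hk3 with rfl | rfl
  · left; rw [hk, mul_one]
  · right; rw [hk, mul_comm]

end two

end PlaneHyp

end Cfsg.Agent.Lib.Perm.TICount
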