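import Mathlib
import Cfsg.Prelude.Def_Transfer
import Cfsg.Agent.S0730
import Cfsg.Agent.Lib.Perm.TICountD

/-!
# TI-subgroups: lines with two points, the sharply triply transitive case
-/

set_option autoImplicit false
set_option linter.style.haveILetI false
set_option linter.unusedSectionVars false

namespace Cfsg.Agent.Lib.Perm.TICount

open MulAction Subgroup

variable {G : Type*} [Group G] {M : Subgroup G} {z : G} {Ω : Type*} [MulAction G Ω] {p₀ : Ω}

namespace PlaneHyp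

variable (P : PlaneHyp M z p₀)

include P

section two

variable [Fintype G] [Fintype Ω] (hf : (fixF Ω z).card = 2)
variable {q₀ : Ω} (hq₀ : q₀ ≠ p₀) (hzq : z • q₀ = q₀) (hfixz : ∀ r : Ω, z • r = r → r = p₀ ∨ r = q₀)

include hf hq₀ hzq hfixz

/-- In the sharply triply transitive case `B` is transitive on the remaining points. -/
theorem B_trans (hb : Nat.card M - 1 = Nat.card (subB M z)) {r r' : Ω} (h1 : r ≠ p₀) (h2 : r ≠ q₀)
    (h3 : r' ≠ p₀) (h4 : r' ≠ q₀) : ∃ h ∈ subB M z, h • r = r' := by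
  classical
  have hinj : Function.Injective (fun h : subB M z => (⟨(h : G) • r, by
      have hp : (h : G) • p₀ = p₀ := (P.stab _).mpr (P.mem_B.mp h.2).2
      have hq := P.B_fix_q hq₀ hzq hfixz h.2
      refine ⟨?_, ?_⟩
      · rw [← hp]
        exact fun h5 => h1 (MulAction.injective _ h5)
      · intro h5
        apply h2
        rw [← hq] at h5
        exact MulAction.injective _ h5⟩ : {w : Ω // w ≠ p₀ ∧ w ≠ q₀})) := by
    intro h h' e
    have e' : (h : G) • r = (h' : G) • r := congrArg Subtype.val e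
    have h5 : (h' : G)⁻¹ * h = 1 := by
      apply P.B_semireg hq₀ hzq hfixz ((subB M z).mul_mem ((subB M z).inv_mem h'.2) h.2) h1 h2
      rw [mul_smul, e', inv_smul_smul]
    rw [inv_mul_eq_one] at h5
    exact Subtype.ext h5.symm
  have hc : Nat.card {w : Ω // w ≠ p₀ ∧ w ≠ q₀} ≤ Nat.card (subB M z) := by
    rw [← hb, Nat.card_eq_fintype_card, Fintype.card_subtype]
    have h5 : (Finset.univ.filter fun w : Ω => w ≠ p₀ ∧ w ≠ q₀) = (Finset.univ.erase p₀).erase q₀ := by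
      ext w
      simp [and_comm]
    rw [h5]
    have h6 : q₀ ∈ (Finset.univ.erase p₀ : Finset Ω) := Finset.mem_erase.mpr ⟨hq₀, Finset.mem_univ _⟩
    rw [Finset.card_erase_of_mem h6, Finset.card_erase_of_mem (Finset.mem_univ _), Finset.card_univ,
      P.card_omega hf]
    omega
  obtain ⟨h, hh⟩ := (hinj.bijective_of_nat_card_le hc).2 ⟨r', h3, h4⟩
  exact ⟨h, h.2, congrArg Subtype.val hh⟩

/-- **The case `PGL(2, q)`.** -/
theorem two_pgl (hb : Nat.card M - 1 = Nat.card (subB M z)) :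
    ∃ (F : Type) (_ : Field F) (_ : Fintype F) (p : ℕ) (_ : Fact p.Prime) (_ : CharP F p),
      Fintype.card F = Nat.card M ∧ Cfsg.IsElementaryAbelian p M ∧
      Nonempty (G ≃* Matrix.ProjGenLinGroup (Fin 2) F) := by
  classical
  have ha1 := P.one_lt_card_M
  have hmodd := P.toTIHyp.odd_card
  obtain ⟨u₁, hu₁, hu₁1⟩ := P.toTIHyp.exists_ne_one
  obtain ⟨a₀, ha₀, ha₀p⟩ := P.exists_central hzq
  have ha₀N : a₀ ∉ normalizer (M : Set G) := by
    rw [P.mem_N_iff, ha₀p]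
    exact hq₀
  have hFcomm : ∀ x ∈ M, ∀ y ∈ M, x * y = y * x := fun x hx y hy => P.comm hx hy
  have hHcomm : ∀ x ∈ subB M z, ∀ y ∈ subB M z, x * y = y * x :=
    fun x hx y hy => P.B_comm ha₀ ha₀N hx hy
  have hFn : ∀ h ∈ subB M z, ∀ u ∈ M, h * u * h⁻¹ ∈ M :=
    fun h hh u hu => P.conj_mem (P.mem_B.mp hh).2 hu
  have hMfix : ∀ u ∈ M, u • p₀ = p₀ := fun u hu => (P.stab u).mpr (P.le_normalizer hu)
  have hMq : ∀ u ∈ M, u ≠ 1 → u • q₀ ≠ q₀ := fun u hu hu1 h => hu1 (P.M_semireg hu hq₀ h)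
  have hMp : ∀ u ∈ M, u • q₀ ≠ p₀ := by
    intro u hu h
    apply hq₀
    rw [← hMfix u hu] at h
    exact MulAction.injective _ h
  have hfree : ∀ h ∈ subB M z, ∀ u ∈ M, h * u * h⁻¹ = u → h = 1 ∨ u = 1 := by
    intro h hh u hu he
    by_cases hu1 : u = 1
    · exact Or.inr hu1
    left
    apply P.B_semireg hq₀ hzq hfixz hh (r := u • q₀) (hMp u hu) (hMq u hu hu1)
    rw [mul_inv_eq_iff_eq_mul] at he
    rw [← mul_smul, he, mul_smul, P.B_fix_q hq₀ hzq hfixz hh]
  have hcard : Nat.card M < 2 * (Nat.card (subB M z) + 1) := by omega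
  obtain ⟨K, iF, iK, θ, hθF, hθadd, hθinj, hθsurj, hθ1, hθc⟩ :=
    Cfsg.Agent.S0730.exists_field_large M (subB M z) hFcomm hHcomm hFn hfree hcard u₁ hu₁ hu₁1
  have hclosure := Cfsg.Agent.S0730.closure_top M (subB M z) θ hθF hθinj hθsurj hθadd hfree hcard hθc
  have hcK : Fintype.card K = Nat.card M := by
    rw [← Nat.card_eq_fintype_card]
    apply Nat.card_congr
    exact Equiv.ofBijective (fun r => (⟨θ r, hθF r⟩ : M))
      ⟨fun a b hab => hθinj (congrArg Subtype.val hab), fun u => by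
        obtain ⟨r, hr⟩ := hθsurj u.1 u.2
        exact ⟨r, Subtype.ext hr⟩⟩
  have hθ0 : θ 0 = 1 := by
    have h1 := hθadd 0 0
    rw [add_zero] at h1
    exact (mul_eq_left.mp h1.symm)
  have hθzero : ∀ r, θ r = 1 → r = 0 := by
    intro r hr
    apply hθinj
    rw [hr, hθ0]
  let pt : K → Ω := fun r => θ r • q₀
  have hpt : ∀ r, pt r = θ r • q₀ := fun _ => rfl
  have hpt_inj : Function.Injective pt := by
    intro r s h
    have h1 : (θ s)⁻¹ * θ r = 1 := by
      apply P.M_semireg (M.mul_mem (M.inv_mem (hθF s)) (hθF r)) hq₀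
      rw [mul_smul, inv_smul_eq_iff]
      exact h
    rw [inv_mul_eq_one] at h1
    exact hθinj h1.symm
  have hpt_inf : ∀ r, pt r ≠ p₀ := fun r => hMp _ (hθF r)
  have hpt0 : pt 0 = q₀ := by rw [hpt, hθ0, one_smul]
  set one := u₁ • q₀ with hone
  have hpt1 : pt 1 = one := by rw [hpt, hθ1]
  have hi1 : p₀ ≠ one := (hMp u₁ hu₁).symm
  have ho1 : q₀ ≠ one := (hMq u₁ hu₁ hu₁1).symm
  have hio : p₀ ≠ q₀ := hq₀.symm
  have hB2 : ∀ h : G, h • p₀ = p₀ → h • q₀ = q₀ → h ∈ subB M z :=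
    fun h h1 h2 => P.two_mem_B hq₀ hzq h1 h2
  have hconj : ∀ x : G, x • q₀ = q₀ → ∀ n : G, (x * n * x⁻¹) • q₀ = x • (n • q₀) := by
    intro x hx n
    have : x⁻¹ • q₀ = q₀ := by rw [inv_smul_eq_iff, hx]
    rw [mul_smul, mul_smul, this]
  have hBq : ∀ h ∈ subB M z, h • q₀ = q₀ := fun h hh => P.B_fix_q hq₀ hzq hfixz hh
  have hBp : ∀ h ∈ subB M z, h • p₀ = p₀ := fun h hh => (P.stab h).mpr (P.mem_B.mp hh).2
  have hcoef : ∀ h ∈ subB M z, ∃ c : K, c ≠ 0 ∧ ∀ r, h • pt r = pt (c * r) := by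
    intro h hh
    obtain ⟨c, hc⟩ := hθc h hh
    have hac : ∀ r, h • pt r = pt (c * r) := by
      intro r
      rw [hpt, hpt, hc, hconj h (hBq h hh)]
    refine ⟨c, ?_, hac⟩
    rintro rfl
    have h1 := hac 1
    rw [zero_mul, hpt0, hpt1] at h1
    apply ho1
    apply MulAction.injective h
    show h • q₀ = h • one
    rw [h1, hBq h hh]
  have hsurj : ∀ r : K, r ≠ 0 → ∃ h ∈ subB M z, ∀ x, h • pt x = pt (r * x) := by
    intro r hr
    have h1 : pt r ≠ q₀ := by
      rw [← hpt0]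
      exact fun h => hr (hpt_inj h)
    obtain ⟨h, hh, hhe⟩ := P.B_trans hf hq₀ hzq hfixz hb hi1.symm ho1.symm (hpt_inf r) h1
    obtain ⟨c, -, hc⟩ := hcoef h hh
    have h2 := hc 1
    rw [hpt1, hhe, mul_one] at h2
    have h3 := hpt_inj h2
    refine ⟨h, hh, fun x => ?_⟩
    rw [hc, h3]
  have h2K : (2 : K) ≠ 0 := by
    intro h
    have h1 : addOrderOf (1 : K) = 2 := by
      apply addOrderOf_eq_prime
      · rw [two_nsmul]
        have h3 : (1 : K) + 1 = 2 := by norm_num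
        rw [h3, h]
      · exact one_ne_zero
    have h3 : addOrderOf (1 : K) ∣ Nat.card K := addOrderOf_dvd_natCard _
    rw [h1, Nat.card_eq_fintype_card, hcK] at h3
    exact (Nat.not_even_iff_odd.mpr hmodd) (even_iff_two_dvd.mpr h3)
  have hclosure' : AddSubgroup.closure {c : K | ∃ k ∈ subB M z, ∀ r, k • pt r = pt (c * r)} = ⊤ := by
    rw [eq_top_iff, ← hclosure]
    apply AddSubgroup.closure_mono
    rintro c ⟨k, hk, hck⟩
    refine ⟨k, hk, fun r => ?_⟩
    rw [hpt, hpt, hck, hconj k (hBq k hk)]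
  -- the involution `t`
  have hone1 : a₀ • one ≠ p₀ := by
    intro h
    have h1 : a₀ • q₀ = p₀ := by
      rw [← ha₀p, ← mul_smul, (P.central_invol ha₀ ha₀N).1, one_smul]
    rw [← h1] at h
    exact ho1 (MulAction.injective _ h).symm
  have hone2 : a₀ • one ≠ q₀ := by
    intro h
    rw [← ha₀p] at h
    exact hi1 (MulAction.injective _ h).symm
  obtain ⟨h₀, hh₀, hh₀e⟩ := P.B_trans hf hq₀ hzq hfixz hb hone1 hone2 hi1.symm ho1.symm
  set t := h₀ * a₀ with ht
  have htz : t * z = z * t := by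
    have h1 := (P.mem_B.mp hh₀).1
    calc t * z = h₀ * (a₀ * z) := by rw [ht]; group
      _ = h₀ * (z * a₀) := by rw [ha₀]
      _ = (h₀ * z) * a₀ := by group
      _ = (z * h₀) * a₀ := by rw [h1]
      _ = z * t := by rw [ht]; group
  have htN : t ∉ normalizer (M : Set G) := by
    rw [P.mem_N_iff, ht, mul_smul, ha₀p, hBq h₀ hh₀]
    exact hq₀
  have hti := P.central_invol htz htN
  have ht1 : t • p₀ = q₀ := by
    rw [ht, mul_smul, ha₀p, hBq h₀ hh₀]
  have ht2 : t • q₀ = p₀ := by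
    rw [← ht1, ← mul_smul, hti.1, one_smul]
  have ht3 : t • one = one := by
    rw [ht, mul_smul, hh₀e]
  have hfix : ∀ (g : G) (a b c : Ω), a ≠ b → a ≠ c → b ≠ c → g • a = a → g • b = b → g • c = c →
      g = 1 := fun g a b c h1 h2 h4 h5 h6 h7 =>
    P.three_fix hf hq₀ hzq hfixz h1 h4 h2 h5 h6 h7
  have htinv : ∀ k ∈ subB M z, t * k * t⁻¹ = k⁻¹ := by
    intro k hk
    rw [hti.inv_eq]
    exact P.inverts_B htz htN hk
  have htH : ∀ h ∈ subB M z, t * h * t⁻¹ ∈ subB M z := by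
    intro h hh
    rw [htinv h hh]
    exact (subB M z).inv_mem hh
  have htw := Cfsg.Agent.S0730.twist_free hfix pt p₀ hpt_inj hpt_inf (subB M z) (subB M z) le_rfl
    hcoef hsurj hBp
    (fun a ha b hb hak _ => absurd ha hak)
    (fun u hu => (subB M z).mul_mem hu hu)
    t (by rw [hpt0, ht1]) (by rw [hpt0, ht2]) (by rw [hpt1, ht3]) hti.1 htH htinv
    (θ 1)
    (fun r => by rw [hpt, hpt, hθadd, mul_smul])
    (hMfix _ (hθF 1)) hclosure' h2K
  -- triple transitivity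
  have hnorm : ∀ a b c : Ω, a ≠ b → a ≠ c → b ≠ c → ∃ g : G, g • a = p₀ ∧ g • b = q₀ ∧ g • c = one := by
    intro a b c hab hac hbc
    obtain ⟨g, hg1, hg2⟩ := P.pair_trans hf hq₀ hzq hfixz hab
    have h1 : g • c ≠ p₀ := by
      rw [← hg1]
      exact fun h => hac (MulAction.injective _ h).symm
    have h2 : g • c ≠ q₀ := by
      rw [← hg2]
      exact fun h => hbc (MulAction.injective _ h).symm
    obtain ⟨h, hh, hhe⟩ := P.B_trans hf hq₀ hzq hfixz hb h1 h2 hi1.symm ho1.symm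
    refine ⟨h * g, ?_, ?_, ?_⟩
    · rw [mul_smul, hg1, hBp h hh]
    · rw [mul_smul, hg2, hBq h hh]
    · rw [mul_smul, hhe]
  have htr : ∀ a b c a' b' c' : Ω, a ≠ b → a ≠ c → b ≠ c → a' ≠ b' → a' ≠ c' → b' ≠ c' →
      ∃ g : G, g • a = a' ∧ g • b = b' ∧ g • c = c' := by
    intro a b c a' b' c' h1 h2 h3 h4 h5 h6
    obtain ⟨g, g1, g2, g3⟩ := hnorm a b c h1 h2 h3
    obtain ⟨g', g1', g2', g3'⟩ := hnorm a' b' c' h4 h5 h6
    refine ⟨g'⁻¹ * g, ?_, ?_, ?_⟩
    · rw [mul_smul, g1, ← g1', inv_smul_smul]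
    · rw [mul_smul, g2, ← g2', inv_smul_smul]
    · rw [mul_smul, g3, ← g3', inv_smul_smul]
  haveI : FaithfulSMul G Ω := ⟨by
    intro g g' h
    have h1 : g'⁻¹ * g = 1 := by
      apply hfix _ p₀ q₀ one hio hi1 ho1
      · rw [mul_smul, h, inv_smul_smul]
      · rw [mul_smul, h, inv_smul_smul]
      · rw [mul_smul, h, inv_smul_smul]
    rw [inv_mul_eq_one] at h1
    exact h1.symm⟩
  have hiso := Cfsg.Agent.S0730.pgl_of_coords htr hfix p₀ q₀ one hio hi1 ho1 M hMfix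
    (fun x y hx hy => P.M_regular hf hx hy) θ hθF hθadd hθsurj
    (by rw [hθ1]) hpt_inf (fun r s h => hpt_inj h)
    (fun h h1 h2 => hθc h (hB2 h h1 h2)) t ht1 ht2 htw
  obtain ⟨p, hpc⟩ := CharP.exists K
  haveI hpp : Fact p.Prime := ⟨(CharP.char_is_prime_or_zero K p).resolve_right
    (fun h => by
      subst h
      exact CharP.char_ne_zero_of_finite K 0 rfl)⟩
  refine ⟨K, iF, iK, p, hpp, hpc, hcK, ⟨⟨⟨fun a b => Subtype.ext (hFcomm _ a.2 _ b.2)⟩⟩, ?_⟩, hiso⟩
  · intro x hx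
    obtain ⟨r, rfl⟩ := hθsurj x hx
    have h1 : ∀ n : ℕ, θ r ^ n = θ ((n : K) * r) := by
      intro n
      induction n with
      | zero => simp [hθ0]
      | succ n ih =>
        rw [pow_succ, ih, ← hθadd]
        congr 1
        push_cast
        ring
    rw [h1, CharP.cast_eq_zero, zero_mul, hθ0]

end two

end PlaneHyp

end Cfsg.Agent.Lib.Perm.TICount
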