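import Mathlib
import Cfsg.Prelude.Def_Transfer
import Cfsg.Agent.S0731
import Cfsg.Agent.Lib.PSL2.SylowU
import Cfsg.Agent.Lib.Perm.TICountD

/-!
# TI-subgroups: lines with two points, the case `PSL(2, q)`
-/

set_option autoImplicit false
set_option linter.style.haveILetI false
set_option linter.unusedSectionVars false

namespace Cfsg.Agent.Lib.Perm.TICount

open MulAction Subgroup
open scoped MatrixGroups
open Cfsg.Agent.Lib.PSL2.Basic Cfsg.Agent.Lib.PSL2.SylowU

variable {G : Type*} [Group G] {M : Subgroup G} {z : G} {Ω : Type*} [MulAction G Ω] {p₀ : Ω}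

/-- The function `u (u + 1) (u + 2)` is injective. -/
theorem cubic_inj {u v : ℕ} (h : u * (u + 1) * (u + 2) = v * (v + 1) * (v + 2)) : u = v := by
  rcases lt_trichotomy u v with h1 | h1 | h1
  · exfalso
    have h2 : u * (u + 1) * (u + 2) < v * (v + 1) * (v + 2) :=
      Nat.mul_lt_mul'' (Nat.mul_lt_mul'' h1 (by omega)) (by omega)
    omega
  · exact h1
  · exfalso
    have h2 : v * (v + 1) * (v + 2) < u * (u + 1) * (u + 2) :=
      Nat.mul_lt_mul'' (Nat.mul_lt_mul'' h1 (by omega)) (by omega)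
    omega

namespace PlaneHyp

variable (P : PlaneHyp M z p₀)

include P

section two

variable [Fintype G] [Fintype Ω] (hf : (fixF Ω z).card = 2)
variable {q₀ : Ω} (hq₀ : q₀ ≠ p₀) (hzq : z • q₀ = q₀) (hfixz : ∀ r : Ω, z • r = r → r = p₀ ∨ r = q₀)

include hf hq₀ hzq hfixz

theorem two_dvd_card_B : 2 ∣ Nat.card (subB M z) := by
  have h1 : orderOf z = 2 := (isInv_iff_orderOf z).mp P.zinv
  have h2 : orderOf (⟨z, P.mem_B.mpr ⟨rfl, P.zN⟩⟩ : subB M z) = 2 := by
    rw [Subgroup.orderOf_mk]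
    exact h1
  rw [← h2]
  exact orderOf_dvd_natCard _

/-- No regular normal subgroup, for `|M| ≥ 5`. -/
theorem no_regular (ha : 5 ≤ Nat.card M) (R : Subgroup G) (hRn : R.Normal)
    (htr : IsPretransitive R Ω) : ∃ a : Ω, stabilizer R a ≠ ⊥ := by
  classical
  by_contra hno
  push Not at hno
  have hinj : ∀ r ∈ R, ∀ r' ∈ R, r • p₀ = r' • p₀ → r = r' := by
    intro r hr r' hr' h
    have h1 : (⟨r'⁻¹ * r, R.mul_mem (R.inv_mem hr') hr⟩ : R) ∈ stabilizer R p₀ := by
      rw [mem_stabilizer_iff]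
      show (r'⁻¹ * r) • p₀ = p₀
      rw [mul_smul, h, inv_smul_smul]
    rw [hno p₀, Subgroup.mem_bot] at h1
    have h2 : r'⁻¹ * r = 1 := congrArg Subtype.val h1
    rw [inv_mul_eq_one] at h2
    exact h2.symm
  have hsurj : ∀ p : Ω, ∃ r ∈ R, r • p₀ = p := by
    intro p
    obtain ⟨r, hr⟩ := htr.exists_smul_eq p₀ p
    exact ⟨r, r.2, hr⟩
  have hzi := P.zinv.inv_eq
  obtain ⟨i, hiR, hip⟩ := hsurj q₀
  have hi1 : i ≠ 1 := by
    rintro rfl
    rw [one_smul] at hip
    exact hq₀ hip.symm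
  have hconjR : ∀ r ∈ R, z * r * z ∈ R := by
    intro r hr
    have := hRn.conj_mem r hr z
    rwa [hzi] at this
  have hiz : z * i * z = i := by
    apply hinj _ (hconjR i hiR) _ hiR
    rw [mul_smul, mul_smul, P.z_fix, hip, hzq]
  have hcentral : ∀ r ∈ R, z * r * z = r → r = 1 ∨ r = i := by
    intro r hr h
    have h1 : z • (r • p₀) = r • p₀ := by
      have h2 : z * r = r * z := by
        nth_rw 2 [← h]
        calc z * r = z * r * z * z := by rw [mul_assoc (z * r), P.zinv.1, mul_one]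
          _ = _ := rfl
      rw [← mul_smul, h2, mul_smul, P.z_fix]
    rcases hfixz _ h1 with h2 | h2
    · left
      apply hinj r hr 1 R.one_mem
      rw [h2, one_smul]
    · right
      apply hinj r hr i hiR
      rw [h2, hip]
  have hii : i * i = 1 := by
    have h1 : z * (i * i) * z = i * i := by
      calc z * (i * i) * z = (z * i * z) * (z * i * z) := by
            have : z * i * z * (z * i * z) = z * i * (z * z) * i * z := by group
            rw [this, P.zinv.1]; group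
        _ = i * i := by rw [hiz]
    rcases hcentral _ (R.mul_mem hiR hiR) h1 with h2 | h2
    · exact h2
    · exfalso
      apply hi1
      exact mul_eq_left.mp h2
  have hall : ∀ r ∈ R, r * r = 1 := by
    intro r hr
    by_cases hr1 : r • p₀ = p₀
    · have : r = 1 := hinj r hr 1 R.one_mem (by rw [hr1, one_smul])
      rw [this, one_mul]
    · obtain ⟨u, hu, hue⟩ := P.M_regular hf hq₀ hr1
      have h1 : u * i * u⁻¹ = r := by
        apply hinj _ (hRn.conj_mem i hiR u) _ hr
        have hup : u⁻¹ • p₀ = p₀ := (P.stab _).mpr (P.le_normalizer (M.inv_mem hu))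
        rw [mul_smul, mul_smul, hup, hip, hue]
      rw [← h1]
      have : u * i * u⁻¹ * (u * i * u⁻¹) = u * (i * i) * u⁻¹ := by group
      rw [this, hii]; simp
  have hRcomm : ∀ r ∈ R, ∀ r' ∈ R, r * r' = r' * r := by
    intro r hr r' hr'
    have h1 := hall _ (R.mul_mem hr hr')
    have h2 := eq_inv_of_mul_eq_one_left h1
    rw [mul_inv_rev, inv_eq_of_mul_eq_one_left (hall r hr), inv_eq_of_mul_eq_one_left (hall r' hr')]
      at h2
    exact h2
  -- `w r = r * (z r z)`
  have hw : ∀ r ∈ R, r ≠ 1 → r ≠ i → r * (z * r * z) = i := by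
    intro r hr h1 h2
    have h3 : z * (r * (z * r * z)) * z = r * (z * r * z) := by
      calc z * (r * (z * r * z)) * z = (z * r * z) * r * (z * z) := by group
        _ = (z * r * z) * r := by rw [P.zinv.1, mul_one]
        _ = r * (z * r * z) := hRcomm _ (hconjR r hr) _ hr
    rcases hcentral _ (R.mul_mem hr (hconjR r hr)) h3 with h4 | h4
    · exfalso
      have h5 : z * r * z = r := by
        have h6 := eq_inv_of_mul_eq_one_right h4
        rwa [inv_eq_of_mul_eq_one_left (hall r hr)] at h6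
      rcases hcentral r hr h5 with h6 | h6
      · exact h1 h6
      · exact h2 h6
    · exact h4
  have hprod : ∀ r ∈ R, ∀ r' ∈ R, r ≠ 1 → r ≠ i → r' ≠ 1 → r' ≠ i → r * r' = 1 ∨ r * r' = i := by
    intro r hr r' hr' h1 h2 h3 h4
    by_contra hcon
    push Not at hcon
    have h5 := hw _ (R.mul_mem hr hr') hcon.1 hcon.2
    have h6 : r * r' * (z * (r * r') * z) = (r * (z * r * z)) * (r' * (z * r' * z)) := by
      have h7 : z * (r * r') * z = (z * r * z) * (z * r' * z) := by
        have : z * r * z * (z * r' * z) = z * r * (z * z) * r' * z := by group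
        rw [this, P.zinv.1]; group
      rw [h7]
      calc r * r' * (z * r * z * (z * r' * z)) = r * (r' * (z * r * z)) * (z * r' * z) := by group
        _ = r * ((z * r * z) * r') * (z * r' * z) := by rw [hRcomm r' hr' _ (hconjR r hr)]
        _ = _ := by group
    rw [h6, hw r hr h1 h2, hw r' hr' h3 h4, hii] at h5
    exact hi1 h5.symm
  -- counting
  have hcardΩ : 6 ≤ Fintype.card Ω := by
    rw [P.card_omega hf]
    omega
  have h1 : (({p₀, q₀} : Finset Ω)).card < Fintype.card Ω :=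
    lt_of_le_of_lt (Finset.card_le_two) (by omega)
  obtain ⟨x, -, hx⟩ := Finset.exists_mem_notMem_of_card_lt_card (s := ({p₀, q₀} : Finset Ω))
    (t := Finset.univ) (by simpa using h1)
  simp only [Finset.mem_insert, Finset.mem_singleton, not_or] at hx
  obtain ⟨r₁, hr₁, hr₁x⟩ := hsurj x
  have hr₁1 : r₁ ≠ 1 := by
    rintro rfl
    rw [one_smul] at hr₁x
    exact hx.1 hr₁x.symm
  have hr₁i : r₁ ≠ i := by
    rintro rfl
    rw [hip] at hr₁x
    exact hx.2 hr₁x.symm
  have h2 : (({p₀, q₀, x, (r₁ * i) • p₀} : Finset Ω)).card < Fintype.card Ω :=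
    lt_of_le_of_lt (Finset.card_le_four) (by omega)
  obtain ⟨y, -, hy⟩ := Finset.exists_mem_notMem_of_card_lt_card
    (s := ({p₀, q₀, x, (r₁ * i) • p₀} : Finset Ω)) (t := Finset.univ) (by simpa using h2)
  simp only [Finset.mem_insert, Finset.mem_singleton, not_or] at hy
  obtain ⟨hy1, hy2, hy3, hy4⟩ := hy
  obtain ⟨r₂, hr₂, hr₂y⟩ := hsurj y
  have hr₂1 : r₂ ≠ 1 := by
    rintro rfl
    rw [one_smul] at hr₂y
    exact hy1 hr₂y.symm
  have hr₂i : r₂ ≠ i := by
    rintro rfl
    rw [hip] at hr₂y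
    exact hy2 hr₂y.symm
  rcases hprod r₁ hr₁ r₂ hr₂ hr₁1 hr₁i hr₂1 hr₂i with h3 | h3
  · have h4 : r₂ = r₁ := by
      have h5 := eq_inv_of_mul_eq_one_right h3
      rwa [inv_eq_of_mul_eq_one_left (hall r₁ hr₁)] at h5
    apply hy3
    rw [← hr₂y, ← hr₁x, h4]
  · have h4 : r₂ = r₁ * i := by
      rw [← h3, ← mul_assoc, hall r₁ hr₁, one_mul]
    apply hy4
    rw [← hr₂y, h4]

/-- **The case `PSL(2, q)`.** -/
theorem two_psl (hb : Nat.card M - 1 = 2 * Nat.card (subB M z)) :
    ∃ (F : Type) (_ : Field F) (_ : Fintype F) (p : ℕ) (_ : Fact p.Prime) (_ : CharP F p),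
      Fintype.card F = Nat.card M ∧ Cfsg.IsElementaryAbelian p M ∧ Fintype.card F % 4 = 1 ∧
      Nonempty (G ≃* Matrix.ProjectiveSpecialLinearGroup (Fin 2) F) := by
  classical
  have ha1 := P.one_lt_card_M
  have h2b := P.two_dvd_card_B hf hq₀ hzq hfixz
  have hbpos : 0 < Nat.card (subB M z) := Nat.card_pos
  have ha5 : 5 ≤ Nat.card M := by
    obtain ⟨k, hk⟩ := h2b
    have : 1 ≤ k := by
      rcases Nat.eq_zero_or_pos k with h | h
      · subst h; omega
      · exact h
    omega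
  obtain ⟨u₁, hu₁, hu₁1⟩ := P.toTIHyp.exists_ne_one
  have hMfix : ∀ u ∈ M, u • p₀ = p₀ := fun u hu => (P.stab u).mpr (P.le_normalizer hu)
  have hMq : ∀ u ∈ M, u ≠ 1 → u • q₀ ≠ q₀ := fun u hu hu1 h => hu1 (P.M_semireg hu hq₀ h)
  have hMp : ∀ u ∈ M, u • q₀ ≠ p₀ := by
    intro u hu h
    apply hq₀
    rw [← hMfix u hu] at h
    exact MulAction.injective _ h
  have hfix3 : ∀ g : G, ∀ a b c : Ω, a ≠ b → b ≠ c → a ≠ c → g • a = a → g • b = b → g • c = c →
      g = 1 := fun g a b c h1 h2 h3 h4 h5 h6 => P.three_fix hf hq₀ hzq hfixz h1 h2 h3 h4 h5 h6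
  have hfaith : FaithfulSMul G Ω := ⟨by
    intro g g' h
    have h1 : g'⁻¹ * g = 1 := by
      apply hfix3 _ p₀ q₀ (u₁ • q₀) hq₀.symm (hMq u₁ hu₁ hu₁1).symm (hMp u₁ hu₁).symm
      · rw [mul_smul, h, inv_smul_smul]
      · rw [mul_smul, h, inv_smul_smul]
      · rw [mul_smul, h, inv_smul_smul]
    rw [inv_mul_eq_one] at h1
    exact h1.symm⟩
  have h2tr : IsMultiplyPretransitive G Ω 2 := by
    rw [is_two_pretransitive_iff]
    intro a b c d hab hcd
    obtain ⟨g, g1, g2⟩ := P.pair_trans hf hq₀ hzq hfixz hab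
    obtain ⟨g', g1', g2'⟩ := P.pair_trans hf hq₀ hzq hfixz hcd
    refine ⟨g'⁻¹ * g, ?_, ?_⟩
    · rw [mul_smul, g1, ← g1', inv_smul_smul]
    · rw [mul_smul, g2, ← g2', inv_smul_smul]
  have hZ : Cfsg.IsZassenhausGroup G Ω := by
    refine ⟨hfaith, h2tr, hfix3, ⟨z, P.zinv.2, p₀, q₀, hq₀.symm, P.z_fix, hzq⟩, ?_⟩
    intro R hRn hRtr
    exact P.no_regular hf hq₀ hzq hfixz ha5 R hRn hRtr
  have hMle : M ≤ stabilizer G p₀ := fun u hu => hMfix u hu
  have hMn : (M.subgroupOf (stabilizer G p₀)).Normal := by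
    refine ⟨fun n hn g => ?_⟩
    have hgN : (g : G) ∈ normalizer (M : Set G) := (P.stab _).mp g.2
    rw [Subgroup.mem_subgroupOf] at hn ⊢
    exact P.conj_mem hgN hn
  have hMab : IsMulCommutative M := ⟨⟨fun a b => Subtype.ext (P.comm a.2 b.2)⟩⟩
  have hreg : ∀ y w : Ω, y ≠ p₀ → w ≠ p₀ → ∃! u : M, (u : G) • y = w := by
    intro y w hy hw
    obtain ⟨u, hu, hue⟩ := P.M_regular hf hy hw
    refine ⟨⟨u, hu⟩, hue, ?_⟩
    rintro v hv
    have h1 : (u : G)⁻¹ * v = 1 := by
      apply P.M_semireg (M.mul_mem (M.inv_mem hu) v.2) hy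
      rw [mul_smul, hv, ← hue, inv_smul_smul]
    rw [inv_mul_eq_one] at h1
    exact Subtype.ext h1.symm
  rcases Cfsg.Agent.S0731.result hZ p₀ M hMle hMn hMab hreg with ⟨h3tr, -⟩ | ⟨K, iF, iK, hch, ⟨e⟩⟩
  · exfalso
    -- `B` would be transitive on the remaining points
    have hemb : ∀ a b c : Ω, a ≠ b → a ≠ c → b ≠ c → ∃ x : Fin 3 ↪ Ω, x 0 = a ∧ x 1 = b ∧ x 2 = c := by
      intro a b c hab hac hbc
      refine ⟨⟨![a, b, c], ?_⟩, rfl, rfl, rfl⟩
      intro i j hij
      fin_cases i <;> fin_cases j <;> simp_all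
    have hone : u₁ • q₀ ≠ p₀ := hMp u₁ hu₁
    have hone' : u₁ • q₀ ≠ q₀ := hMq u₁ hu₁ hu₁1
    have htrB : ∀ r : Ω, r ≠ p₀ → r ≠ q₀ → ∃ h ∈ subB M z, h • (u₁ • q₀) = r := by
      intro r hr1 hr2
      obtain ⟨x, x0, x1, x2⟩ := hemb p₀ q₀ (u₁ • q₀) hq₀.symm hone.symm hone'.symm
      obtain ⟨y, y0, y1, y2⟩ := hemb p₀ q₀ r hq₀.symm hr1.symm hr2.symm
      obtain ⟨g, hg⟩ := h3tr.exists_smul_eq x y
      have h0 : g • p₀ = p₀ := by
        have := congrArg (fun w : Fin 3 ↪ Ω => w 0) hg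
        simpa [x0, y0] using this
      have h1 : g • q₀ = q₀ := by
        have := congrArg (fun w : Fin 3 ↪ Ω => w 1) hg
        simpa [x1, y1] using this
      have h2 : g • (u₁ • q₀) = r := by
        have := congrArg (fun w : Fin 3 ↪ Ω => w 2) hg
        simpa [x2, y2] using this
      exact ⟨(g : G), P.two_mem_B hq₀ hzq h0 h1, h2⟩
    -- so `|X| ≤ |B|`
    let X : Finset Ω := (Finset.univ.erase p₀).erase q₀
    have hX : X.card = Nat.card M - 1 := by
      have h1 : q₀ ∈ (Finset.univ.erase p₀ : Finset Ω) :=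
        Finset.mem_erase.mpr ⟨hq₀, Finset.mem_univ _⟩
      rw [Finset.card_erase_of_mem h1, Finset.card_erase_of_mem (Finset.mem_univ _),
        Finset.card_univ, P.card_omega hf]
      omega
    haveI : Fintype (subB M z) := Fintype.ofFinite _
    have hsub : X ⊆ Finset.univ.image (fun h : subB M z => (h : G) • (u₁ • q₀)) := by
      intro r hr
      obtain ⟨h1, h2⟩ := Finset.mem_erase.mp hr
      obtain ⟨h3, -⟩ := Finset.mem_erase.mp h2
      obtain ⟨h, hh, he⟩ := htrB r h3 h1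
      exact Finset.mem_image.mpr ⟨⟨h, hh⟩, Finset.mem_univ _, he⟩
    have h1 := Finset.card_le_card hsub
    have h2 := Finset.card_image_le (s := (Finset.univ : Finset (subB M z)))
      (f := fun h : subB M z => (h : G) • (u₁ • q₀))
    rw [Finset.card_univ, ← Nat.card_eq_fintype_card] at h2
    omega
  · -- the order of the field
    have h2K : (2 : K) ≠ 0 := Ring.two_ne_zero hch
    have hcG : Nat.card G = Nat.card Ω * (Nat.card M * Nat.card (subB M z)) := by
      rw [P.card_G, P.card_N]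
    rw [Nat.card_eq_fintype_card (α := Ω), P.card_omega hf] at hcG
    have hcP := card_PSL2_of_two_ne_zero h2K
    rw [← Nat.card_congr e.toEquiv, hcG] at hcP
    set q := Fintype.card K with hq
    have hq2 : 2 ≤ q := Fintype.one_lt_card
    have hqa : q = Nat.card M := by
      obtain ⟨a, ha⟩ : ∃ a, Nat.card M = a + 1 := ⟨Nat.card M - 1, by omega⟩
      obtain ⟨u, hu⟩ : ∃ u, q = u + 1 := ⟨q - 1, by omega⟩
      rw [ha] at hcP hb
      rw [hu] at hcP
      simp only [Nat.add_sub_cancel] at hb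
      have h5 : (u + 1) ^ 2 - 1 = u * (u + 2) := by
        have : (u + 1) ^ 2 = u * (u + 2) + 1 := by ring
        omega
      rw [h5] at hcP
      have h6 : u * (u + 1) * (u + 2) = a * (a + 1) * (a + 2) := by
        have h7 : 2 * (a + 1 + 1) * ((a + 1) * Nat.card (subB M z)) =
            (a + 1 + 1) * (a + 1) * (2 * Nat.card (subB M z)) := by ring
        rw [← hb] at h7
        calc u * (u + 1) * (u + 2) = (u + 1) * (u * (u + 2)) := by ring
          _ = 2 * ((a + 1 + 1) * ((a + 1) * Nat.card (subB M z))) := hcP.symm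
          _ = (a + 1 + 1) * (a + 1) * a := by rw [← mul_assoc]; exact h7
          _ = a * (a + 1) * (a + 2) := by ring
      rw [hu, ha, cubic_inj h6]
    obtain ⟨p, hpc⟩ := CharP.exists K
    haveI hpp : Fact p.Prime := ⟨(CharP.char_is_prime_or_zero K p).resolve_right
      (fun h => by
        subst h
        exact CharP.char_ne_zero_of_finite K 0 rfl)⟩
    refine ⟨K, iF, iK, p, hpp, hpc, hqa, ⟨hMab, ?_⟩, ?_, ⟨e⟩⟩
    · -- the exponent of `M`
      intro x hx
      let W : Subgroup (Matrix.ProjectiveSpecialLinearGroup (Fin 2) K) := M.map e.toMonoidHom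
      have hWcard : Nat.card W = Fintype.card K := by
        rw [show Fintype.card K = Nat.card M from hqa]
        exact Nat.card_congr (Subgroup.equivMapOfInjective M e.toMonoidHom e.injective).symm.toEquiv
      obtain ⟨n, hpn, hn⟩ := FiniteField.card K p
      have hWp : IsPGroup p W := IsPGroup.of_card (n := n) (by rw [hWcard, hn])
      obtain ⟨Q, hQ, hQW⟩ := exists_isPGroup_map_eq p
        (mkP : SL(2, K) →* Matrix.ProjectiveSpecialLinearGroup (Fin 2) K) mkP_surjective W hWp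
      obtain ⟨g, hg⟩ := exists_conj_mem_U_of_isPGroup p hQ
      have hxW : e x ∈ W := ⟨x, hx, rfl⟩
      rw [← hQW] at hxW
      obtain ⟨a, ha, hax⟩ := hxW
      obtain ⟨t, ht⟩ := (mem_U).mp (hg a ha)
      have h1 : (g * a * g⁻¹) ^ p = 1 := by
        rw [ht, x_pow, CharP.cast_eq_zero, zero_mul, x_zero]
      have h2 : a ^ p = 1 := by
        have h3 : (g * a * g⁻¹) ^ p = g * a ^ p * g⁻¹ := by
          rw [conj_pow]
        rw [h3] at h1
        have h4 : a ^ p = g⁻¹ * (g * a ^ p * g⁻¹) * g := by group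
        rw [h4, h1]; simp
      have h3 : (e x) ^ p = 1 := by
        rw [← hax]
        show (mkP a) ^ p = 1
        rw [← map_pow, h2, map_one]
      rw [← map_pow] at h3
      exact e.injective (by rw [h3, map_one])
    · -- `q ≡ 1 mod 4`
      obtain ⟨k, hk⟩ := h2b
      rw [show Fintype.card K = Nat.card M from hqa]
      omega

end two

end PlaneHyp

end Cfsg.Agent.Lib.Perm.TICount
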