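import Mathlib

/-!
# Sylow subgroups of transitive groups of prime power degree

* `isPretransitive_sylow`: if `G` is transitive on a set of size `p ^ f`, every Sylow `p`-subgroup of
  `G` is transitive.
-/

namespace Cfsg.Agent.Lib.Perm.SylowTrans

open MulAction

variable {G Ω : Type*} [Group G] [Finite G] [MulAction G Ω] [IsPretransitive G Ω] [Finite Ω]

/-- If `G` is transitive on a set of size `p ^ f`, every Sylow `p`-subgroup of `G` is transitive. -/
theorem isPretransitive_sylow {p f : ℕ} [hp : Fact p.Prime] (hcard : Nat.card Ω = p ^ f)
    (P : Sylow p G) : IsPretransitive (P : Subgroup G) Ω := by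
  classical
  have hne : Nonempty Ω := by
    by_contra hcon
    rw [not_nonempty_iff] at hcon
    have : Nat.card Ω = 0 := Nat.card_of_isEmpty
    rw [hcard] at this
    exact (pow_pos hp.out.pos f).ne' this
  obtain ⟨a⟩ := hne
  -- `|G| = |G_a| * p ^ f`
  have hGa : Nat.card (stabilizer G a) * p ^ f = Nat.card G := by
    have h := (stabilizer G a).card_mul_index
    rw [index_stabilizer_of_transitive, hcard] at h
    exact h
  obtain ⟨m, hm⟩ := (IsPGroup.iff_card (p := p)).mp (P.isPGroup'.to_subgroup ((stabilizer (P : Subgroup G) a)))
  have hPcard : Nat.card (P : Subgroup G) = p ^ (Nat.card G).factorization p := Sylow.card_eq_multiplicity P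
  have hdvd : p ^ m * p ^ f ∣ Nat.card G := by
    rw [← hGa]
    apply Nat.mul_dvd_mul_right
    rw [← hm]
    -- the stabilizer in `P` embeds in the stabilizer in `G`
    let ι : stabilizer (P : Subgroup G) a →* stabilizer G a :=
      { toFun := fun x => ⟨(x.1 : G), by
          have := x.2; rw [mem_stabilizer_iff] at this ⊢; exact this⟩
        map_one' := rfl
        map_mul' := fun _ _ => rfl }
    have hι : Function.Injective ι := by
      intro x y hxy
      apply Subtype.ext
      apply Subtype.ext
      have h := congrArg (fun z : stabilizer G a => (z : G)) hxy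
      exact h
    exact Subgroup.card_dvd_of_injective ι hι
  -- the orbit has at least `p ^ f` points
  have hle : m + f ≤ (Nat.card G).factorization p := by
    rw [← pow_add] at hdvd
    exact (hp.out.pow_dvd_iff_le_factorization Nat.card_pos.ne').mp hdvd
  have horb := (stabilizer (P : Subgroup G) a).card_mul_index
  rw [index_stabilizer, hm, hPcard] at horb
  have hcardorb : (orbit (P : Subgroup G) a).ncard = p ^ ((Nat.card G).factorization p - m) := by
    have hp0 : 0 < p ^ m := pow_pos hp.out.pos m
    apply Nat.eq_of_mul_eq_mul_left hp0
    rw [horb, ← pow_add]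
    congr 1
    omega
  have huniv : orbit (P : Subgroup G) a = Set.univ := by
    apply Set.eq_of_subset_of_ncard_le (Set.subset_univ _)
    rw [Set.ncard_univ, hcard]
    rw [hcardorb]
    exact Nat.pow_le_pow_right hp.out.pos (by omega)
  exact (isPretransitive_iff_orbit_eq_univ a).mpr huniv

end Cfsg.Agent.Lib.Perm.SylowTrans
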