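import Mathlib

/-! Finite checks on involutions in `A₆` (all by kernel evaluation). -/

set_option autoImplicit false

namespace Cfsg.Agent.Lib.Perm.A6Inv

open Equiv

/-- a fixed involution of `A₆`. -/
def zz : Perm (Fin 6) := swap 0 1 * swap 2 3

set_option maxRecDepth 100000 in
theorem chk1 : ∀ z : Perm (Fin 6), z * z = 1 → z ≠ 1 → Perm.sign z = 1 →
    ∃ g : Perm (Fin 6), g * zz * g⁻¹ = z := by
  decide +kernel

set_option maxRecDepth 100000 in
theorem chk2 : (Finset.univ.filter (fun a : Perm (Fin 6) => a * zz = zz * a ∧ Perm.sign a = 1)).card = 8 := by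
  decide +kernel

set_option maxRecDepth 100000 in
theorem chk3 : (Finset.univ.filter (fun w : Perm (Fin 6) => w * w = 1 ∧ (zz * w) ^ 3 = 1 ∧ Perm.sign w = 1)).card < 32 := by
  decide +kernel

set_option maxRecDepth 100000 in
theorem chk4 : (Finset.univ.filter (fun w : Perm (Fin 6) => w * w = 1 ∧ (zz * w) ^ 4 = 1 ∧ Perm.sign w = 1)).card < 32 := by
  decide +kernel

set_option maxRecDepth 100000 in
theorem chk5 : (Finset.univ.filter (fun w : Perm (Fin 6) => w * w = 1 ∧ (zz * w) ^ 5 = 1 ∧ Perm.sign w = 1)).card < 32 := by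
  decide +kernel

set_option maxRecDepth 100000 in
theorem chk6 : ∀ g : Perm (Fin 6), g ^ 3 = 1 ∨ g ^ 4 = 1 ∨ g ^ 5 = 1 ∨ Perm.sign g ≠ 1 := by
  decide +kernel

end Cfsg.Agent.Lib.Perm.A6Inv
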