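import Mathlib
set_option autoImplicit false
open Equiv Equiv.Perm MulAction
namespace Cfsg.Agent.Lib.Perm.AbelianOrder

/-- The maximal product of a partition of `n`. -/
def M : ℕ → ℕ
  | 0 => 1
  | 1 => 1
  | 2 => 2
  | 3 => 3
  | 4 => 4
  | (n + 5) => 3 * M (n + 2)

theorem M_step (n : ℕ) : M (n + 5) = 3 * M (n + 2) := by rw [M]

theorem M_pos (n : ℕ) : 0 < M n := by
  induction n using Nat.strong_induction_on with
  | _ n ih =>
    match n with
    | 0 | 1 | 2 | 3 | 4 => simp [M]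
    | n + 5 =>
      rw [M_step]
      have := ih (n + 2) (by omega)
      omega

theorem M_three (n : ℕ) : 3 * M n ≤ M (n + 3) := by
  match n with
  | 0 => simp [M]
  | 1 => simp [M]
  | n + 2 => rw [show n + 2 + 3 = n + 5 by ring, M_step]

theorem M_succ (n : ℕ) : M n ≤ M (n + 1) := by
  induction n using Nat.strong_induction_on with
  | _ n ih =>
    match n with
    | 0 | 1 | 2 | 3 => simp [M]
    | 4 => simp [M]
    | n + 5 =>
      rw [show n + 5 + 1 = (n + 1) + 5 by ring, M_step, M_step]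
      have := ih (n + 2) (by omega)
      have h2 : n + 2 + 1 = n + 1 + 2 := by ring
      rw [h2] at this
      omega

theorem M_two (k : ℕ) : 2 * M k ≤ M (k + 2) := by
  induction k using Nat.strong_induction_on with
  | _ k ih =>
    match k with
    | 0 | 1 | 2 | 3 | 4 => simp [M]
    | k + 5 =>
      rw [show k + 5 + 2 = (k + 2) + 5 by ring, M_step, M_step]
      have := ih (k + 2) (by omega)
      omega

theorem M_four (k : ℕ) : 4 * M k ≤ M (k + 4) := by
  induction k using Nat.strong_induction_on with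
  | _ k ih =>
    match k with
    | 0 | 1 | 2 | 3 | 4 => simp [M]
    | k + 5 =>
      rw [show k + 5 + 4 = (k + 4) + 5 by ring, M_step, M_step]
      have := ih (k + 2) (by omega)
      rw [show k + 2 + 4 = k + 4 + 2 by ring] at this
      omega

/-- The key inequality. -/
theorem M_mul (m k : ℕ) : m * M k ≤ M (k + m) := by
  induction m using Nat.strong_induction_on with
  | _ m ih =>
    match m with
    | 0 => simp
    | 1 => simpa using M_succ k
    | 2 => exact M_two k
    | 3 => exact M_three k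
    | 4 => exact M_four k
    | m + 5 =>
      have h1 := ih (m + 2) (by omega)
      have h2 := M_three (k + (m + 2))
      rw [show k + (m + 2) + 3 = k + (m + 5) by ring] at h2
      calc (m + 5) * M k ≤ 3 * ((m + 2) * M k) := by
            rw [← mul_assoc]
            exact Nat.mul_le_mul_right _ (by omega)
        _ ≤ 3 * M (k + (m + 2)) := Nat.mul_le_mul_left _ h1
        _ ≤ _ := h2

theorem M_3k (k : ℕ) : M (3 * k) = 3 ^ k := by
  induction k with
  | zero => simp [M]
  | succ k ih =>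
    match k, ih with
    | 0, _ => simp [M]
    | k + 1, ih =>
      rw [show 3 * (k + 1 + 1) = (3 * k + 1) + 5 by ring, M_step,
        show 3 * k + 1 + 2 = 3 * (k + 1) by ring, ih]
      ring

theorem M_3k1 (k : ℕ) (hk : 1 ≤ k) : M (3 * k + 1) = 4 * 3 ^ (k - 1) := by
  induction k, hk using Nat.le_induction with
  | base => simp [M]
  | succ k hk ih =>
    rw [show 3 * (k + 1) + 1 = (3 * k - 1) + 5 by omega, M_step,
      show 3 * k - 1 + 2 = 3 * k + 1 by omega, ih]
    obtain ⟨j, rfl⟩ : ∃ j, k = j + 1 := ⟨k - 1, by omega⟩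
    simp only [Nat.add_sub_cancel]
    ring

theorem M_3k2 (k : ℕ) : M (3 * k + 2) = 2 * 3 ^ k := by
  induction k with
  | zero => simp [M]
  | succ k ih =>
    rw [show 3 * (k + 1) + 2 = (3 * k) + 5 by ring, M_step, ih]
    ring

universe u

/-- Abelian permutation groups: `|A| ≤ m * |A'|` when removing an orbit. -/
theorem card_le_of_orbit {X : Type u} [Fintype X] (A : Subgroup (Perm X))
    (hA : ∀ a ∈ A, ∀ b ∈ A, a * b = b * a) (x : X) :
    ∃ (S : Type u) (_ : Fintype S) (A' : Subgroup (Perm S)),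
      Fintype.card S + Nat.card (orbit A x) = Fintype.card X ∧
      (∀ a ∈ A', ∀ b ∈ A', a * b = b * a) ∧
      Nat.card A ≤ Nat.card (orbit A x) * Nat.card A' := by
  classical
  let S' : SubMulAction A X :=
    { carrier := (orbit A x)ᶜ
      smul_mem' := fun g y hy hh => hy (by
        obtain ⟨h, hh⟩ := hh
        refine ⟨g⁻¹ * h, ?_⟩
        show (g⁻¹ * h) • x = y
        rw [mul_smul]
        have : h • x = g • y := hh
        rw [this, inv_smul_smul]) }
  letI : Fintype S' := Fintype.ofFinite _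
  refine ⟨S', inferInstance, (toPermHom A S').range, ?_, ?_, ?_⟩
  · rw [← Nat.card_eq_fintype_card, ← Nat.card_eq_fintype_card (α := X)]
    have h1 : Nat.card S' = ((orbit A x)ᶜ : Set X).ncard := Nat.card_coe_set_eq _
    rw [h1, Nat.card_coe_set_eq, add_comm]
    exact Set.ncard_add_ncard_compl _
  · rintro _ ⟨a, rfl⟩ _ ⟨b, rfl⟩
    rw [← map_mul, ← map_mul]
    congr 1
    exact Subtype.ext (hA a a.2 b b.2)
  · have h1 := Subgroup.card_mul_index (toPermHom A S').ker
    rw [Subgroup.index_ker] at h1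
    rw [← h1]
    refine Nat.mul_le_mul_right _ ?_
    -- the kernel embeds in the orbit
    let F : (toPermHom A S').ker → orbit A x := fun k => ⟨(k : A) • x, ⟨k, rfl⟩⟩
    have hF : Function.Injective F := by
      intro k k' hkk
      have h2 : ((k : A) : Perm X) x = ((k' : A) : Perm X) x := congrArg Subtype.val hkk
      apply Subtype.ext
      apply Subtype.ext
      ext y
      by_cases hy : y ∈ orbit A x
      · obtain ⟨c, rfl⟩ := hy
        show ((k : A) : Perm X) ((c : Perm X) x) = ((k' : A) : Perm X) ((c : Perm X) x)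
        have h3 : ((k : A) : Perm X) * (c : Perm X) = (c : Perm X) * ((k : A) : Perm X) :=
          hA _ (k : A).2 _ c.2
        have h4 : ((k' : A) : Perm X) * (c : Perm X) = (c : Perm X) * ((k' : A) : Perm X) :=
          hA _ (k' : A).2 _ c.2
        have h5 := congrArg (fun f : Perm X => f x) h3
        have h6 := congrArg (fun f : Perm X => f x) h4
        simp only [Perm.coe_mul, Function.comp_apply] at h5 h6
        rw [h5, h6, h2]
      · have h3 : ∀ k'' : (toPermHom A S').ker, ((k'' : A) : Perm X) y = y := by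
          intro k''
          have h4 : toPermHom A S' (k'' : A) = 1 := k''.2
          have h5 := congrArg (fun f : Perm S' => ((f ⟨y, hy⟩ : S') : X)) h4
          exact h5
        rw [h3, h3]
    exact Nat.card_le_card_of_injective F hF

/-- The abelian bound in a symmetric group. -/
theorem card_le_M : ∀ (n : ℕ) (X : Type u) [Fintype X] (A : Subgroup (Perm X)),
    Fintype.card X = n → (∀ a ∈ A, ∀ b ∈ A, a * b = b * a) → Nat.card A ≤ M n := by
  intro n
  induction n using Nat.strong_induction_on with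
  | _ n ih =>
    intro X _ A hX hA
    rcases isEmpty_or_nonempty X with hE | ⟨⟨x⟩⟩
    · have h0 : Nat.card A = 1 := by
        haveI : Subsingleton (Perm X) := inferInstance
        exact Nat.card_unique
      rw [h0]
      exact M_pos n
    · obtain ⟨S, _, A', h1, h2, h3⟩ := card_le_of_orbit A hA x
      have hm : 0 < Nat.card (orbit A x) := Nat.card_pos_iff.mpr ⟨⟨⟨x, mem_orbit_self x⟩⟩, inferInstance⟩
      have h4 := ih (Fintype.card S) (by omega) S A' rfl h2
      have h5 := M_mul (Nat.card (orbit A x)) (Fintype.card S)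
      rw [h1, hX] at h5
      exact h3.trans ((Nat.mul_le_mul_left _ h4).trans h5)

/-- Sum construction of abelian subgroups. -/
theorem exists_sum {X Y : Type} [Fintype X] [Fintype Y] {c d : ℕ} {A : Subgroup (Perm X)}
    {B : Subgroup (Perm Y)} (hA : ∀ a ∈ A, ∀ b ∈ A, a * b = b * a)
    (hB : ∀ a ∈ B, ∀ b ∈ B, a * b = b * a) (hc : Nat.card A = c) (hd : Nat.card B = d) :
    ∃ C : Subgroup (Perm (X ⊕ Y)), (∀ a ∈ C, ∀ b ∈ C, a * b = b * a) ∧ Nat.card C = c * d ∧
      (∀ g ∈ C, ∃ a ∈ A, ∃ b ∈ B, g = Equiv.Perm.sumCongr a b) := by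
  classical
  refine ⟨(A.prod B).map (sumCongrHom X Y), ?_, ?_, ?_⟩
  · rintro _ ⟨⟨a, b⟩, ⟨ha, hb⟩, rfl⟩ _ ⟨⟨a', b'⟩, ⟨ha', hb'⟩, rfl⟩
    rw [← map_mul, ← map_mul]
    congr 1
    exact Prod.ext (hA a ha a' ha') (hB b hb b' hb')
  · rw [Subgroup.card_map_of_injective (sumCongrHom_injective), Nat.card_congr (Subgroup.prodEquiv A B).toEquiv,
      Nat.card_prod, hc, hd]
  · rintro _ ⟨⟨a, b⟩, ⟨ha, hb⟩, rfl⟩
    exact ⟨a, ha, b, hb, rfl⟩

/-- Transport along an equivalence. -/
theorem exists_transport {X Y : Type} (e : X ≃ Y) {c : ℕ} {A : Subgroup (Perm X)}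
    (hA : ∀ a ∈ A, ∀ b ∈ A, a * b = b * a) (hc : Nat.card A = c) :
    ∃ C : Subgroup (Perm Y), (∀ a ∈ C, ∀ b ∈ C, a * b = b * a) ∧ Nat.card C = c ∧
      (∀ g ∈ C, ∃ a ∈ A, g = e.permCongr a) := by
  refine ⟨A.map (e.permCongrHom : Perm X ≃* Perm Y).toMonoidHom, ?_, ?_, ?_⟩
  · rintro _ ⟨a, ha, rfl⟩ _ ⟨b, hb, rfl⟩
    rw [← map_mul, ← map_mul, hA a ha b hb]
  · rw [Subgroup.card_map_of_injective (MulEquiv.injective _), hc]
  · rintro _ ⟨a, ha, rfl⟩
    exact ⟨a, ha, rfl⟩

/-- Abelian subgroups on `Fin`, with the evenness flag. -/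
theorem exists_add {n m c d : ℕ} {A : Subgroup (Perm (Fin n))} {B : Subgroup (Perm (Fin m))}
    (hA : ∀ a ∈ A, ∀ b ∈ A, a * b = b * a) (hB : ∀ a ∈ B, ∀ b ∈ B, a * b = b * a)
    (hc : Nat.card A = c) (hd : Nat.card B = d) :
    ∃ C : Subgroup (Perm (Fin (n + m))), (∀ a ∈ C, ∀ b ∈ C, a * b = b * a) ∧ Nat.card C = c * d ∧
      ((∀ a ∈ A, sign a = 1) → (∀ b ∈ B, sign b = 1) → ∀ g ∈ C, sign g = 1) := by
  obtain ⟨C₁, h1, h2, h3⟩ := exists_sum hA hB hc hd
  obtain ⟨C₂, h4, h5, h6⟩ := exists_transport finSumFinEquiv h1 h2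
  refine ⟨C₂, h4, h5, ?_⟩
  intro hevA hevB g hg
  obtain ⟨a, ha, rfl⟩ := h6 g hg
  obtain ⟨a', ha', b', hb', rfl⟩ := h3 a ha
  rw [sign_permCongr, sign_sumCongr, hevA a' ha', hevB b' hb', one_mul]

theorem orderOf_finRotate' (m : ℕ) (hm : 2 ≤ m) : orderOf (finRotate m) = m := by
  obtain ⟨j, rfl⟩ : ∃ j, m = j + 2 := ⟨m - 2, by omega⟩
  rw [(isCycle_finRotate).orderOf, support_finRotate]
  simp

/-- The cyclic group on `m` points. -/
theorem exists_cyc (m : ℕ) (hm : 2 ≤ m) : ∃ B : Subgroup (Perm (Fin m)),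
    (∀ a ∈ B, ∀ b ∈ B, a * b = b * a) ∧ Nat.card B = m ∧
    (sign (finRotate m) = 1 → ∀ b ∈ B, sign b = 1) := by
  refine ⟨Subgroup.zpowers (finRotate m), ?_, ?_, ?_⟩
  · rintro _ ⟨i, rfl⟩ _ ⟨j, rfl⟩
    simp only
    rw [← zpow_add, ← zpow_add, add_comm]
  · rw [Nat.card_zpowers, orderOf_finRotate' m hm]
  · rintro h _ ⟨i, rfl⟩
    simp only
    rw [map_zpow, h, one_zpow]

theorem exists_bot (n : ℕ) : ∃ A : Subgroup (Perm (Fin n)),
    (∀ a ∈ A, ∀ b ∈ A, a * b = b * a) ∧ Nat.card A = 1 ∧ (∀ a ∈ A, sign a = 1) := by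
  refine ⟨⊥, ?_, ?_, ?_⟩
  · intro a ha b hb
    rw [Subgroup.mem_bot] at ha hb
    rw [ha, hb]
  · simp
  · intro a ha
    rw [Subgroup.mem_bot] at ha
    rw [ha, map_one]

theorem sign_finRotate_three : sign (finRotate 3) = 1 := by decide

/-- Adding a 3-cycle. -/
theorem exists_add_three {n c : ℕ} {A : Subgroup (Perm (Fin n))}
    (hA : ∀ a ∈ A, ∀ b ∈ A, a * b = b * a) (hc : Nat.card A = c) (hev : ∀ a ∈ A, sign a = 1) :
    ∃ C : Subgroup (Perm (Fin (n + 3))), (∀ a ∈ C, ∀ b ∈ C, a * b = b * a) ∧ Nat.card C = 3 * c ∧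
      (∀ g ∈ C, sign g = 1) := by
  obtain ⟨B, h1, h2, h3⟩ := exists_cyc 3 (by norm_num)
  obtain ⟨C, h4, h5, h6⟩ := exists_add hA h1 hc h2
  exact ⟨C, h4, by rw [h5, mul_comm], h6 hev (h3 sign_finRotate_three)⟩

/-- Adding a Klein four-group on four points. -/
theorem exists_add_four {n c : ℕ} {A : Subgroup (Perm (Fin n))}
    (hA : ∀ a ∈ A, ∀ b ∈ A, a * b = b * a) (hc : Nat.card A = c) (hev : ∀ a ∈ A, sign a = 1) :
    ∃ C : Subgroup (Perm (Fin (n + 4))), (∀ a ∈ C, ∀ b ∈ C, a * b = b * a) ∧ Nat.card C = 4 * c ∧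
      (∀ g ∈ C, sign g = 1) := by
  have h4 : Nat.card (Fin 4) = 4 := by simp
  haveI hk := alternatingGroup.kleinFour_isKleinFour (α := Fin 4) h4
  let V : Subgroup (Perm (Fin 4)) := (alternatingGroup.kleinFour (Fin 4)).map (alternatingGroup (Fin 4)).subtype
  have hV1 : ∀ a ∈ V, ∀ b ∈ V, a * b = b * a := by
    rintro _ ⟨a, ha, rfl⟩ _ ⟨b, hb, rfl⟩
    haveI hc' : IsMulCommutative (alternatingGroup.kleinFour (Fin 4)) := IsKleinFour.isMulCommutative
    have := hc'.is_comm.comm (⟨a, ha⟩ : alternatingGroup.kleinFour (Fin 4)) ⟨b, hb⟩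
    have h2 := congrArg (fun x : alternatingGroup.kleinFour (Fin 4) => (((x : alternatingGroup (Fin 4)) : Perm (Fin 4)))) this
    exact h2
  have hV2 : Nat.card V = 4 := by
    rw [Subgroup.card_map_of_injective (alternatingGroup (Fin 4)).subtype_injective]
    exact alternatingGroup.kleinFour_card_of_card_eq_four h4
  have hV3 : ∀ b ∈ V, sign b = 1 := by
    rintro _ ⟨a, _, rfl⟩
    exact a.2
  obtain ⟨C, h5, h6, h7⟩ := exists_add hA hV1 hc hV2
  exact ⟨C, h5, by rw [h6, mul_comm], h7 hev hV3⟩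

theorem exists_M (n : ℕ) : ∃ A : Subgroup (Perm (Fin n)),
    (∀ a ∈ A, ∀ b ∈ A, a * b = b * a) ∧ Nat.card A = M n := by
  induction n using Nat.strong_induction_on with
  | _ n ih =>
    match n with
    | 0 =>
      obtain ⟨A, h1, h2, -⟩ := exists_bot 0
      exact ⟨A, h1, by rw [h2]; rfl⟩
    | 1 =>
      obtain ⟨A, h1, h2, -⟩ := exists_bot 1
      exact ⟨A, h1, by rw [h2]; rfl⟩
    | 2 =>
      obtain ⟨A, h1, h2, -⟩ := exists_cyc 2 (by norm_num)
      exact ⟨A, h1, by rw [h2]; rfl⟩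
    | 3 =>
      obtain ⟨A, h1, h2, -⟩ := exists_cyc 3 (by norm_num)
      exact ⟨A, h1, by rw [h2]; rfl⟩
    | 4 =>
      obtain ⟨A, h1, h2, -⟩ := exists_cyc 4 (by norm_num)
      exact ⟨A, h1, by rw [h2]; rfl⟩
    | n + 5 =>
      obtain ⟨A, h1, h2⟩ := ih (n + 2) (by omega)
      obtain ⟨B, h3, h4, -⟩ := exists_cyc 3 (by norm_num)
      obtain ⟨C, h5, h6, -⟩ := exists_add h1 h3 h2 h4
      exact ⟨C, h5, by rw [h6, M_step, mul_comm]⟩

/-- The symmetric-group part of the abelian bound. -/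
theorem isGreatest_sym (n : ℕ) :
    IsGreatest {c : ℕ | ∃ A : Subgroup (Perm (Fin n)), IsMulCommutative A ∧ Nat.card A = c} (M n) := by
  constructor
  · obtain ⟨A, h1, h2⟩ := exists_M n
    refine ⟨A, ⟨⟨fun a b => Subtype.ext (h1 a a.2 b b.2)⟩⟩, h2⟩
  · rintro c ⟨A, hA, rfl⟩
    refine card_le_M n (Fin n) A (Fintype.card_fin n) fun a ha b hb => ?_
    have := hA.is_comm.comm ⟨a, ha⟩ ⟨b, hb⟩
    exact congrArg Subtype.val this

theorem num_E : ∀ (m k : ℕ), 5 ≤ m → 2 ≤ k → m ≤ 3 * k + 2 →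
    m * M (3 * k + 2 - m) ≤ 16 * 3 ^ (k - 2) := by
  intro m
  induction m using Nat.strong_induction_on with
  | _ m ih =>
    intro k hm hk hmk
    obtain ⟨j, rfl⟩ : ∃ j, k = j + 2 := ⟨k - 2, by omega⟩
    simp only [Nat.add_sub_cancel]
    by_cases h5 : m = 5
    · subst h5
      rw [show 3 * (j + 2) + 2 - 5 = 3 * (j + 1) by omega, M_3k, pow_succ]
      omega
    by_cases h6 : m = 6
    · subst h6
      rw [show 3 * (j + 2) + 2 - 6 = 3 * j + 2 by omega, M_3k2]
      omega
    by_cases h7 : m = 7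
    · subst h7
      rcases j with _ | j
      · simp [M]
      · rw [show 3 * (j + 1 + 2) + 2 - 7 = 3 * (j + 1) + 1 by omega, M_3k1 _ (by omega)]
        simp only [Nat.add_sub_cancel]
        rw [pow_succ]
        omega
    -- `m ≥ 8`
    rcases j with _ | j
    · have hm8 : m = 8 := by omega
      subst hm8
      simp [M]
    · have h1 := ih (m - 3) (by omega) (j + 2) (by omega) (by omega) (by omega)
      simp only [Nat.add_sub_cancel] at h1
      rw [show 3 * (j + 2) + 2 - (m - 3) = 3 * (j + 1 + 2) + 2 - m by omega] at h1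
      rw [pow_succ]
      calc m * M (3 * (j + 1 + 2) + 2 - m)
          ≤ (3 * (m - 3)) * M (3 * (j + 1 + 2) + 2 - m) := Nat.mul_le_mul_right _ (by omega)
        _ = 3 * ((m - 3) * M (3 * (j + 1 + 2) + 2 - m)) := by ring
        _ ≤ 3 * (16 * 3 ^ j) := Nat.mul_le_mul_left _ h1
        _ = _ := by ring

theorem num_E' (m k : ℕ) (hm : m ≠ 2) (hm3 : m ≠ 3) (hm0 : 1 ≤ m) (hk : 2 ≤ k)
    (hmk : m ≤ 3 * k + 2) : m * M (3 * k + 2 - m) ≤ 16 * 3 ^ (k - 2) := by
  by_cases h5 : 5 ≤ m
  · exact num_E m k h5 hk hmk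
  obtain ⟨j, rfl⟩ : ∃ j, k = j + 2 := ⟨k - 2, by omega⟩
  simp only [Nat.add_sub_cancel]
  have h : m = 1 ∨ m = 4 := by omega
  rcases h with rfl | rfl
  · rw [show 3 * (j + 2) + 2 - 1 = 3 * (j + 2) + 1 by omega, M_3k1 _ (by omega)]
    simp only [one_mul]
    rw [show j + 2 - 1 = j + 1 by omega, pow_succ]
    omega
  · rw [show 3 * (j + 2) + 2 - 4 = 3 * (j + 1) + 1 by omega, M_3k1 _ (by omega)]
    simp only [Nat.add_sub_cancel]
    omega

/-- Splitting along an invariant subset. -/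
theorem card_le_of_invariant {X : Type u} [Fintype X] (A : Subgroup (Perm X))
    (hA : ∀ a ∈ A, ∀ b ∈ A, a * b = b * a) (W : Set X) (hW : ∀ a ∈ A, ∀ y ∈ W, a y ∈ W)
    (hWinv : ∀ a ∈ A, ∀ y, a y ∈ W → y ∈ W) :
    Nat.card A ≤ M W.ncard * M (Wᶜ).ncard := by
  classical
  let S₁ : SubMulAction A X :=
    { carrier := W
      smul_mem' := fun g y hy => hW g g.2 y hy }
  let S₂ : SubMulAction A X :=
    { carrier := Wᶜ
      smul_mem' := fun g y hy hh => hy (hWinv g g.2 y hh) }
  letI : Fintype S₁ := Fintype.ofFinite _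
  letI : Fintype S₂ := Fintype.ofFinite _
  have hc₁ : Fintype.card S₁ = W.ncard := by
    rw [← Nat.card_eq_fintype_card]; exact Nat.card_coe_set_eq _
  have hc₂ : Fintype.card S₂ = (Wᶜ).ncard := by
    rw [← Nat.card_eq_fintype_card]; exact Nat.card_coe_set_eq _
  have hcomm : ∀ (S : SubMulAction A X), ∀ a ∈ (toPermHom A S).range, ∀ b ∈ (toPermHom A S).range, a * b = b * a := by
    rintro S _ ⟨a, rfl⟩ _ ⟨b, rfl⟩
    rw [← map_mul, ← map_mul]
    congr 1
    exact Subtype.ext (hA a a.2 b b.2)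
  have h1 := card_le_M _ S₁ (toPermHom A S₁).range hc₁ (hcomm S₁)
  have h2 := card_le_M _ S₂ (toPermHom A S₂).range hc₂ (hcomm S₂)
  refine le_trans ?_ (Nat.mul_le_mul h1 h2)
  rw [← Nat.card_prod]
  refine Nat.card_le_card_of_injective
    (fun a : A => ((⟨toPermHom A S₁ a, a, rfl⟩ : (toPermHom A S₁).range), (⟨toPermHom A S₂ a, a, rfl⟩ : (toPermHom A S₂).range))) ?_
  intro a b hab
  have h3 : toPermHom A S₁ a = toPermHom A S₁ b := congrArg (fun p => (p.1 : Perm S₁)) hab
  have h4 : toPermHom A S₂ a = toPermHom A S₂ b := congrArg (fun p => (p.2 : Perm S₂)) hab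
  apply Subtype.ext
  ext y
  by_cases hy : y ∈ W
  · have := congrArg (fun f : Perm S₁ => ((f ⟨y, hy⟩ : S₁) : X)) h3
    exact this
  · have := congrArg (fun f : Perm S₂ => ((f ⟨y, hy⟩ : S₂) : X)) h4
    exact this

/-- All orbits of size `d`: `d` divides the degree. -/
theorem dvd_card_of_orbits {G X : Type*} [Group G] [MulAction G X] [Fintype X] (d : ℕ)
    (h : ∀ x : X, Nat.card (orbit G x) = d) : d ∣ Fintype.card X := by
  classical
  letI : Fintype (orbitRel.Quotient G X) := Fintype.ofFinite _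
  have h1 := Fintype.card_congr (selfEquivSigmaOrbits G X)
  rw [h1, Fintype.card_sigma]
  refine Finset.dvd_sum fun ω _ => ?_
  rw [← Nat.card_eq_fintype_card, h]

theorem two_aux {α : Type*} (z a b p q : α) (hab : b ≠ a) (h6 : z = p ∨ z = q) (h7 : a = p ∨ a = q)
    (h8 : b = p ∨ b = q) : z = a ∨ z = b := by
  grind

set_option maxHeartbeats 1000000 in
/-- The bound for even abelian groups in degree `3k + 2`. -/
theorem card_le_E (k : ℕ) (hk : 2 ≤ k) (X : Type u) [Fintype X] [DecidableEq X] (A : Subgroup (Perm X))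
    (hX : Fintype.card X = 3 * k + 2) (hA : ∀ a ∈ A, ∀ b ∈ A, a * b = b * a)
    (hev : ∀ a ∈ A, sign a = 1) : Nat.card A ≤ 16 * 3 ^ (k - 2) := by
  classical
  by_cases h1 : ∃ x : X, Nat.card (orbit A x) ≠ 2 ∧ Nat.card (orbit A x) ≠ 3
  · obtain ⟨x, hx2, hx3⟩ := h1
    obtain ⟨S, _, A', h1, h2, h3⟩ := card_le_of_orbit A hA x
    have hm : 1 ≤ Nat.card (orbit A x) := Nat.card_pos_iff.mpr ⟨⟨⟨x, mem_orbit_self x⟩⟩, inferInstance⟩
    have h4 := card_le_M _ S A' rfl h2
    have hS : Fintype.card S = 3 * k + 2 - Nat.card (orbit A x) := by omega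
    rw [hS] at h4
    have h5 := num_E' _ k hx2 hx3 hm hk (by omega)
    exact h3.trans ((Nat.mul_le_mul_left _ h4).trans h5)
  push Not at h1
  by_cases h2 : ∃ x y : X, Nat.card (orbit A x) = 2 ∧ Nat.card (orbit A y) = 2 ∧ y ∉ orbit A x
  · obtain ⟨x, y, hx, hy, hxy⟩ := h2
    have hdisj : Disjoint (orbit A x) (orbit A y) := by
      rw [Set.disjoint_left]
      intro z hz hz'
      apply hxy
      have h3 : orbit A z = orbit A x := orbit_eq_iff.mpr hz
      have h4 : orbit A z = orbit A y := orbit_eq_iff.mpr hz'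
      rw [← h3, h4]
      exact mem_orbit_self y
    let W : Set X := orbit A x ∪ orbit A y
    have hWc : W.ncard = 4 := by
      rw [Set.ncard_union_eq hdisj, ← Nat.card_coe_set_eq, ← Nat.card_coe_set_eq, hx, hy]
    have hWc' : (Wᶜ).ncard = 3 * k + 2 - 4 := by
      have := Set.ncard_add_ncard_compl W
      rw [Nat.card_eq_fintype_card, hX, hWc] at this
      omega
    have hinv1 : ∀ a ∈ A, ∀ y ∈ W, a y ∈ W := by
      rintro a ha z (hz | hz)
      · left
        obtain ⟨c, rfl⟩ := hz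
        exact ⟨⟨a, ha⟩ * c, rfl⟩
      · right
        obtain ⟨c, rfl⟩ := hz
        exact ⟨⟨a, ha⟩ * c, rfl⟩
    have hinv2 : ∀ a ∈ A, ∀ y, a y ∈ W → y ∈ W := by
      intro a ha z hz
      have := hinv1 a⁻¹ (A.inv_mem ha) _ hz
      simpa using this
    have h3 := card_le_of_invariant A hA W hinv1 hinv2
    rw [hWc, hWc'] at h3
    refine h3.trans ?_
    obtain ⟨j, rfl⟩ : ∃ j, k = j + 2 := ⟨k - 2, by omega⟩
    rw [show 3 * (j + 2) + 2 - 4 = 3 * (j + 1) + 1 by omega, M_3k1 _ (by omega)]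
    simp [M]
    omega
  push Not at h2
  exfalso
  by_cases h3 : ∃ x : X, Nat.card (orbit A x) = 2
  · obtain ⟨a, ha⟩ := h3
    -- the orbit of `a`
    obtain ⟨p, q, hpq, hset⟩ := Nat.card_eq_two_iff.mp ha
    have hmem : ∀ z ∈ orbit A a, z = p.1 ∨ z = q.1 := by
      intro z hz
      have : (⟨z, hz⟩ : orbit A a) ∈ ({p, q} : Set (orbit A a)) := by rw [hset]; trivial
      simp only [Set.mem_insert_iff, Set.mem_singleton_iff] at this
      rcases this with h | h
      · left; exact congrArg Subtype.val h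
      · right; exact congrArg Subtype.val h
    obtain ⟨b, hb, hab⟩ : ∃ b ∈ orbit A a, b ≠ a := by
      by_cases hp : p.1 = a
      · refine ⟨q.1, q.2, ?_⟩
        intro hq
        exact hpq (Subtype.ext (hp.trans hq.symm))
      · exact ⟨p.1, p.2, hp⟩
    have hmem2 : ∀ z ∈ orbit A a, z = a ∨ z = b := by
      intro z hz
      have h5 : a ∈ orbit A a := mem_orbit_self a
      have h6 := hmem z hz
      have h7 := hmem a h5
      have h8 := hmem b hb
      exact two_aux z a b p.1 q.1 hab h6 h7 h8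
    obtain ⟨g, hg⟩ := hb
    have hga : (g : Perm X) a = b := hg
    have hgb : (g : Perm X) b = a := by
      have h5 : (g : Perm X) b ∈ orbit A a := by
        rw [← hga]
        exact ⟨g * g, rfl⟩
      rcases hmem2 _ h5 with h6 | h6
      · exact h6
      · exfalso
        rw [← hga] at h6
        have := (g : Perm X).injective h6
        rw [hga] at this
        exact hab this
    have hg3 : (g : Perm X) ^ 3 = swap a b := by
      ext z
      by_cases hz : z ∈ orbit A a
      · rcases hmem2 z hz with rfl | rfl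
        · rw [swap_apply_left]
          simp [pow_succ, hga, hgb]
        · rw [swap_apply_right]
          simp [pow_succ, hga, hgb]
      · have hz2 : Nat.card (orbit A z) = 3 := by
          by_cases h : Nat.card (orbit A z) = 2
          · exact absurd (h2 a z ha h) hz
          · exact h1 z h
        have hne1 : z ≠ a := by
          rintro rfl
          exact hz (mem_orbit_self _)
        have hne2 : z ≠ b := by
          rintro rfl
          exact hz ⟨g, hg⟩
        rw [swap_apply_of_ne_of_ne hne1 hne2]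
        haveI : (stabilizer A z).Normal := by
          constructor
          intro s hs c
          have hsz : (s : Perm X) z = z := hs
          show (c * s * c⁻¹) • z = z
          have h7 : c * s * c⁻¹ = s := by
            apply Subtype.ext
            have := hA _ c.2 _ s.2
            simp only [Subgroup.coe_mul, InvMemClass.coe_inv]
            rw [this]
            group
          rw [h7]
          exact hs
        have h5 := (stabilizer A z).pow_index_mem g
        rw [index_stabilizer, ← Nat.card_coe_set_eq, hz2] at h5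
        exact h5
    have hs := hev _ g.2
    have h5 : sign ((g : Perm X) ^ 3) = 1 := by rw [map_pow, hs, one_pow]
    rw [hg3, sign_swap hab.symm] at h5
    exact absurd h5 (by decide)
  · push Not at h3
    have h4 : ∀ x : X, Nat.card (orbit A x) = 3 := by
      intro x
      exact h1 x (h3 x)
    have h5 := dvd_card_of_orbits (G := A) 3 h4
    rw [hX] at h5
    omega

/-- The alternating-group part. -/
theorem exists_E (j : ℕ) : ∃ A : Subgroup (Perm (Fin (3 * j + 8))),
    (∀ a ∈ A, ∀ b ∈ A, a * b = b * a) ∧ Nat.card A = 16 * 3 ^ j ∧ (∀ a ∈ A, sign a = 1) := by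
  induction j with
  | zero =>
    obtain ⟨A, h1, h2, h3⟩ := exists_bot 0
    obtain ⟨B, h4, h5, h6⟩ := exists_add_four h1 h2 h3
    obtain ⟨C, h7, h8, h9⟩ := exists_add_four h4 h5 h6
    refine ⟨C, h7, h8.trans ?_, h9⟩
    simp
  | succ j ih =>
    obtain ⟨A, h1, h2, h3⟩ := ih
    obtain ⟨B, h4, h5, h6⟩ := exists_add_three h1 h2 h3
    refine ⟨B, h4, h5.trans ?_, h6⟩
    ring

theorem exists_three (j : ℕ) : ∃ A : Subgroup (Perm (Fin (3 * j))),
    (∀ a ∈ A, ∀ b ∈ A, a * b = b * a) ∧ Nat.card A = 3 ^ j ∧ (∀ a ∈ A, sign a = 1) := by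
  induction j with
  | zero =>
    obtain ⟨A, h1, h2, h3⟩ := exists_bot 0
    refine ⟨A, h1, h2.trans ?_, h3⟩
    simp
  | succ j ih =>
    obtain ⟨A, h1, h2, h3⟩ := ih
    obtain ⟨B, h4, h5, h6⟩ := exists_add_three h1 h2 h3
    refine ⟨B, h4, h5.trans ?_, h6⟩
    ring

theorem exists_four (j : ℕ) : ∃ A : Subgroup (Perm (Fin (3 * j + 4))),
    (∀ a ∈ A, ∀ b ∈ A, a * b = b * a) ∧ Nat.card A = 4 * 3 ^ j ∧ (∀ a ∈ A, sign a = 1) := by
  induction j with
  | zero =>
    obtain ⟨A, h1, h2, h3⟩ := exists_bot 0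
    obtain ⟨B, h4, h5, h6⟩ := exists_add_four h1 h2 h3
    refine ⟨B, h4, h5.trans ?_, h6⟩
    simp
  | succ j ih =>
    obtain ⟨A, h1, h2, h3⟩ := ih
    obtain ⟨B, h4, h5, h6⟩ := exists_add_three h1 h2 h3
    refine ⟨B, h4, h5.trans ?_, h6⟩
    ring

/-- Lifting even abelian groups to the alternating group. -/
theorem alt_of_even {n c : ℕ} {A : Subgroup (Perm (Fin n))}
    (h1 : ∀ a ∈ A, ∀ b ∈ A, a * b = b * a) (h2 : Nat.card A = c) (h3 : ∀ a ∈ A, sign a = 1) :
    ∃ B : Subgroup (alternatingGroup (Fin n)), IsMulCommutative B ∧ Nat.card B = c := by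
  refine ⟨A.subgroupOf (alternatingGroup (Fin n)), ⟨⟨fun a b => ?_⟩⟩, ?_⟩
  · apply Subtype.ext
    apply Subtype.ext
    exact h1 _ a.2 _ b.2
  · rw [← h2]
    exact Nat.card_congr (Subgroup.subgroupOfEquivOfLe (fun a ha => h3 a ha)).toEquiv

/-- From the alternating group to the symmetric group. -/
theorem perm_of_alt {n : ℕ} (A : Subgroup (alternatingGroup (Fin n))) (hA : IsMulCommutative A) :
    ∃ B : Subgroup (Perm (Fin n)), (∀ a ∈ B, ∀ b ∈ B, a * b = b * a) ∧ Nat.card B = Nat.card A ∧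
      (∀ a ∈ B, sign a = 1) := by
  refine ⟨A.map (alternatingGroup (Fin n)).subtype, ?_, ?_, ?_⟩
  · rintro _ ⟨a, ha, rfl⟩ _ ⟨b, hb, rfl⟩
    have := hA.is_comm.comm ⟨a, ha⟩ ⟨b, hb⟩
    have h2 := congrArg (fun x : A => (((x : alternatingGroup (Fin n)) : Perm (Fin n)))) this
    exact h2
  · exact Subgroup.card_map_of_injective (alternatingGroup (Fin n)).subtype_injective
  · rintro _ ⟨a, _, rfl⟩
    exact a.2

end Cfsg.Agent.Lib.Perm.AbelianOrder
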