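import Mathlib
import Cfsg.Agent.Lib.Perm.AbelianOrder

/-!
Largest abelian subgroups of alternating groups: orbit structure and conjugacy.
-/

set_option autoImplicit false

open Equiv Equiv.Perm MulAction

namespace Cfsg.Agent.Lib.Perm.AbelianConj

open Cfsg.Agent.Lib.Perm.AbelianOrder

/-! ### Numerics -/

theorem M_pos' (n : ℕ) : 0 < M n := M_pos n

theorem num_one {a b x : ℕ} (hb : b ≤ 2) (h : x + 1 = 3 * a + 4 * b) : M x < 3 ^ a * 4 ^ b := by
  interval_cases b
  · obtain ⟨j, rfl⟩ : ∃ j, a = j + 1 := ⟨a - 1, by omega⟩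
    rw [show x = 3 * j + 2 by omega, M_3k2, pow_succ]
    have := Nat.pos_of_ne_zero (pow_ne_zero j (by norm_num : (3:ℕ) ≠ 0))
    omega
  · rw [show x = 3 * (a + 1) by omega, M_3k, pow_succ]
    have := Nat.pos_of_ne_zero (pow_ne_zero a (by norm_num : (3:ℕ) ≠ 0))
    omega
  · rw [show x = 3 * (a + 2) + 1 by omega, M_3k1 _ (by omega)]
    simp only [show a + 2 - 1 = a + 1 by omega]
    rw [pow_succ]
    have := Nat.pos_of_ne_zero (pow_ne_zero a (by norm_num : (3:ℕ) ≠ 0))
    omega

theorem num_two {a b x : ℕ} (hb : b ≤ 2) (h : x + 2 = 3 * a + 4 * b) : M x < 3 ^ a * 4 ^ b := by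
  interval_cases b
  · obtain ⟨j, rfl⟩ : ∃ j, a = j + 1 := ⟨a - 1, by omega⟩
    rcases j with _ | j
    · rw [show x = 1 by omega]; simp [M]
    · rw [show x = 3 * (j + 1) + 1 by omega, M_3k1 _ (by omega)]
      simp only [Nat.add_sub_cancel]
      rw [pow_succ, pow_succ]
      have := Nat.pos_of_ne_zero (pow_ne_zero j (by norm_num : (3:ℕ) ≠ 0))
      omega
  · rw [show x = 3 * a + 2 by omega, M_3k2]
    have := Nat.pos_of_ne_zero (pow_ne_zero a (by norm_num : (3:ℕ) ≠ 0))
    omega
  · rw [show x = 3 * (a + 2) by omega, M_3k, pow_succ, pow_succ]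
    have := Nat.pos_of_ne_zero (pow_ne_zero a (by norm_num : (3:ℕ) ≠ 0))
    omega

theorem num_five {a b x : ℕ} (hb : b ≤ 2) (h : 5 + x = 3 * a + 4 * b) : 5 * M x < 3 ^ a * 4 ^ b := by
  interval_cases b
  · obtain ⟨j, rfl⟩ : ∃ j, a = j + 2 := ⟨a - 2, by omega⟩
    rcases j with _ | j
    · rw [show x = 1 by omega]; simp [M]
    · rw [show x = 3 * (j + 1) + 1 by omega, M_3k1 _ (by omega)]
      simp only [Nat.add_sub_cancel]
      rw [pow_succ, pow_succ, pow_succ]
      have := Nat.pos_of_ne_zero (pow_ne_zero j (by norm_num : (3:ℕ) ≠ 0))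
      omega
  · obtain ⟨j, rfl⟩ : ∃ j, a = j + 1 := ⟨a - 1, by omega⟩
    rw [show x = 3 * j + 2 by omega, M_3k2, pow_succ]
    have := Nat.pos_of_ne_zero (pow_ne_zero j (by norm_num : (3:ℕ) ≠ 0))
    omega
  · rw [show x = 3 * (a + 1) by omega, M_3k, pow_succ]
    have := Nat.pos_of_ne_zero (pow_ne_zero a (by norm_num : (3:ℕ) ≠ 0))
    omega

theorem num_six {a b x : ℕ} (hb : b ≤ 2) (h : 6 + x = 3 * a + 4 * b) : 6 * M x < 3 ^ a * 4 ^ b := by
  interval_cases b
  · obtain ⟨j, rfl⟩ : ∃ j, a = j + 2 := ⟨a - 2, by omega⟩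
    rw [show x = 3 * j by omega, M_3k, pow_succ, pow_succ]
    have := Nat.pos_of_ne_zero (pow_ne_zero j (by norm_num : (3:ℕ) ≠ 0))
    omega
  · obtain ⟨j, rfl⟩ : ∃ j, a = j + 1 := ⟨a - 1, by omega⟩
    rcases j with _ | j
    · rw [show x = 1 by omega]; simp [M]
    · rw [show x = 3 * (j + 1) + 1 by omega, M_3k1 _ (by omega)]
      simp only [Nat.add_sub_cancel]
      rw [pow_succ, pow_succ]
      have := Nat.pos_of_ne_zero (pow_ne_zero j (by norm_num : (3:ℕ) ≠ 0))
      omega
  · rw [show x = 3 * a + 2 by omega, M_3k2]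
    have := Nat.pos_of_ne_zero (pow_ne_zero a (by norm_num : (3:ℕ) ≠ 0))
    omega

theorem num_seven {a b x : ℕ} (hb : b ≤ 2) (h : 7 + x = 3 * a + 4 * b) : 7 * M x < 3 ^ a * 4 ^ b := by
  interval_cases b
  · obtain ⟨j, rfl⟩ : ∃ j, a = j + 3 := ⟨a - 3, by omega⟩
    rw [show x = 3 * j + 2 by omega, M_3k2, pow_succ, pow_succ, pow_succ]
    have := Nat.pos_of_ne_zero (pow_ne_zero j (by norm_num : (3:ℕ) ≠ 0))
    omega
  · obtain ⟨j, rfl⟩ : ∃ j, a = j + 1 := ⟨a - 1, by omega⟩
    rw [show x = 3 * j by omega, M_3k, pow_succ]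
    have := Nat.pos_of_ne_zero (pow_ne_zero j (by norm_num : (3:ℕ) ≠ 0))
    omega
  · rcases a with _ | j
    · rw [show x = 1 by omega]; simp [M]
    · rw [show x = 3 * (j + 1) + 1 by omega, M_3k1 _ (by omega)]
      simp only [Nat.add_sub_cancel]
      rw [pow_succ]
      have := Nat.pos_of_ne_zero (pow_ne_zero j (by norm_num : (3:ℕ) ≠ 0))
      omega

theorem num_big : ∀ m : ℕ, 5 ≤ m → ∀ {a b x : ℕ}, b ≤ 2 → m + x = 3 * a + 4 * b →
    m * M x < 3 ^ a * 4 ^ b := by
  intro m
  induction m using Nat.strong_induction_on with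
  | _ m ih =>
    intro hm a b x hb h
    by_cases h5 : m = 5
    · subst h5; exact num_five hb h
    by_cases h6 : m = 6
    · subst h6; exact num_six hb h
    by_cases h7 : m = 7
    · subst h7; exact num_seven hb h
    rcases a with _ | a
    · have hm8 : m = 8 := by omega
      subst hm8
      have hb2 : b = 2 := by omega
      subst hb2
      rw [show x = 0 by omega]
      simp [M]
    · have h1 := ih (m - 3) (by omega) (by omega) (a := a) (b := b) (x := x) hb (by omega)
      have hpos := M_pos x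
      calc m * M x ≤ (3 * (m - 3)) * M x := Nat.mul_le_mul_right _ (by omega)
        _ = 3 * ((m - 3) * M x) := by ring
        _ < 3 * (3 ^ a * 4 ^ b) := by omega
        _ = _ := by ring

/-- A representation `3 a + 4 b` of the right size must be the canonical one. -/
theorem num_unique {a₀ b₀ a b : ℕ} (hb₀ : b₀ ≤ 2) (h : 3 * a + 4 * b = 3 * a₀ + 4 * b₀)
    (hle : 3 ^ a₀ * 4 ^ b₀ ≤ 3 ^ a * 4 ^ b) : a = a₀ ∧ b = b₀ := by
  obtain ⟨j, hj1, hj2⟩ : ∃ j, b = b₀ + 3 * j ∧ a₀ = a + 4 * j := by
    refine ⟨(b - b₀) / 3, ?_, ?_⟩ <;> omega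
  subst hj1 hj2
  rcases j with _ | j
  · simp
  · exfalso
    have h1 : 3 ^ (a + 4 * (j + 1)) * 4 ^ b₀ = 3 ^ a * 4 ^ b₀ * 81 ^ (j + 1) := by
      rw [pow_add, pow_mul]; norm_num; ring
    have h2 : 3 ^ a * 4 ^ (b₀ + 3 * (j + 1)) = 3 ^ a * 4 ^ b₀ * 64 ^ (j + 1) := by
      rw [pow_add, pow_mul]; norm_num; ring
    rw [h1, h2] at hle
    have h3 : 0 < 3 ^ a * 4 ^ b₀ := by positivity
    have h4 := Nat.le_of_mul_le_mul_left hle h3
    have h5 : 64 ^ (j + 1) < 81 ^ (j + 1) :=
      Nat.pow_lt_pow_left (by norm_num) (by omega)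
    omega

/-! ### Orbits of even abelian groups -/

section orbits

variable {X : Type} [Fintype X] [DecidableEq X]

/-- In an abelian group of permutations, an element fixing a point fixes its whole orbit. -/
theorem fix_of_mem_orbit {A : Subgroup (Perm X)} (hA : ∀ a ∈ A, ∀ b ∈ A, a * b = b * a)
    {a : Perm X} (ha : a ∈ A) {y z : X} (hy : a y = y) (hz : z ∈ orbit A y) : a z = z := by
  obtain ⟨c, rfl⟩ := hz
  show a ((c : Perm X) y) = (c : Perm X) y
  have h3 : a * (c : Perm X) = (c : Perm X) * a := hA _ ha _ c.2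
  have h5 := congrArg (fun f : Perm X => f y) h3
  simp only [Perm.coe_mul, Function.comp_apply] at h5
  rw [h5, hy]

theorem apply_mem_orbit {A : Subgroup (Perm X)} {a : Perm X} (ha : a ∈ A) (y : X) :
    a y ∈ orbit A y := ⟨⟨a, ha⟩, rfl⟩

theorem orbit_apply_eq {A : Subgroup (Perm X)} {a : Perm X} (ha : a ∈ A) (y : X) :
    orbit A (a y) = orbit A y :=
  orbit_eq_iff.mpr (apply_mem_orbit ha y)

theorem two_points {s : Set X} (hs : s.ncard = 2) {x y z : X} (hx : x ∈ s) (hy : y ∈ s) (hxy : y ≠ x)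
    (hz : z ∈ s) : z = x ∨ z = y := by
  have h1 : ({x, y} : Set X) ⊆ s := by
    rintro w (rfl | rfl)
    · exact hx
    · exact hy
  have h2 : ({x, y} : Set X).ncard = 2 := Set.ncard_pair hxy.symm
  have h3 : ({x, y} : Set X) = s := Set.eq_of_subset_of_ncard_le h1 (by omega)
  rw [← h3] at hz
  exact hz

/-- An even abelian group with an orbit of size two embeds in the symmetric group on the rest. -/
theorem card_le_of_two (A : Subgroup (Perm X)) (hA : ∀ a ∈ A, ∀ b ∈ A, a * b = b * a)
    (hev : ∀ a ∈ A, sign a = 1) (x : X) (hx : Nat.card (orbit A x) = 2) {t : ℕ}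
    (ht : t + 2 = Fintype.card X) : Nat.card A ≤ M t := by
  classical
  let S' : SubMulAction A X :=
    { carrier := (orbit A x)ᶜ
      smul_mem' := fun g y hy hh => hy (by
        obtain ⟨h, hh⟩ := hh
        refine ⟨g⁻¹ * h, ?_⟩
        show (g⁻¹ * h) • x = y
        rw [mul_smul]
        have : h • x = g • y := hh
        rw [this, inv_smul_smul]) }
  letI : Fintype S' := Fintype.ofFinite _
  have hcard : Fintype.card S' = t := by
    rw [← Nat.card_eq_fintype_card]
    have h1 : Nat.card S' = ((orbit A x)ᶜ : Set X).ncard := Nat.card_coe_set_eq _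
    have h2 := Set.ncard_add_ncard_compl (orbit A x)
    rw [Nat.card_eq_fintype_card, ← Nat.card_coe_set_eq, hx] at h2
    omega
  have hcomm : ∀ a ∈ (toPermHom A S').range, ∀ b ∈ (toPermHom A S').range, a * b = b * a := by
    rintro _ ⟨a, rfl⟩ _ ⟨b, rfl⟩
    rw [← map_mul, ← map_mul]
    congr 1
    exact Subtype.ext (hA a a.2 b b.2)
  have h1 := card_le_M t S' (toPermHom A S').range hcard hcomm
  refine le_trans ?_ h1
  -- the map to the range is injective
  have hker : ∀ c ∈ A, (∀ y, y ∉ orbit A x → c y = y) → c = 1 := by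
    intro c hc hoff
    by_cases hcx : c x = x
    · ext y
      by_cases hy : y ∈ orbit A x
      · simpa using fix_of_mem_orbit hA hc hcx hy
      · simpa using hoff y hy
    · exfalso
      have hn : (orbit A x).ncard = 2 := by rw [← Nat.card_coe_set_eq]; exact hx
      have hxm : x ∈ orbit A x := mem_orbit_self x
      have hym : c x ∈ orbit A x := apply_mem_orbit hc x
      have hyy : c (c x) = x := by
        have h2 : c (c x) ∈ orbit A x := by
          rw [← orbit_apply_eq hc x]
          exact apply_mem_orbit hc _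
        rcases two_points hn hxm hym hcx h2 with h3 | h3
        · exact h3
        · exact absurd (c.injective h3) hcx
      have hswap : c = swap x (c x) := by
        ext y
        by_cases hy : y ∈ orbit A x
        · rcases two_points hn hxm hym hcx hy with rfl | rfl
          · simp
          · simp [hyy]
        · have hne1 : y ≠ x := by
            rintro rfl
            exact hy hxm
          have hne2 : y ≠ c x := by
            rintro rfl
            exact hy hym
          rw [hoff y hy, swap_apply_of_ne_of_ne hne1 hne2]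
      have h5 := hev c hc
      rw [hswap, sign_swap (Ne.symm hcx)] at h5
      exact absurd h5 (by decide)
  refine Nat.card_le_card_of_injective
    (fun a : A => (⟨toPermHom A S' a, a, rfl⟩ : (toPermHom A S').range)) ?_
  intro a b hab
  have h3 : toPermHom A S' a = toPermHom A S' b := congrArg Subtype.val hab
  have h4 : toPermHom A S' (a⁻¹ * b) = 1 := by rw [map_mul, map_inv, h3, inv_mul_cancel]
  have h5 := hker ((a⁻¹ * b : A) : Perm X) (a⁻¹ * b : A).2 (by
    intro y hy
    have := congrArg (fun f : Perm S' => ((f ⟨y, hy⟩ : S') : X)) h4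
    exact this)
  have h6 : a⁻¹ * b = 1 := Subtype.ext h5
  exact (inv_mul_eq_one.mp h6)

/-- The orbits of a large even abelian group have size `3` or `4`. -/
theorem orbit_card_three_four (A : Subgroup (Perm X)) (hA : ∀ a ∈ A, ∀ b ∈ A, a * b = b * a)
    (hev : ∀ a ∈ A, sign a = 1) {a₀ b₀ : ℕ} (hb₀ : b₀ ≤ 2)
    (hX : Fintype.card X = 3 * a₀ + 4 * b₀) (hc : 3 ^ a₀ * 4 ^ b₀ ≤ Nat.card A) (x : X) :
    Nat.card (orbit A x) = 3 ∨ Nat.card (orbit A x) = 4 := by
  obtain ⟨S, _, A', h1, h2, h3⟩ := card_le_of_orbit A hA x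
  have hm : 0 < Nat.card (orbit A x) :=
    Nat.card_pos_iff.mpr ⟨⟨⟨x, mem_orbit_self x⟩⟩, inferInstance⟩
  have h4 := card_le_M _ S A' rfl h2
  set m := Nat.card (orbit A x) with hmdef
  by_contra hcon
  push Not at hcon
  have hcases : m = 1 ∨ m = 2 ∨ 5 ≤ m := by omega
  rcases hcases with h1' | h2' | h5'
  · have h5 := num_one (a := a₀) (b := b₀) (x := Fintype.card S) hb₀ (by omega)
    rw [h1'] at h3
    have : Nat.card A ≤ M (Fintype.card S) := by
      calc Nat.card A ≤ 1 * Nat.card A' := h3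
        _ ≤ _ := by rw [one_mul]; exact h4
    omega
  · have h5 := card_le_of_two A hA hev x h2' (t := Fintype.card S) (by omega)
    have h6 := num_two (a := a₀) (b := b₀) (x := Fintype.card S) hb₀ (by omega)
    omega
  · have h5 := num_big m h5' (a := a₀) (b := b₀) (x := Fintype.card S) hb₀ (by omega)
    have : Nat.card A ≤ m * M (Fintype.card S) := h3.trans (Nat.mul_le_mul_left _ h4)
    omega

/-- The product of the orbit sizes is at least the order. -/
theorem card_le_prod (A : Subgroup (Perm X)) (hA : ∀ a ∈ A, ∀ b ∈ A, a * b = b * a) :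
    Function.Injective (fun (a : A) (ω : orbitRel.Quotient A X) =>
      (⟨a • ω.out, mem_orbit _ _⟩ : orbit A ω.out)) := by
  intro a b hab
  apply Subtype.ext
  ext y
  have hr : y ∈ orbit A (Quotient.mk (orbitRel A X) y).out := by
    have := Quotient.mk_out (s := orbitRel A X) y
    rw [orbitRel_apply] at this
    exact (orbit_eq_iff.mpr this) ▸ mem_orbit_self _
  set ω := Quotient.mk (orbitRel A X) y with hω
  have h1 : (a : Perm X) ω.out = (b : Perm X) ω.out := by
    have := congrFun hab ω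
    exact congrArg Subtype.val this
  have h2 : ((a⁻¹ * b : A) : Perm X) ω.out = ω.out := by
    show ((a : Perm X)⁻¹ * (b : Perm X)) ω.out = ω.out
    rw [Perm.mul_apply, ← h1]
    simp
  have h3 := fix_of_mem_orbit hA (a⁻¹ * b : A).2 h2 hr
  have h4 : ((a : Perm X)⁻¹ * (b : Perm X)) y = y := h3
  rw [Perm.mul_apply] at h4
  have h5 := congrArg (a : Perm X) h4
  simpa using h5.symm

end orbits

/-! ### Large even abelian groups -/

section good

variable {X : Type} [Fintype X] [DecidableEq X]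

/-- A large even abelian group of permutations. -/
structure Good (A : Subgroup (Perm X)) (a₀ b₀ : ℕ) : Prop where
  comm : ∀ a ∈ A, ∀ b ∈ A, a * b = b * a
  even : ∀ a ∈ A, sign a = 1
  hb : b₀ ≤ 2
  hX : Fintype.card X = 3 * a₀ + 4 * b₀
  hc : 3 ^ a₀ * 4 ^ b₀ ≤ Nat.card A

variable {A : Subgroup (Perm X)} {a₀ b₀ : ℕ}

theorem Good.orbit_card (h : Good A a₀ b₀) (x : X) :
    Nat.card (orbit A x) = 3 ∨ Nat.card (orbit A x) = 4 :=
  orbit_card_three_four A h.comm h.even h.hb h.hX h.hc x

theorem Good.count (h : Good A a₀ b₀) :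
    Nat.card {ω : orbitRel.Quotient A X // Nat.card (orbit A ω.out) = 3} = a₀ ∧
    Nat.card {ω : orbitRel.Quotient A X // Nat.card (orbit A ω.out) = 4} = b₀ ∧
    Nat.card A = 3 ^ a₀ * 4 ^ b₀ := by
  classical
  letI : Fintype (orbitRel.Quotient A X) := Fintype.ofFinite _
  set s : orbitRel.Quotient A X → ℕ := fun ω => Nat.card (orbit A ω.out) with hs
  have hs34 : ∀ ω, s ω = 3 ∨ s ω = 4 := fun ω => h.orbit_card _
  set a := (Finset.univ.filter (fun ω => s ω = 3)).card with ha
  set b := (Finset.univ.filter (fun ω => s ω = 4)).card with hb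
  have hsum : ∑ ω, s ω = Fintype.card X := by
    have h1 := Fintype.card_congr (selfEquivSigmaOrbits A X)
    rw [h1, Fintype.card_sigma]
    refine Finset.sum_congr rfl fun ω _ => ?_
    exact Nat.card_eq_fintype_card
  have hsum2 : ∑ ω, s ω = 3 * a + 4 * b := by
    have h1 : ∀ ω, s ω = (if s ω = 3 then 3 else 0) + (if s ω = 4 then 4 else 0) := by
      intro ω
      rcases hs34 ω with h3 | h4
      · simp [h3]
      · simp [h4]
    rw [Finset.sum_congr rfl fun ω _ => h1 ω, Finset.sum_add_distrib, Finset.sum_ite, Finset.sum_ite]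
    simp only [Finset.sum_const, smul_eq_mul, mul_zero, add_zero]
    rw [← ha, ← hb]
    ring
  have hprod : ∏ ω, s ω = 3 ^ a * 4 ^ b := by
    have h1 : ∀ ω, s ω = (if s ω = 3 then 3 else 1) * (if s ω = 4 then 4 else 1) := by
      intro ω
      rcases hs34 ω with h3 | h4
      · simp [h3]
      · simp [h4]
    rw [Finset.prod_congr rfl fun ω _ => h1 ω, Finset.prod_mul_distrib, Finset.prod_ite, Finset.prod_ite]
    simp only [Finset.prod_const, one_pow, mul_one]
    rw [← ha, ← hb]
  have hle : Nat.card A ≤ ∏ ω, s ω := by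
    have h1 := Nat.card_le_card_of_injective _ (card_le_prod A h.comm)
    rw [Nat.card_pi] at h1
    exact h1
  have hfin := num_unique (a := a) (b := b) h.hb (by rw [← hsum2, hsum, h.hX])
    (h.hc.trans (hle.trans (le_of_eq hprod)))
  refine ⟨?_, ?_, ?_⟩
  · rw [Nat.card_eq_fintype_card, Fintype.card_subtype]
    exact hfin.1
  · rw [Nat.card_eq_fintype_card, Fintype.card_subtype]
    exact hfin.2
  · refine le_antisymm ?_ h.hc
    rw [hfin.1.symm, hfin.2.symm, ← hprod]
    exact hle

/-- `A` is the full product of its orbits. -/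
theorem Good.full (h : Good A a₀ b₀) (y : ∀ ω : orbitRel.Quotient A X, orbit A ω.out) :
    ∃ c : A, ∀ ω : orbitRel.Quotient A X, (c : Perm X) ω.out = (y ω : X) := by
  classical
  letI : Fintype (orbitRel.Quotient A X) := Fintype.ofFinite _
  have hinj := card_le_prod A h.comm
  have hle : Nat.card (∀ ω : orbitRel.Quotient A X, orbit A ω.out) ≤ Nat.card A := by
    rw [Nat.card_pi]
    -- compute the product
    have hs34 : ∀ ω : orbitRel.Quotient A X, Nat.card (orbit A ω.out) = 3 ∨ Nat.card (orbit A ω.out) = 4 :=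
      fun ω => h.orbit_card _
    obtain ⟨h1, h2, h3⟩ := h.count
    have hprod : ∏ ω : orbitRel.Quotient A X, Nat.card (orbit A ω.out) = 3 ^ a₀ * 4 ^ b₀ := by
      have h4 : ∀ ω : orbitRel.Quotient A X, Nat.card (orbit A ω.out) =
          (if Nat.card (orbit A ω.out) = 3 then 3 else 1) * (if Nat.card (orbit A ω.out) = 4 then 4 else 1) := by
        intro ω
        rcases hs34 ω with h3 | h4
        · rw [h3]; norm_num
        · rw [h4]; norm_num
      rw [Finset.prod_congr rfl fun ω _ => h4 ω, Finset.prod_mul_distrib, Finset.prod_ite, Finset.prod_ite]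
      simp only [Finset.prod_const, one_pow, mul_one]
      rw [Nat.card_eq_fintype_card, Fintype.card_subtype] at h1 h2
      rw [h1, h2]
    rw [hprod, h3]
  obtain ⟨c, hc⟩ := (hinj.bijective_of_nat_card_le hle).2 y
  refine ⟨c, fun ω => ?_⟩
  have := congrFun hc ω
  exact congrArg Subtype.val this

/-- A single four-cycle is odd. -/
theorem sign_neg_of_four {Ω : Set X} (hΩ : Ω.ncard = 4) (c : Perm X) (hc : ∀ y, c y ∈ Ω ↔ y ∈ Ω)
    (hoff : ∀ y, y ∉ Ω → c y = y) {x : X} (hx : x ∈ Ω) (h1 : c x ≠ x) (h2 : c (c x) ≠ x)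
    (h3 : c (c (c x)) ≠ x) : sign c = -1 := by
  classical
  have hcard : Fintype.card {y // y ∈ Ω} = 4 := by
    rw [← Nat.card_eq_fintype_card]
    exact (Nat.card_coe_set_eq Ω).trans hΩ
  let e₀ : {y // y ∈ Ω} ≃ Fin 4 := Fintype.equivFinOfCardEq hcard
  let x' : {y // y ∈ Ω} := ⟨x, hx⟩
  let e : {y // y ∈ Ω} ≃ Fin 4 := e₀.trans (swap (e₀ x') 0)
  have he : e x' = 0 := by simp [e]
  let c' : Perm {y // y ∈ Ω} := c.subtypePerm hc
  have hs1 : sign c' = sign c := by
    apply sign_subtypePerm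
    intro y hy
    by_contra hy'
    exact hy (hoff y hy')
  let σ : Perm (Fin 4) := e.permCongr c'
  have hs2 : sign σ = sign c' := sign_permCongr e c'
  have hσ : ∀ y, σ (e y) = e (c' y) := by
    intro y
    simp [σ, Equiv.permCongr_apply]
  have hinj : ∀ y : {y // y ∈ Ω}, e y = 0 → y = x' := by
    intro y hy
    apply e.injective
    rw [hy, he]
  have key : ∀ σ : Perm (Fin 4), σ 0 ≠ 0 → σ (σ 0) ≠ 0 → σ (σ (σ 0)) ≠ 0 → sign σ = -1 := by decide
  have := key σ ?_ ?_ ?_
  · rw [← hs1, ← hs2, this]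
  · rw [← he, hσ]
    intro h0
    have h4 := hinj _ (h0.trans he)
    exact h1 (congrArg Subtype.val h4)
  · rw [← he, hσ, hσ]
    intro h0
    have h4 := hinj _ (h0.trans he)
    exact h2 (congrArg Subtype.val h4)
  · rw [← he, hσ, hσ, hσ]
    intro h0
    have h4 := hinj _ (h0.trans he)
    exact h3 (congrArg Subtype.val h4)

/-- Elements of `A` act on orbits of size four as involutions. -/
theorem Good.sq_fix (h : Good A a₀ b₀) {a : Perm X} (ha : a ∈ A) (x : X)
    (hx4 : Nat.card (orbit A x) = 4) : a (a x) = x := by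
  classical
  -- we may take `x` a representative
  let ω₀ : orbitRel.Quotient A X := Quotient.mk (orbitRel A X) x
  have hxm : x ∈ orbit A ω₀.out := by
    have := Quotient.mk_out (s := orbitRel A X) x
    rw [orbitRel_apply] at this
    exact (orbit_eq_iff.mpr this) ▸ mem_orbit_self _
  have horb : orbit A ω₀.out = orbit A x := (orbit_eq_iff.mpr hxm).symm
  -- the element which agrees with `a` at `x`'s orbit and is trivial elsewhere
  let y : ∀ ω : orbitRel.Quotient A X, orbit A ω.out := fun ω =>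
    if hω : ω = ω₀ then ⟨a ω.out, apply_mem_orbit ha _⟩ else ⟨ω.out, mem_orbit_self _⟩
  obtain ⟨c, hc⟩ := h.full y
  have hc0 : (c : Perm X) ω₀.out = a ω₀.out := by
    have := hc ω₀
    simpa [y] using this
  have hc1 : ∀ ω, ω ≠ ω₀ → (c : Perm X) ω.out = ω.out := by
    intro ω hω
    have := hc ω
    simpa [y, hω] using this
  -- `c` agrees with `a` on the orbit
  have heq : ∀ z ∈ orbit A x, (c : Perm X) z = a z := by
    intro z hz
    have h1 : ((c : Perm X)⁻¹ * a) ω₀.out = ω₀.out := by
      rw [Perm.mul_apply, ← hc0]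
      simp
    have h2 := fix_of_mem_orbit h.comm (A.mul_mem (A.inv_mem c.2) ha) h1 (horb ▸ hz)
    rw [Perm.mul_apply] at h2
    have h3 := congrArg (c : Perm X) h2
    simpa using h3.symm
  -- `c` is trivial off the orbit
  have hoff : ∀ z, z ∉ orbit A x → (c : Perm X) z = z := by
    intro z hz
    let ω : orbitRel.Quotient A X := Quotient.mk (orbitRel A X) z
    have hzm : z ∈ orbit A ω.out := by
      have := Quotient.mk_out (s := orbitRel A X) z
      rw [orbitRel_apply] at this
      exact (orbit_eq_iff.mpr this) ▸ mem_orbit_self _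
    have hne : ω ≠ ω₀ := by
      intro hω
      apply hz
      rw [← horb]
      rw [← hω]
      exact hzm
    exact fix_of_mem_orbit h.comm c.2 (hc1 ω hne) hzm
  have hmem : ∀ z, (c : Perm X) z ∈ orbit A x ↔ z ∈ orbit A x := by
    intro z
    constructor
    · intro hz
      by_contra hz'
      rw [hoff z hz'] at hz
      exact hz' hz
    · intro hz
      have := apply_mem_orbit c.2 z
      rw [orbit_eq_iff.mpr hz] at this
      exact this
  by_contra hne
  have hxO : x ∈ orbit A x := mem_orbit_self x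
  have hO : (orbit A x).ncard = 4 := by rw [← Nat.card_coe_set_eq]; exact hx4
  have hc2x : (c : Perm X) x = a x := heq x hxO
  have hax : a x ∈ orbit A x := apply_mem_orbit ha x
  have hc2 : (c : Perm X) ((c : Perm X) x) = a (a x) := by rw [hc2x, heq _ hax]
  have hne1 : (c : Perm X) x ≠ x := by
    intro h1
    apply hne
    rw [← hc2, h1, h1]
  have hne2 : (c : Perm X) ((c : Perm X) x) ≠ x := by
    rw [hc2]
    exact hne
  -- the fourth power fixes `x`
  have h4 : ((c : Perm X) ^ 4) x = x := by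
    haveI : (stabilizer A x).Normal := by
      constructor
      intro s hs g
      have hsz : (s : Perm X) x = x := hs
      show (g * s * g⁻¹) • x = x
      have h7 : g * s * g⁻¹ = s := by
        apply Subtype.ext
        have := h.comm _ g.2 _ s.2
        simp only [Subgroup.coe_mul, InvMemClass.coe_inv]
        rw [this]
        group
      rw [h7]
      exact hs
    have h5 := (stabilizer A x).pow_index_mem c
    rw [index_stabilizer, hO] at h5
    exact h5
  have hne3 : (c : Perm X) ((c : Perm X) ((c : Perm X) x)) ≠ x := by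
    intro h3
    apply hne1
    have h5 : ((c : Perm X) ^ 4) x = (c : Perm X) ((c : Perm X) ((c : Perm X) ((c : Perm X) x))) := by
      simp [pow_succ]
    rw [h5, h3] at h4
    exact h4
  have hsgn := sign_neg_of_four hO (c : Perm X) hmem hoff hxO hne1 hne2 hne3
  rw [h.even _ c.2] at hsgn
  exact absurd hsgn (by decide)

/-- Uniqueness of local pieces on a three-point set. -/
theorem local_eq_three {Ω : Set X} (hΩ : Ω.ncard = 3) (a b : Perm X) (ha : ∀ y, a y ∈ Ω ↔ y ∈ Ω)
    (hb : ∀ y, b y ∈ Ω ↔ y ∈ Ω)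
    (hla : (∀ y ∈ Ω, a y = y) ∨ ∀ y ∈ Ω, a y ≠ y) (hlb : (∀ y ∈ Ω, b y = y) ∨ ∀ y ∈ Ω, b y ≠ y)
    {x : X} (hx : x ∈ Ω) (hab : a x = b x) {z : X} (hz : z ∈ Ω) : a z = b z := by
  classical
  have hcard : Fintype.card {y // y ∈ Ω} = 3 := by
    rw [← Nat.card_eq_fintype_card]
    exact (Nat.card_coe_set_eq Ω).trans hΩ
  let e₀ : {y // y ∈ Ω} ≃ Fin 3 := Fintype.equivFinOfCardEq hcard
  let x' : {y // y ∈ Ω} := ⟨x, hx⟩
  let e : {y // y ∈ Ω} ≃ Fin 3 := e₀.trans (swap (e₀ x') 0)
  have he : e x' = 0 := by simp [e]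
  let a' : Perm {y // y ∈ Ω} := a.subtypePerm ha
  let b' : Perm {y // y ∈ Ω} := b.subtypePerm hb
  let σ : Perm (Fin 3) := e.permCongr a'
  let τ : Perm (Fin 3) := e.permCongr b'
  have hσ : ∀ y, σ (e y) = e (a' y) := by intro y; simp [σ, Equiv.permCongr_apply]
  have hτ : ∀ y, τ (e y) = e (b' y) := by intro y; simp [τ, Equiv.permCongr_apply]
  have key : ∀ σ τ : Perm (Fin 3), (σ = 1 ∨ ∀ i, σ i ≠ i) → (τ = 1 ∨ ∀ i, τ i ≠ i) →
      σ 0 = τ 0 → σ = τ := by decide +kernel
  have hs : σ = 1 ∨ ∀ i, σ i ≠ i := by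
    rcases hla with h | h
    · left
      refine Equiv.ext fun i => ?_
      obtain ⟨y, rfl⟩ := e.surjective i
      have h7 : a' y = y := Subtype.ext (h y y.2)
      rw [hσ, h7]
      rfl
    · right
      intro i
      obtain ⟨y, rfl⟩ := e.surjective i
      rw [hσ]
      intro h2
      exact h y y.2 (congrArg Subtype.val (e.injective h2))
  have ht : τ = 1 ∨ ∀ i, τ i ≠ i := by
    rcases hlb with h | h
    · left
      refine Equiv.ext fun i => ?_
      obtain ⟨y, rfl⟩ := e.surjective i
      have h7 : b' y = y := Subtype.ext (h y y.2)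
      rw [hτ, h7]
      rfl
    · right
      intro i
      obtain ⟨y, rfl⟩ := e.surjective i
      rw [hτ]
      intro h2
      exact h y y.2 (congrArg Subtype.val (e.injective h2))
  have h0 : σ 0 = τ 0 := by
    rw [← he, hσ, hτ]
    congr 1
    exact Subtype.ext hab
  have h1 := key σ τ hs ht h0
  have h2 : σ (e ⟨z, hz⟩) = τ (e ⟨z, hz⟩) := by rw [h1]
  rw [hσ, hτ] at h2
  exact congrArg Subtype.val (e.injective h2)

/-- Uniqueness of local pieces on a four-point set. -/
theorem local_eq_four {Ω : Set X} (hΩ : Ω.ncard = 4) (a b : Perm X) (ha : ∀ y, a y ∈ Ω ↔ y ∈ Ω)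
    (hb : ∀ y, b y ∈ Ω ↔ y ∈ Ω)
    (hla : (∀ y ∈ Ω, a y = y) ∨ ∀ y ∈ Ω, a y ≠ y) (hlb : (∀ y ∈ Ω, b y = y) ∨ ∀ y ∈ Ω, b y ≠ y)
    (hsa : ∀ y ∈ Ω, a (a y) = y) (hsb : ∀ y ∈ Ω, b (b y) = y)
    {x : X} (hx : x ∈ Ω) (hab : a x = b x) {z : X} (hz : z ∈ Ω) : a z = b z := by
  classical
  have hcard : Fintype.card {y // y ∈ Ω} = 4 := by
    rw [← Nat.card_eq_fintype_card]
    exact (Nat.card_coe_set_eq Ω).trans hΩ
  let e₀ : {y // y ∈ Ω} ≃ Fin 4 := Fintype.equivFinOfCardEq hcard
  let x' : {y // y ∈ Ω} := ⟨x, hx⟩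
  let e : {y // y ∈ Ω} ≃ Fin 4 := e₀.trans (swap (e₀ x') 0)
  have he : e x' = 0 := by simp [e]
  let a' : Perm {y // y ∈ Ω} := a.subtypePerm ha
  let b' : Perm {y // y ∈ Ω} := b.subtypePerm hb
  let σ : Perm (Fin 4) := e.permCongr a'
  let τ : Perm (Fin 4) := e.permCongr b'
  have hσ : ∀ y, σ (e y) = e (a' y) := by intro y; simp [σ, Equiv.permCongr_apply]
  have hτ : ∀ y, τ (e y) = e (b' y) := by intro y; simp [τ, Equiv.permCongr_apply]
  have key : ∀ σ τ : Perm (Fin 4), (σ = 1 ∨ (∀ i, σ i ≠ i) ∧ ∀ i, σ (σ i) = i) →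
      (τ = 1 ∨ (∀ i, τ i ≠ i) ∧ ∀ i, τ (τ i) = i) → σ 0 = τ 0 → σ = τ := by decide +kernel
  have hs : σ = 1 ∨ (∀ i, σ i ≠ i) ∧ ∀ i, σ (σ i) = i := by
    rcases hla with h | h
    · left
      refine Equiv.ext fun i => ?_
      obtain ⟨y, rfl⟩ := e.surjective i
      have h7 : a' y = y := Subtype.ext (h y y.2)
      rw [hσ, h7]
      rfl
    · right
      refine ⟨fun i => ?_, fun i => ?_⟩
      · obtain ⟨y, rfl⟩ := e.surjective i
        rw [hσ]
        intro h2
        exact h y y.2 (congrArg Subtype.val (e.injective h2))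
      · obtain ⟨y, rfl⟩ := e.surjective i
        rw [hσ, hσ]
        congr 1
        exact Subtype.ext (hsa y y.2)
  have ht : τ = 1 ∨ (∀ i, τ i ≠ i) ∧ ∀ i, τ (τ i) = i := by
    rcases hlb with h | h
    · left
      refine Equiv.ext fun i => ?_
      obtain ⟨y, rfl⟩ := e.surjective i
      have h7 : b' y = y := Subtype.ext (h y y.2)
      rw [hτ, h7]
      rfl
    · right
      refine ⟨fun i => ?_, fun i => ?_⟩
      · obtain ⟨y, rfl⟩ := e.surjective i
        rw [hτ]
        intro h2
        exact h y y.2 (congrArg Subtype.val (e.injective h2))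
      · obtain ⟨y, rfl⟩ := e.surjective i
        rw [hτ, hτ]
        congr 1
        exact Subtype.ext (hsb y y.2)
  have h0 : σ 0 = τ 0 := by
    rw [← he, hσ, hτ]
    congr 1
    exact Subtype.ext hab
  have h1 := key σ τ hs ht h0
  have h2 : σ (e ⟨z, hz⟩) = τ (e ⟨z, hz⟩) := by rw [h1]
  rw [hσ, hτ] at h2
  exact congrArg Subtype.val (e.injective h2)

/-- Local description of elements. -/
theorem Good.local (h : Good A a₀ b₀) {a : Perm X} (ha : a ∈ A) (x : X) :
    (∀ y ∈ orbit A x, a y = y) ∨ ∀ y ∈ orbit A x, a y ≠ y := by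
  by_cases h1 : ∃ y ∈ orbit A x, a y = y
  · obtain ⟨y, hy, hay⟩ := h1
    left
    intro z hz
    refine fix_of_mem_orbit h.comm ha hay ?_
    rw [orbit_eq_iff.mpr hy]
    exact hz
  · push Not at h1
    exact Or.inr h1

theorem Good.mem_orbit_iff {a : Perm X} (ha : a ∈ A) (x y : X) :
    a y ∈ orbit A x ↔ y ∈ orbit A x := by
  constructor
  · intro h1
    have h2 := apply_mem_orbit (A.inv_mem ha) (a y)
    rw [orbit_eq_iff.mpr h1] at h2
    simpa using h2
  · intro h1
    have h2 := apply_mem_orbit ha y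
    rw [orbit_eq_iff.mpr h1] at h2
    exact h2

/-- Two large even abelian groups with the same orbits are equal. -/
theorem Good.eq_of_same_orbits {B : Subgroup (Perm X)} (hA : Good A a₀ b₀) (hB : Good B a₀ b₀)
    (horb : ∀ x : X, orbit A x = orbit B x) : A = B := by
  have hle : A ≤ B := by
    intro a ha
    have hm : ∀ ω : orbitRel.Quotient B X, a ω.out ∈ orbit B ω.out := by
      intro ω
      rw [← horb]
      exact apply_mem_orbit ha _
    obtain ⟨c, hc⟩ := hB.full fun ω => ⟨a ω.out, hm ω⟩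
    have hac : a = (c : Perm X) := by
      ext z
      let ω : orbitRel.Quotient B X := Quotient.mk (orbitRel B X) z
      have hzm : z ∈ orbit B ω.out := by
        have := Quotient.mk_out (s := orbitRel B X) z
        rw [orbitRel_apply] at this
        exact (orbit_eq_iff.mpr this) ▸ mem_orbit_self _
      have h1 : a ω.out = (c : Perm X) ω.out := (hc ω).symm
      have hO := hB.orbit_card ω.out
      have ha1 : ∀ y, a y ∈ orbit B ω.out ↔ y ∈ orbit B ω.out := by
        intro y
        rw [← horb]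
        exact Good.mem_orbit_iff ha _ _
      have hc1 : ∀ y, (c : Perm X) y ∈ orbit B ω.out ↔ y ∈ orbit B ω.out :=
        fun y => Good.mem_orbit_iff c.2 _ _
      have hla : (∀ y ∈ orbit B ω.out, a y = y) ∨ ∀ y ∈ orbit B ω.out, a y ≠ y := by
        rw [← horb]
        exact hA.local ha _
      have hlc := hB.local c.2 ω.out
      rcases hO with h3 | h4
      · have hn : (orbit B ω.out).ncard = 3 := by rw [← Nat.card_coe_set_eq]; exact h3
        exact local_eq_three hn a c ha1 hc1 hla hlc (mem_orbit_self _) h1 hzm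
      · have hn : (orbit B ω.out).ncard = 4 := by rw [← Nat.card_coe_set_eq]; exact h4
        have hsa : ∀ y ∈ orbit B ω.out, a (a y) = y := by
          intro y hy
          rw [← horb] at hy
          refine hA.sq_fix ha y ?_
          have : orbit A y = orbit B ω.out := by
            rw [orbit_eq_iff.mpr hy, horb]
          rw [this]
          exact h4
        have hsc : ∀ y ∈ orbit B ω.out, (c : Perm X) ((c : Perm X) y) = y := by
          intro y hy
          refine hB.sq_fix c.2 y ?_
          rw [orbit_eq_iff.mpr hy]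
          exact h4
        exact local_eq_four hn a c ha1 hc1 hla hlc hsa hsc (mem_orbit_self _) h1 hzm
    rw [hac]
    exact c.2
  refine Subgroup.eq_of_le_of_card_ge hle ?_
  rw [hA.count.2.2, hB.count.2.2]

end good

/-! ### Conjugacy -/

section conj

variable {X : Type} [Fintype X] [DecidableEq X]

theorem mem_orbit_map_conj (A : Subgroup (Perm X)) (g : Perm X) (x y : X) :
    y ∈ orbit (A.map (MulAut.conj g).toMonoidHom) (g x) ↔ g⁻¹ y ∈ orbit A x := by
  constructor
  · rintro ⟨⟨c, c', hc', rfl⟩, rfl⟩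
    refine ⟨⟨c', hc'⟩, ?_⟩
    show c' x = g⁻¹ ((g * c' * g⁻¹) (g x))
    simp [Perm.mul_apply]
  · rintro ⟨⟨c, hc⟩, h⟩
    have h' : c x = g⁻¹ y := h
    refine ⟨⟨g * c * g⁻¹, c, hc, rfl⟩, ?_⟩
    show (g * c * g⁻¹) (g x) = y
    simp [Perm.mul_apply, h']

variable {A B : Subgroup (Perm X)} {a₀ b₀ : ℕ}

theorem Good.map_conj (h : Good A a₀ b₀) (g : Perm X) :
    Good (A.map (MulAut.conj g).toMonoidHom) a₀ b₀ where
  comm := by
    rintro _ ⟨a, ha, rfl⟩ _ ⟨b, hb, rfl⟩
    rw [← map_mul, ← map_mul, h.comm a ha b hb]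
  even := by
    rintro _ ⟨a, ha, rfl⟩
    show sign (g * a * g⁻¹) = 1
    simp [h.even a ha]
  hb := h.hb
  hX := h.hX
  hc := by
    rw [Subgroup.card_map_of_injective (MulEquiv.injective _)]
    exact h.hc

/-- Finite types of equal `Nat.card` are equivalent. -/
noncomputable def equivOfNatCardEq {α β : Type*} [Finite α] [Finite β] (h : Nat.card α = Nat.card β) : α ≃ β :=
  (Finite.equivFin α).trans ((finCongr h).trans (Finite.equivFin β).symm)

theorem mem_orbit_iff_mk (A : Subgroup (Perm X)) (x y : X) :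
    y ∈ orbit A x ↔ Quotient.mk (orbitRel A X) y = Quotient.mk (orbitRel A X) x := by
  rw [Quotient.eq]
  exact (orbitRel_apply).symm

theorem card_fiber (A : Subgroup (Perm X)) (ω : orbitRel.Quotient A X) :
    Nat.card {x : X // Quotient.mk (orbitRel A X) x = ω} = Nat.card (orbit A ω.out) := by
  refine Nat.card_congr (Equiv.subtypeEquivRight fun x => ?_)
  rw [mem_orbit_iff_mk]
  rw [Quotient.out_eq]

theorem Good.exists_perm (hA : Good A a₀ b₀) (hB : Good B a₀ b₀) :
    ∃ g : Perm X, ∀ x y : X, y ∈ orbit A x ↔ g y ∈ orbit B (g x) := by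
  classical
  obtain ⟨ha3, ha4, -⟩ := hA.count
  obtain ⟨hb3, hb4, -⟩ := hB.count
  have hfib : ∀ c : ℕ, Nat.card {ω : orbitRel.Quotient A X // Nat.card (orbit A ω.out) = c} =
      Nat.card {ω : orbitRel.Quotient B X // Nat.card (orbit B ω.out) = c} := by
    intro c
    by_cases h3 : c = 3
    · subst h3; rw [ha3, hb3]
    by_cases h4 : c = 4
    · subst h4; rw [ha4, hb4]
    haveI : IsEmpty {ω : orbitRel.Quotient A X // Nat.card (orbit A ω.out) = c} := by
      constructor
      rintro ⟨ω, hω⟩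
      rcases hA.orbit_card ω.out with h | h <;> omega
    haveI : IsEmpty {ω : orbitRel.Quotient B X // Nat.card (orbit B ω.out) = c} := by
      constructor
      rintro ⟨ω, hω⟩
      rcases hB.orbit_card ω.out with h | h <;> omega
    rw [Nat.card_of_isEmpty, Nat.card_of_isEmpty]
  let σ : orbitRel.Quotient A X ≃ orbitRel.Quotient B X :=
    Equiv.ofFiberEquiv (f := fun ω : orbitRel.Quotient A X => Nat.card (orbit A ω.out))
      (g := fun ω : orbitRel.Quotient B X => Nat.card (orbit B ω.out))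
      (fun c => equivOfNatCardEq (hfib c))
  have hσ : ∀ ω, Nat.card (orbit B (σ ω).out) = Nat.card (orbit A ω.out) :=
    fun ω => Equiv.ofFiberEquiv_map (f := fun ω : orbitRel.Quotient A X => Nat.card (orbit A ω.out))
      (g := fun ω : orbitRel.Quotient B X => Nat.card (orbit B ω.out)) _ ω
  have hfib2 : ∀ c : orbitRel.Quotient B X,
      Nat.card {x : X // σ (Quotient.mk (orbitRel A X) x) = c} =
      Nat.card {x : X // Quotient.mk (orbitRel B X) x = c} := by
    intro c
    rw [card_fiber B c, ← σ.apply_symm_apply c, hσ, ← card_fiber A]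
    refine Nat.card_congr (Equiv.subtypeEquivRight fun x => ?_)
    exact σ.injective.eq_iff
  let g : X ≃ X := Equiv.ofFiberEquiv (f := fun x : X => σ (Quotient.mk (orbitRel A X) x))
    (g := fun x : X => Quotient.mk (orbitRel B X) x)
    (fun c => equivOfNatCardEq (hfib2 c))
  have hg : ∀ x, Quotient.mk (orbitRel B X) (g x) = σ (Quotient.mk (orbitRel A X) x) :=
    fun x => Equiv.ofFiberEquiv_map (f := fun x : X => σ (Quotient.mk (orbitRel A X) x))
      (g := fun x : X => Quotient.mk (orbitRel B X) x) _ x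
  refine ⟨g, fun x y => ?_⟩
  rw [mem_orbit_iff_mk, mem_orbit_iff_mk]
  rw [show (Quotient.mk (orbitRel B X) ((g : Perm X) y)) = σ (Quotient.mk (orbitRel A X) y) from hg y,
    show (Quotient.mk (orbitRel B X) ((g : Perm X) x)) = σ (Quotient.mk (orbitRel A X) x) from hg x]
  exact σ.injective.eq_iff.symm

/-- Two large even abelian groups are conjugate by an even permutation. -/
theorem Good.exists_conj (hA : Good A a₀ b₀) (hB : Good B a₀ b₀) (x₀ : X) :
    ∃ g : Perm X, sign g = 1 ∧ A.map (MulAut.conj g).toMonoidHom = B := by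
  obtain ⟨g, hg⟩ := hA.exists_perm hB
  have h1 : A.map (MulAut.conj g).toMonoidHom = B := by
    refine (hA.map_conj g).eq_of_same_orbits hB fun z => ?_
    obtain ⟨x, rfl⟩ := g.surjective z
    ext y
    rw [mem_orbit_map_conj, hg]
    simp
  by_cases hs : sign g = 1
  · exact ⟨g, hs, h1⟩
  · -- a transposition inside an orbit of `B`
    have hcard : 1 < (orbit B x₀).ncard := by
      rw [← Nat.card_coe_set_eq]
      rcases hB.orbit_card x₀ with h | h <;> omega
    obtain ⟨z, hz, hzx⟩ := Set.exists_ne_of_one_lt_ncard hcard x₀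
    have hpres : ∀ u, swap x₀ z u ∈ orbit B u := by
      intro u
      by_cases h1 : u = x₀
      · subst h1
        simpa using hz
      by_cases h2 : u = z
      · subst h2
        rw [swap_apply_right, orbit_eq_iff.mpr hz]
        exact mem_orbit_self _
      · rw [swap_apply_of_ne_of_ne h1 h2]
        exact mem_orbit_self _
    have h2 : B.map (MulAut.conj (swap x₀ z)).toMonoidHom = B := by
      refine (hB.map_conj _).eq_of_same_orbits hB fun w => ?_
      obtain ⟨v, rfl⟩ := (swap x₀ z).surjective w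
      ext y
      rw [mem_orbit_map_conj, swap_inv]
      have h3 : orbit B (swap x₀ z v) = orbit B v := orbit_eq_iff.mpr (hpres v)
      rw [h3]
      constructor
      · intro h4
        have h5 := hpres (swap x₀ z y)
        rw [swap_apply_self] at h5
        rw [orbit_eq_iff.mpr h4] at h5
        exact h5
      · intro h4
        have h5 := hpres y
        rw [orbit_eq_iff.mpr h4] at h5
        exact h5
    refine ⟨swap x₀ z * g, ?_, ?_⟩
    · rw [Perm.sign_mul, sign_swap (Ne.symm hzx)]
      rcases Int.units_eq_one_or (sign g) with h | h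
      · exact absurd h hs
      · rw [h]; rfl
    · have h3 : A.map (MulAut.conj (swap x₀ z * g)).toMonoidHom =
          (A.map (MulAut.conj g).toMonoidHom).map (MulAut.conj (swap x₀ z)).toMonoidHom := by
        rw [Subgroup.map_map]
        congr 1
      rw [h3, h1, h2]

end conj

end Cfsg.Agent.Lib.Perm.AbelianConj
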