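import Mathlib
import Cfsg.Agent.Lib.Perm.SylSchur
import Cfsg.Agent.S0713

/-!
# Derangements of largest prime order for subgroups of alternating groups

If `U` is a subgroup of `Alt(X)`, `|X| ≥ 5`, and `r` is the largest prime dividing the index of `U`,
then there is an element of order `r` of `Alt(X)` whose cycle type does not occur in `U`.
No maximality is needed.  The proof uses Bertrand's postulate, Sylvester–Schur and Jordan's theorem.
-/

set_option autoImplicit false

namespace Cfsg.Agent.Lib.Perm.AltDer

open Equiv Equiv.Perm MulAction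
open scoped Pointwise

variable {X : Type*} [Fintype X] [DecidableEq X]

theorem mem_alt_of_odd_order {σ : Perm X} (h : Odd (orderOf σ)) : σ ∈ alternatingGroup X := by
  rw [Equiv.Perm.mem_alternatingGroup]
  rcases Int.units_eq_one_or (sign σ) with h1 | h1
  · exact h1
  · have h2 : sign (σ ^ orderOf σ) = (-1) ^ orderOf σ := by rw [map_pow, h1]
    rw [pow_orderOf_eq_one, map_one, h.neg_one_pow] at h2
    exact absurd h2 (by decide)

theorem exists_cycleType (a r : ℕ) (hr : 2 ≤ r) (h : a * r ≤ Fintype.card X) :
    ∃ σ : Perm X, σ.cycleType = Multiset.replicate a r := by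
  rw [Equiv.Perm.exists_with_cycleType_iff]
  refine ⟨?_, ?_⟩
  · simpa using h
  · intro b hb
    rw [Multiset.eq_of_mem_replicate hb]
    exact hr

theorem orderOf_of_cycleType {σ : Perm X} {a r : ℕ} (ha : a ≠ 0)
    (h : σ.cycleType = Multiset.replicate a r) : orderOf σ = r := by
  rw [← lcm_cycleType, h]
  apply Nat.dvd_antisymm
  · rw [Multiset.lcm_dvd]
    intro b hb
    rw [Multiset.eq_of_mem_replicate hb]
  · exact Multiset.dvd_lcm (Multiset.mem_replicate.2 ⟨ha, rfl⟩)

theorem apply_eq_of_card_lt {U : Subgroup (Perm X)} {τ : Perm X} (hτ : τ ∈ U) {r : ℕ}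
    (hr : r.Prime) (hord : orderOf τ = r) (Γ : Finset X) (hΓ : ∀ g ∈ U, ∀ x ∈ Γ, g x ∈ Γ)
    (hc : Γ.card < r) {x : X} (hx : x ∈ Γ) : τ x = x := by
  by_contra hne
  have hcyc := isCycle_cycleOf τ hne
  have h1 : (τ.cycleOf x).support.card = r := by
    have h2 := orderOf_cycleOf_dvd_orderOf τ x
    rw [hcyc.orderOf, hord] at h2
    rcases (Nat.dvd_prime hr).1 h2 with h3 | h3
    · have := hcyc.two_le_card_support
      omega
    · exact h3
  have h4 : (τ.cycleOf x).support ⊆ Γ := by
    intro y hy
    obtain ⟨⟨i, hi⟩, _⟩ := mem_support_cycleOf_iff.1 hy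
    rw [← hi]
    exact hΓ _ (U.zpow_mem hτ i) x hx
  have := Finset.card_le_card h4
  omega

/-- Restriction to an invariant predicate. -/
def res (U : Subgroup (Perm X)) (P : X → Prop) (h : ∀ g ∈ U, ∀ x, P (g x) ↔ P x) :
    U →* Perm {x // P x} where
  toFun g := (g : Perm X).subtypePerm (h g g.2)
  map_one' := by
    apply Equiv.ext
    intro x
    exact Subtype.ext rfl
  map_mul' a b := by
    apply Equiv.ext
    intro x
    exact Subtype.ext rfl

theorem res_apply (U : Subgroup (Perm X)) (P : X → Prop) (h : ∀ g ∈ U, ∀ x, P (g x) ↔ P x)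
    (g : U) (x : {x // P x}) : ((res U P h g) x : X) = (g : Perm X) x := rfl

theorem cycleType_res (U : Subgroup (Perm X)) (P : X → Prop) [DecidablePred P]
    (h : ∀ g ∈ U, ∀ x, P (g x) ↔ P x) {τ : Perm X} (hτ : τ ∈ U) (hs : ∀ x, τ x ≠ x → P x) :
    (res U P h ⟨τ, hτ⟩).cycleType = τ.cycleType := by
  have h1 : ofSubtype (τ.subtypePerm (h τ hτ)) = τ := ofSubtype_subtypePerm _ hs
  conv_rhs => rw [← h1]
  rw [cycleType_ofSubtype]
  rfl

theorem card_dvd_factorial_mul (U : Subgroup (Perm X)) (P : X → Prop) [DecidablePred P]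
    (h : ∀ g ∈ U, ∀ x, P (g x) ↔ P x) :
    Nat.card U ∣ (Fintype.card {x // P x}).factorial * (Fintype.card {x // ¬ P x}).factorial := by
  have h' : ∀ g ∈ U, ∀ x, ¬ P (g x) ↔ ¬ P x := fun g hg x => not_congr (h g hg x)
  let φ : U →* Perm {x // P x} × Perm {x // ¬ P x} := (res U P h).prod (res U (fun x => ¬ P x) h')
  have hφ : Function.Injective φ := by
    rw [injective_iff_map_eq_one]
    intro g hg
    have h1 : res U P h g = 1 := congrArg Prod.fst hg
    have h2 : res U (fun x => ¬ P x) h' g = 1 := congrArg Prod.snd hg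
    apply Subtype.ext
    apply Equiv.ext
    intro x
    by_cases hx : P x
    · have := congrArg (fun f : Perm {x // P x} => ((f ⟨x, hx⟩ : {x // P x}) : X)) h1
      exact this
    · have := congrArg (fun f : Perm {x // ¬ P x} => ((f ⟨x, hx⟩ : {x // ¬ P x}) : X)) h2
      exact this
  have h3 := Subgroup.card_dvd_of_injective φ hφ
  have e1 : Nat.card (Perm {x // P x}) = (Fintype.card {x // P x}).factorial := by
    rw [Nat.card_eq_fintype_card, Fintype.card_perm]
  have e2 : Nat.card (Perm {x // ¬ P x}) = (Fintype.card {x // ¬ P x}).factorial := by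
    rw [Nat.card_eq_fintype_card, Fintype.card_perm]
  rw [Nat.card_prod, e1, e2] at h3
  exact h3

/-- A transitive group containing a cycle of prime length `p`, `2 * p > |Y|`, is primitive. -/
theorem isPreprimitive_of_large_prime_cycle {Y : Type*} [Fintype Y] [DecidableEq Y]
    (G : Subgroup (Perm Y)) [IsPretransitive G Y] {c : Perm Y} (hc : c ∈ G) (hcc : c.IsCycle)
    {p : ℕ} (hp : p.Prime) (hs : c.support.card = p) (hcard : Fintype.card Y < 2 * p) :
    IsPreprimitive G Y := by
  refine ⟨fun {B} hB => ?_⟩
  rcases B.eq_empty_or_nonempty with rfl | ⟨b, hb⟩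
  · left; exact Set.subsingleton_empty
  have hne : c.support.Nonempty := by
    rw [← Finset.card_pos, hs]; exact hp.pos
  obtain ⟨a, ha⟩ := hne
  obtain ⟨g, hg⟩ := MulAction.exists_smul_eq G b a
  rw [← IsTrivialBlock.smul_iff g]
  have hB' : IsBlock G (g • B) := hB.translate g
  have haB : a ∈ g • B := ⟨b, hb, hg⟩
  set B' := g • B with hB'def
  let γ : G := ⟨c, hc⟩
  have hγ : orderOf γ = p := by
    have : orderOf γ = orderOf c := by
      rw [← Subgroup.orderOf_coe]
    rw [this, hcc.orderOf, hs]
  by_cases hfix : γ • B' = B'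
  · right
    apply hB'.eq_univ_of_card_lt
    have hsub : (c.support : Set Y) ⊆ B' := by
      intro y hy
      have hy' : c y ≠ y := mem_support.1 hy
      have ha' : c a ≠ a := mem_support.1 ha
      obtain ⟨i, hi⟩ := hcc.sameCycle ha' hy'
      have h1 : (γ ^ i) • B' = B' := by
        have : γ ∈ stabilizer G B' := hfix
        exact (stabilizer G B').zpow_mem this i
      rw [← h1]
      refine ⟨a, haB, ?_⟩
      rw [← hi]
      rfl
    have h2 : Set.ncard (c.support : Set Y) ≤ Set.ncard B' := Set.ncard_le_ncard hsub (Set.toFinite _)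
    rw [Set.ncard_coe_finset, hs] at h2
    rw [Nat.card_eq_fintype_card]
    omega
  · left
    apply hB'.subsingleton_of_card_lt
    rw [Nat.card_eq_fintype_card]
    let f : ℕ → Set Y := fun i => (γ ^ i) • B'
    have hinj : Set.InjOn f (Finset.range p : Set ℕ) := by
      have key : ∀ i j, i < j → j < p → f i ≠ f j := by
        intro i j hij hjp heq
        apply hfix
        have h1 : γ ^ (j - i) • B' = B' := by
          have h2 : γ ^ j = γ ^ i * γ ^ (j - i) := by
            rw [← pow_add]; congr 1; omega
          simp only [f] at heq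
          rw [h2, mul_smul] at heq
          exact (smul_left_cancel _ heq).symm
        have hcop : (j - i).Coprime (orderOf γ) := by
          rw [hγ]
          apply Nat.Coprime.symm
          rw [Nat.Prime.coprime_iff_not_dvd hp]
          intro hd
          have := Nat.le_of_dvd (by omega) hd
          omega
        obtain ⟨m, hm⟩ := exists_pow_eq_self_of_coprime hcop
        have h3 : γ ^ (j - i) ∈ stabilizer G B' := h1
        have h4 : (γ ^ (j - i)) ^ m ∈ stabilizer G B' := (stabilizer G B').pow_mem h3 m
        rw [hm] at h4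
        exact h4
      intro i hi j hj hij
      have hi' : i < p := by simpa using hi
      have hj' : j < p := by simpa using hj
      rcases lt_trichotomy i j with h | h | h
      · exact absurd hij (key i j h hj')
      · exact h
      · exact absurd hij.symm (key j i h hi')
    have hsub : f '' (Finset.range p : Set ℕ) ⊆ orbit G B' := by
      rintro _ ⟨i, _, rfl⟩
      exact ⟨γ ^ i, rfl⟩
    have h2 := Set.ncard_le_ncard hsub (Set.toFinite _)
    rw [Set.InjOn.ncard_image hinj, Set.ncard_coe_finset, Finset.card_range] at h2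
    omega

theorem not_sq_dvd_factorial {r m : ℕ} (hr : r.Prime) (hr3 : 3 ≤ r) (h1 : r ≤ m) (h2 : m < 2 * r) :
    ¬ r ^ 2 ∣ m.factorial := by
  rw [hr.pow_dvd_factorial_iff (b := 2)]
  · simp only [Nat.Ico_succ_singleton, Finset.sum_singleton, pow_one]
    have : m / r = 1 := by
      apply Nat.div_eq_of_lt_le <;> omega
    omega
  · apply Nat.log_lt_of_lt_pow
    · omega
    · nlinarith

/-- A subgroup of `Perm X` whose order has the full `3`-part contains a `3`-cycle. -/
theorem exists_threeCycle_mem [Nontrivial X] (h3X : 3 ≤ Fintype.card X) (U : Subgroup (Perm X))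
    (h : (Nat.card U).factorization 3 = (Nat.card (Perm X)).factorization 3) :
    ∃ c ∈ U, c.IsThreeCycle := by
  haveI : Fact (Nat.Prime 3) := ⟨Nat.prime_three⟩
  obtain ⟨P⟩ : Nonempty (Sylow 3 U) := inferInstance
  have hPcard : Nat.card (P : Subgroup U) = 3 ^ (Nat.card U).factorization 3 := P.card_eq_multiplicity
  let Q : Subgroup (Perm X) := (P : Subgroup U).map U.subtype
  have hQcard : Nat.card Q = 3 ^ (Nat.card (Perm X)).factorization 3 := by
    have : Nat.card Q = Nat.card (P : Subgroup U) :=
      Subgroup.card_map_of_injective U.subtype_injective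
    rw [this, hPcard, h]
  let S : Sylow 3 (Perm X) := Sylow.ofCard Q hQcard
  obtain ⟨c₀, hc₀⟩ := exists_cycleType (X := X) 1 3 (by norm_num) (by omega)
  have hord : orderOf c₀ = 3 := orderOf_of_cycleType (by norm_num) hc₀
  have hpg : IsPGroup 3 (Subgroup.zpowers c₀) := by
    apply IsPGroup.of_card (n := 1)
    rw [Nat.card_zpowers, hord, pow_one]
  obtain ⟨S', hS'⟩ := hpg.exists_le_sylow
  obtain ⟨g, hg⟩ := MulAction.exists_smul_eq (Perm X) S' S
  have hmem : g * c₀ * g⁻¹ ∈ (S : Subgroup (Perm X)) := by
    rw [← hg, Sylow.coe_subgroup_smul]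
    have h1 : c₀ ∈ (S' : Subgroup (Perm X)) := hS' (Subgroup.mem_zpowers c₀)
    have h2 := Subgroup.smul_mem_pointwise_smul c₀ (MulAut.conj g) (S' : Subgroup (Perm X)) h1
    simpa [MulAut.smul_def, MulAut.conj_apply] using h2
  have hmem2 : g * c₀ * g⁻¹ ∈ Q := hmem
  obtain ⟨u, _, hu⟩ := Subgroup.mem_map.1 hmem2
  refine ⟨g * c₀ * g⁻¹, ?_, ?_⟩
  · rw [← hu]; exact u.2
  · rw [← card_support_eq_three_iff, ← sum_cycleType, cycleType_conj, hc₀]
    simp

/-- The core: a subgroup `U` of `Alt(X)`, `|X| ≥ 5`, of index `n`, `r` the largest prime dividing `n`. -/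
theorem core [Nontrivial X] (hm : 5 ≤ Fintype.card X) (U : Subgroup (Perm X)) (hU : U ≤ alternatingGroup X)
    {n r : ℕ} (hn : Nat.card U * n = Nat.card (alternatingGroup X)) (hr : r.Prime) (hrn : r ∣ n)
    (hmax : ∀ s : ℕ, s.Prime → s ∣ n → s ≤ r) :
    ∃ σ ∈ alternatingGroup X, orderOf σ = r ∧ ∀ τ ∈ U, τ.cycleType ≠ σ.cycleType := by
  by_contra hcon
  push Not at hcon
  set m := Fintype.card X with hmdef
  have hfact : 2 * (Nat.card U * n) = m.factorial := by
    rw [hn, two_mul_nat_card_alternatingGroup, Nat.card_eq_fintype_card, Fintype.card_perm]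
  have hn0 : n ≠ 0 := by
    rintro rfl
    have : 0 < m.factorial := Nat.factorial_pos m
    omega
  have hrm : r ≤ m := by
    have : r ∣ m.factorial := by
      rw [← hfact]
      exact Dvd.dvd.mul_left (Dvd.dvd.mul_left hrn _) _
    exact (hr.dvd_factorial).1 this
  rcases Nat.lt_or_ge m (2 * r) with hlarge | hsmall
  · -- `r > m / 2`
    have hr3 : 3 ≤ r := by omega
    obtain ⟨σ, hσ⟩ := exists_cycleType (X := X) 1 r hr.two_le (by omega)
    have hord : orderOf σ = r := orderOf_of_cycleType (by norm_num) hσ
    have hodd : Odd (orderOf σ) := by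
      rw [hord]
      exact hr.odd_of_ne_two (by omega)
    obtain ⟨τ, hτ, hτc⟩ := hcon σ (mem_alt_of_odd_order hodd) hord
    have hordτ : orderOf (⟨τ, hτ⟩ : U) = r := by
      have h1 : orderOf (⟨τ, hτ⟩ : U) = orderOf τ := by
        rw [← Subgroup.orderOf_coe]
      rw [h1, orderOf_of_cycleType (a := 1) (r := r) (by norm_num) (hτc.trans hσ)]
    have hrN : r ∣ Nat.card U := by
      rw [← hordτ]
      exact orderOf_dvd_natCard _
    apply not_sq_dvd_factorial hr hr3 hrm hlarge
    rw [← hfact, pow_two]
    exact Dvd.dvd.mul_left (Nat.mul_dvd_mul hrN hrn) _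
  · -- `2 * r ≤ m`
    obtain ⟨p, hp, hp1, hp2⟩ := Nat.exists_prime_lt_and_le_two_mul (m / 2) (by omega)
    have hp3 : m < 2 * p := by omega
    have hpm : p ≤ m := by omega
    have hpr : r < p := by omega
    have hp_n : ¬ p ∣ n := fun h => by
      have := hmax p hp h
      omega
    have hp_odd : p ≠ 2 := by omega
    have hNpos : 0 < Nat.card U := Nat.card_pos
    have hpN : p ∣ Nat.card U := by
      have h1 : p ∣ 2 * (Nat.card U * n) := by
        rw [hfact]
        exact (hp.dvd_factorial).2 hpm
      rcases (Nat.Prime.dvd_mul hp).1 h1 with h2 | h2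
      · exact absurd ((Nat.prime_dvd_prime_iff_eq hp Nat.prime_two).1 h2) hp_odd
      · rcases (Nat.Prime.dvd_mul hp).1 h2 with h3 | h3
        · exact h3
        · exact absurd h3 hp_n
    haveI : Fact p.Prime := ⟨hp⟩
    obtain ⟨τ₀', hτ₀'⟩ := exists_prime_orderOf_dvd_card' (G := U) p hpN
    obtain ⟨τ₀, hτ₀U⟩ := τ₀'
    have hτ₀ord : orderOf τ₀ = p := by
      have h1 : orderOf (⟨τ₀, hτ₀U⟩ : U) = orderOf τ₀ := by
        rw [← Subgroup.orderOf_coe]
      rw [← h1, hτ₀']
    obtain ⟨e, he⟩ := cycleType_prime_order (σ := τ₀) (by rw [hτ₀ord]; exact hp)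
    rw [hτ₀ord] at he
    have hsupp0 : τ₀.support.card = (e + 1) * p := by
      rw [← sum_cycleType, he, Multiset.sum_replicate, smul_eq_mul]
    have hsuppm : τ₀.support.card ≤ m := Finset.card_le_univ _
    have he0 : e = 0 := by
      by_contra h
      have : 2 * p ≤ (e + 1) * p := Nat.mul_le_mul_right _ (by omega)
      omega
    subst he0
    have hτ₀cyc : τ₀.IsCycle := by
      rw [← card_cycleType_eq_one, he]
      simp
    have hsupp : τ₀.support.card = p := by simpa using hsupp0
    obtain ⟨a, ha⟩ : τ₀.support.Nonempty := by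
      rw [← Finset.card_pos, hsupp]
      exact hp.pos
    classical
    -- the orbit
    let P : X → Prop := fun x => x ∈ MulAction.orbit U a
    have hP : ∀ g ∈ U, ∀ x, P (g x) ↔ P x := by
      intro g hg x
      constructor
      · rintro ⟨h, hh⟩
        refine ⟨(⟨g, hg⟩ : U)⁻¹ * h, ?_⟩
        change ((⟨g, hg⟩ : U)⁻¹ * h) • a = x
        rw [mul_smul]
        have hh' : h • a = g x := hh
        rw [hh']
        exact g.symm_apply_apply x
      · rintro ⟨h, hh⟩
        refine ⟨(⟨g, hg⟩ : U) * h, ?_⟩
        change ((⟨g, hg⟩ : U) * h) • a = g x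
        rw [mul_smul]
        have hh' : h • a = x := hh
        rw [hh']
        rfl
    have hPsupp : ∀ y, τ₀ y ≠ y → P y := by
      intro y hy
      obtain ⟨i, hi⟩ := hτ₀cyc.sameCycle (mem_support.1 ha) hy
      refine ⟨(⟨τ₀, hτ₀U⟩ : U) ^ i, ?_⟩
      rw [← hi]
      rfl
    set d := Fintype.card {x // P x} with hd
    set j := Fintype.card {x // ¬ P x} with hj
    have hdj : d + j = m := by
      have h1 := Fintype.card_subtype_compl P
      have h2 := Fintype.card_subtype_le P
      omega
    -- the complement as a finset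
    let Γ : Finset X := Finset.univ.filter (fun x => ¬ P x)
    have hΓcard : Γ.card = j := (Fintype.card_subtype _).symm
    have hΓ : ∀ g ∈ U, ∀ x ∈ Γ, g x ∈ Γ := by
      intro g hg x hx
      have hx' : ¬ P x := (Finset.mem_filter.1 hx).2
      exact Finset.mem_filter.2 ⟨Finset.mem_univ _, fun h => hx' ((hP g hg x).1 h)⟩
    have hpd : p ≤ d := by
      have h1 : τ₀.support ⊆ Finset.univ.filter P := by
        intro y hy
        exact Finset.mem_filter.2 ⟨Finset.mem_univ _, hPsupp y (mem_support.1 hy)⟩
      have h2 := Finset.card_le_card h1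
      rw [hsupp] at h2
      rwa [hd, Fintype.card_subtype]
    -- `j < r`, by Sylvester–Schur
    have hrj : j < r := by
      by_cases hj2 : 2 ≤ j
      · obtain ⟨q, hq, hjq, hqd⟩ := SylSchur.sylvester_schur (n := m) hj2 (by omega)
        obtain ⟨w, hw⟩ := card_dvd_factorial_mul U P hP
        have hch := Nat.choose_mul_factorial_mul_factorial (n := m) (k := j) (by omega)
        have hmj : m - j = d := by omega
        rw [hmj] at hch
        have h1 : Nat.card U * (m.choose j * w) = Nat.card U * (2 * n) := by
          calc Nat.card U * (m.choose j * w) = m.choose j * (Nat.card U * w) := by ring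
            _ = m.choose j * (d.factorial * j.factorial) := by rw [← hw]
            _ = m.factorial := by rw [← hch]; ring
            _ = 2 * (Nat.card U * n) := hfact.symm
            _ = Nat.card U * (2 * n) := by ring
        have h2 : m.choose j * w = 2 * n := Nat.eq_of_mul_eq_mul_left hNpos h1
        have h3 : q ∣ 2 * n := by
          rw [← h2]
          exact Dvd.dvd.mul_right hqd _
        rcases (Nat.Prime.dvd_mul hq).1 h3 with h4 | h4
        · have := (Nat.prime_dvd_prime_iff_eq hq Nat.prime_two).1 h4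
          omega
        · have := hmax q hq h4
          omega
      · have := hr.two_le
        omega
    -- the restriction
    let ρ : U →* Perm {x // P x} := res U P hP
    let G' : Subgroup (Perm {x // P x}) := ρ.range
    haveI hGtrans : IsPretransitive G' {x // P x} := by
      refine ⟨?_⟩
      rintro ⟨x, ⟨h₁, hh₁⟩⟩ ⟨y, ⟨h₂, hh₂⟩⟩
      refine ⟨⟨ρ (h₂ * h₁⁻¹), ⟨_, rfl⟩⟩, ?_⟩
      apply Subtype.ext
      change ((h₂ * h₁⁻¹ : U) : Perm X) x = y
      have hh₁' : h₁ • a = x := hh₁
      have hh₂' : h₂ • a = y := hh₂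
      have : (h₂ * h₁⁻¹) • x = y := by
        rw [← hh₁', ← hh₂', smul_smul]
        simp
      exact this
    have hρτ₀ : (ρ ⟨τ₀, hτ₀U⟩).cycleType = τ₀.cycleType := cycleType_res U P hP hτ₀U hPsupp
    have hρτ₀cyc : (ρ ⟨τ₀, hτ₀U⟩).IsCycle := by
      rw [← card_cycleType_eq_one, hρτ₀, card_cycleType_eq_one]
      exact hτ₀cyc
    have hρτ₀supp : (ρ ⟨τ₀, hτ₀U⟩).support.card = p := by
      rw [← sum_cycleType, hρτ₀, sum_cycleType]
      exact hsupp
    have hprim : IsPreprimitive G' {x // P x} :=
      isPreprimitive_of_large_prime_cycle G' (c := ρ ⟨τ₀, hτ₀U⟩) ⟨_, rfl⟩ hρτ₀cyc hp hρτ₀supp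
        (by omega)
    -- the consequence of `Alt ≤ G'`
    have hA : alternatingGroup {x // P x} ≤ G' → ∃ i, i < j ∧ r ∣ m - i := by
      intro hle
      have h1 : Nat.card (alternatingGroup {x // P x}) ∣ Nat.card G' := Subgroup.card_dvd_of_le hle
      have h2 : Nat.card G' ∣ Nat.card U := by
        rw [← Subgroup.index_ker]
        exact Subgroup.index_dvd_card _
      obtain ⟨w, hw⟩ := h1.trans h2
      haveI : Nontrivial {x // P x} := by
        rw [← Fintype.one_lt_card_iff_nontrivial]
        have := hp.two_le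
        omega
      have h3 := two_mul_nat_card_alternatingGroup (α := {x // P x})
      rw [Nat.card_eq_fintype_card (α := Perm {x // P x}), Fintype.card_perm] at h3
      have h4 : d.factorial * m.descFactorial j = m.factorial := by
        have := Nat.factorial_mul_descFactorial (n := m) (k := j) (by omega)
        have hmj : m - j = d := by omega
        rwa [hmj] at this
      have h5 : d.factorial * (w * n) = d.factorial * m.descFactorial j := by
        rw [h4, ← hfact, hw, ← h3]
        ring
      have h6 : w * n = m.descFactorial j :=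
        Nat.eq_of_mul_eq_mul_left (Nat.factorial_pos d) h5
      have h7 : r ∣ m.descFactorial j := by
        rw [← h6]
        exact Dvd.dvd.mul_left hrn _
      rw [Nat.descFactorial_eq_prod_range] at h7
      obtain ⟨i, hi, hi2⟩ := (Prime.dvd_finsetProd_iff hr.prime _).1 h7
      exact ⟨i, Finset.mem_range.1 hi, hi2⟩
    rcases hr.eq_two_or_odd' with hr2 | hrodd
    · -- `r = 2`
      subst hr2
      have hn2pow : ∀ {s : ℕ}, s.Prime → s ∣ n → s = 2 := by
        intro s hs hsn
        have h1 := hmax s hs hsn
        have h2 := hs.two_le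
        omega
      have h3n : ¬ 3 ∣ n := fun h => by
        have := hn2pow Nat.prime_three h
        omega
      rcases Nat.lt_or_ge j 1 with hj0 | hj1
      · -- `j = 0`
        have hall : ∀ x, P x := by
          intro x
          by_contra hx
          have h1 : x ∈ Γ := Finset.mem_filter.2 ⟨Finset.mem_univ _, hx⟩
          have h2 : 0 < Γ.card := Finset.card_pos.2 ⟨x, h1⟩
          omega
        have hfac : (Nat.card U).factorization 3 = (Nat.card (Perm X)).factorization 3 := by
          rw [Nat.card_eq_fintype_card (α := Perm X), Fintype.card_perm, ← hfact,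
            Nat.factorization_mul (by norm_num) (by positivity),
            Nat.factorization_mul hNpos.ne' hn0]
          have h1 : (2 : ℕ).factorization 3 = 0 :=
            Nat.factorization_eq_zero_of_not_dvd (by norm_num)
          have h2 : n.factorization 3 = 0 := Nat.factorization_eq_zero_of_not_dvd h3n
          simp only [Finsupp.coe_add, Pi.add_apply, h1, h2]
          omega
        obtain ⟨c, hcU, hc3⟩ := exists_threeCycle_mem (by omega) U hfac
        have hρc : (ρ ⟨c, hcU⟩).cycleType = c.cycleType :=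
          cycleType_res U P hP hcU (fun x _ => hall x)
        have hρc3 : (ρ ⟨c, hcU⟩).IsThreeCycle := by
          rw [← card_support_eq_three_iff, ← sum_cycleType, hρc, sum_cycleType,
            card_support_eq_three_iff]
          exact hc3
        obtain ⟨i, hi, _⟩ := hA (alternatingGroup_le_of_isPreprimitive_of_isThreeCycle_mem hprim
          hρc3 ⟨_, rfl⟩)
        omega
      · -- `j = 1`
        have hj1' : j = 1 := by omega
        obtain ⟨x₀, hx₀⟩ : Γ.Nonempty := by
          rw [← Finset.card_pos]
          omega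
        obtain ⟨w, hw⟩ := card_dvd_factorial_mul U P hP
        have h1 : m.factorial = m * d.factorial := by
          have hmd : m = d + 1 := by omega
          rw [hmd, Nat.factorial_succ]
        have hw' : d.factorial = Nat.card U * w := by
          rw [← hj, hj1'] at hw
          simpa using hw
        have h2 : m * w = 2 * n := by
          apply Nat.eq_of_mul_eq_mul_left hNpos
          calc Nat.card U * (m * w) = m * (Nat.card U * w) := by ring
            _ = m.factorial := by rw [← hw', h1]
            _ = 2 * (Nat.card U * n) := hfact.symm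
            _ = Nat.card U * (2 * n) := by ring
        have h3 : n = 2 ^ n.primeFactorsList.length :=
          Nat.eq_prime_pow_of_unique_prime_dvd hn0 hn2pow
        have h4 : m ∣ 2 ^ (n.primeFactorsList.length + 1) := by
          rw [pow_succ', ← h3, ← h2]
          exact Dvd.intro _ rfl
        obtain ⟨k, _, hk⟩ := (Nat.dvd_prime_pow Nat.prime_two).1 h4
        have hk3 : 2 ≤ k := by
          by_contra hlt
          have : k = 0 ∨ k = 1 := by omega
          rcases this with rfl | rfl <;> simp at hk <;> omega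
        obtain ⟨t, rfl⟩ : ∃ t, k = t + 2 := ⟨k - 2, by omega⟩
        have hm4 : m = 4 * 2 ^ t := by
          rw [hk]
          ring
        set T := 2 ^ t with hT
        have hTpos : 0 < T := by positivity
        obtain ⟨σ, hσ⟩ := exists_cycleType (X := X) (2 * T) 2 (by norm_num) (by omega)
        have hord : orderOf σ = 2 := orderOf_of_cycleType (by omega) hσ
        have hsign : σ ∈ alternatingGroup X := by
          rw [mem_alternatingGroup, sign_of_cycleType, hσ]
          simp only [Multiset.sum_replicate, smul_eq_mul, Multiset.card_replicate]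
          have : 2 * T * 2 + 2 * T = 2 * (3 * T) := by ring
          rw [this, pow_mul]
          simp
        obtain ⟨τ, hτ, hτc⟩ := hcon σ hsign hord
        have hτord : orderOf τ = 2 := orderOf_of_cycleType (a := 2 * T) (by omega) (hτc.trans hσ)
        have hfix : τ x₀ = x₀ := apply_eq_of_card_lt hτ Nat.prime_two hτord Γ hΓ (by omega) hx₀
        have hsuppτ : τ.support.card = m := by
          rw [← sum_cycleType, hτc, hσ, Multiset.sum_replicate, smul_eq_mul]
          omega
        have huniv : τ.support = Finset.univ := Finset.eq_univ_of_card _ hsuppτ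
        have : x₀ ∈ τ.support := by
          rw [huniv]
          exact Finset.mem_univ _
        exact (mem_support.1 this) hfix
    · -- `r` odd
      have hr3 : 3 ≤ r := by
        have h1 := hr.two_le
        rcases hrodd with ⟨t, rfl⟩
        omega
      set A := m / r with hAdef
      have hA2 : 2 ≤ A := (Nat.le_div_iff_mul_le hr.pos).2 (by omega)
      have hAr : A * r ≤ m := Nat.div_mul_le_self m r
      obtain ⟨σ₁, hσ₁⟩ := exists_cycleType (X := X) 1 r hr.two_le (by omega)
      obtain ⟨σ₂, hσ₂⟩ := exists_cycleType (X := X) A r hr.two_le hAr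
      have hord₁ : orderOf σ₁ = r := orderOf_of_cycleType (by norm_num) hσ₁
      have hord₂ : orderOf σ₂ = r := orderOf_of_cycleType (by omega) hσ₂
      obtain ⟨τ₁, hτ₁, hτ₁c⟩ := hcon σ₁ (mem_alt_of_odd_order (by rw [hord₁]; exact hrodd)) hord₁
      obtain ⟨τ₂, hτ₂, hτ₂c⟩ := hcon σ₂ (mem_alt_of_odd_order (by rw [hord₂]; exact hrodd)) hord₂
      have hτ₁ord : orderOf τ₁ = r := orderOf_of_cycleType (a := 1) (by norm_num) (hτ₁c.trans hσ₁)
      have hτ₂ord : orderOf τ₂ = r := orderOf_of_cycleType (a := A) (by omega) (hτ₂c.trans hσ₂)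
      have hfixes : ∀ τ ∈ U, orderOf τ = r → ∀ x, τ x ≠ x → P x := by
        intro τ hτ hτo x hx
        by_contra hPx
        exact hx (apply_eq_of_card_lt hτ hr hτo Γ hΓ (by omega)
          (Finset.mem_filter.2 ⟨Finset.mem_univ _, hPx⟩))
      have hAd : A * r ≤ d := by
        have h1 : τ₂.support ⊆ Finset.univ.filter P := by
          intro y hy
          exact Finset.mem_filter.2 ⟨Finset.mem_univ _, hfixes τ₂ hτ₂ hτ₂ord y (mem_support.1 hy)⟩
        have h2 := Finset.card_le_card h1
        rw [← sum_cycleType, hτ₂c, hσ₂, Multiset.sum_replicate, smul_eq_mul] at h2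
        rwa [hd, Fintype.card_subtype]
      have h2r : 2 * r ≤ d := (Nat.mul_le_mul_right r hA2).trans hAd
      have hρτ₁ : (ρ ⟨τ₁, hτ₁⟩).cycleType = τ₁.cycleType :=
        cycleType_res U P hP hτ₁ (hfixes τ₁ hτ₁ hτ₁ord)
      have hρτ₁cyc : (ρ ⟨τ₁, hτ₁⟩).IsCycle := by
        rw [← card_cycleType_eq_one, hρτ₁, hτ₁c, hσ₁]
        simp
      have hρτ₁supp : (ρ ⟨τ₁, hτ₁⟩).support.card = r := by
        rw [← sum_cycleType, hρτ₁, hτ₁c, hσ₁]
        simp
      have hJ := Cfsg.Agent.S0713.result G' hprim hr (by omega) (by omega) hρτ₁cyc hρτ₁supp ⟨_, rfl⟩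
      obtain ⟨i, hi, hdvd⟩ := hA hJ
      have hmod : A * r + m % r = m := by
        rw [hAdef, mul_comm]
        exact Nat.div_add_mod m r
      have hs : m % r < r := Nat.mod_lt _ hr.pos
      have hj_le : j ≤ m % r := by omega
      have h1 : m - i = A * r + (m % r - i) := by omega
      rw [h1] at hdvd
      have h2 : r ∣ m % r - i := (Nat.dvd_add_right (Dvd.intro_left A rfl)).1 hdvd
      have h3 := Nat.le_of_dvd (by omega) h2
      omega

end Cfsg.Agent.Lib.Perm.AltDer
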