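import Cfsg.Agent.Lib.Perm.TableCheck

/-!
# Degrees 6 and 7: finite checks

* a 7-cycle and an element of order 5 of `Sym 7`: some word has a power which is a 3-cycle;
* the 5-cycle `R5` and an element `x` of order 3 of `Sym 6` without fixed points: either `x`
  permutes by conjugation the 5 synthemes of a total `Tp`, or some word is a 3-cycle.
-/

set_option autoImplicit false

namespace Cfsg.Agent.Lib.Perm.Check67

open Equiv Equiv.Perm Cfsg.Agent.Lib.Perm.TableCheck

section Seven

/-- The table of the identity. -/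
def id7 : ℕ := 106181136

/-- The tables of the powers of the rotation. -/
def RT7 : ℕ := 0x5432106432106532106542106543106543206543216543210

/-- The power of the rotation, from the literal table. -/
def Rs7 (i : ℕ) : ℕ := RsOf 7 28 RT7 i

/-- The words to try. -/
def words7 : List (List ℕ) :=
  [[1, 3], [1, 5], [2, 3], [2, 6], [4, 5], [4, 6], [0, 1], [0, 2], [0, 3], [0, 4], [0, 5], [0, 6]]

/-- The check on the table of `x`. -/
def chk7 (x : ℕ) : Bool :=
  or (not (Nat.beq (powZ 7 x 5) id7))
    (or (Nat.beq x id7) (words7.any fun w => verify 7 x Rs7 w 1))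

set_option maxRecDepth 100000 in
theorem chk7_all : permGo chk7 7 0 (List.range 7) 0 = true := by decide +kernel

set_option maxRecDepth 100000 in
theorem Rs7_eq : ∀ i, i < 7 → RsOf 7 28 RT7 i = powZ 7 (enc (finRotate 7)) i := by decide +kernel

/-- A group containing the rotation and an element of order 5 contains a 3-cycle. -/
theorem check7 (G : Subgroup (Perm (Fin 7))) (hR : finRotate 7 ∈ G) {x : Perm (Fin 7)}
    (hx : x ∈ G) (h5 : x ^ 5 = 1) (hne : x ≠ 1) : ∃ t ∈ G, t.IsThreeCycle := by
  have h := permGo_perm (n := 7) (by omega) chk7 chk7_all x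
  rw [chk7, Bool.or_eq_true, Bool.or_eq_true] at h
  have hid : enc (1 : Perm (Fin 7)) = id7 := by rw [enc_one]; rfl
  rcases h with h | h | h
  · exfalso
    have e : powZ 7 (enc x) 5 = id7 := by rw [← enc_powZ (by omega), h5, hid]
    rw [e] at h
    revert h
    decide
  · exfalso
    apply hne
    apply enc_injective (n := 7) (by omega)
    rw [hid]
    exact Nat.eq_of_beq_eq_true h
  · rw [List.any_eq_true] at h
    obtain ⟨w, -, h⟩ := h
    have hRs : ∀ i, ∃ h ∈ G, enc h = Rs7 i :=
      RsOf_mem G (by omega) hR (by omega) Rs7_eq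
    exact verify_sound (by omega) G hx hRs h

end Seven

section Six

/-- The 5-cycle on `Fin 6`. -/
def R5 : Perm (Fin 6) := swap 0 1 * swap 1 2 * swap 2 3 * swap 3 4

/-- The total. -/
def Tp : Finset (Perm (Fin 6)) :=
  {swap 0 1 * swap 2 4 * swap 3 5, swap 0 2 * swap 1 5 * swap 3 4, swap 0 3 * swap 1 2 * swap 4 5,
    swap 0 4 * swap 1 3 * swap 2 5, swap 0 5 * swap 1 4 * swap 2 3}

/-- The tables of the elements of the total. -/
def Tc : List ℕ := [3298305, 1261650, 4522275, 2102580, 74565]

/-- The table of the identity. -/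
def id6 : ℕ := 5517840

/-- The tables of the powers of `R5`. -/
def RT5 : ℕ := 0x532104521043510432504321543210

/-- The power of `R5`, from the literal table. -/
def Rs6 (i : ℕ) : ℕ := RsOf 5 24 RT5 i

/-- `x` normalizes the total (when `x ^ 3 = 1`). -/
def pres (x : ℕ) : Bool :=
  Tc.all fun t => Tc.any fun t' => Nat.beq (mulL (mulL (mulL x t 6) x 6) x 6) t'

/-- The words to try. -/
def words6 : List (List ℕ) := [[1, 1, 4], [2, 2, 3]]

/-- The check on the table of `x`. -/
def chk6 (x : ℕ) : Bool :=
  or (not (Nat.beq (powZ 6 x 3) id6))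
    (or (not (Nat.beq (suppE x 6) 6))
      (or (pres x) (words6.any fun w => verify 6 x Rs6 w 0)))

set_option maxRecDepth 100000 in
theorem chk6_all : permGo chk6 6 0 (List.range 6) 0 = true := by decide +kernel

set_option maxRecDepth 100000 in
theorem Rs6_eq : ∀ i, i < 5 → RsOf 5 24 RT5 i = powZ 6 (enc R5) i := by decide +kernel

set_option maxRecDepth 100000 in
theorem mem_Tp_iff_aux : ∀ t ∈ Tp, enc t ∈ Tc := by decide +kernel

set_option maxRecDepth 100000 in
theorem exists_of_mem_Tc : ∀ c ∈ Tc, ∃ t ∈ Tp, enc t = c := by decide +kernel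

set_option maxRecDepth 100000 in
theorem card_Tp : Tp.card = 5 := by decide +kernel

set_option maxRecDepth 100000 in
theorem R5_pres : ∀ t ∈ Tp, R5 * t * R5⁻¹ ∈ Tp := by decide +kernel

set_option maxRecDepth 100000 in
theorem R5_pow : R5 ^ 5 = 1 := by decide +kernel

set_option maxRecDepth 100000 in
theorem R5_ne : R5 ≠ 1 := by decide +kernel

theorem orderOf_R5 : orderOf R5 = 5 :=
  have : Fact (Nat.Prime 5) := ⟨by norm_num⟩
  orderOf_eq_prime R5_pow R5_ne

set_option maxRecDepth 100000 in
theorem R5_supp : R5.support.card = 5 := by decide +kernel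

theorem R5_cycle : R5.IsCycle :=
  isCycle_of_prime_order (by rw [orderOf_R5]; norm_num) (by rw [R5_supp, orderOf_R5]; norm_num)

/-- The centralizer check. -/
def chkC (h : ℕ) : Bool :=
  or (not (Tc.all fun t => Nat.beq (mulL h t 6) (mulL t h 6))) (Nat.beq h id6)

set_option maxRecDepth 100000 in
theorem chkC_all : permGo chkC 6 0 (List.range 6) 0 = true := by decide +kernel

/-- An element commuting with the total is trivial. -/
theorem central_Tp {h : Perm (Fin 6)} (hh : ∀ t ∈ Tp, h * t = t * h) : h = 1 := by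
  have h1 := permGo_perm (n := 6) (by omega) chkC chkC_all h
  rw [chkC, Bool.or_eq_true] at h1
  have hid : enc (1 : Perm (Fin 6)) = id6 := by rw [enc_one]; rfl
  rcases h1 with h1 | h1
  · exfalso
    have h2 : (Tc.all fun t => Nat.beq (mulL (enc h) t 6) (mulL t (enc h) 6)) = true := by
      rw [List.all_eq_true]
      intro c hc
      obtain ⟨t, ht, rfl⟩ := exists_of_mem_Tc c hc
      rw [← enc_mul (by omega), ← enc_mul (by omega), hh t ht]
      simp
    rw [h2] at h1
    simp at h1
  · apply enc_injective (n := 6) (by omega)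
    rw [hid]
    exact Nat.eq_of_beq_eq_true h1

/-- The check for degree 6. -/
theorem check6 (G : Subgroup (Perm (Fin 6))) (hR : R5 ∈ G) {x : Perm (Fin 6)}
    (hx : x ∈ G) (h3 : x ^ 3 = 1) (hfp : ∀ i, x i ≠ i) :
    (∀ t ∈ Tp, x * t * x⁻¹ ∈ Tp) ∨ ∃ t ∈ G, t.IsThreeCycle := by
  have h := permGo_perm (n := 6) (by omega) chk6 chk6_all x
  rw [chk6, Bool.or_eq_true, Bool.or_eq_true, Bool.or_eq_true] at h
  have hid : enc (1 : Perm (Fin 6)) = id6 := by rw [enc_one]; rfl
  rcases h with h | h | h | h
  · exfalso
    have e : powZ 6 (enc x) 3 = id6 := by rw [← enc_powZ (by omega), h3, hid]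
    rw [e] at h
    revert h
    decide
  · exfalso
    have e : suppE (enc x) 6 = 6 := by
      rw [suppE_enc (by omega)]
      have : x.support = Finset.univ := by
        ext i
        simp [hfp i]
      rw [this]
      rfl
    rw [e] at h
    revert h
    decide
  · left
    intro t ht
    have hxi : x⁻¹ = x * x := by
      have : x * (x * x) = 1 := by rw [← h3, pow_succ, pow_two, mul_assoc]
      exact inv_eq_of_mul_eq_one_right this
    rw [pres, List.all_eq_true] at h
    have h4 := h (enc t) (mem_Tp_iff_aux t ht)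
    rw [List.any_eq_true] at h4
    obtain ⟨c, hc, h5⟩ := h4
    obtain ⟨t', ht', rfl⟩ := exists_of_mem_Tc c hc
    have h6 := Nat.eq_of_beq_eq_true h5
    rw [← enc_mul (by omega), ← enc_mul (by omega), ← enc_mul (by omega)] at h6
    have h7 := enc_injective (by omega) h6
    rw [hxi, ← mul_assoc, h7]
    exact ht'
  · right
    rw [List.any_eq_true] at h
    obtain ⟨w, -, h⟩ := h
    have hRs : ∀ i, ∃ h ∈ G, enc h = Rs6 i :=
      RsOf_mem G (by omega) hR (by omega) Rs6_eq
    exact verify_sound (by omega) G hx hRs h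

end Six

end Cfsg.Agent.Lib.Perm.Check67
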