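import Cfsg.Agent.S0713
import Cfsg.Agent.Lib.Perm.Check13

/-!
# A 13-cycle and an 11-cycle generate a group containing a 3-cycle or a transposition
-/

set_option autoImplicit false

namespace Cfsg.Agent.Lib.Perm.Special13

open Equiv Equiv.Perm Cfsg.Agent.Lib.Perm.SylowIn Cfsg.Agent.S0713

local notation "R" => finRotate 13

theorem R_ne (x : Fin 13) : R x ≠ x := by
  rw [← mem_support, support_finRotate]
  exact Finset.mem_univ _

theorem R_cycle : (R).IsCycle := isCycle_finRotate

theorem exists_R_pow (a b : Fin 13) : ∃ i : ℕ, (R ^ i) a = b :=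
  R_cycle.exists_pow_eq (R_ne a) (R_ne b)

theorem orderOf_R : orderOf (R) = 13 := by
  rw [R_cycle.orderOf, support_finRotate]
  rfl

/-- An involution with a unique fixed point either inverts the rotation or there is a 3-cycle. -/
theorem inverts_of_invol (G : Subgroup (Perm (Fin 13))) (hR : R ∈ G) {z : Perm (Fin 13)}
    (hz : z ∈ G) {c : Fin 13} (hc : z c = c) (huniq : ∀ y, z y = y → y = c)
    (hinv : ∀ y, z (z y) = y) :
    z * R * z = (R)⁻¹ ∨ ∃ t ∈ G, t.IsThreeCycle := by
  obtain ⟨i, hi⟩ := exists_R_pow c 0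
  set u : Perm (Fin 13) := R ^ i with hu
  have huG : u ∈ G := G.pow_mem hR i
  have hu0 : u⁻¹ 0 = c := by rw [Perm.inv_eq_iff_eq]; exact hi.symm
  have hcomm : u⁻¹ * R * u = R := by
    have : Commute u (R) := (Commute.refl _).pow_left i
    rw [mul_assoc, this.symm.eq, ← mul_assoc, inv_mul_cancel, one_mul]
  rcases Check13.check G hR (z := u * z * u⁻¹) (G.mul_mem (G.mul_mem huG hz) (G.inv_mem huG))
    (by simp [Perm.mul_apply, hu0, hc, hi])
    (by
      intro j hj e
      simp only [Perm.mul_apply] at e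
      have e' : z (u⁻¹ j) = u⁻¹ j := by
        apply u.injective
        rw [e]
        simp
      have := huniq _ e'
      apply hj
      rw [Perm.inv_eq_iff_eq] at this
      rw [this, hi])
    (by intro j; simp [Perm.mul_apply, hinv]) with h | h
  · left
    have e : z * R * z = u⁻¹ * (u * z * u⁻¹ * R * (u * z * u⁻¹)) * u := by
      conv_lhs => rw [← hcomm]
      group
    rw [e, h]
    calc u⁻¹ * (R)⁻¹ * u = (u⁻¹ * R * u)⁻¹ := by group
      _ = (R)⁻¹ := by rw [hcomm]
  · exact Or.inr h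

/-- The main lemma for degree 13. -/
theorem special13_fin (G : Subgroup (Perm (Fin 13))) (hR : R ∈ G) {X : Perm (Fin 13)}
    (hX : X ∈ G) (hXo : orderOf X = 11) :
    ∃ t ∈ G, t.support.card = 3 ∨ t.support.card = 2 := by
  have : Fact (Nat.Prime 11) := ⟨by norm_num⟩
  have hXc : X.IsCycle := isCycle_of_prime_order' (by rw [hXo]; norm_num) (by
    rw [hXo]; simp)
  have hsupp : X.support.card = 11 := by rw [← hXc.orderOf, hXo]
  have hX11 : X ^ 11 = 1 := by rw [← hXo]; exact pow_orderOf_eq_one X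
  obtain ⟨a, b, hab, hcompl⟩ : ∃ a b : Fin 13, a ≠ b ∧ X.supportᶜ = {a, b} := by
    apply Finset.card_eq_two.mp
    rw [Finset.card_compl, hsupp]
    rfl
  have hfix : ∀ y, X y = y ↔ y = a ∨ y = b := by
    intro y
    have : y ∈ X.supportᶜ ↔ y = a ∨ y = b := by rw [hcompl]; simp
    rw [← this, Finset.mem_compl, mem_support, not_not]
  have hXa : X a = a := (hfix a).mpr (Or.inl rfl)
  have hXb : X b = b := (hfix b).mpr (Or.inr rfl)
  have hXne : ∀ y, y ≠ a → y ≠ b → X y ≠ y := by
    intro y h1 h2 h3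
    rcases (hfix y).mp h3 with h | h
    · exact h1 h
    · exact h2 h
  have hsame : ∀ y z, y ≠ a → y ≠ b → z ≠ a → z ≠ b → ∃ t : ℕ, (X ^ t) y = z :=
    fun y z h1 h2 h3 h4 => hXc.exists_pow_eq (hXne y h1 h2) (hXne z h3 h4)
  have hpa : ∀ t : ℕ, (X ^ t) a = a := fun t => pow_apply_eq_self_of_apply_eq_self hXa t
  have hpb : ∀ t : ℕ, (X ^ t) b = b := fun t => pow_apply_eq_self_of_apply_eq_self hXb t
  -- an element of `G` swapping `a` and `b`
  obtain ⟨g, hgG, hga, hgb⟩ : ∃ g ∈ G, g a = b ∧ g b = a := by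
    obtain ⟨i, hi⟩ := exists_R_pow a b
    set s : Perm (Fin 13) := R ^ i with hs
    have hsG : s ∈ G := G.pow_mem hR i
    have hs1 : s ≠ 1 := by
      intro h
      rw [h] at hi
      exact hab hi
    have hbe : s b ≠ b := by
      intro h
      exact hs1 ((R_cycle.pow_eq_one_iff' (R_ne b)).mpr h)
    have hae : s b ≠ a := by
      intro h
      have h2 : (R ^ (2 * i)) a = a := by
        rw [two_mul, pow_add, Perm.mul_apply]
        change s (s a) = a
        rw [hi, h]
      have h3 := (R_cycle.pow_eq_one_iff' (R_ne a)).mpr h2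
      have h4 : 13 ∣ 2 * i := by rw [← orderOf_R]; exact orderOf_dvd_of_pow_eq_one h3
      have h5 : 13 ∣ i := by omega
      apply hs1
      exact orderOf_dvd_iff_pow_eq_one.mp (by rw [orderOf_R]; exact h5)
    obtain ⟨f, hf⟩ : ∃ f : Fin 13, f ≠ a ∧ f ≠ b ∧ f ≠ s b := by
      by_contra h
      push Not at h
      have hsub : (Finset.univ : Finset (Fin 13)) ⊆ {a, b, s b} := by
        intro f _
        by_cases h1 : f = a
        · simp [h1]
        by_cases h2 : f = b
        · simp [h2]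
        have := h f h1 h2
        simp [this]
      have h3 := Finset.card_le_card hsub
      have h4 : ({a, b, s b} : Finset (Fin 13)).card ≤ 3 := Finset.card_le_three
      simp at h3
      omega
    obtain ⟨hfa, hfb, hfe⟩ := hf
    obtain ⟨t, ht⟩ := hsame (s b) f hae hbe hfa hfb
    -- `s⁻¹ f, s⁻¹ a` are moved by `X`
    have hsa : s⁻¹ b = a := by rw [Perm.inv_eq_iff_eq]; exact hi.symm
    have h1 : s⁻¹ f ≠ a := by
      intro h
      rw [Perm.inv_eq_iff_eq, hi] at h
      exact hfb h
    have h2 : s⁻¹ f ≠ b := by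
      intro h
      rw [Perm.inv_eq_iff_eq] at h
      exact hfe h
    have h3 : s⁻¹ a ≠ a := by
      intro h
      rw [Perm.inv_eq_iff_eq, hi] at h
      exact hab h
    have h4 : s⁻¹ a ≠ b := by
      intro h
      rw [Perm.inv_eq_iff_eq] at h
      exact hae h.symm
    obtain ⟨v, hv⟩ := hsame (s⁻¹ f) (s⁻¹ a) h1 h2 h3 h4
    refine ⟨s * X ^ v * s⁻¹ * X ^ t * s, G.mul_mem (G.mul_mem (G.mul_mem (G.mul_mem hsG
      (G.pow_mem hX v)) (G.inv_mem hsG)) (G.pow_mem hX t)) hsG, ?_, ?_⟩
    · simp only [Perm.mul_apply, hi, hpb, hsa, hpa]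
    · simp only [Perm.mul_apply, ht, hv]
      simp
  -- moving to the normalizer
  have hQ := isSylowIn_zpowers G (p := 11) hXc hsupp hX
  have hgin : ∀ y, y ∉ X.support → g⁻¹ y ∉ X.support := by
    intro y hy
    have hy' : y = a ∨ y = b := by
      rw [mem_support, not_not] at hy
      exact (hfix y).mp hy
    rw [mem_support, not_not, hfix]
    rcases hy' with rfl | rfl
    · right; rw [Perm.inv_eq_iff_eq, hgb]
    · left; rw [Perm.inv_eq_iff_eq, hga]
  obtain ⟨l, hlA, hl⟩ := hQ.exists_mem_mul_mem_normalizer g (by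
    intro q hq
    have hqA := hQ.le hq
    refine ⟨G.mul_mem (G.mul_mem hgG hqA.1) (G.inv_mem hgG), fun y hy => ?_⟩
    rw [Perm.mul_apply, Perm.mul_apply, hqA.2 _ (hgin y hy)]
    simp)
  have hla : l a = a := hlA.2 a (by simp [hXa])
  have hlb : l b = b := hlA.2 b (by simp [hXb])
  set w₀ := l * g with hw₀
  have hw₀G : w₀ ∈ G := G.mul_mem hlA.1 hgG
  have hw₀a : w₀ a = b := by rw [hw₀, Perm.mul_apply, hga, hlb]
  have hw₀b : w₀ b = a := by rw [hw₀, Perm.mul_apply, hgb, hla]
  obtain ⟨u, hu⟩ : ∃ u : ℕ, w₀ * X * w₀⁻¹ = X ^ u := by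
    have h1 := (Subgroup.mem_normalizer_iff.mp hl X).mp (Subgroup.mem_zpowers X)
    rw [← mem_powers_iff_mem_zpowers] at h1
    obtain ⟨u, hu⟩ := h1
    exact ⟨u, hu.symm⟩
  -- the fifth power
  have hconj : ∀ n : ℕ, w₀ ^ n * X * (w₀ ^ n)⁻¹ = X ^ (u ^ n) := by
    intro n
    induction n with
    | zero => simp
    | succ n ih =>
      have e : w₀ ^ (n + 1) * X * (w₀ ^ (n + 1))⁻¹ =
          w₀ * (w₀ ^ n * X * (w₀ ^ n)⁻¹) * w₀⁻¹ := by
        rw [pow_succ']; group
      rw [e, ih, ← conj_pow, hu, ← pow_mul, pow_succ']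
  set w := w₀ ^ 5 with hw
  have hwG : w ∈ G := G.pow_mem hw₀G 5
  have hwa : w a = b := by
    simp only [hw, pow_succ, pow_zero, one_mul, Perm.mul_apply, hw₀a, hw₀b]
  have hwb : w b = a := by
    simp only [hw, pow_succ, pow_zero, one_mul, Perm.mul_apply, hw₀a, hw₀b]
  have hcase : w * X * w⁻¹ = X ∨ w * X * w⁻¹ = X ^ 10 := by
    have h1 := hconj 5
    rw [← hw, ← pow_mod_orderOf, hXo, Nat.pow_mod] at h1
    have h2 : u % 11 < 11 := Nat.mod_lt _ (by norm_num)
    have hX1 : X ≠ 1 := fun h => by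
      rw [h, orderOf_one] at hXo
      omega
    generalize u % 11 = r at h1 h2
    interval_cases r
    · exfalso
      norm_num at h1
      apply hX1
      have : w⁻¹ * (w * X * w⁻¹) * w = 1 := by rw [h1]; simp
      simpa [mul_assoc] using this
    all_goals norm_num at h1
    all_goals first
      | exact Or.inl h1
      | exact Or.inr h1
  obtain ⟨y₀, hy₀a, hy₀b⟩ : ∃ y₀ : Fin 13, y₀ ≠ a ∧ y₀ ≠ b := by
    have : X ≠ 1 := fun h => by
      rw [h, orderOf_one] at hXo
      omega
    obtain ⟨y, hy⟩ := not_forall.mp (fun h => this (Equiv.ext h))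
    refine ⟨y, ?_, ?_⟩
    · rintro rfl; exact hy hXa
    · rintro rfl; exact hy hXb
  have hwy : ∀ y, y ≠ a → y ≠ b → w y ≠ a ∧ w y ≠ b := by
    intro y h1 h2
    constructor
    · intro h
      exact h2 (w.injective (h.trans hwb.symm))
    · intro h
      exact h1 (w.injective (h.trans hwa.symm))
  obtain ⟨j, hj⟩ := hsame y₀ (w y₀) hy₀a hy₀b (hwy _ hy₀a hy₀b).1 (hwy _ hy₀a hy₀b).2
  rcases hcase with hc | hc
  · -- `w` centralizes `X`: a transposition
    have hcomm : Commute w X := by
      have : w * X = X * w := by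
        rw [← mul_inv_eq_iff_eq_mul]
        exact hc
      exact this
    set v := (X ^ j)⁻¹ * w with hv
    have hvG : v ∈ G := G.mul_mem (G.inv_mem (G.pow_mem hX j)) hwG
    have hvcomm : Commute v X := ((Commute.refl X).pow_left j).inv_left.mul_left hcomm
    have hvy₀ : v y₀ = y₀ := by
      rw [hv, Perm.mul_apply, ← hj]
      simp
    have hvy : ∀ y, y ≠ a → y ≠ b → v y = y := by
      intro y h1 h2
      obtain ⟨t, rfl⟩ := hsame y₀ y hy₀a hy₀b h1 h2
      have : v * X ^ t = X ^ t * v := (hvcomm.pow_right t).eq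
      rw [← Perm.mul_apply, this, Perm.mul_apply, hvy₀]
    have hinv_pow : ∀ y, (X ^ j) y = y → (X ^ j)⁻¹ y = y := by
      intro y h
      rw [Perm.inv_eq_iff_eq, h]
    have hva : v a = b := by
      rw [hv, Perm.mul_apply, hwa, hinv_pow _ (hpb j)]
    have hvb : v b = a := by
      rw [hv, Perm.mul_apply, hwb, hinv_pow _ (hpa j)]
    refine ⟨v, hvG, Or.inr (card_support_eq_two.mpr ⟨a, b, hab, ?_⟩)⟩
    ext y
    congr 1
    by_cases h1 : y = a
    · subst h1; simp [hva]
    by_cases h2 : y = b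
    · subst h2; simp [hvb]
    rw [hvy y h1 h2, swap_apply_of_ne_of_ne h1 h2]
  · -- `w` inverts `X`
    have hwX : w * X = X ^ 10 * w := by
      rw [← mul_inv_eq_iff_eq_mul]
      exact hc
    have hwXp : ∀ (t : ℕ) (y : Fin 13), w ((X ^ t) y) = (X ^ (10 * t)) (w y) := by
      intro t y
      have h1 : w * X ^ t * w⁻¹ = (X ^ 10) ^ t := by rw [← conj_pow, hc]
      have h2 : w * X ^ t = X ^ (10 * t) * w := by
        rw [pow_mul, ← h1]
        group
      rw [← Perm.mul_apply, h2, Perm.mul_apply]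
    have hXmod : ∀ (s t : ℕ), X ^ (s + 11 * t) = X ^ s := by
      intro s t
      rw [pow_add, pow_mul, hX11, one_pow, mul_one]
    set c := (X ^ (6 * j)) y₀ with hc'
    have hwc : w c = c := by
      rw [hc', hwXp, ← hj, ← Perm.mul_apply, ← pow_add,
        show 10 * (6 * j) + j = 6 * j + 11 * (5 * j) by ring, hXmod]
    have hca : c ≠ a := fun h => hy₀a ((X ^ (6 * j)).injective (h.trans (hpa _).symm))
    have hcb : c ≠ b := fun h => hy₀b ((X ^ (6 * j)).injective (h.trans (hpb _).symm))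
    clear_value c
    have hinv : ∀ y, w (w y) = y := by
      intro y
      by_cases h1 : y = a
      · rw [h1, hwa, hwb]
      by_cases h2 : y = b
      · rw [h2, hwb, hwa]
      obtain ⟨t, rfl⟩ := hsame c y hca hcb h1 h2
      rw [hwXp, hwc, hwXp, hwc, show 10 * (10 * t) = t + 11 * (9 * t) by ring, hXmod]
    have hwc2 : ∀ y, y ≠ a → y ≠ b → w y = y → y = c := by
      intro y h1 h2 hy
      obtain ⟨t, rfl⟩ := hsame c y hca hcb h1 h2
      rw [hwXp, hwc] at hy
      have h3 : (X ^ (2 * t)) c = c := by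
        have h4 := congrArg (X ^ t) hy
        rw [← Perm.mul_apply, ← Perm.mul_apply, ← pow_add, ← pow_add,
          show t + 10 * t = 0 + 11 * t by ring, hXmod] at h4
        simp only [pow_zero, Perm.one_apply] at h4
        rw [two_mul]
        exact h4.symm
      have h5 := (hXc.pow_eq_one_iff' (hXne c hca hcb)).mpr h3
      have h6 : 11 ∣ 2 * t := by rw [← hXo]; exact orderOf_dvd_of_pow_eq_one h5
      have h7 : 11 ∣ t := by omega
      have h8 : X ^ t = 1 := orderOf_dvd_iff_pow_eq_one.mp (by rw [hXo]; exact h7)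
      rw [h8]
      rfl
    have huniq : ∀ y, w y = y → y = c := by
      intro y hy
      refine hwc2 y ?_ ?_ hy
      · rintro rfl
        exact hab (hy.symm.trans hwa)
      · rintro rfl
        exact hab (hwb.symm.trans hy)
    have hww : w * w = 1 := Equiv.ext hinv
    have hwi : w⁻¹ = w := inv_eq_of_mul_eq_one_left hww
    -- the conjugate involution
    have hw'G : X * w * X⁻¹ ∈ G := G.mul_mem (G.mul_mem hX hwG) (G.inv_mem hX)
    have hw'c : (X * w * X⁻¹) (X c) = X c := by simp [Perm.mul_apply, hwc]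
    have hw'uniq : ∀ y, (X * w * X⁻¹) y = y → y = X c := by
      intro y hy
      have h1 : w (X⁻¹ y) = X⁻¹ y := by
        apply X.injective
        simpa [Perm.mul_apply] using hy
      have h2 := huniq _ h1
      rw [← h2]
      simp
    have hw'inv : ∀ y, (X * w * X⁻¹) ((X * w * X⁻¹) y) = y := by
      intro y
      simp [Perm.mul_apply, hinv]
    rcases inverts_of_invol G hR hwG hwc huniq hinv with h1 | h1
    swap
    · obtain ⟨t, ht, ht3⟩ := h1
      exact ⟨t, ht, Or.inl (card_support_eq_three_iff.mpr ht3)⟩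
    rcases inverts_of_invol G hR hw'G hw'c hw'uniq hw'inv with h2 | h2
    swap
    · obtain ⟨t, ht, ht3⟩ := h2
      exact ⟨t, ht, Or.inl (card_support_eq_three_iff.mpr ht3)⟩
    exfalso
    set w' := X * w * X⁻¹ with hw'
    have hw'w' : w' * w' = 1 := Equiv.ext hw'inv
    have hv : w * w' = X ^ 9 := by
      have h3 : w * X * w = X ^ 10 := by
        rw [← hc, hwi]
      calc w * w' = (w * X * w) * X⁻¹ := by rw [hw']; group
        _ = X ^ 10 * X⁻¹ := by rw [h3]
        _ = X ^ 9 := by rw [show (10 : ℕ) = 9 + 1 by norm_num, pow_succ]; group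
    have h4 : w * (R)⁻¹ * w = R := by
      calc w * (R)⁻¹ * w = w * (w * R * w) * w := by rw [h1]
        _ = (w * w) * R * (w * w) := by group
        _ = R := by rw [hww]; simp
    have hcomm : Commute (X ^ 9) (R) := by
      rw [← hv]
      change w * w' * R = R * (w * w')
      calc w * w' * R = w * w' * R * (w' * w') := by rw [hw'w', mul_one]
        _ = w * (w' * R * w') * w' := by group
        _ = w * (R)⁻¹ * w' := by rw [h2]
        _ = w * (R)⁻¹ * w * (w * w') := by
            rw [mul_assoc (w * (R)⁻¹) w, ← mul_assoc w w w', hww, one_mul]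
        _ = R * (w * w') := by rw [h4]
    have hX9 : X ^ 9 = 1 := by
      ext y
      obtain ⟨i, rfl⟩ := exists_R_pow a y
      congr 1
      rw [← Perm.mul_apply, ((hcomm.pow_right i).eq), Perm.mul_apply, hpa, Perm.one_apply]
    have := orderOf_dvd_of_pow_eq_one hX9
    rw [hXo] at this
    omega

end Cfsg.Agent.Lib.Perm.Special13
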