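import Cfsg.Agent.S0713
import Cfsg.Agent.Lib.Perm.Check67
import Cfsg.Agent.Lib.Perm.Special13

/-!
# Two elements of large prime orders generate an alternating group

`good_core`: `X, Y` of orders `p < q` (odd primes) with `|Ω| < 2 q`, `|Ω| < p + q`,
`|Ω| ≤ 2 p`, generate a group isomorphic to an alternating group, under a numerical condition
which excludes the degrees where Jordan's theorem does not apply directly
(those are treated by finite checks in degrees 6, 7 and 13).
-/

set_option autoImplicit false

namespace Cfsg.Agent.Lib.Perm.AltGen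

open Equiv Equiv.Perm MulAction Subgroup
open scoped Pointwise

section Prim

variable {β : Type*} [Fintype β] [DecidableEq β]

/-- A transitive group with a cycle of prime length more than half of the degree is primitive. -/
theorem preprimitive_of_cycle (G : Subgroup (Perm β)) [IsPretransitive G β] {y : Perm β}
    (hy : y ∈ G) (hyc : y.IsCycle) (hprime : y.support.card.Prime)
    (h2 : Fintype.card β < 2 * y.support.card) : IsPreprimitive G β := by
  obtain ⟨a, ha, -⟩ := id hyc
  refine IsPreprimitive.of_isTrivialBlock_base a (fun {B} haB hB => ?_)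
  have hblock := isBlock_iff_smul_eq_or_disjoint.mp hB
  have hgpow : ∀ (h : G) (k : ℕ), h • B = B → (h ^ k) • B = B := by
    intro h k hh
    induction k with
    | zero => simp
    | succ k ih => rw [pow_succ, mul_smul, hh, ih]
  let g : G := ⟨y, hy⟩
  rcases hblock g with h1 | h1
  · right
    have hpow : ∀ k : ℕ, (y ^ k) a ∈ B := by
      intro k
      have : (g ^ k) • a ∈ (g ^ k) • B := Set.smul_mem_smul_set haB
      rw [hgpow g k h1] at this
      exact this
    have hsub : (y.support : Set β) ⊆ B := by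
      intro b hb
      obtain ⟨i, rfl⟩ := hyc.exists_pow_eq ha (mem_support.mp hb)
      exact hpow i
    have hcard : y.support.card ≤ B.ncard := by
      rw [← Set.ncard_coe_finset]
      exact Set.ncard_le_ncard hsub (Set.toFinite _)
    have hdvd := hB.ncard_dvd_card ⟨a, haB⟩
    rw [Nat.card_eq_fintype_card] at hdvd
    obtain ⟨k, hk⟩ := hdvd
    have hpos : 0 < Fintype.card β := Fintype.card_pos_iff.mpr ⟨a⟩
    have hk1 : k = 1 := by
      have h0 : k ≠ 0 := by
        rintro rfl
        omega
      have h3 : k < 2 := by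
        by_contra h4
        have : B.ncard * 2 ≤ B.ncard * k := Nat.mul_le_mul_left _ (by omega)
        omega
      omega
    rw [hk1, mul_one] at hk
    rw [Set.eq_univ_iff_ncard, Nat.card_eq_fintype_card]
    exact hk.symm
  · left
    have hall : ∀ c ∈ B, c = a := by
      intro c hc
      by_contra hne
      by_cases hyc0 : y c = c
      · have : c ∈ g • B := ⟨c, hc, hyc0⟩
        exact Set.disjoint_left.mp h1 this hc
      obtain ⟨i, rfl⟩ := hyc.exists_pow_eq ha hyc0
      have hnd : ¬ Disjoint ((g ^ i) • B) B := fun hd =>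
        Set.disjoint_left.mp hd (Set.smul_mem_smul_set haB) hc
      have hst : (g ^ i) • B = B := (hblock (g ^ i)).resolve_right hnd
      have hy1 : y ^ i ≠ 1 := by
        intro e
        apply hne
        rw [e]
        rfl
      have hcop : Nat.Coprime i (orderOf y) := by
        rw [hyc.orderOf]
        apply Nat.Coprime.symm
        rw [hprime.coprime_iff_not_dvd]
        intro hd
        rw [← hyc.orderOf] at hd
        exact hy1 (orderOf_dvd_iff_pow_eq_one.mp hd)
      obtain ⟨m, hm⟩ := exists_pow_eq_self_of_coprime hcop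
      have hgm : (g ^ i) ^ m = g := Subtype.ext hm
      have hgB : g • B = B := by
        rw [← hgm]
        exact hgpow _ _ hst
      rw [hgB] at h1
      exact Set.disjoint_left.mp h1 haB haB
    intro c hc d hd
    rw [hall c hc, hall d hd]

theorem sign_eq_one_of_odd {u : Perm β} {n : ℕ} (hn : Odd n) (hu : u ^ n = 1) : sign u = 1 := by
  have h1 : (sign u) ^ n = 1 := by rw [← map_pow, hu, map_one]
  rcases Int.units_eq_one_or (sign u) with h | h
  · exact h
  · rw [h, hn.neg_one_pow] at h1
    exact absurd h1 (by decide)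

end Prim

section Transport

variable {β : Type*} [Fintype β] [DecidableEq β] {γ : Type*} [Fintype γ] [DecidableEq γ]

theorem card_support_permCongr (e : β ≃ γ) (f : Perm β) :
    (e.permCongr f).support.card = f.support.card := by
  symm
  apply Finset.card_equiv e
  intro i
  simp [mem_support, Equiv.permCongr_apply]

theorem exists_equiv_conj {n : ℕ} (hc : Fintype.card β = n) {Y : Perm β} (hY : Y.IsCycle)
    {R : Perm (Fin n)} (hR : R.IsCycle) (hs : Y.support.card = R.support.card) :
    ∃ e : β ≃ Fin n, e.permCongr Y = R := by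
  let e₀ : β ≃ Fin n := Fintype.equivFinOfCardEq hc
  have h1 : (e₀.permCongr Y).IsCycle := by
    obtain ⟨x, hx, hx'⟩ := id hY
    refine ⟨e₀ x, ?_, fun y hy => ?_⟩
    · simpa [Equiv.permCongr_apply] using hx
    · have hy' : Y (e₀.symm y) ≠ e₀.symm y := by
        intro h
        apply hy
        simp [Equiv.permCongr_apply, h]
      obtain ⟨i, hi⟩ := hx' hy'
      refine ⟨i, ?_⟩
      have : (e₀.permCongr Y) ^ i = e₀.permCongr (Y ^ i) :=
        (map_zpow e₀.permCongrHom Y i).symm
      rw [this, Equiv.permCongr_apply]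
      simp [hi]
  have h2 : IsConj (e₀.permCongr Y) R :=
    h1.isConj hR (by rw [card_support_permCongr, hs])
  obtain ⟨c, hc'⟩ := isConj_iff.mp h2
  refine ⟨e₀.trans c, ?_⟩
  rw [← hc']
  ext i
  simp [Equiv.permCongr_apply, Perm.mul_apply]

/-- Elements of the image of `G` come with the same support size from `G`. -/
theorem exists_of_mem_map (e : β ≃ γ) (G : Subgroup (Perm β)) {t : Perm γ}
    (ht : t ∈ G.map e.permCongrHom.toMonoidHom) :
    ∃ t₀ ∈ G, t₀.support.card = t.support.card := by
  obtain ⟨t₀, ht₀, rfl⟩ := ht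
  refine ⟨t₀, ht₀, ?_⟩
  exact (card_support_permCongr e t₀).symm

end Transport

section Alt5

open Cfsg.Agent.Lib.Perm.Check67

/-- If `x` of order 3 normalizes the total, then `x, R5` generate a copy of `A₅`. -/
theorem alt5_of_pres {x : Perm (Fin 6)} (hx3 : x ^ 3 = 1) (hx1 : x ≠ 1)
    (hpres : ∀ t ∈ Tp, x * t * x⁻¹ ∈ Tp) :
    Nonempty (closure ({x, R5} : Set (Perm (Fin 6))) ≃* alternatingGroup (Fin 5)) := by
  classical
  set H := closure ({x, R5} : Set (Perm (Fin 6))) with hH
  have hxH : x ∈ H := subset_closure (by simp)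
  have hRH : R5 ∈ H := subset_closure (by simp)
  have hp : ∀ h ∈ H, ∀ t ∈ Tp, h * t * h⁻¹ ∈ Tp := by
    intro h hh
    induction hh using closure_induction with
    | mem g hg =>
      rcases hg with rfl | hg
      · exact hpres
      · rw [Set.mem_singleton_iff.mp hg]
        exact R5_pres
    | one => simp
    | mul a b _ _ ha hb =>
      intro t ht
      have := ha _ (hb t ht)
      rwa [show a * (b * t * b⁻¹) * a⁻¹ = a * b * t * (a * b)⁻¹ by group] at this
    | inv a _ ha =>
      have hpow : ∀ k : ℕ, ∀ t ∈ Tp, a ^ k * t * (a ^ k)⁻¹ ∈ Tp := by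
        intro k
        induction k with
        | zero => simp
        | succ k ih =>
          intro t ht
          have := ih _ (ha t ht)
          rwa [show a ^ k * (a * t * a⁻¹) * (a ^ k)⁻¹ = a ^ (k + 1) * t * (a ^ (k + 1))⁻¹ by
            rw [pow_succ]; group] at this
      have hinv : a⁻¹ = a ^ (orderOf a - 1) := by
        rw [inv_eq_iff_mul_eq_one, ← pow_succ', Nat.sub_add_cancel (orderOf_pos a),
          pow_orderOf_eq_one]
      rw [hinv]
      exact hpow _
  let S := {t // t ∈ Tp}
  have hcardS : Fintype.card S = 5 := by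
    rw [Fintype.card_coe, card_Tp]
  let ρ : H →* Perm S :=
    { toFun := fun h =>
        { toFun := fun t => ⟨(h : Perm (Fin 6)) * t * (h : Perm (Fin 6))⁻¹, hp h h.2 t t.2⟩
          invFun := fun t => ⟨(h : Perm (Fin 6))⁻¹ * t * h, by
            simpa using hp _ (H.inv_mem h.2) t t.2⟩
          left_inv := fun t => Subtype.ext (by simp [mul_assoc])
          right_inv := fun t => Subtype.ext (by simp [mul_assoc]) }
      map_one' := by
        ext t
        simp
      map_mul' := fun a b => by
        ext t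
        simp [mul_assoc] }
  have hρ : ∀ (h : H) (t : S), (((ρ h) t : S) : Perm (Fin 6)) =
      (h : Perm (Fin 6)) * t * (h : Perm (Fin 6))⁻¹ := fun _ _ => rfl
  have hinj : Function.Injective ρ := by
    rw [injective_iff_map_eq_one]
    intro h hh
    apply Subtype.ext
    apply central_Tp
    intro t ht
    have := hρ h ⟨t, ht⟩
    rw [hh] at this
    simp only [Perm.one_apply] at this
    rw [eq_mul_inv_iff_mul_eq] at this
    exact this.symm
  let x₁ : H := ⟨x, hxH⟩
  let R₁ : H := ⟨R5, hRH⟩
  have hox : orderOf (ρ x₁) = 3 := by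
    rw [orderOf_injective ρ hinj, ← Subgroup.orderOf_coe]
    have : Fact (Nat.Prime 3) := ⟨by norm_num⟩
    exact orderOf_eq_prime hx3 hx1
  have hoR : orderOf (ρ R₁) = 5 := by
    rw [orderOf_injective ρ hinj, ← Subgroup.orderOf_coe]
    exact orderOf_R5
  have hcx : (ρ x₁).IsCycle := isCycle_of_prime_order' (by rw [hox]; norm_num) (by
    rw [hox, hcardS]; norm_num)
  have hcR : (ρ R₁).IsCycle := isCycle_of_prime_order' (by rw [hoR]; norm_num) (by
    rw [hoR, hcardS]; norm_num)
  have h3c : (ρ x₁).IsThreeCycle := by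
    rw [← card_support_eq_three_iff, ← hcx.orderOf, hox]
  have hsR : (ρ R₁).support = Finset.univ := by
    apply Finset.eq_univ_of_card
    rw [← hcR.orderOf, hoR, hcardS]
  have hne : ∀ a : S, ρ R₁ a ≠ a := fun a => by
    rw [← mem_support, hsR]
    exact Finset.mem_univ _
  have htrans : IsPretransitive ρ.range S := by
    refine ⟨fun a b => ?_⟩
    obtain ⟨i, hi⟩ := hcR.exists_pow_eq (hne a) (hne b)
    exact ⟨⟨(ρ R₁) ^ i, ρ.range.pow_mem ⟨R₁, rfl⟩ i⟩, hi⟩
  have hprim : IsPreprimitive ρ.range S := by
    apply IsPreprimitive.of_prime_card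
    rw [Nat.card_eq_fintype_card, hcardS]
    norm_num
  have hle1 : alternatingGroup S ≤ ρ.range :=
    alternatingGroup_le_of_isPreprimitive_of_isThreeCycle_mem hprim h3c ⟨x₁, rfl⟩
  have hle2 : ρ.range ≤ alternatingGroup S := by
    rintro _ ⟨⟨g, hg⟩, rfl⟩
    rw [Equiv.Perm.mem_alternatingGroup]
    induction hg using closure_induction with
    | mem g hg =>
      rcases hg with rfl | hg
      · exact sign_eq_one_of_odd (n := 3) (by decide) (by
          rw [← hox]; exact pow_orderOf_eq_one _)
      · obtain rfl := Set.mem_singleton_iff.mp hg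
        exact sign_eq_one_of_odd (n := 5) (by decide) (by
          rw [← hoR]; exact pow_orderOf_eq_one _)
    | one =>
      have : ρ ⟨1, H.one_mem⟩ = 1 := map_one ρ
      rw [this, map_one]
    | mul a b ha hb ih1 ih2 =>
      have : ρ ⟨a * b, H.mul_mem ha hb⟩ = ρ ⟨a, ha⟩ * ρ ⟨b, hb⟩ := map_mul ρ ⟨a, ha⟩ ⟨b, hb⟩
      rw [this, map_mul, ih1, ih2, one_mul]
    | inv a ha ih =>
      have : ρ ⟨a⁻¹, H.inv_mem ha⟩ = (ρ ⟨a, ha⟩)⁻¹ := map_inv ρ ⟨a, ha⟩
      rw [this, map_inv, ih, inv_one]
  have heq : ρ.range = alternatingGroup S := le_antisymm hle2 hle1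
  exact ⟨(MonoidHom.ofInjective hinj).trans ((MulEquiv.subgroupCongr heq).trans
    (Equiv.altCongrHom (Fintype.equivFinOfCardEq hcardS)))⟩

end Alt5

section Local

open Cfsg.Agent.Lib.Perm.Check67 Cfsg.Agent.Lib.Perm.Special13

variable {β : Type*} [Fintype β] [DecidableEq β]

/-- The local form: the group generated by `x, y` is transitive. -/
theorem good_local {x y : Perm β} {p q : ℕ} (hp : p.Prime) (hq : q.Prime) (hpo : Odd p)
    (hqo : Odd q) (hpq : p < q) (hq5 : 5 ≤ q) (hxo : orderOf x = p) (hyo : orderOf y = q)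
    (hyc : y.IsCycle) (hcardq : Fintype.card β < 2 * q)
    (htr : IsPretransitive (closure ({x, y} : Set (Perm β))) β)
    (hcase : (x.IsCycle ∧ (p = 3 ∨ p + 3 ≤ Fintype.card β ∨ (p = 5 ∧ Fintype.card β = 7) ∨
        (p = 11 ∧ Fintype.card β = 13))) ∨ q + 3 ≤ Fintype.card β ∨
      (p = 3 ∧ q = 5 ∧ Fintype.card β = 6 ∧ ∀ a, x a ≠ a)) :
    ∃ d, 5 ≤ d ∧ Nonempty (closure ({x, y} : Set (Perm β)) ≃* alternatingGroup (Fin d)) := by
  set G := closure ({x, y} : Set (Perm β)) with hG
  have hx : x ∈ G := subset_closure (by simp)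
  have hy : y ∈ G := subset_closure (by simp)
  have hys : y.support.card = q := by rw [← hyc.orderOf, hyo]
  have hcq : q ≤ Fintype.card β := by
    rw [← hys]
    exact Finset.card_le_univ _
  have hprim : IsPreprimitive G β :=
    preprimitive_of_cycle G hy hyc (by rw [hys]; exact hq) (by rw [hys]; exact hcardq)
  have hev : G ≤ alternatingGroup β := by
    rw [hG, closure_le]
    rintro g (rfl | hg)
    · exact sign_eq_one_of_odd hpo (by rw [← hxo]; exact pow_orderOf_eq_one _)
    · obtain rfl := Set.mem_singleton_iff.mp hg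
      exact sign_eq_one_of_odd hqo (by rw [← hyo]; exact pow_orderOf_eq_one _)
  have hfin : alternatingGroup β ≤ G → ∃ d, 5 ≤ d ∧ Nonempty (G ≃* alternatingGroup (Fin d)) :=
    fun h => ⟨Fintype.card β, by omega, ⟨(MulEquiv.subgroupCongr (le_antisymm hev h)).trans
      (Equiv.altCongrHom (Fintype.equivFin β))⟩⟩
  have h3 : ∀ t ∈ G, t.support.card = 3 →
      ∃ d, 5 ≤ d ∧ Nonempty (G ≃* alternatingGroup (Fin d)) := fun t ht h =>
    hfin (alternatingGroup_le_of_isPreprimitive_of_isThreeCycle_mem hprim
      (card_support_eq_three_iff.mp h) ht)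
  rcases hcase with ⟨hxc, hc⟩ | hc | ⟨rfl, rfl, hc, hfp⟩
  · have hxs : x.support.card = p := by rw [← hxc.orderOf, hxo]
    rcases hc with rfl | hc | ⟨rfl, hc⟩ | ⟨rfl, hc⟩
    · exact h3 x hx hxs
    · exact hfin (Cfsg.Agent.S0713.result G hprim hp (by omega) hc hxc hxs hx)
    · have hq7 : q = 7 := by
        have h1 : q ≠ 6 := by
          rintro rfl
          norm_num at hq
        omega
      subst hq7
      obtain ⟨e, he⟩ := exists_equiv_conj hc hyc (isCycle_finRotate_of_le (n := 7) (by omega))
        (by rw [hys, support_finRotate_of_le (by omega)]; rfl)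
      have hR : finRotate 7 ∈ G.map e.permCongrHom.toMonoidHom := ⟨y, hy, he⟩
      obtain ⟨t, ht, ht3⟩ := check7 (G.map e.permCongrHom.toMonoidHom) hR
        (x := e.permCongr x) ⟨x, hx, rfl⟩
        (by
          have h5 : x ^ 5 = 1 := by rw [← hxo]; exact pow_orderOf_eq_one _
          have := map_pow e.permCongrHom x 5
          rw [h5, map_one] at this
          exact this.symm)
        (by
          intro h1
          have h2 : x = 1 := e.permCongrHom.injective (h1.trans (map_one e.permCongrHom).symm)
          rw [h2, orderOf_one] at hxo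
          omega)
      obtain ⟨t₀, ht₀, hs⟩ := exists_of_mem_map e G ht
      exact h3 t₀ ht₀ (by rw [hs]; exact card_support_eq_three_iff.mpr ht3)
    · have hq13 : q = 13 := by
        have h1 : q ≠ 12 := by
          rintro rfl
          norm_num at hq
        omega
      subst hq13
      obtain ⟨e, he⟩ := exists_equiv_conj hc hyc (isCycle_finRotate_of_le (n := 13) (by omega))
        (by rw [hys, support_finRotate_of_le (by omega)]; rfl)
      have hR : finRotate 13 ∈ G.map e.permCongrHom.toMonoidHom := ⟨y, hy, he⟩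
      obtain ⟨t, ht, ht3⟩ := special13_fin (G.map e.permCongrHom.toMonoidHom) hR
        (X := e.permCongr x) ⟨x, hx, rfl⟩ (by
          rw [← hxo]
          exact MulEquiv.orderOf_eq e.permCongrHom x)
      obtain ⟨t₀, ht₀, hs⟩ := exists_of_mem_map e G ht
      rcases ht3 with ht3 | ht3
      · exact h3 t₀ ht₀ (by rw [hs]; exact ht3)
      · exfalso
        have h1 : t₀.IsSwap := card_support_eq_two.mp (by rw [hs]; exact ht3)
        have h2 := hev ht₀
        rw [Equiv.Perm.mem_alternatingGroup, h1.sign_eq] at h2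
        exact absurd h2 (by decide)
  · exact hfin (Cfsg.Agent.S0713.result G hprim hq (by omega) hc hyc hys hy)
  · obtain ⟨e, he⟩ := exists_equiv_conj hc hyc R5_cycle (by rw [hys, R5_supp])
    have hR : R5 ∈ G.map e.permCongrHom.toMonoidHom := ⟨y, hy, he⟩
    have hx3 : (e.permCongr x) ^ 3 = 1 := by
      have h5 : x ^ 3 = 1 := by rw [← hxo]; exact pow_orderOf_eq_one _
      have := map_pow e.permCongrHom x 3
      rw [h5, map_one] at this
      exact this.symm
    have hx1 : e.permCongr x ≠ 1 := by
      intro h1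
      have h2 : x = 1 := e.permCongrHom.injective (h1.trans (map_one e.permCongrHom).symm)
      rw [h2, orderOf_one] at hxo
      omega
    rcases check6 (G.map e.permCongrHom.toMonoidHom) hR
      (x := e.permCongr x) ⟨x, hx, rfl⟩ hx3
      (by
        intro i
        rw [Equiv.permCongr_apply]
        intro h
        apply hfp (e.symm i)
        apply e.injective
        rw [h]
        simp) with hpr | ⟨t, ht, ht3⟩
    · obtain ⟨iso⟩ := alt5_of_pres hx3 hx1 hpr
      refine ⟨5, le_rfl, ⟨?_⟩⟩
      have hmap : G.map e.permCongrHom.toMonoidHom = closure {e.permCongr x, R5} := by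
        rw [hG, MonoidHom.map_closure, Set.image_pair,
          show e.permCongrHom.toMonoidHom y = R5 from he]
        rfl
      exact (Subgroup.equivMapOfInjective G e.permCongrHom.toMonoidHom
        e.permCongrHom.injective).trans ((MulEquiv.subgroupCongr hmap).trans iso)
    · obtain ⟨t₀, ht₀, hs⟩ := exists_of_mem_map e G ht
      exact h3 t₀ ht₀ (by rw [hs]; exact card_support_eq_three_iff.mpr ht3)

end Local

section Core

variable {Ω : Type*} [Fintype Ω] [DecidableEq Ω]

theorem mem_iff_of_support_subset {f : Perm Ω} {D : Finset Ω} (h : f.support ⊆ D) (a : Ω) :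
    f a ∈ D ↔ a ∈ D := by
  by_cases ha : f a = a
  · rw [ha]
  · have h1 : a ∈ f.support := mem_support.mpr ha
    have h2 : f a ∈ f.support := Perm.apply_mem_support.mpr h1
    exact ⟨fun _ => h h1, fun _ => h h2⟩

/-- The dichotomy for elements of prime order `p` when the degree is at most `2 p`. -/
theorem isCycle_or_fixedPointFree {X : Perm Ω} {p : ℕ} (hp : p.Prime) (hXo : orderOf X = p)
    (h2p : Fintype.card Ω ≤ 2 * p) :
    X.IsCycle ∨ (2 * p ≤ Fintype.card Ω ∧ ∀ a, X a ≠ a) := by
  obtain ⟨n, hn⟩ := cycleType_prime_order (by rw [hXo]; exact hp)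
  rw [hXo] at hn
  have hs : X.support.card = (n + 1) * p := by
    rw [← sum_cycleType, hn, Multiset.sum_replicate, smul_eq_mul]
  rcases Nat.eq_zero_or_pos n with rfl | hn0
  · left
    rw [← card_cycleType_eq_one, hn]
    simp
  · right
    have h1 : 2 * p ≤ X.support.card := by
      rw [hs]
      exact Nat.mul_le_mul_right _ (by omega)
    have h2 : X.support.card ≤ Fintype.card Ω := Finset.card_le_univ _
    refine ⟨by omega, fun a => ?_⟩
    have h3 : X.support = Finset.univ := Finset.eq_univ_of_card _ (by omega)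
    rw [← mem_support, h3]
    exact Finset.mem_univ _

/-- The global form. -/
theorem good_core {X Y : Perm Ω} {p q : ℕ} (hp : p.Prime) (hq : q.Prime) (hpo : Odd p)
    (hqo : Odd q) (hpq : p < q) (hq5 : 5 ≤ q) (hXo : orderOf X = p) (hYo : orderOf Y = q)
    (h2q : Fintype.card Ω < 2 * q) (hpq' : Fintype.card Ω < p + q) (h2p : Fintype.card Ω ≤ 2 * p)
    (hgen : p = 3 ∨ p + 3 ≤ q ∨ (p = 5 ∧ q = 7) ∨ (p = 11 ∧ q = 13))
    (hnc : 2 * p ≤ Fintype.card Ω → q + 3 ≤ Fintype.card Ω ∨
      (p = 3 ∧ q = 5 ∧ Fintype.card Ω = 6)) :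
    ∃ d, 5 ≤ d ∧ Nonempty (closure ({X, Y} : Set (Perm Ω)) ≃* alternatingGroup (Fin d)) := by
  have hYc : Y.IsCycle := isCycle_of_prime_order' (by rw [hYo]; exact hq) (by rw [hYo]; exact h2q)
  set D : Finset Ω := X.support ∪ Y.support with hD
  have hXD : ∀ a, X a ∈ D ↔ a ∈ D := mem_iff_of_support_subset Finset.subset_union_left
  have hYD : ∀ a, Y a ∈ D ↔ a ∈ D := mem_iff_of_support_subset Finset.subset_union_right
  let x' : Perm {a // a ∈ D} := X.subtypePerm hXD
  let y' : Perm {a // a ∈ D} := Y.subtypePerm hYD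
  have hfx : ofSubtype x' = X :=
    ofSubtype_subtypePerm hXD (fun a ha => Finset.mem_union_left _ (mem_support.mpr ha))
  have hfy : ofSubtype y' = Y :=
    ofSubtype_subtypePerm hYD (fun a ha => Finset.mem_union_right _ (mem_support.mpr ha))
  have hx'o : orderOf x' = p := by
    rw [← hXo, ← hfx]
    exact (orderOf_injective ofSubtype ofSubtype_injective x').symm
  have hy'o : orderOf y' = q := by
    rw [← hYo, ← hfy]
    exact (orderOf_injective ofSubtype ofSubtype_injective y').symm
  have hcardD : Fintype.card {a // a ∈ D} = D.card := Fintype.card_coe D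
  have hDle : D.card ≤ Fintype.card Ω := Finset.card_le_univ _
  have hy'c : y'.IsCycle := isCycle_of_prime_order' (by rw [hy'o]; exact hq) (by
    rw [hy'o, hcardD]; omega)
  have hy's : y'.support.card = q := by rw [← hy'c.orderOf, hy'o]
  have hqD : q ≤ D.card := by
    rw [← hcardD, ← hy's]
    exact Finset.card_le_univ _
  have hx'val : ∀ (u : {a // a ∈ D}) (i : ℤ), (((x' ^ i) u : {a // a ∈ D}) : Ω) = (X ^ i) u := by
    intro u i
    have : ofSubtype (x' ^ i) = X ^ i := by rw [map_zpow, hfx]
    rw [← this, ofSubtype_apply_coe]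
  -- transitivity
  have htr : IsPretransitive (closure ({x', y'} : Set (Perm {a // a ∈ D}))) {a // a ∈ D} := by
    set G' := closure ({x', y'} : Set (Perm {a // a ∈ D})) with hG'
    have hx'G : x' ∈ G' := subset_closure (by simp)
    have hy'G : y' ∈ G' := subset_closure (by simp)
    obtain ⟨b, hb, -⟩ := id hYc
    have hbD : b ∈ D := Finset.mem_union_right _ (mem_support.mpr hb)
    have hmove : ∀ u : {a // a ∈ D}, Y u ≠ u → y' u ≠ u := by
      intro u hu h
      exact hu (congrArg Subtype.val h)
    have key1 : ∀ u : {a // a ∈ D}, Y u ≠ u → ∃ g ∈ G', g ⟨b, hbD⟩ = u := by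
      intro u hu
      obtain ⟨i, hi⟩ := hy'c.exists_pow_eq (hmove ⟨b, hbD⟩ hb) (hmove u hu)
      exact ⟨y' ^ i, G'.pow_mem hy'G i, hi⟩
    have key : ∀ u : {a // a ∈ D}, ∃ g ∈ G', g ⟨b, hbD⟩ = u := by
      intro u
      by_cases hu : Y u = u
      · have hu1 : (u : Ω) ∈ X.support := by
          rcases Finset.mem_union.mp u.2 with h | h
          · exact h
          · exact absurd hu (mem_support.mp h)
        have hu2 : X u ≠ u := mem_support.mp hu1
        have hcyc : (X.cycleOf u).IsCycle := isCycle_cycleOf X hu2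
        have hord : orderOf (X.cycleOf u) = p := by
          have h1 := orderOf_cycleOf_dvd_orderOf X (u : Ω)
          rw [hXo] at h1
          rcases (Nat.dvd_prime hp).mp h1 with h2 | h2
          · exfalso
            rw [orderOf_eq_one_iff] at h2
            exact hcyc.ne_one h2
          · exact h2
        have hcs : (X.cycleOf u).support.card = p := by rw [← hcyc.orderOf, hord]
        have hYs : Y.support.card = q := by rw [← hYc.orderOf, hYo]
        have hnd : ¬ Disjoint (X.cycleOf u).support Y.support := by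
          intro hd
          have h1 := Finset.card_union_of_disjoint hd
          have h2 : ((X.cycleOf u).support ∪ Y.support).card ≤ Fintype.card Ω :=
            Finset.card_le_univ _
          omega
        obtain ⟨v, hv1, hv2⟩ := Finset.not_disjoint_iff.mp hnd
        have hv3 := (mem_support_cycleOf_iff.mp hv1).1
        obtain ⟨i, hi⟩ := hv3
        have hvD : v ∈ D := Finset.mem_union_right _ hv2
        obtain ⟨g, hg, hgv⟩ := key1 ⟨v, hvD⟩ (mem_support.mp hv2)
        refine ⟨(x' ^ i)⁻¹ * g, G'.mul_mem (G'.inv_mem (G'.zpow_mem hx'G i)) hg, ?_⟩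
        rw [Perm.mul_apply, hgv, Perm.inv_eq_iff_eq]
        apply Subtype.ext
        rw [hx'val]
        exact hi.symm
      · exact key1 u hu
    refine ⟨fun a c => ?_⟩
    obtain ⟨g, hg, rfl⟩ := key a
    obtain ⟨g', hg', rfl⟩ := key c
    refine ⟨⟨g' * g⁻¹, G'.mul_mem hg' (G'.inv_mem hg)⟩, ?_⟩
    change (g' * g⁻¹) (g _) = _
    simp [Perm.mul_apply]
  -- the case distinction
  have hcase : (x'.IsCycle ∧ (p = 3 ∨ p + 3 ≤ Fintype.card {a // a ∈ D} ∨
        (p = 5 ∧ Fintype.card {a // a ∈ D} = 7) ∨ (p = 11 ∧ Fintype.card {a // a ∈ D} = 13))) ∨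
      q + 3 ≤ Fintype.card {a // a ∈ D} ∨
      (p = 3 ∧ q = 5 ∧ Fintype.card {a // a ∈ D} = 6 ∧ ∀ a, x' a ≠ a) := by
    rw [hcardD]
    rcases isCycle_or_fixedPointFree hp hXo h2p with hXc | ⟨h2, hfp⟩
    · left
      have hs : x'.support.card = p := by
        have h1 : (ofSubtype x').support.card = x'.support.card := by
          rw [support_ofSubtype, Finset.card_map]
          convert rfl
        rw [← h1, hfx, ← hXc.orderOf, hXo]
      refine ⟨isCycle_of_prime_order (by rw [hx'o]; exact hp) (by
        rw [hx'o, hs]; have := hp.pos; omega), ?_⟩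
      rcases hgen with h | h | ⟨rfl, rfl⟩ | ⟨rfl, rfl⟩
      · exact Or.inl h
      · exact Or.inr (Or.inl (by omega))
      · by_cases h7 : D.card = 7
        · exact Or.inr (Or.inr (Or.inl ⟨rfl, h7⟩))
        · exact Or.inr (Or.inl (by omega))
      · by_cases h7 : D.card = 13
        · exact Or.inr (Or.inr (Or.inr ⟨rfl, h7⟩))
        · exact Or.inr (Or.inl (by omega))
    · right
      have hDu : D = Finset.univ := by
        apply Finset.eq_univ_of_forall
        intro a
        exact Finset.mem_union_left _ (mem_support.mpr (hfp a))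
      have hDc : D.card = Fintype.card Ω := by rw [hDu]; rfl
      rcases hnc h2 with h | ⟨h3, h4, h5⟩
      · left
        omega
      · right
        refine ⟨h3, h4, by omega, fun a h => hfp a (congrArg Subtype.val h)⟩
  obtain ⟨d, hd, ⟨iso⟩⟩ := good_local hp hq hpo hqo hpq hq5 hx'o hy'o hy'c
    (by rw [hcardD]; omega) htr hcase
  refine ⟨d, hd, ⟨?_⟩⟩
  have hmap : (closure ({x', y'} : Set (Perm {a // a ∈ D}))).map ofSubtype = closure {X, Y} := by
    rw [MonoidHom.map_closure, Set.image_pair, hfx, hfy]
  exact ((MulEquiv.subgroupCongr hmap).symm.trans (Subgroup.equivMapOfInjective _ ofSubtype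
    ofSubtype_injective).symm).trans iso

end Core

end Cfsg.Agent.Lib.Perm.AltGen
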