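import Mathlib
import Cfsg.Agent.Lib.Perm.PrimeDeg

/-!
# The proportion of derangements in a transitive group is at least `2 / n`

Counting lemmas: the number of fixed points, the sums over a group; the number of derangements of a
2-transitive group in terms of a two-point stabilizer.
-/

set_option autoImplicit false
set_option linter.unusedSectionVars false
set_option linter.style.haveILetI false

namespace Cfsg.Agent.Lib.Perm.DerangeTwo

open MulAction Cfsg.Agent.Lib.Perm.PrimeDeg
open scoped Classical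

section Counting

variable {K X : Type*} [Group K] [MulAction K X]

/-- The number of fixed points. -/
noncomputable abbrev fx (X : Type*) [MulAction K X] (k : K) : ℕ := Nat.card (fixedBy X k)

/-- The orbit length. -/
noncomputable abbrev sz (K : Type*) [Group K] [MulAction K X] (x : X) : ℕ := Nat.card (orbit K x)

theorem fx_eq_sum [Fintype X] (k : K) :
    (fx X k : ℚ) = ∑ x : X, if k • x = x then (1 : ℚ) else 0 := by
  have h1 : fx X k = (Finset.univ.filter fun x : X => k • x = x).card := by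
    rw [fx, Nat.card_eq_fintype_card, ← Fintype.card_subtype]
    rfl
  rw [h1, Finset.card_filter]
  push_cast
  rfl

theorem card_stabilizer_eq_sum [Fintype K] (x : X) :
    (Nat.card (stabilizer K x) : ℚ) = ∑ k : K, if k • x = x then (1 : ℚ) else 0 := by
  have h1 : Nat.card (stabilizer K x) = (Finset.univ.filter fun k : K => k • x = x).card := by
    rw [Nat.card_eq_fintype_card, Fintype.card_subtype]
    rfl
  rw [h1, Finset.card_filter]
  push_cast
  rfl

theorem sz_pos [Finite X] (x : X) : 0 < sz K x := by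
  have : Nonempty (orbit K x) := ⟨⟨x, mem_orbit_self x⟩⟩
  exact Nat.card_pos

theorem card_stabilizer_rat [Finite K] [Finite X] (x : X) :
    (Nat.card (stabilizer K x) : ℚ) = Nat.card K * (1 / (sz K x : ℚ)) := by
  have h1 := natCard_orbit_mul K x
  have h2 : (sz K x : ℚ) ≠ 0 := by
    exact_mod_cast (sz_pos x).ne'
  rw [← h1]
  push_cast
  field_simp

/-- Burnside's lemma, in a form with the sum of the inverses of the orbit lengths. -/
theorem sum_fx [Fintype K] [Fintype X] :
    (∑ k : K, (fx X k : ℚ)) = Nat.card K * ∑ x : X, (1 / (sz K x : ℚ)) := by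
  calc (∑ k : K, (fx X k : ℚ)) = ∑ k : K, ∑ x : X, if k • x = x then (1 : ℚ) else 0 :=
        Finset.sum_congr rfl fun k _ => fx_eq_sum k
    _ = ∑ x : X, ∑ k : K, if k • x = x then (1 : ℚ) else 0 := Finset.sum_comm
    _ = ∑ x : X, (Nat.card K * (1 / (sz K x : ℚ))) := by
        refine Finset.sum_congr rfl fun x _ => ?_
        rw [← card_stabilizer_eq_sum, card_stabilizer_rat]
    _ = _ := by rw [Finset.mul_sum]

/-- Orbit lengths are constant on orbits. -/
theorem sz_eq_of_mem {x y : X} (h : y ∈ orbit K x) : sz K y = sz K x := by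
  rw [sz, orbit_eq_iff.mpr h]

/-- The sum of the inverses of the orbit lengths over an orbit is one. -/
theorem sum_orbit_inv [Fintype X] (x : X) :
    (∑ z ∈ Finset.univ.filter (· ∈ orbit K x), (1 / (sz K z : ℚ))) = 1 := by
  have h1 : ∀ z ∈ Finset.univ.filter (· ∈ orbit K x), (1 / (sz K z : ℚ)) = 1 / (sz K x : ℚ) := by
    intro z hz
    rw [sz_eq_of_mem (Finset.mem_filter.mp hz).2]
  rw [Finset.sum_congr rfl h1, Finset.sum_const, nsmul_eq_mul]
  have h2 : (Finset.univ.filter (· ∈ orbit K x)).card = sz K x := by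
    rw [sz, Nat.card_eq_fintype_card, Fintype.card_subtype]
  rw [h2]
  have h3 : (sz K x : ℚ) ≠ 0 := by
    exact_mod_cast (sz_pos x).ne'
  field_simp

/-- Three points in distinct orbits. -/
theorem three_le_sum [Fintype X] (p q r : X) (hpq : q ∉ orbit K p) (hpr : r ∉ orbit K p)
    (hqr : r ∉ orbit K q) : (3 : ℚ) ≤ ∑ x : X, (1 / (sz K x : ℚ)) := by
  have hdisj : ∀ u v : X, v ∉ orbit K u →
      Disjoint (Finset.univ.filter (· ∈ orbit K u)) (Finset.univ.filter (· ∈ orbit K v)) := by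
    intro u v huv
    rw [Finset.disjoint_left]
    intro z hz hz'
    have h1 : z ∈ orbit K u := (Finset.mem_filter.mp hz).2
    have h2 : z ∈ orbit K v := (Finset.mem_filter.mp hz').2
    apply huv
    have h3 : orbit K z = orbit K u := orbit_eq_iff.mpr h1
    have h4 : orbit K z = orbit K v := orbit_eq_iff.mpr h2
    rw [← h3, h4]
    exact mem_orbit_self v
  have h12 := hdisj p q hpq
  have h13 := hdisj p r hpr
  have h23 := hdisj q r hqr
  have hsum : (∑ z ∈ (Finset.univ.filter (· ∈ orbit K p)) ∪ (Finset.univ.filter (· ∈ orbit K q)) ∪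
      (Finset.univ.filter (· ∈ orbit K r)), (1 / (sz K z : ℚ))) = 3 := by
    rw [Finset.sum_union (Finset.disjoint_union_left.mpr ⟨h13, h23⟩), Finset.sum_union h12,
      sum_orbit_inv, sum_orbit_inv, sum_orbit_inv]
    norm_num
  rw [← hsum]
  apply Finset.sum_le_sum_of_subset_of_nonneg (Finset.subset_univ _)
  intro z _ _
  positivity

end Counting

section Top

variable {G Ω : Type*} [Group G] [MulAction G Ω]

/-- Derangements, counted. -/
theorem card_der_eq [Fintype G] [Fintype Ω] :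
    (Nat.card {g : G // ∀ ω : Ω, g • ω ≠ ω} : ℚ) = ∑ g : G, if fx Ω g = 0 then (1 : ℚ) else 0 := by
  have h1 : ∀ g : G, fx Ω g = 0 ↔ ∀ ω : Ω, g • ω ≠ ω := by
    intro g
    rw [fx, Nat.card_eq_fintype_card, Fintype.card_eq_zero_iff]
    constructor
    · intro h ω hω
      exact h.false ⟨ω, hω⟩
    · intro h
      exact ⟨fun x => h x.1 x.2⟩
  have h2 : Nat.card {g : G // ∀ ω : Ω, g • ω ≠ ω} =
      (Finset.univ.filter fun g : G => fx Ω g = 0).card := by
    rw [Nat.card_eq_fintype_card, Fintype.card_subtype]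
    congr 1
    ext g
    simp only [Finset.mem_filter, Finset.mem_univ, true_and]
    exact (h1 g).symm
  rw [h2, Finset.card_filter]
  push_cast
  rfl

/-- The number of fixed points is at most the degree. -/
theorem fx_le [Fintype Ω] (g : G) : fx Ω g ≤ Fintype.card Ω := by
  rw [fx, Nat.card_eq_fintype_card]
  exact Fintype.card_subtype_le _

/-- Burnside for a transitive group. -/
theorem sum_fx_transitive [Fintype G] [Fintype Ω] [IsPretransitive G Ω] [Nonempty Ω] :
    (∑ g : G, (fx Ω g : ℚ)) = Nat.card G := by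
  rw [sum_fx]
  have h1 : ∀ x : Ω, sz G x = Fintype.card Ω := by
    intro x
    rw [sz, orbit_eq_univ, Nat.card_coe_set_eq, Set.ncard_univ, Nat.card_eq_fintype_card]
  have h2 : (Fintype.card Ω : ℚ) ≠ 0 := by
    exact_mod_cast Fintype.card_ne_zero
  simp only [h1, Finset.sum_const, Finset.card_univ, nsmul_eq_mul]
  field_simp

/-- The Cameron-Cohen count. -/
theorem two_mul_le_of_sum_sq [Fintype G] [Fintype Ω] [IsPretransitive G Ω] [Nonempty Ω]
    (hS : (3 : ℚ) * Nat.card G ≤ ∑ g : G, (fx Ω g : ℚ) ^ 2) :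
    2 * Nat.card G ≤ Fintype.card Ω * Nat.card {g : G // ∀ ω : Ω, g • ω ≠ ω} := by
  set n : ℚ := (Fintype.card Ω : ℚ) with hn
  have hterm : ∀ g : G, ((fx Ω g : ℚ) - 1) * ((fx Ω g : ℚ) - n) ≤
      n * if fx Ω g = 0 then (1 : ℚ) else 0 := by
    intro g
    by_cases h0 : fx Ω g = 0
    · rw [if_pos h0, h0]
      norm_num
    · rw [if_neg h0, mul_zero]
      have h1 : (1 : ℚ) ≤ fx Ω g := by exact_mod_cast Nat.pos_of_ne_zero h0
      have h2 : (fx Ω g : ℚ) ≤ n := by
        rw [hn]
        exact_mod_cast fx_le (Ω := Ω) g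
      exact mul_nonpos_of_nonneg_of_nonpos (by linarith) (by linarith)
  have hsum := Finset.sum_le_sum fun g (_ : g ∈ (Finset.univ : Finset G)) => hterm g
  rw [← Finset.mul_sum, ← card_der_eq] at hsum
  have hexp : ∑ g : G, ((fx Ω g : ℚ) - 1) * ((fx Ω g : ℚ) - n) =
      ∑ g : G, (fx Ω g : ℚ) ^ 2 - (n + 1) * ∑ g : G, (fx Ω g : ℚ) + n * Nat.card G := by
    rw [Finset.mul_sum, ← Finset.sum_sub_distrib]
    have : n * (Nat.card G : ℚ) = ∑ _g : G, n := by
      rw [Finset.sum_const, Finset.card_univ, nsmul_eq_mul, Nat.card_eq_fintype_card, mul_comm]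
    rw [this, ← Finset.sum_add_distrib]
    refine Finset.sum_congr rfl fun g _ => ?_
    ring
  rw [hexp, sum_fx_transitive] at hsum
  have : (2 : ℚ) * Nat.card G ≤ n * Nat.card {g : G // ∀ ω : Ω, g • ω ≠ ω} := by
    nlinarith
  rw [hn] at this
  exact_mod_cast this

/-- The number of fixed points on pairs. -/
theorem fx_prod (g : G) : fx (Ω × Ω) g = fx Ω g * fx Ω g := by
  rw [fx, fx, ← Nat.card_prod]
  refine Nat.card_congr ⟨fun p => ⟨⟨p.1.1, congrArg Prod.fst p.2⟩, ⟨p.1.2, congrArg Prod.snd p.2⟩⟩,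
    fun q => ⟨(q.1.1, q.2.1), Prod.ext q.1.2 q.2.2⟩, fun p => rfl, fun q => rfl⟩

/-- Not doubly transitive: the sum of the squares is large. -/
theorem sum_sq_ge [Fintype G] [Fintype Ω] {x y x' y' : Ω} (hxy : x ≠ y) (hxy' : x' ≠ y')
    (hno : ¬ ∃ g : G, g • x = x' ∧ g • y = y') :
    (3 : ℚ) * Nat.card G ≤ ∑ g : G, (fx Ω g : ℚ) ^ 2 := by
  have h1 : ∑ g : G, (fx Ω g : ℚ) ^ 2 = ∑ g : G, (fx (Ω × Ω) g : ℚ) := by
    refine Finset.sum_congr rfl fun g _ => ?_
    rw [fx_prod]
    push_cast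
    ring
  rw [h1, sum_fx, mul_comm]
  apply mul_le_mul_of_nonneg_left _ (Nat.cast_nonneg _)
  apply three_le_sum (K := G) (x, x) (x, y) (x', y')
  · rintro ⟨g, hg⟩
    have h2 : g • x = x := congrArg Prod.fst hg
    have h3 : g • x = y := congrArg Prod.snd hg
    exact hxy (h2.symm.trans h3)
  · rintro ⟨g, hg⟩
    have h2 : g • x = x' := congrArg Prod.fst hg
    have h3 : g • x = y' := congrArg Prod.snd hg
    exact hxy' (h2.symm.trans h3)
  · rintro ⟨g, hg⟩
    exact hno ⟨g, congrArg Prod.fst hg, congrArg Prod.snd hg⟩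

/-- The two-point stabilizer. -/
abbrev st (G : Type*) {Ω : Type*} [Group G] [MulAction G Ω] (x y : Ω) : Subgroup G :=
  stabilizer G x ⊓ stabilizer G y

theorem mem_st {x y : Ω} {k : G} : k ∈ st G x y ↔ k • x = x ∧ k • y = y := by
  rw [Subgroup.mem_inf, mem_stabilizer_iff, mem_stabilizer_iff]

theorem conj_mem_st {x y : Ω} {k : G} (h : G) :
    h * k * h⁻¹ ∈ st G (h • x) (h • y) ↔ k ∈ st G x y := by
  rw [mem_st, mem_st]
  have h1 : ∀ z : Ω, (h * k * h⁻¹) • (h • z) = h • (k • z) := by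
    intro z
    rw [mul_smul, mul_smul, inv_smul_smul]
  rw [h1, h1]
  constructor
  · rintro ⟨h2, h3⟩
    exact ⟨MulAction.injective h h2, MulAction.injective h h3⟩
  · rintro ⟨h2, h3⟩
    rw [h2, h3]
    exact ⟨rfl, rfl⟩

/-- The number of fixed points is a class function. -/
theorem fx_conj (h k : G) : fx Ω (h * k * h⁻¹) = fx Ω k := by
  refine Nat.card_congr ⟨fun x => ⟨h⁻¹ • x.1, ?_⟩, fun x => ⟨h • x.1, ?_⟩, ?_, ?_⟩
  · have h1 : (h * k * h⁻¹) • x.1 = x.1 := x.2
    change k • (h⁻¹ • x.1) = h⁻¹ • x.1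
    rw [eq_inv_smul_iff, ← mul_smul, ← mul_smul]
    exact h1
  · have h1 : k • x.1 = x.1 := x.2
    change (h * k * h⁻¹) • (h • x.1) = h • x.1
    rw [mul_smul, mul_smul, inv_smul_smul, h1]
  · intro x
    exact Subtype.ext (smul_inv_smul h x.1)
  · intro x
    exact Subtype.ext (inv_smul_smul h x.1)

/-- Two-point stabilizers are conjugate. -/
theorem card_st_conj (h : G) (x y : Ω) : Nat.card (st G (h • x) (h • y)) = Nat.card (st G x y) := by
  refine Nat.card_congr ⟨fun k => ⟨h⁻¹ * k * h, ?_⟩, fun k => ⟨h * k * h⁻¹, ?_⟩, ?_, ?_⟩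
  · rw [← conj_mem_st h]
    have : h * (h⁻¹ * k.1 * h) * h⁻¹ = k.1 := by group
    rw [this]
    exact k.2
  · rw [conj_mem_st h]
    exact k.2
  · intro k
    apply Subtype.ext
    change h * (h⁻¹ * k.1 * h) * h⁻¹ = k.1
    group
  · intro k
    apply Subtype.ext
    change h⁻¹ * (h * k.1 * h⁻¹) * h = k.1
    group

/-- Double transitivity, in elementary form. -/
abbrev TwoT (G Ω : Type*) [Group G] [MulAction G Ω] : Prop :=
  ∀ x y x' y' : Ω, x ≠ y → x' ≠ y' → ∃ g : G, g • x = x' ∧ g • y = y'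

theorem card_st_eq (hT : TwoT G Ω) {x y x' y' : Ω} (h : x ≠ y) (h' : x' ≠ y') :
    Nat.card (st G x' y') = Nat.card (st G x y) := by
  obtain ⟨g, rfl, rfl⟩ := hT x y x' y' h h'
  exact card_st_conj g x y

/-- The sum of a class function over the two-point stabilizer does not depend on the pair. -/
theorem sum_st_conj [Fintype G] [Fintype Ω] (h : G) (x y : Ω) (φ : ℕ → ℚ) :
    (∑ g : G, if g ∈ st G (h • x) (h • y) then φ (fx Ω g) else 0) =
      ∑ g : G, if g ∈ st G x y then φ (fx Ω g) else 0 := by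
  rw [← Equiv.sum_comp (MulAut.conj h).toEquiv]
  refine Finset.sum_congr rfl fun g _ => ?_
  have h1 : (MulAut.conj h).toEquiv g = h * g * h⁻¹ := rfl
  rw [h1, fx_conj]
  by_cases hg : g ∈ st G x y
  · rw [if_pos hg, if_pos ((conj_mem_st h).mpr hg)]
  · rw [if_neg hg, if_neg (fun hc => hg ((conj_mem_st h).mp hc))]

/-- The number of pairs of distinct fixed points. -/
theorem sum_offDiag [Fintype Ω] (g : G) :
    (∑ p ∈ (Finset.univ : Finset Ω).offDiag, if g • p.1 = p.1 ∧ g • p.2 = p.2 then (1 : ℚ) else 0) =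
      (fx Ω g : ℚ) * ((fx Ω g : ℚ) - 1) := by
  let A : Finset Ω := Finset.univ.filter fun x => g • x = x
  have hA : A.card = fx Ω g := by
    rw [fx, Nat.card_eq_fintype_card, ← Fintype.card_subtype]
    rfl
  have h1 : (Finset.univ : Finset Ω).offDiag.filter (fun p => g • p.1 = p.1 ∧ g • p.2 = p.2) =
      A.offDiag := by
    ext p
    simp [A, Finset.mem_offDiag, and_comm, and_left_comm]
  rw [← Finset.sum_filter, h1, Finset.sum_const, nsmul_eq_mul, mul_one, Finset.offDiag_card, hA,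
    Nat.cast_sub (Nat.le_mul_self _)]
  push_cast
  ring

/-- The fundamental double count. -/
theorem double_count [Fintype G] [Fintype Ω] (hT : TwoT G Ω) {a b : Ω} (hab : a ≠ b) (φ : ℕ → ℚ) :
    (∑ g : G, ((fx Ω g : ℚ) * ((fx Ω g : ℚ) - 1)) * φ (fx Ω g)) =
      ((Fintype.card Ω : ℚ) * ((Fintype.card Ω : ℚ) - 1)) *
        ∑ g : G, if g ∈ st G a b then φ (fx Ω g) else 0 := by
  have h1 : ∀ g : G, ((fx Ω g : ℚ) * ((fx Ω g : ℚ) - 1)) * φ (fx Ω g) =
      ∑ p ∈ (Finset.univ : Finset Ω).offDiag,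
        if g ∈ st G p.1 p.2 then φ (fx Ω g) else 0 := by
    intro g
    rw [← sum_offDiag, Finset.sum_mul]
    refine Finset.sum_congr rfl fun p _ => ?_
    by_cases hg : g ∈ st G p.1 p.2
    · rw [if_pos hg, if_pos (mem_st.mp hg), one_mul]
    · rw [if_neg hg, if_neg (fun hc => hg (mem_st.mpr hc)), zero_mul]
  rw [Finset.sum_congr rfl fun g _ => h1 g, Finset.sum_comm]
  have h2 : ∀ p ∈ (Finset.univ : Finset Ω).offDiag,
      (∑ g : G, if g ∈ st G p.1 p.2 then φ (fx Ω g) else 0) =
        ∑ g : G, if g ∈ st G a b then φ (fx Ω g) else 0 := by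
    intro p hp
    have hp' : p.1 ≠ p.2 := (Finset.mem_offDiag.mp hp).2.2
    obtain ⟨h, hx, hy⟩ := hT a b p.1 p.2 hab hp'
    rw [← hx, ← hy]
    exact sum_st_conj h a b φ
  rw [Finset.sum_congr rfl h2, Finset.sum_const, nsmul_eq_mul, Finset.offDiag_card,
    Nat.cast_sub (Nat.le_mul_self _)]
  push_cast
  rw [Finset.card_univ]
  ring

/-- The order of the group. -/
theorem card_eq_mul [Fintype G] [Fintype Ω] (hT : TwoT G Ω) {a b : Ω} (hab : a ≠ b) :
    Nat.card G = (Fintype.card Ω * (Fintype.card Ω - 1)) * Nat.card (st G a b) := by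
  have h1 := natCard_orbit_mul G (a, b)
  have h2 : stabilizer G (a, b) = st G a b := by
    ext g
    rw [mem_st, mem_stabilizer_iff, Prod.smul_mk, Prod.mk.injEq]
  have h3 : orbit G (a, b) = ↑(Finset.univ : Finset Ω).offDiag := by
    ext ⟨x, y⟩
    simp only [Finset.coe_offDiag, Finset.coe_univ, Set.mem_offDiag, Set.mem_univ, true_and]
    constructor
    · rintro ⟨g, hg⟩
      have hx : g • a = x := congrArg Prod.fst hg
      have hy : g • b = y := congrArg Prod.snd hg
      rw [← hx, ← hy]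
      exact fun h => hab (MulAction.injective g h)
    · intro hxy
      obtain ⟨g, hx, hy⟩ := hT a b x y hab hxy
      exact ⟨g, Prod.ext hx hy⟩
  rw [h2, h3, Nat.card_coe_set_eq, Set.ncard_coe_finset, Finset.offDiag_card, Finset.card_univ] at h1
  rw [← h1]
  congr 1
  obtain ⟨k, hk⟩ : ∃ k, Fintype.card Ω = k + 1 := by
    have : 0 < Fintype.card Ω := Fintype.card_pos_iff.mpr ⟨a⟩
    exact ⟨Fintype.card Ω - 1, by omega⟩
  rw [hk]
  simp only [Nat.add_sub_cancel]
  rw [Nat.sub_eq_of_eq_add]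
  ring

/-- The number of derangements of a doubly transitive group. -/
theorem der_formula [Fintype G] [Fintype Ω] [IsPretransitive G Ω] (hT : TwoT G Ω) {a b : Ω}
    (hab : a ≠ b) :
    (Nat.card {g : G // ∀ ω : Ω, g • ω ≠ ω} : ℚ) =
      ((Fintype.card Ω : ℚ) * ((Fintype.card Ω : ℚ) - 1)) *
        ∑ g : G, if g ∈ st G a b then (1 : ℚ) / (fx Ω g : ℚ) else 0 := by
  haveI : Nonempty Ω := ⟨a⟩
  have h1 := double_count hT hab (fun k => (1 : ℚ) / (k : ℚ))
  rw [← h1, card_der_eq]
  have h2 : ∀ g : G, ((fx Ω g : ℚ) * ((fx Ω g : ℚ) - 1)) * ((1 : ℚ) / (fx Ω g : ℚ)) =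
      (fx Ω g : ℚ) - 1 + if fx Ω g = 0 then (1 : ℚ) else 0 := by
    intro g
    by_cases h0 : fx Ω g = 0
    · rw [h0, if_pos rfl]
      norm_num
    · rw [if_neg h0]
      have h3 : (fx Ω g : ℚ) ≠ 0 := by exact_mod_cast h0
      field_simp
      ring
  rw [Finset.sum_congr rfl fun g _ => h2 g, Finset.sum_add_distrib, Finset.sum_sub_distrib,
    sum_fx_transitive]
  simp only [Finset.sum_const, Finset.card_univ, nsmul_eq_mul, mul_one]
  rw [Nat.card_eq_fintype_card]
  ring

/-- The line through two points: the fixed points of their stabilizer. -/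
noncomputable def ln (G : Type*) {Ω : Type*} [Group G] [MulAction G Ω] [Fintype Ω] (x y : Ω) :
    Finset Ω :=
  Finset.univ.filter fun z => ∀ k ∈ st G x y, k • z = z

theorem mem_ln [Fintype Ω] {x y z : Ω} : z ∈ ln G x y ↔ ∀ k ∈ st G x y, k • z = z := by
  simp [ln]

theorem left_mem_ln [Fintype Ω] (x y : Ω) : x ∈ ln G x y :=
  mem_ln.mpr fun _ hk => (mem_st.mp hk).1

theorem right_mem_ln [Fintype Ω] (x y : Ω) : y ∈ ln G x y :=
  mem_ln.mpr fun _ hk => (mem_st.mp hk).2

theorem st_eq_of_mem [Finite G] [Fintype Ω] (hT : TwoT G Ω) {x y u w : Ω} (hxy : x ≠ y)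
    (huw : u ≠ w) (hu : u ∈ ln G x y) (hw : w ∈ ln G x y) : st G x y = st G u w := by
  apply Subgroup.eq_of_le_of_card_ge
  · intro k hk
    exact mem_st.mpr ⟨mem_ln.mp hu k hk, mem_ln.mp hw k hk⟩
  · exact (card_st_eq hT hxy huw).le

theorem ln_eq_of_mem [Finite G] [Fintype Ω] (hT : TwoT G Ω) {x y u w : Ω} (hxy : x ≠ y)
    (huw : u ≠ w) (hu : u ∈ ln G x y) (hw : w ∈ ln G x y) : ln G u w = ln G x y := by
  ext z
  rw [mem_ln, mem_ln, ← st_eq_of_mem hT hxy huw hu hw]

theorem card_ln_conj [Fintype Ω] (h : G) (x y : Ω) :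
    (ln G (h • x) (h • y)).card = (ln G x y).card := by
  symm
  apply Finset.card_bij (fun z _ => h • z)
  · intro z hz
    refine mem_ln.mpr fun k hk => ?_
    have h1 : h⁻¹ * k * h ∈ st G x y := by
      rw [← conj_mem_st h]
      have : h * (h⁻¹ * k * h) * h⁻¹ = k := by group
      rw [this]
      exact hk
    have h2 := mem_ln.mp hz _ h1
    have h3 : k • (h • z) = h • ((h⁻¹ * k * h) • z) := by
      rw [mul_smul, mul_smul, smul_inv_smul]
    rw [h3, h2]
  · intro z _ w _ hzw
    exact MulAction.injective h hzw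
  · intro z hz
    refine ⟨h⁻¹ • z, mem_ln.mpr fun k hk => ?_, smul_inv_smul h z⟩
    have h2 := mem_ln.mp hz _ ((conj_mem_st h).mpr hk)
    rw [mul_smul, mul_smul] at h2
    have h3 : k • h⁻¹ • z = h⁻¹ • (h • k • h⁻¹ • z) := by rw [inv_smul_smul]
    rw [h3, h2]

theorem card_ln_eq [Fintype Ω] (hT : TwoT G Ω) {x y x' y' : Ω} (h : x ≠ y) (h' : x' ≠ y') :
    (ln G x' y').card = (ln G x y).card := by
  obtain ⟨g, rfl, rfl⟩ := hT x y x' y' h h'
  exact card_ln_conj g x y

/-- The bound on the number of fixed points given by the lines. -/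
theorem support_bound [Finite G] [Fintype Ω] [FaithfulSMul G Ω] (hT : TwoT G Ω) {a b : Ω}
    (hab : a ≠ b) {g : G} (hg : g ≠ 1) :
    ((ln G a b).card - 1) * fx Ω g + 1 ≤ Fintype.card Ω := by
  set v := (ln G a b).card with hv
  let A : Finset Ω := Finset.univ.filter fun x => g • x = x
  have hA : A.card = fx Ω g := by
    rw [fx, Nat.card_eq_fintype_card, ← Fintype.card_subtype]
    rfl
  have hmemA : ∀ x, x ∈ A ↔ g • x = x := by
    intro x
    simp [A]
  obtain ⟨c, hc⟩ : ∃ c : Ω, g • c ≠ c := by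
    by_contra hcon
    push Not at hcon
    apply hg
    apply FaithfulSMul.eq_of_smul_eq_smul (α := Ω)
    intro x
    rw [hcon x, one_smul]
  have hcA : c ∉ A := fun h => hc ((hmemA c).mp h)
  have hcp : ∀ p ∈ A, c ≠ p := fun p hp h => hcA (h ▸ hp)
  -- if `g` fixes two points on a line through `c`, it fixes `c`
  have hkey : ∀ p ∈ A, ∀ q ∈ A, p ≠ q → ∀ r, r ≠ p → c ∈ ln G r p ∨ True := fun _ _ _ _ _ _ _ =>
    Or.inr trivial
  have hno : ∀ x y : Ω, x ≠ y → x ∈ A → y ∈ A → c ∉ ln G x y := by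
    intro x y hxy hx hy hcl
    exact hc (mem_ln.mp hcl g (mem_st.mpr ⟨(hmemA x).mp hx, (hmemA y).mp hy⟩))
  let T : Ω → Finset Ω := fun p => (ln G c p) \ {c, p}
  have hTcard : ∀ p ∈ A, (T p).card = v - 2 := by
    intro p hp
    have h1 : (ln G c p).card = v := card_ln_eq hT hab (hcp p hp)
    have h2 : ({c, p} : Finset Ω) ⊆ ln G c p := by
      intro z hz
      rw [Finset.mem_insert, Finset.mem_singleton] at hz
      rcases hz with rfl | rfl
      · exact left_mem_ln _ _
      · exact right_mem_ln _ _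
    rw [Finset.card_sdiff_of_subset h2, h1, Finset.card_pair (hcp p hp)]
  have hTdisj : ∀ p ∈ A, ∀ p' ∈ A, p ≠ p' → Disjoint (T p) (T p') := by
    intro p hp p' hp' hpp
    rw [Finset.disjoint_left]
    intro q hq hq'
    simp only [T, Finset.mem_sdiff, Finset.mem_insert, Finset.mem_singleton, not_or] at hq hq'
    have hqc : c ≠ q := fun h => hq.2.1 h.symm
    have h1 : ln G c q = ln G c p := ln_eq_of_mem hT (hcp p hp) hqc (left_mem_ln _ _) hq.1
    have h2 : ln G c q = ln G c p' := ln_eq_of_mem hT (hcp p' hp') hqc (left_mem_ln _ _) hq'.1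
    have h3 : ln G p p' = ln G c p := ln_eq_of_mem hT (hcp p hp) hpp (right_mem_ln _ _)
      (by rw [← h1, h2]; exact right_mem_ln _ _)
    apply hno p p' hpp hp hp'
    rw [h3]
    exact left_mem_ln _ _
  have hTsub : A.biUnion T ⊆ (Finset.univ \ A).erase c := by
    intro q hq
    obtain ⟨p, hp, hq⟩ := Finset.mem_biUnion.mp hq
    simp only [T, Finset.mem_sdiff, Finset.mem_insert, Finset.mem_singleton, not_or] at hq
    rw [Finset.mem_erase, Finset.mem_sdiff]
    refine ⟨hq.2.1, Finset.mem_univ _, fun hqA => ?_⟩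
    have h1 : ln G p q = ln G c p := ln_eq_of_mem hT (hcp p hp) (Ne.symm hq.2.2) (right_mem_ln _ _)
      hq.1
    apply hno p q (Ne.symm hq.2.2) hp hqA
    rw [h1]
    exact left_mem_ln _ _
  have h1 := Finset.card_le_card hTsub
  rw [Finset.card_biUnion hTdisj, Finset.sum_congr rfl hTcard, Finset.sum_const,
    Finset.card_erase_of_mem (by simp [hcA]), Finset.card_sdiff_of_subset (Finset.subset_univ _),
    Finset.card_univ, smul_eq_mul, hA] at h1
  have hAle : fx Ω g ≤ Fintype.card Ω := fx_le g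
  have hAlt : fx Ω g < Fintype.card Ω := by
    rw [← hA, ← Finset.card_univ]
    exact Finset.card_lt_card (Finset.ssubset_univ_iff.mpr fun h => hcA (h ▸ Finset.mem_univ c))
  have hv2 : 2 ≤ v := by
    rw [hv, ← Finset.card_pair hab]
    apply Finset.card_le_card
    intro z hz
    rw [Finset.mem_insert, Finset.mem_singleton] at hz
    rcases hz with rfl | rfl
    · exact left_mem_ln _ _
    · exact right_mem_ln _ _
  obtain ⟨w, hw⟩ : ∃ w, v = w + 2 := ⟨v - 2, by omega⟩
  rw [hw] at h1 ⊢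
  simp only [Nat.add_sub_cancel] at h1
  have h2 : (w + 2 - 1) * fx Ω g = fx Ω g * w + fx Ω g := by
    have : w + 2 - 1 = w + 1 := rfl
    rw [this]
    ring
  rw [h2]
  omega

/-- All orbits of all two-point stabilizers have length at most two. -/
abbrev Two2 (G Ω : Type*) [Group G] [MulAction G Ω] : Prop :=
  ∀ x y : Ω, x ≠ y → ∀ z : Ω, ∀ u ∈ st G x y, ∀ w ∈ st G x y, u • z = z ∨ w • z = z ∨ u • z = w • z

/-- The key step of the analysis. -/
theorem two2_claim [Finite G] [FaithfulSMul G Ω] (h2 : Two2 G Ω) {a b y : Ω} (hab : a ≠ b)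
    (hN : 3 ≤ Nat.card (st G a b)) {g : G} (hg : g ∈ st G a b) (hgy : g • y ≠ y) :
    ∀ s ∈ st G a y, s • (g • y) = g • y := by
  classical
  have hay : a ≠ y := by
    rintro rfl
    exact hgy (mem_st.mp hg).1
  set y' := g • y with hy'
  have hC : ∀ u ∈ st G a b, u • y = y ∨ u • y = y' := by
    intro u hu
    rcases h2 a b hab y u hu g hg with h | h | h
    · exact Or.inl h
    · exact absurd h hgy
    · exact Or.inr h
  -- a nontrivial element of the three-point stabilizer
  obtain ⟨π, hπ, hπy, hπ1⟩ : ∃ π ∈ st G a b, π • y = y ∧ π ≠ 1 := by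
    let f : st G a b → ({y, y'} : Set Ω) := fun k => ⟨(k : G) • y, by
      rcases hC k k.2 with h | h
      · left; exact h
      · right; exact h⟩
    have hcard : Nat.card ({y, y'} : Set Ω) < Nat.card (st G a b) := by
      rw [Nat.card_coe_set_eq, Set.ncard_pair (Ne.symm hgy)]
      omega
    have hninj : ¬ Function.Injective f := fun hinj =>
      absurd (Nat.card_le_card_of_injective f hinj) (by omega)
    obtain ⟨k, k', hkk, hne⟩ := Function.not_injective_iff.mp hninj
    have hkk' : (k : G) • y = (k' : G) • y := congrArg Subtype.val hkk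
    refine ⟨(k : G)⁻¹ * k', (st G a b).mul_mem ((st G a b).inv_mem k.2) k'.2, ?_, ?_⟩
    · rw [mul_smul, ← hkk', inv_smul_smul]
    · intro h
      exact hne (Subtype.ext (inv_mul_eq_one.mp h))
  obtain ⟨z, hz⟩ : ∃ z : Ω, π • z ≠ z := by
    by_contra hcon
    push Not at hcon
    apply hπ1
    apply FaithfulSMul.eq_of_smul_eq_smul (α := Ω)
    intro x
    rw [hcon x, one_smul]
  have haz : a ≠ z := by
    rintro rfl
    exact hz (mem_st.mp hπ).1
  set z' := π • z with hz'
  have hπay : π ∈ st G a y := mem_st.mpr ⟨(mem_st.mp hπ).1, hπy⟩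
  have hA : ∀ u ∈ st G a b, u • z = z ∨ u • z = z' := by
    intro u hu
    rcases h2 a b hab z u hu π hπ with h | h | h
    · exact Or.inl h
    · exact absurd h hz
    · exact Or.inr h
  have hB : ∀ u ∈ st G a y, u • z = z ∨ u • z = z' := by
    intro u hu
    rcases h2 a y hay z u hu π hπay with h | h | h
    · exact Or.inl h
    · exact absurd h hz
    · exact Or.inr h
  have hπinv : π⁻¹ • y = y := by
    rw [inv_smul_eq_iff, hπy]
  have hπy' : π • y' = y' := by
    rcases hC (π * g) ((st G a b).mul_mem hπ hg) with h | h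
    · exfalso
      rw [mul_smul] at h
      have h3 : g • y = π⁻¹ • y := by
        rw [eq_inv_smul_iff]
        exact h
      rw [hπinv] at h3
      exact hgy h3
    · rw [mul_smul] at h
      exact h
  have hπinv' : π⁻¹ • y' = y' := by
    rw [inv_smul_eq_iff, hπy']
  obtain ⟨g₁, hg₁, hg₁z, hg₁y⟩ : ∃ g₁ ∈ st G a b, g₁ • z = z ∧ g₁ • y = y' := by
    rcases hA g hg with h | h
    · exact ⟨g, hg, h, rfl⟩
    · refine ⟨π⁻¹ * g, (st G a b).mul_mem ((st G a b).inv_mem hπ) hg, ?_, ?_⟩
      · rw [mul_smul, h, hz', inv_smul_smul]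
      · rw [mul_smul, ← hy', hπinv']
  have hg₁az : g₁ ∈ st G a z := mem_st.mpr ⟨(mem_st.mp hg₁).1, hg₁z⟩
  have hD : ∀ u ∈ st G a z, u • y = y ∨ u • y = y' := by
    intro u hu
    rcases h2 a z haz y u hu g₁ hg₁az with h | h | h
    · exact Or.inl h
    · rw [hg₁y] at h
      exact absurd h hgy
    · right
      rw [h, hg₁y]
  intro s hs
  have hsy : s • y = y := (mem_st.mp hs).2
  have hsa : s • a = a := (mem_st.mp hs).1
  have hne : s • y' ≠ y := by
    intro h
    exact hgy (MulAction.injective s (h.trans hsy.symm))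
  rcases hB s hs with h | h
  · have hj : s * g₁ ∈ st G a z := by
      refine mem_st.mpr ⟨?_, ?_⟩
      · rw [mul_smul, (mem_st.mp hg₁).1, hsa]
      · rw [mul_smul, hg₁z, h]
    rcases hD _ hj with h3 | h3
    · rw [mul_smul, hg₁y] at h3
      exact absurd h3 hne
    · rw [mul_smul, hg₁y] at h3
      exact h3
  · have hj : π⁻¹ * s * g₁ ∈ st G a z := by
      refine mem_st.mpr ⟨?_, ?_⟩
      · rw [mul_smul, mul_smul, (mem_st.mp hg₁).1, hsa, inv_smul_eq_iff, (mem_st.mp hπ).1]
      · rw [mul_smul, mul_smul, hg₁z, h, hz', inv_smul_smul]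
    rcases hD _ hj with h3 | h3
    · exfalso
      rw [mul_smul, mul_smul, hg₁y, inv_smul_eq_iff, hπy] at h3
      exact hne h3
    · rw [mul_smul, mul_smul, hg₁y, inv_smul_eq_iff, hπy'] at h3
      exact h3

/-- If all orbits of all two-point stabilizers have length at most two, they have order at most
two. -/
theorem card_st_le_two [Finite G] [FaithfulSMul G Ω] (hT : TwoT G Ω) (h2 : Two2 G Ω)
    {a b : Ω} (hab : a ≠ b) : Nat.card (st G a b) ≤ 2 := by
  by_contra hcon
  have hN : 3 ≤ Nat.card (st G a b) := by omega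
  have hnt : Nontrivial (st G a b) := Finite.one_lt_card_iff_nontrivial.mp (by omega)
  obtain ⟨⟨g, hg⟩, hg1⟩ := exists_ne (1 : st G a b)
  have hg1' : g ≠ 1 := fun h => hg1 (Subtype.ext h)
  obtain ⟨y, hy⟩ : ∃ y : Ω, g • y ≠ y := by
    by_contra hcon
    push Not at hcon
    apply hg1'
    apply FaithfulSMul.eq_of_smul_eq_smul (α := Ω)
    intro x
    rw [hcon x, one_smul]
  have hga := (mem_st.mp hg).1
  have hgb := (mem_st.mp hg).2
  have hay : a ≠ y := by
    rintro rfl
    exact hy hga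
  have hby : b ≠ y := by
    rintro rfl
    exact hy hgb
  have hyy' : y ≠ g • y := Ne.symm hy
  have hg' : g ∈ st G b a := mem_st.mpr ⟨hgb, hga⟩
  have hN' : 3 ≤ Nat.card (st G b a) := by
    rw [card_st_eq hT hab (Ne.symm hab)]
    exact hN
  have c1 := two2_claim h2 hab hN hg hy
  have c2 := two2_claim h2 (Ne.symm hab) hN' hg' hy
  have e1 : st G a y = st G y (g • y) := by
    apply Subgroup.eq_of_le_of_card_ge
    · intro s hs
      exact mem_st.mpr ⟨(mem_st.mp hs).2, c1 s hs⟩
    · exact (card_st_eq hT hay hyy').le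
  have e2 : st G b y = st G y (g • y) := by
    apply Subgroup.eq_of_le_of_card_ge
    · intro s hs
      exact mem_st.mpr ⟨(mem_st.mp hs).2, c2 s hs⟩
    · exact (card_st_eq hT hby hyy').le
  have e3 : st G a y = st G a b := by
    apply Subgroup.eq_of_le_of_card_ge
    · intro s hs
      have hs' : s ∈ st G b y := by
        rw [e2, ← e1]
        exact hs
      exact mem_st.mpr ⟨(mem_st.mp hs).1, (mem_st.mp hs').1⟩
    · exact (card_st_eq hT hay hab).le
  rw [← e3] at hg
  exact hy (mem_st.mp hg).2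

end Top

end Cfsg.Agent.Lib.Perm.DerangeTwo
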