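import Mathlib
import Cfsg.Agent.Lib.Perm.DerangeTwo

/-!
# The proportion of derangements: second part

Exclusion of small configurations and the estimates for the two-point stabilizer.
-/

set_option autoImplicit false
set_option linter.unusedSectionVars false
set_option linter.style.haveILetI false

namespace Cfsg.Agent.Lib.Perm.DerangeTwo

open MulAction Cfsg.Agent.Lib.Perm.PrimeDeg
open scoped Classical

variable {G Ω : Type*} [Group G] [MulAction G Ω]

/-- No faithful transitive group of order 84 on 7 points. -/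
theorem no84 [Finite G] [Fintype Ω] [FaithfulSMul G Ω] [IsPretransitive G Ω]
    (hn : Fintype.card Ω = 7) (hG : Nat.card G = 84) : False := by
  haveI : Fact (Nat.Prime 7) := ⟨by norm_num⟩
  have hp : Nat.Prime 7 := by norm_num
  obtain ⟨x, hx⟩ := exists_prime_orderOf_dvd_card' (G := G) 7 (by rw [hG]; norm_num)
  let Z := Subgroup.zpowers x
  have hZ : Nat.card Z = 7 := by rw [Nat.card_zpowers, hx]
  have hfac : (Nat.card G).factorization 7 = 1 := by
    rw [hG, show (84 : ℕ) = 7 * 12 from rfl, Nat.factorization_mul (by norm_num) (by norm_num),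
      Finsupp.add_apply, hp.factorization_self,
      Nat.factorization_eq_zero_of_not_dvd (by norm_num)]
  let P : Sylow 7 G := Sylow.ofCard Z (by rw [hZ, hfac, pow_one])
  have hPZ : (P : Subgroup G) = Z := rfl
  have hidx : (P : Subgroup G).index = 12 := by
    have h1 := Subgroup.card_mul_index (P : Subgroup G)
    rw [hPZ, hZ, hG] at h1
    rw [hPZ]
    omega
  have h1 : Nat.card (Sylow 7 G) ∣ 12 := hidx ▸ Sylow.card_dvd_index P
  have h2 : Nat.card (Sylow 7 G) ≡ 1 [MOD 7] := card_sylow_modEq_one 7 G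
  have h4 : Nat.card (Sylow 7 G) = 1 := by
    have h5 : Nat.card (Sylow 7 G) % 7 = 1 := h2
    have h6 := Nat.le_of_dvd (by norm_num) h1
    interval_cases hh : Nat.card (Sylow 7 G) <;> first | rfl | omega
  haveI : Subsingleton (Sylow 7 G) := (Nat.card_eq_one_iff_unique.mp h4).1
  have hnorm : Z.Normal := by
    have := Sylow.normal_of_subsingleton P
    rwa [hPZ] at this
  haveI : Nonempty Ω := Fintype.card_pos_iff.mp (by omega)
  obtain ⟨a⟩ := ‹Nonempty Ω›
  have hx1 : x ≠ 1 := by
    rintro rfl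
    rw [orderOf_one] at hx
    omega
  -- `x` moves `a`
  have hxa : x • a ≠ a := by
    intro hfix
    have hzfix : ∀ u ∈ Z, u • a = a := by
      intro u hu
      obtain ⟨k, rfl⟩ := Subgroup.mem_zpowers_iff.mp hu
      exact mem_stabilizer_iff.mp (Subgroup.zpow_mem _ (mem_stabilizer_iff.mpr hfix) k)
    apply hx1
    apply FaithfulSMul.eq_of_smul_eq_smul (α := Ω)
    intro y
    obtain ⟨g, rfl⟩ := exists_smul_eq G a y
    have h3 : g⁻¹ * x * g ∈ Z := by
      have := hnorm.conj_mem x (Subgroup.mem_zpowers x) g⁻¹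
      rwa [inv_inv] at this
    have h5 := hzfix _ h3
    rw [mul_smul, mul_smul, inv_smul_eq_iff] at h5
    rw [one_smul, h5]
  -- `Z` is transitive
  have horb : ∀ y : Ω, ∃ u ∈ Z, u • a = y := by
    have h5 := natCard_orbit_mul Z a
    rw [hZ] at h5
    have h6 : Nat.card (orbit Z a) ∣ 7 := Dvd.intro _ h5
    have h7 : Nat.card (orbit Z a) ≠ 1 := by
      intro h8
      have h9 : Subsingleton (orbit Z a) := (Nat.card_eq_one_iff_unique.mp h8).1
      have h10 : (⟨a, mem_orbit_self a⟩ : orbit Z a) = ⟨x • a, ⟨⟨x, Subgroup.mem_zpowers x⟩, rfl⟩⟩ :=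
        Subsingleton.elim _ _
      exact hxa (congrArg Subtype.val h10).symm
    have h8 : Nat.card (orbit Z a) = 7 := ((Nat.dvd_prime hp).mp h6).resolve_left h7
    have h9 : orbit Z a = Set.univ := by
      apply Set.eq_of_subset_of_ncard_le (Set.subset_univ _) _ (Set.toFinite _)
      rw [← Nat.card_coe_set_eq (orbit Z a), h8, Set.ncard_univ, Nat.card_eq_fintype_card, hn]
    intro y
    have h10 : y ∈ orbit Z a := by rw [h9]; trivial
    obtain ⟨u, hu⟩ := h10
    exact ⟨u, u.2, hu⟩
  -- the order of the stabilizer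
  have hH : Nat.card (stabilizer G a) = 12 := by
    have h5 := natCard_orbit_mul G a
    rw [orbit_eq_univ, Nat.card_coe_set_eq, Set.ncard_univ, Nat.card_eq_fintype_card, hn, hG] at h5
    omega
  -- the pigeonhole
  let T : Set G := (Z : Set G) \ {1}
  have hT : Nat.card T = 6 := by
    have h5 : (1 : G) ∈ (Z : Set G) := Z.one_mem
    rw [Nat.card_coe_set_eq, Set.ncard_sdiff_singleton_of_mem h5, ← Nat.card_coe_set_eq]
    have : Nat.card (Z : Set G) = 7 := hZ
    rw [this]
  let f : stabilizer G a → T := fun h => ⟨(h : G) * x * (h : G)⁻¹,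
    hnorm.conj_mem x (Subgroup.mem_zpowers x) h, by
      intro h6
      apply hx1
      have h7 : (h : G) * x * (h : G)⁻¹ = 1 := h6
      have h8 : x = (h : G)⁻¹ * ((h : G) * x * (h : G)⁻¹) * h := by group
      rw [h8, h7]
      group⟩
  have hf : Function.Injective f := by
    intro h h' hhh
    have h5 : (h : G) * x * (h : G)⁻¹ = (h' : G) * x * (h' : G)⁻¹ := congrArg Subtype.val hhh
    let u : G := (h : G)⁻¹ * h'
    have hcomm : u * x = x * u := by
      change (h : G)⁻¹ * h' * x = x * ((h : G)⁻¹ * h')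
      have h6 : (h' : G) * x = (h : G) * x * (h : G)⁻¹ * h' := by
        rw [h5]
        group
      rw [mul_assoc, h6]
      group
    have hua : u • a = a := by
      change ((h : G)⁻¹ * h') • a = a
      have h7 : (h' : G) • a = a := h'.2
      have h8 : (h : G) • a = a := h.2
      rw [mul_smul, h7, inv_smul_eq_iff, h8]
    have hu1 : u = 1 := by
      apply FaithfulSMul.eq_of_smul_eq_smul (α := Ω)
      intro y
      obtain ⟨v, hv, rfl⟩ := horb y
      obtain ⟨k, rfl⟩ := Subgroup.mem_zpowers_iff.mp hv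
      have h9 : Commute u (x ^ k) := Commute.zpow_right hcomm k
      rw [← mul_smul, h9.eq, mul_smul, hua, one_smul]
    apply Subtype.ext
    exact inv_mul_eq_one.mp hu1
  have h5 := Nat.card_le_card_of_injective f hf
  rw [hH, hT] at h5
  omega

/-- Three distinct points in an orbit. -/
theorem three_le_sz {K X : Type*} [Group K] [MulAction K X] [Finite X] {x u v w : X}
    (hu : u ∈ orbit K x) (hv : v ∈ orbit K x) (hw : w ∈ orbit K x) (huv : u ≠ v) (huw : u ≠ w)
    (hvw : v ≠ w) : 3 ≤ sz K x := by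
  rw [sz, Nat.card_coe_set_eq]
  have : 2 < (orbit K x).ncard := (Set.two_lt_ncard_iff (Set.toFinite _)).mpr
    ⟨u, v, w, hu, hv, hw, huv, huw, hvw⟩
  omega

/-- A 3-cycle cannot occur in the situation where the two-point stabilizer has exactly one orbit of
length 3 and all others of length at most 2. -/
theorem no_three_orbit [Finite G] [Fintype Ω] [FaithfulSMul G Ω] (hT : TwoT G Ω)
    (hn : 6 ≤ Fintype.card Ω) {a b y : Ω} (hab : a ≠ b) (hy : sz (st G a b) y = 3)
    (hother : ∀ z : Ω, z ∉ orbit (st G a b) y → sz (st G a b) z ≤ 2) : False := by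
  let K := st G a b
  have hdvd : 3 ∣ Nat.card K := by
    have h5 := natCard_orbit_mul K y
    rw [← h5]
    exact Dvd.intro _ (by rw [← hy])
  obtain ⟨k, hk⟩ := exists_prime_orderOf_dvd_card' (G := K) 3 hdvd
  let x : G := k
  have hx : orderOf x = 3 := by
    rw [← hk]
    exact Subgroup.orderOf_coe k
  have hxK : ∀ i : ℕ, x ^ i ∈ K := fun i => K.pow_mem k.2 i
  have hx1 : x ≠ 1 := by
    intro h
    rw [h, orderOf_one] at hx
    omega
  have hx3 : x ^ 3 = 1 := by
    rw [← hx]
    exact pow_orderOf_eq_one x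
  -- a moved point has three distinct images
  have hmv : ∀ z : Ω, x • z ≠ z →
      x • z ≠ z ∧ (x ^ 2) • z ≠ z ∧ (x ^ 2) • z ≠ x • z := by
    intro z hz
    refine ⟨hz, ?_, ?_⟩
    · intro h
      apply hz
      have h2 : x • (x ^ 2) • z = x • z := by rw [h]
      rw [← mul_smul, ← pow_succ', hx3, one_smul] at h2
      exact h2.symm
    · intro h
      apply hz
      rw [pow_two, mul_smul] at h
      exact MulAction.injective x h
  have hinorb : ∀ (z : Ω) (i : ℕ), (x ^ i) • z ∈ orbit K z := fun z i =>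
    ⟨⟨x ^ i, hxK i⟩, rfl⟩
  have hsz3 : ∀ z : Ω, x • z ≠ z → 3 ≤ sz K z := by
    intro z hz
    obtain ⟨h1, h2, h3⟩ := hmv z hz
    refine three_le_sz (mem_orbit_self z) ?_ (hinorb z 2) (Ne.symm h1) (Ne.symm h2) (Ne.symm h3)
    have := hinorb z 1
    rwa [pow_one] at this
  have hsupp : ∀ z : Ω, x • z ≠ z → z ∈ orbit K y := by
    intro z hz
    by_contra hcon
    have h2 := hother z hcon
    have h3 : 3 ≤ sz (st G a b) z := hsz3 z hz
    omega
  -- a moved point
  obtain ⟨p, hp⟩ : ∃ p : Ω, x • p ≠ p := by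
    by_contra hcon
    push Not at hcon
    apply hx1
    apply FaithfulSMul.eq_of_smul_eq_smul (α := Ω)
    intro z
    rw [hcon z, one_smul]
  have hpO := hsupp p hp
  have hOeq : orbit K p = orbit K y := orbit_eq_iff.mpr hpO
  -- the permutation is a 3-cycle
  let π : Equiv.Perm Ω := toPerm x
  have hπ : ∀ z, π z = x • z := fun z => rfl
  have hsupport : π.support = Finset.univ.filter (· ∈ orbit K y) := by
    ext z
    rw [Equiv.Perm.mem_support, Finset.mem_filter, hπ]
    constructor
    · intro hz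
      exact ⟨Finset.mem_univ _, hsupp z hz⟩
    · rintro ⟨-, hz⟩
      -- all three points of the orbit are moved
      obtain ⟨h1, h2, h3⟩ := hmv p hp
      have hcard : (Finset.univ.filter (· ∈ orbit K y)).card = 3 := by
        rw [← hy, sz, Nat.card_eq_fintype_card, Fintype.card_subtype]
      have hsub : ({p, x • p, (x ^ 2) • p} : Finset Ω) ⊆ Finset.univ.filter (· ∈ orbit K y) := by
        intro w hw
        rw [Finset.mem_insert, Finset.mem_insert, Finset.mem_singleton] at hw
        rw [Finset.mem_filter, ← hOeq]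
        refine ⟨Finset.mem_univ _, ?_⟩
        rcases hw with rfl | rfl | rfl
        · exact mem_orbit_self _
        · have := hinorb p 1
          rwa [pow_one] at this
        · exact hinorb p 2
      have heq : ({p, x • p, (x ^ 2) • p} : Finset Ω) = Finset.univ.filter (· ∈ orbit K y) := by
        apply Finset.eq_of_subset_of_card_le hsub
        rw [hcard, Finset.card_eq_three.mpr ⟨p, x • p, (x ^ 2) • p, Ne.symm h1, Ne.symm h2,
          Ne.symm h3, rfl⟩]
      have hz' : z ∈ ({p, x • p, (x ^ 2) • p} : Finset Ω) := by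
        rw [heq, Finset.mem_filter]
        exact ⟨Finset.mem_univ _, hz⟩
      rw [Finset.mem_insert, Finset.mem_insert, Finset.mem_singleton] at hz'
      rcases hz' with rfl | rfl | rfl
      · exact hp
      · intro h
        exact hp (MulAction.injective x h)
      · intro h
        have h4 : x • (x ^ 2) • p = (x ^ 2) • p := h
        rw [← mul_smul, ← pow_succ', hx3, one_smul] at h4
        exact h2 h4.symm
  have h3c : π.IsThreeCycle := by
    rw [← card_support_eq_three_iff, hsupport, ← hy, sz, Nat.card_eq_fintype_card,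
      Fintype.card_subtype]
  -- Jordan's theorem
  let R := (toPermHom G Ω).range
  haveI hprim : IsPreprimitive R Ω := by
    have h2 : IsMultiplyPretransitive R Ω 2 := by
      rw [is_two_pretransitive_iff]
      intro u v u' v' huv huv'
      obtain ⟨g, hg1, hg2⟩ := hT u v u' v' huv huv'
      exact ⟨⟨toPermHom G Ω g, ⟨g, rfl⟩⟩, hg1, hg2⟩
    exact isPreprimitive_of_is_two_pretransitive h2
  have hle : alternatingGroup Ω ≤ R :=
    Equiv.Perm.alternatingGroup_le_of_isPreprimitive_of_isThreeCycle_mem hprim h3c ⟨x, rfl⟩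
  -- a further point
  have haO : a ∉ orbit K y := by
    intro h
    have h5 : orbit K a = orbit K y := orbit_eq_iff.mpr h
    have h6 : sz K a = 1 := by
      rw [sz]
      have : orbit K a = {a} := by
        ext w
        constructor
        · rintro ⟨u, rfl⟩
          exact (mem_st.mp u.2).1
        · rintro rfl
          exact mem_orbit_self _
      rw [this, Nat.card_coe_set_eq, Set.ncard_singleton]
    have h7 : sz K y = 3 := hy
    rw [sz, h5] at h6
    rw [sz] at h7
    omega
  have hbO : b ∉ orbit K y := by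
    intro h
    have h5 : orbit K b = orbit K y := orbit_eq_iff.mpr h
    have h6 : sz K b = 1 := by
      rw [sz]
      have : orbit K b = {b} := by
        ext w
        constructor
        · rintro ⟨u, rfl⟩
          exact (mem_st.mp u.2).2
        · rintro rfl
          exact mem_orbit_self _
      rw [this, Nat.card_coe_set_eq, Set.ncard_singleton]
    have h7 : sz K y = 3 := hy
    rw [sz, h5] at h6
    rw [sz] at h7
    omega
  obtain ⟨z, hz⟩ : ∃ z : Ω, z ∉ (Finset.univ.filter (· ∈ orbit K y)) ∪ {a, b} := by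
    by_contra hcon
    push Not at hcon
    have h5 : (Finset.univ : Finset Ω) ⊆ (Finset.univ.filter (· ∈ orbit K y)) ∪ {a, b} :=
      fun w _ => hcon w
    have h6 := Finset.card_le_card h5
    have h7 : (Finset.univ.filter (· ∈ orbit K y)).card = 3 := by
      rw [← hy, sz, Nat.card_eq_fintype_card, Fintype.card_subtype]
    have h8 := Finset.card_union_le (Finset.univ.filter (· ∈ orbit K y)) ({a, b} : Finset Ω)
    have h9 : ({a, b} : Finset Ω).card = 2 := Finset.card_pair hab
    rw [Finset.card_univ] at h6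
    omega
  rw [Finset.mem_union, not_or, Finset.mem_filter, Finset.mem_insert, Finset.mem_singleton,
    not_or] at hz
  have hzO : z ∉ orbit K y := fun h => hz.1 ⟨Finset.mem_univ _, h⟩
  have hza : z ≠ a := hz.2.1
  have hzb : z ≠ b := hz.2.2
  -- the 3-cycle
  let q : Ω := x • p
  have hqO : q ∈ orbit K y := by
    rw [← hOeq]
    have := hinorb p 1
    rwa [pow_one] at this
  have hpq : p ≠ q := Ne.symm hp
  have hqz : q ≠ z := fun h => hzO (h ▸ hqO)
  have hpz : p ≠ z := fun h => hzO (h ▸ hpO)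
  have hpa : p ≠ a := fun h => haO (h ▸ hpO)
  have hpb : p ≠ b := fun h => hbO (h ▸ hpO)
  have hqa : q ≠ a := fun h => haO (h ▸ hqO)
  have hqb : q ≠ b := fun h => hbO (h ▸ hqO)
  let τ : Equiv.Perm Ω := Equiv.swap q z * Equiv.swap p q
  have hτalt : τ ∈ alternatingGroup Ω := by
    rw [Equiv.Perm.mem_alternatingGroup, map_mul, Equiv.Perm.sign_swap hqz, Equiv.Perm.sign_swap hpq]
    rfl
  obtain ⟨g, hg⟩ := hle hτalt
  have hgact : ∀ w, g • w = τ w := fun w => congrArg (fun σ : Equiv.Perm Ω => σ w) hg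
  have hga : g • a = a := by
    rw [hgact]
    change Equiv.swap q z (Equiv.swap p q a) = a
    rw [Equiv.swap_apply_of_ne_of_ne (Ne.symm hpa) (Ne.symm hqa),
      Equiv.swap_apply_of_ne_of_ne (Ne.symm hqa) (Ne.symm hza)]
  have hgb : g • b = b := by
    rw [hgact]
    change Equiv.swap q z (Equiv.swap p q b) = b
    rw [Equiv.swap_apply_of_ne_of_ne (Ne.symm hpb) (Ne.symm hqb),
      Equiv.swap_apply_of_ne_of_ne (Ne.symm hqb) (Ne.symm hzb)]
  have hgp : g • p = z := by
    rw [hgact]
    change Equiv.swap q z (Equiv.swap p q p) = z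
    rw [Equiv.swap_apply_left, Equiv.swap_apply_left]
  apply hzO
  rw [← hOeq, ← hgp]
  exact ⟨⟨g, mem_st.mpr ⟨hga, hgb⟩⟩, rfl⟩

section Orbits

variable {K X : Type*} [Group K] [MulAction K X]

/-- Singleton orbits. -/
theorem sz_eq_one_iff [Finite X] {y : X} : sz K y = 1 ↔ ∀ k : K, k • y = y := by
  rw [sz, Nat.card_eq_one_iff_unique]
  constructor
  · rintro ⟨h, -⟩ k
    have h1 : (⟨k • y, ⟨k, rfl⟩⟩ : orbit K y) = ⟨y, mem_orbit_self y⟩ := Subsingleton.elim _ _
    exact congrArg Subtype.val h1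
  · intro h
    refine ⟨⟨?_⟩, ⟨⟨y, mem_orbit_self y⟩⟩⟩
    rintro ⟨_, ⟨k, rfl⟩⟩ ⟨_, ⟨k', rfl⟩⟩
    apply Subtype.ext
    change k • y = k' • y
    rw [h k, h k']

/-- The excess of the orbit lengths over two. -/
noncomputable def wx (K X : Type*) [Group K] [MulAction K X] [Fintype X] : ℚ :=
  ∑ y ∈ Finset.univ.filter (fun y : X => 3 ≤ sz K y), (1 - 2 / (sz K y : ℚ))

/-- The sum of the inverses of the orbit lengths in terms of the excess. -/
theorem two_sum_inv [Fintype X] :
    2 * ∑ y : X, (1 / (sz K y : ℚ)) =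
      Fintype.card X + ((Finset.univ.filter fun y : X => sz K y = 1).card : ℚ) - wx K X := by
  have h1 : ∀ y : X, 2 * (1 / (sz K y : ℚ)) = 1 + (if sz K y = 1 then (1 : ℚ) else 0) -
      (if 3 ≤ sz K y then (1 - 2 / (sz K y : ℚ)) else 0) := by
    intro y
    have hpos := sz_pos (K := K) y
    have h2 : (sz K y : ℚ) ≠ 0 := by exact_mod_cast hpos.ne'
    by_cases h3 : sz K y = 1
    · rw [if_pos h3, if_neg (by omega), h3]
      norm_num
    · rw [if_neg h3]
      by_cases h4 : 3 ≤ sz K y
      · rw [if_pos h4]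
        field_simp
        ring
      · rw [if_neg h4]
        have h5 : sz K y = 2 := by omega
        rw [h5]
        norm_num
  rw [Finset.mul_sum, Finset.sum_congr rfl fun y _ => h1 y, Finset.sum_sub_distrib,
    Finset.sum_add_distrib, wx, Finset.sum_filter, Finset.card_filter]
  simp only [Finset.sum_const, Finset.card_univ, nsmul_eq_mul, mul_one]
  push_cast
  rfl

theorem wx_term_nonneg [Fintype X] {y : X} (hy : 3 ≤ sz K y) :
    0 ≤ 1 - 2 / (sz K y : ℚ) := by
  have h3 : (3 : ℚ) ≤ sz K y := by exact_mod_cast hy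
  have h4 : (0 : ℚ) < sz K y := by linarith
  rw [sub_nonneg, div_le_one h4]
  linarith

/-- The contribution of one orbit. -/
theorem sum_orbit_wx [Fintype X] (y : X) (_hy : 3 ≤ sz K y) :
    (∑ z ∈ Finset.univ.filter (· ∈ orbit K y), (1 - 2 / (sz K z : ℚ))) = (sz K y : ℚ) - 2 := by
  have h1 : ∀ z ∈ Finset.univ.filter (· ∈ orbit K y),
      (1 - 2 / (sz K z : ℚ)) = 1 - 2 / (sz K y : ℚ) := by
    intro z hz
    rw [sz_eq_of_mem (Finset.mem_filter.mp hz).2]
  rw [Finset.sum_congr rfl h1, Finset.sum_const, nsmul_eq_mul]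
  have h2 : (Finset.univ.filter (· ∈ orbit K y)).card = sz K y := by
    rw [sz, Nat.card_eq_fintype_card, Fintype.card_subtype]
  rw [h2]
  have h3 : (sz K y : ℚ) ≠ 0 := by
    exact_mod_cast (sz_pos (K := K) y).ne'
  field_simp

theorem filter_orbit_subset [Fintype X] {y : X} (hy : 3 ≤ sz K y) :
    Finset.univ.filter (· ∈ orbit K y) ⊆ Finset.univ.filter (fun y : X => 3 ≤ sz K y) := by
  intro z hz
  rw [Finset.mem_filter] at hz ⊢
  refine ⟨Finset.mem_univ _, ?_⟩
  rw [sz_eq_of_mem hz.2]
  exact hy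

theorem wx_ge_orbit [Fintype X] {y : X} (hy : 3 ≤ sz K y) : (sz K y : ℚ) - 2 ≤ wx K X := by
  rw [← sum_orbit_wx y hy, wx]
  apply Finset.sum_le_sum_of_subset_of_nonneg (filter_orbit_subset hy)
  intro z hz _
  exact wx_term_nonneg (Finset.mem_filter.mp hz).2

theorem wx_ge_two_orbits [Fintype X] {y z : X} (hy : 3 ≤ sz K y) (hz : 3 ≤ sz K z)
    (hyz : z ∉ orbit K y) : (sz K y : ℚ) - 2 + ((sz K z : ℚ) - 2) ≤ wx K X := by
  rw [← sum_orbit_wx y hy, ← sum_orbit_wx z hz, wx, ← Finset.sum_union]
  · apply Finset.sum_le_sum_of_subset_of_nonneg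
    · exact Finset.union_subset (filter_orbit_subset hy) (filter_orbit_subset hz)
    · intro w hw _
      exact wx_term_nonneg (Finset.mem_filter.mp hw).2
  · rw [Finset.disjoint_left]
    intro w hw hw'
    have h1 : w ∈ orbit K y := (Finset.mem_filter.mp hw).2
    have h2 : w ∈ orbit K z := (Finset.mem_filter.mp hw').2
    apply hyz
    have h3 : orbit K w = orbit K y := orbit_eq_iff.mpr h1
    have h4 : orbit K w = orbit K z := orbit_eq_iff.mpr h2
    rw [← h3, h4]
    exact mem_orbit_self z

theorem wx_eq_zero [Fintype X] (h : ∀ y : X, sz K y ≤ 2) : wx K X = 0 := by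
  rw [wx]
  apply Finset.sum_eq_zero
  intro y hy
  have := (Finset.mem_filter.mp hy).2
  have := h y
  omega

end Orbits

/-- The orbit bound for all two-point stabilizers from one. -/
theorem two2_of_base (hT : TwoT G Ω) {a b : Ω} (hab : a ≠ b)
    (hbase : ∀ z : Ω, ∀ u ∈ st G a b, ∀ w ∈ st G a b, u • z = z ∨ w • z = z ∨ u • z = w • z) :
    Two2 G Ω := by
  intro x y hxy z u hu w hw
  obtain ⟨h, rfl, rfl⟩ := hT a b x y hab hxy
  have hu' : h⁻¹ * u * h ∈ st G a b := by
    rw [← conj_mem_st h]
    have : h * (h⁻¹ * u * h) * h⁻¹ = u := by group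
    rw [this]
    exact hu
  have hw' : h⁻¹ * w * h ∈ st G a b := by
    rw [← conj_mem_st h]
    have : h * (h⁻¹ * w * h) * h⁻¹ = w := by group
    rw [this]
    exact hw
  have key : ∀ v : G, (h⁻¹ * v * h) • (h⁻¹ • z) = h⁻¹ • (v • z) := by
    intro v
    rw [mul_smul, mul_smul, smul_inv_smul]
  rcases hbase (h⁻¹ • z) _ hu' _ hw' with h1 | h1 | h1
  · left
    rw [key] at h1
    exact MulAction.injective h⁻¹ h1
  · right; left
    rw [key] at h1
    exact MulAction.injective h⁻¹ h1
  · right; right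
    rw [key, key] at h1
    exact MulAction.injective h⁻¹ h1

/-- The inequality for the two-point stabilizer. -/
theorem main_ineq [Fintype G] [Fintype Ω] [FaithfulSMul G Ω] (hT : TwoT G Ω)
    (hn : 7 ≤ Fintype.card Ω) {a b : Ω} (hab : a ≠ b) (hbot : st G a b ≠ ⊥) :
    (2 : ℚ) * Nat.card (st G a b) ≤
      Fintype.card Ω * ∑ k : st G a b, (1 : ℚ) / (fx Ω (k : G) : ℚ) := by
  set K := st G a b with hK
  set n : ℕ := Fintype.card Ω with hndef
  set N : ℕ := Nat.card K with hNdef
  have hN2 : 2 ≤ N := by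
    have : Nontrivial K := (Subgroup.nontrivial_iff_ne_bot K).mpr hbot
    exact Finite.one_lt_card_iff_nontrivial.mpr this
  have hnQ : (7 : ℚ) ≤ n := by exact_mod_cast hn
  have hNQ : (2 : ℚ) ≤ N := by exact_mod_cast hN2
  have hNcard : Fintype.card K = N := by
    rw [hNdef, Nat.card_eq_fintype_card]
  let ff : K → ℚ := fun k => (fx Ω (k : G) : ℚ)
  let E : Finset K := Finset.univ.erase 1
  have hEcard : (E.card : ℚ) = N - 1 := by
    rw [Finset.card_erase_of_mem (Finset.mem_univ _), Finset.card_univ, hNcard,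
      Nat.cast_sub (by omega)]
    norm_num
  have hf1 : ff 1 = n := by
    change ((fx Ω (1 : G) : ℕ) : ℚ) = n
    have h1 : fx Ω (1 : G) = n := by
      have h2 : MulAction.fixedBy Ω (1 : G) = Set.univ := by
        ext x
        simp
      rw [fx, h2, Nat.card_coe_set_eq, Set.ncard_univ, Nat.card_eq_fintype_card]
    rw [h1]
  have hfpos : ∀ k : K, 0 < ff k := by
    intro k
    have h1 : 0 < fx Ω (k : G) := by
      rw [fx, Nat.card_pos_iff]
      exact ⟨⟨⟨a, (mem_st.mp k.2).1⟩⟩, inferInstance⟩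
    change (0 : ℚ) < (fx Ω (k : G) : ℚ)
    exact_mod_cast h1
  have hS : ∑ k : K, (1 : ℚ) / ff k = 1 / (n : ℚ) + ∑ k ∈ E, 1 / ff k := by
    rw [← Finset.add_sum_erase _ _ (Finset.mem_univ (1 : K)), hf1]
  -- the line size
  set v : ℕ := (ln G a b).card with hvdef
  have hv2 : 2 ≤ v := by
    rw [hvdef, ← Finset.card_pair hab]
    apply Finset.card_le_card
    intro z hz
    rw [Finset.mem_insert, Finset.mem_singleton] at hz
    rcases hz with rfl | rfl
    · exact left_mem_ln _ _
    · exact right_mem_ln _ _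
  have hsb : ∀ k ∈ E, (v - 1) * fx Ω (k : G) + 1 ≤ n := by
    intro k hk
    have hk1 : (k : G) ≠ 1 := fun h => (Finset.mem_erase.mp hk).1 (Subtype.ext h)
    exact support_bound hT hab hk1
  have hEpos : ∀ k ∈ E, 0 < ff k := fun k _ => hfpos k
  have hn0 : (0 : ℚ) < n := by linarith
  rw [hS, mul_add, mul_one_div_cancel hn0.ne']
  have hnoo : ((n : ℚ) * ∑ k ∈ E, 1 / ff k) = ∑ k ∈ E, (n : ℚ) / ff k := by
    rw [Finset.mul_sum]
    refine Finset.sum_congr rfl fun k _ => ?_
    ring
  rw [hnoo]
  by_cases hv4 : 4 ≤ v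
  · -- all elements have at most a third of the points fixed
    have h1 : ∀ k ∈ E, (3 : ℚ) ≤ (n : ℚ) / ff k := by
      intro k hk
      rw [le_div_iff₀ (hEpos k hk)]
      have h2 := hsb k hk
      have h3 : 3 * fx Ω (k : G) ≤ (v - 1) * fx Ω (k : G) :=
        Nat.mul_le_mul_right _ (by omega)
      have h4 : 3 * fx Ω (k : G) ≤ n := by omega
      have h5 : (3 : ℚ) * (fx Ω (k : G) : ℚ) ≤ n := by exact_mod_cast h4
      exact h5
    have h2 := Finset.card_nsmul_le_sum E _ (3 : ℚ) h1
    rw [nsmul_eq_mul, hEcard] at h2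
    nlinarith
  by_cases hv3 : v = 3 ∧ n + 1 ≤ 2 * N
  · obtain ⟨hv3, hNn⟩ := hv3
    have hn1 : (0 : ℚ) < (n : ℚ) - 1 := by linarith
    have h1 : ∀ k ∈ E, (2 : ℚ) * n / ((n : ℚ) - 1) ≤ (n : ℚ) / ff k := by
      intro k hk
      rw [div_le_div_iff₀ hn1 (hEpos k hk)]
      have h2 := hsb k hk
      rw [hv3] at h2
      have h3 : 2 * fx Ω (k : G) + 1 ≤ n := h2
      have h5 : (2 : ℚ) * (fx Ω (k : G) : ℚ) + 1 ≤ n := by exact_mod_cast h3
      have h6 : ff k = (fx Ω (k : G) : ℚ) := rfl
      rw [h6]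
      nlinarith
    have h2 := Finset.card_nsmul_le_sum E _ _ h1
    rw [nsmul_eq_mul, hEcard] at h2
    have hNn' : (n : ℚ) + 1 ≤ 2 * N := by exact_mod_cast hNn
    have h3 : 2 * (N : ℚ) - 1 ≤ ((N : ℚ) - 1) * (2 * n / ((n : ℚ) - 1)) := by
      rw [mul_div_assoc', le_div_iff₀ hn1]
      nlinarith
    linarith
  -- the orbit count
  let c : ℚ := ∑ y : Ω, (1 / (sz K y : ℚ))
  have hcpos : 0 < c := by
    apply Finset.sum_pos
    · intro y _
      have := sz_pos (K := K) y
      positivity
    · exact ⟨a, Finset.mem_univ _⟩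
  have hsumff : ∑ k : K, ff k = N * c := sum_fx
  have hA : ∑ k ∈ E, ff k = N * c - n := by
    rw [← hsumff, ← Finset.add_sum_erase _ _ (Finset.mem_univ (1 : K)), hf1]
    ring
  have hEne : E.Nonempty := by
    rw [← Finset.card_pos]
    have : (0 : ℚ) < E.card := by rw [hEcard]; linarith
    exact_mod_cast this
  have hApos : 0 < N * c - n := by
    rw [← hA]
    exact Finset.sum_pos hEpos hEne
  by_cases hgood : (2 * (N : ℚ) - 1) * c ≤ n * N
  · -- Cauchy-Schwarz
    have h1 := Finset.sq_sum_div_le_sum_sq_div E (fun _ => (1 : ℚ)) hEpos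
    simp only [Finset.sum_const, nsmul_eq_mul, mul_one, one_pow] at h1
    rw [hEcard, hA] at h1
    have h2 : (n : ℚ) * (((N : ℚ) - 1) ^ 2 / (N * c - n)) ≤ ∑ k ∈ E, (n : ℚ) / ff k := by
      rw [← hnoo]
      exact mul_le_mul_of_nonneg_left h1 hn0.le
    have h3 : 2 * (N : ℚ) - 1 ≤ (n : ℚ) * (((N : ℚ) - 1) ^ 2 / (N * c - n)) := by
      rw [mul_div_assoc', le_div_iff₀ hApos]
      nlinarith
    linarith
  exfalso
  push Not at hgood
  -- the excess
  have hc2 := two_sum_inv (K := K) (X := Ω)
  have hsz1 : (Finset.univ.filter fun y : Ω => sz K y = 1) = ln G a b := by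
    ext y
    rw [Finset.mem_filter, mem_ln, sz_eq_one_iff]
    constructor
    · rintro ⟨-, h⟩ k hk
      exact h ⟨k, hk⟩
    · intro h
      exact ⟨Finset.mem_univ _, fun k => h k k.2⟩
  rw [hsz1, ← hvdef, ← hndef] at hc2
  set W : ℚ := wx K Ω with hW
  have hc3 : 2 * c = n + v - W := hc2
  have hbad : (n : ℚ) + v - W < 2 * N * (v - W) := by
    nlinarith
  have hv23 : v = 2 ∨ v = 3 := by omega
  have hNpos : (0 : ℚ) < N := by linarith
  have hW2 : W < 2 := by
    by_contra hcon
    push Not at hcon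
    rcases hv23 with h | h
    · rw [h] at hbad hc3
      push_cast at hbad hc3
      have h1 : 2 * (N : ℚ) * (2 - W) ≤ 0 :=
        mul_nonpos_of_nonneg_of_nonpos (by positivity) (by linarith)
      nlinarith
    · have hNn : 2 * N ≤ n := by
        by_contra hcon2
        exact hv3 ⟨h, by omega⟩
      have hNn' : 2 * (N : ℚ) ≤ n := by exact_mod_cast hNn
      rw [h] at hbad hc3
      push_cast at hbad hc3
      by_cases h3 : W < 3
      · have h1 : 2 * (N : ℚ) * (3 - W) ≤ 2 * N * 1 :=
          mul_le_mul_of_nonneg_left (by linarith) (by positivity)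
        nlinarith
      · push Not at h3
        have h1 : 2 * (N : ℚ) * (3 - W) ≤ 0 :=
          mul_nonpos_of_nonneg_of_nonpos (by positivity) (by linarith)
        nlinarith
  by_cases hX3 : ∃ y : Ω, 3 ≤ sz K y
  · obtain ⟨y, hy⟩ := hX3
    have h1 := wx_ge_orbit hy
    have hy3 : sz K y = 3 := by
      have h2 : (sz K y : ℚ) < 4 := by linarith
      have h3 : sz K y < 4 := by exact_mod_cast h2
      omega
    refine no_three_orbit hT (by omega) hab hy3 fun z hz => ?_
    by_contra hcon
    have hz3 : 3 ≤ sz K z := by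
      push Not at hcon
      exact hcon
    have h2 := wx_ge_two_orbits hy hz3 hz
    rw [hy3] at h2
    have h3 : (3 : ℚ) ≤ sz K z := by exact_mod_cast hz3
    push_cast at h2
    linarith
  · push Not at hX3
    have hle2 : ∀ y : Ω, sz K y ≤ 2 := fun y => by
      have := hX3 y
      omega
    have hW0 : W = 0 := wx_eq_zero hle2
    rw [hW0] at hbad
    have hbase : ∀ z : Ω, ∀ u ∈ st G a b, ∀ w ∈ st G a b,
        u • z = z ∨ w • z = z ∨ u • z = w • z := by
      intro z u hu w hw
      by_contra hcon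
      push Not at hcon
      obtain ⟨h1, h2, h3⟩ := hcon
      have h4 : 3 ≤ sz K z := three_le_sz (mem_orbit_self z) (⟨⟨u, hu⟩, rfl⟩ : u • z ∈ orbit K z)
        (⟨⟨w, hw⟩, rfl⟩ : w • z ∈ orbit K z) (Ne.symm h1) (Ne.symm h2) h3
      have := hle2 z
      omega
    have h2 : Two2 G Ω := two2_of_base hT hab hbase
    have hNle : N ≤ 2 := card_st_le_two hT h2 hab
    have hN2' : N = 2 := by omega
    rw [hN2'] at hbad
    push_cast at hbad
    rcases hv23 with h | h
    · rw [h] at hbad
      push_cast at hbad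
      linarith
    · rw [h] at hbad
      push_cast at hbad
      have hn9 : n < 9 := by
        have : (n : ℚ) < 9 := by linarith
        exact_mod_cast this
      -- parity
      have hpg : IsPGroup 2 K := IsPGroup.of_card (n := 1) (by rw [← hNdef, hN2', pow_one])
      have hmod := hpg.card_modEq_card_fixedPoints Ω
      have hfp : Nat.card (fixedPoints K Ω) = v := by
        have : fixedPoints K Ω = ↑(ln G a b) := by
          ext y
          rw [mem_fixedPoints, Finset.mem_coe, mem_ln]
          constructor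
          · intro hh k hk
            exact hh ⟨k, hk⟩
          · intro hh k
            exact hh k k.2
        rw [this, Nat.card_coe_set_eq, Set.ncard_coe_finset]
      rw [hfp, h, Nat.card_eq_fintype_card, ← hndef] at hmod
      have hn7 : n = 7 := by
        have hmod' : n % 2 = 3 % 2 := hmod
        omega
      haveI : IsPretransitive G Ω := by
        refine ⟨fun x y => ?_⟩
        by_cases hxy : x = y
        · exact ⟨1, by rw [one_smul, hxy]⟩
        · obtain ⟨w, hw⟩ : ∃ w, w ≠ x := by
            by_contra hcon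
            push Not at hcon
            exact hxy ((hcon y).symm)
          obtain ⟨w', hw'⟩ : ∃ w', w' ≠ y := ⟨x, hxy⟩
          obtain ⟨g, hg, -⟩ := hT x w y w' (Ne.symm hw) (Ne.symm hw')
          exact ⟨g, hg⟩
      refine no84 (G := G) (Ω := Ω) hn7 ?_
      rw [card_eq_mul hT hab, ← hndef, hn7, ← hK, ← hNdef, hN2']

end Cfsg.Agent.Lib.Perm.DerangeTwo
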