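import Mathlib

/-!
# Derangements in finite transitive groups

* `exists_derangement`: Jordan's theorem: a finite transitive group on at least 2 points has a
  derangement.
* `derangementSubgroup`: the subgroup generated by the derangements; `derangementSubgroup_normal`.
* `isPretransitive_derangementSubgroup`: it is transitive (for `G` transitive).
* `sum_card_fixedBy_mul`: the average of the number of fixed points on a coset of a transitive subgroup
  equals `1`.
* `card_fixedBy_eq_one_of_notMem`: an element outside it has exactly one fixed point.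
-/

namespace Cfsg.Agent.Lib.Perm.Derangement

open MulAction
open scoped Pointwise

variable {G Ω : Type*} [Group G] [MulAction G Ω]

/-- The subgroup generated by the elements without fixed points. -/
abbrev derangementSubgroup (G Ω : Type*) [Group G] [MulAction G Ω] : Subgroup G :=
  Subgroup.closure {g : G | ∀ ω : Ω, g • ω ≠ ω}

/-- The subgroup generated by the derangements is normal. -/
instance derangementSubgroup_normal : (derangementSubgroup G Ω).Normal := by
  refine ⟨fun n hn g => ?_⟩
  induction hn using Subgroup.closure_induction with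
  | mem x hx =>
    apply Subgroup.subset_closure
    intro ω h
    have h' : g • x • g⁻¹ • ω = ω := by simpa [mul_smul] using h
    exact hx (g⁻¹ • ω) (by rw [eq_inv_smul_iff]; exact h')
  | one => simp
  | mul x y _ _ hx hy =>
    have : g * (x * y) * g⁻¹ = (g * x * g⁻¹) * (g * y * g⁻¹) := by group
    rw [this]
    exact Subgroup.mul_mem _ hx hy
  | inv x _ hx =>
    have : g * x⁻¹ * g⁻¹ = (g * x * g⁻¹)⁻¹ := by group
    rw [this]
    exact Subgroup.inv_mem _ hx

/-- **Jordan's theorem**: a finite transitive group on at least two points has a derangement. -/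
theorem exists_derangement [Finite G] [Finite Ω] [IsPretransitive G Ω] (hΩ : 2 ≤ Nat.card Ω) :
    ∃ g : G, ∀ ω : Ω, g • ω ≠ ω := by
  classical
  by_contra hcon
  push Not at hcon
  have := Fintype.ofFinite G
  have := Fintype.ofFinite Ω
  have hb := sum_card_fixedBy_eq_card_orbits_mul_card_group G Ω
  have horb : Fintype.card (orbitRel.Quotient G Ω) = 1 := by
    obtain ⟨a⟩ : Nonempty Ω := by
      by_contra h
      rw [not_nonempty_iff] at h
      have : Nat.card Ω = 0 := Nat.card_of_isEmpty
      omega
    rw [Fintype.card_eq_one_iff]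
    refine ⟨Quotient.mk'' a, fun y => ?_⟩
    induction y using Quotient.inductionOn' with
    | h b =>
      apply Quotient.sound'
      rw [orbitRel_apply]
      obtain ⟨g, hg⟩ := exists_smul_eq G a b
      exact ⟨g, hg⟩
  rw [horb, one_mul] at hb
  have hle : ∀ g : G, 1 ≤ Fintype.card (fixedBy Ω g) := by
    intro g
    obtain ⟨ω, hω⟩ := hcon g
    rw [Nat.succ_le_iff, Fintype.card_pos_iff]
    exact ⟨⟨ω, hω⟩⟩
  have hone : Fintype.card (fixedBy Ω (1 : G)) = Nat.card Ω := by
    rw [← Nat.card_eq_fintype_card, fixedBy_one_eq_univ]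
    simp
  have hlt : ∑ g : G, 1 < ∑ g : G, Fintype.card (fixedBy Ω g) := by
    apply Finset.sum_lt_sum (fun g _ => hle g)
    refine ⟨1, Finset.mem_univ _, ?_⟩
    rw [hone]
    omega
  simp only [Finset.sum_const, Finset.card_univ, smul_eq_mul, mul_one] at hlt
  omega

/-- The subgroup generated by the derangements of a finite transitive group is transitive. -/
theorem isPretransitive_derangementSubgroup [Finite G] [Finite Ω] [IsPretransitive G Ω] :
    IsPretransitive (derangementSubgroup G Ω) Ω := by
  classical
  refine ⟨fun a => ?_⟩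
  -- it is enough to reach all points from `a`
  have key : ∀ b : Ω, ∃ d : derangementSubgroup G Ω, d • a = b := by
    set H : Subgroup G := derangementSubgroup G Ω ⊔ stabilizer G a with hH
    have htop : H = ⊤ := by
      by_contra hne
      have hidx : 2 ≤ Nat.card (G ⧸ H) := by
        have h1 : H.index ≠ 1 := fun h => hne (Subgroup.index_eq_one.mp h)
        have h0 : H.index ≠ 0 := Subgroup.FiniteIndex.index_ne_zero
        change 2 ≤ H.index
        omega
      obtain ⟨g, hg⟩ := exists_derangement (G := G) (Ω := G ⧸ H) hidx
      have hgD : g ∈ derangementSubgroup G Ω := by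
        apply Subgroup.subset_closure
        intro ω hω
        obtain ⟨x, rfl⟩ := exists_smul_eq G a ω
        apply hg (x : G ⧸ H)
        rw [MulAction.Quotient.smul_coe, QuotientGroup.eq]
        apply Subgroup.mem_sup_right
        rw [mem_stabilizer_iff, smul_eq_mul, mul_smul, inv_smul_eq_iff]
        rw [← mul_smul] at hω
        exact hω.symm
      apply hg ((1 : G) : G ⧸ H)
      rw [MulAction.Quotient.smul_coe, smul_eq_mul, mul_one, QuotientGroup.eq]
      have : g⁻¹ * 1 ∈ H := by
        rw [mul_one]
        exact H.inv_mem (Subgroup.mem_sup_left hgD)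
      exact this
    intro b
    obtain ⟨g, rfl⟩ := exists_smul_eq G a b
    have hg : g ∈ H := by rw [htop]; trivial
    have hmul : (H : Set G) = (derangementSubgroup G Ω : Set G) * (stabilizer G a : Set G) := by
      rw [hH, Subgroup.normal_mul]
    rw [← SetLike.mem_coe, hmul] at hg
    obtain ⟨d, hd, s, hs, rfl⟩ := Set.mem_mul.mp hg
    refine ⟨⟨d, hd⟩, ?_⟩
    rw [mul_smul, mem_stabilizer_iff.mp hs]
    rfl
  intro b
  exact key b

open scoped Classical in
/-- The number of fixed points as a sum. -/
theorem card_fixedBy_eq_sum [Fintype Ω] (x : G) :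
    Nat.card (fixedBy Ω x) = ∑ ω : Ω, if x • ω = ω then 1 else 0 := by
  rw [Nat.card_eq_fintype_card, Fintype.card_subtype, Finset.card_filter]
  rfl

/-- The average number of fixed points on a coset of a transitive subgroup is `1`. -/
theorem sum_card_fixedBy_mul [Finite G] [Finite Ω] [Nonempty Ω] (D : Subgroup G)
    [IsPretransitive D Ω] (g : G) [Fintype D] :
    ∑ d : D, Nat.card (fixedBy Ω (g * d)) = Nat.card D := by
  classical
  have := Fintype.ofFinite Ω
  simp_rw [card_fixedBy_eq_sum]
  rw [Finset.sum_comm]
  have hn : 0 < Nat.card Ω := Nat.card_pos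
  have h2 : ∀ ω : Ω, (∑ d : D, if (g * d) • ω = ω then 1 else 0) = Nat.card (stabilizer D ω) := by
    intro ω
    obtain ⟨d₀, hd₀⟩ := exists_smul_eq D ω (g⁻¹ • ω)
    rw [← Finset.card_filter, Nat.card_eq_fintype_card, ← Fintype.card_subtype]
    have hd₀' : (d₀ : G) • ω = g⁻¹ • ω := hd₀
    refine Fintype.card_congr
      { toFun := fun d => ⟨d₀⁻¹ * d.1, ?_⟩
        invFun := fun s => ⟨d₀ * s.1, ?_⟩
        left_inv := fun d => by simp
        right_inv := fun s => by simp }
    · rw [mem_stabilizer_iff, mul_smul, inv_smul_eq_iff]
      have h := d.2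
      rw [mul_smul, smul_eq_iff_eq_inv_smul] at h
      rw [hd₀]
      exact h
    · have hs := s.2
      rw [mem_stabilizer_iff] at hs
      change (g * ((d₀ * s.1 : D) : G)) • ω = ω
      rw [Subgroup.coe_mul, mul_smul, mul_smul]
      have hs' : ((s.1 : D) : G) • ω = ω := hs
      rw [hs', hd₀', smul_inv_smul]
  have h3 : ∀ ω : Ω, Nat.card (stabilizer D ω) * Nat.card Ω = Nat.card D := by
    intro ω
    have h := (stabilizer D ω).card_mul_index
    rwa [index_stabilizer_of_transitive] at h
  apply Nat.eq_of_mul_eq_mul_right hn
  rw [Finset.sum_mul]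
  simp_rw [h2, h3]
  rw [Finset.sum_const, Finset.card_univ, smul_eq_mul, ← Nat.card_eq_fintype_card, mul_comm]

/-- An element outside the subgroup generated by the derangements has exactly one fixed point. -/
theorem card_fixedBy_eq_one_of_notMem [Finite G] [Finite Ω] [IsPretransitive G Ω] {g : G}
    (hg : g ∉ derangementSubgroup G Ω) : Nat.card (fixedBy Ω g) = 1 := by
  classical
  have := Fintype.ofFinite (derangementSubgroup G Ω)
  have htrans : IsPretransitive (derangementSubgroup G Ω) Ω := isPretransitive_derangementSubgroup
  have hΩ : Nonempty Ω := by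
    by_contra h
    rw [not_nonempty_iff] at h
    exact hg (Subgroup.subset_closure (fun ω => h.elim ω))
  have hsum := sum_card_fixedBy_mul (Ω := Ω) (derangementSubgroup G Ω) g
  have hle : ∀ d : derangementSubgroup G Ω, 1 ≤ Nat.card (fixedBy Ω (g * d)) := by
    intro d
    rw [Nat.succ_le_iff, Nat.card_pos_iff]
    refine ⟨?_, inferInstance⟩
    by_contra hcon
    rw [not_nonempty_iff] at hcon
    apply hg
    have hgd : g * d ∈ derangementSubgroup G Ω := by
      apply Subgroup.subset_closure
      intro ω hω
      exact hcon.elim ⟨ω, hω⟩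
    have := Subgroup.mul_mem _ hgd (Subgroup.inv_mem _ d.2)
    simpa using this
  have heq : ∑ d : derangementSubgroup G Ω, 1 = ∑ d : derangementSubgroup G Ω, Nat.card (fixedBy Ω (g * d)) := by
    rw [hsum]
    simp [Nat.card_eq_fintype_card]
  have hall := (Finset.sum_eq_sum_iff_of_le (fun d _ => hle d)).mp heq
  have := hall 1 (Finset.mem_univ _)
  simpa using this.symm

end Cfsg.Agent.Lib.Perm.Derangement
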