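import Mathlib

/-!
# A `4 × 4` Newton identity and representations with a regular element of order four

If `x` has prime order, `y` normalizes `⟨x⟩`, and the restriction of a four-dimensional representation
to `⟨x⟩` contains no trivial constituent, then the elements `y`, `y²`, `y³` have trace zero as soon as
their cosets of `⟨x⟩` are conjugacy-closed; the determinant of `y` is then `-1`.
-/

set_option autoImplicit false

namespace Cfsg.Agent.Lib.Perm.Det4

open Finset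

lemma det_fin_four_expand (A : Matrix (Fin 4) (Fin 4) ℂ) : A.det =
   A 0 0 * (A 1 1 * (A 2 2 * A 3 3 - A 2 3 * A 3 2) - A 1 2 * (A 2 1 * A 3 3 - A 2 3 * A 3 1) + A 1 3 * (A 2 1 * A 3 2 - A 2 2 * A 3 1))
 - A 0 1 * (A 1 0 * (A 2 2 * A 3 3 - A 2 3 * A 3 2) - A 1 2 * (A 2 0 * A 3 3 - A 2 3 * A 3 0) + A 1 3 * (A 2 0 * A 3 2 - A 2 2 * A 3 0))
 + A 0 2 * (A 1 0 * (A 2 1 * A 3 3 - A 2 3 * A 3 1) - A 1 1 * (A 2 0 * A 3 3 - A 2 3 * A 3 0) + A 1 3 * (A 2 0 * A 3 1 - A 2 1 * A 3 0))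
 - A 0 3 * (A 1 0 * (A 2 1 * A 3 2 - A 2 2 * A 3 1) - A 1 1 * (A 2 0 * A 3 2 - A 2 2 * A 3 0) + A 1 2 * (A 2 0 * A 3 1 - A 2 1 * A 3 0)) := by
  rw [Matrix.det_succ_row_zero]
  simp only [Fin.sum_univ_four, Matrix.det_fin_three, Matrix.submatrix_apply]
  simp [Fin.succAbove]
  ring

set_option maxHeartbeats 4000000 in
lemma det_fin_four_trace (A : Matrix (Fin 4) (Fin 4) ℂ) :
    24 * A.det = A.trace ^ 4 - 6 * A.trace ^ 2 * (A * A).trace + 3 * (A * A).trace ^ 2
      + 8 * A.trace * (A * A * A).trace - 6 * (A * A * A * A).trace := by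
  rw [det_fin_four_expand]
  simp only [Matrix.trace, Matrix.diag, Matrix.mul_apply, Fin.sum_univ_four]
  ring

variable {G : Type*} [Group G]

private lemma comp_sum' {V : Type*} [AddCommMonoid V] [Module ℂ V] {ι : Type*} (s : Finset ι) (f : V →ₗ[ℂ] V)
    (g : ι → V →ₗ[ℂ] V) : f ∘ₗ (∑ j ∈ s, g j) = ∑ j ∈ s, f ∘ₗ g j := by
  ext v
  simp [LinearMap.sum_apply, map_sum]

private lemma sum_comp' {V : Type*} [AddCommMonoid V] [Module ℂ V] {ι : Type*} (s : Finset ι) (f : V →ₗ[ℂ] V)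
    (g : ι → V →ₗ[ℂ] V) : (∑ j ∈ s, g j) ∘ₗ f = ∑ j ∈ s, g j ∘ₗ f := by
  ext v
  simp [LinearMap.sum_apply]

/-- The sum of the images of the powers of `x`, if it has trace zero, vanishes. -/
theorem sum_pow_eq_zero {n : ℕ} (ρ : Representation ℂ G (Fin n → ℂ)) {x : G} {p : ℕ} (hp : 0 < p)
    (hx : x ^ p = 1) (htr : ∑ j ∈ range p, ρ.character (x ^ j) = 0) :
    ∑ j ∈ range p, ρ (x ^ j) = 0 := by
  classical
  set E : (Fin n → ℂ) →ₗ[ℂ] (Fin n → ℂ) := ∑ j ∈ range p, ρ (x ^ j) with hE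
  have h1 : ρ x ∘ₗ E = E := by
    rw [hE, comp_sum']
    have : ∀ j ∈ range p, ρ x ∘ₗ ρ (x ^ j) = ρ (x ^ (j + 1)) := by
      intro j _
      rw [pow_succ', map_mul]
      rfl
    rw [Finset.sum_congr rfl this]
    obtain ⟨q, rfl⟩ : ∃ q, p = q + 1 := ⟨p - 1, by omega⟩
    rw [Finset.sum_range_succ, Finset.sum_range_succ' (fun j => ρ (x ^ j)), hx, pow_zero]
  have h2 : ∀ j : ℕ, ρ (x ^ j) ∘ₗ E = E := by
    intro j
    induction j with
    | zero =>
      rw [pow_zero, map_one]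
      rfl
    | succ j ih =>
      rw [pow_succ', map_mul]
      calc (ρ x * ρ (x ^ j)) ∘ₗ E = ρ x ∘ₗ (ρ (x ^ j) ∘ₗ E) := rfl
        _ = ρ x ∘ₗ E := by rw [ih]
        _ = E := h1
  have h3 : E ∘ₗ E = (p : ℂ) • E := by
    have : E ∘ₗ E = ∑ j ∈ range p, ρ (x ^ j) ∘ₗ E := by
      rw [hE, sum_comp']
    rw [this, Finset.sum_congr rfl (fun j _ => h2 j), Finset.sum_const, Finset.card_range]
    rw [Nat.cast_smul_eq_nsmul]
  have hp0 : (p : ℂ) ≠ 0 := Nat.cast_ne_zero.mpr hp.ne'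
  set F : (Fin n → ℂ) →ₗ[ℂ] (Fin n → ℂ) := (p : ℂ)⁻¹ • E with hF
  have hFF : ∀ v, F (F v) = F v := by
    intro v
    have h4 : E (E v) = (p : ℂ) • E v := by
      have := LinearMap.congr_fun h3 v
      simpa using this
    simp only [hF, LinearMap.smul_apply, map_smul, h4]
    rw [smul_smul, smul_smul, mul_assoc, inv_mul_cancel₀ hp0, mul_one]
  have hproj : LinearMap.IsProj (LinearMap.range F) F :=
    ⟨fun v => ⟨v, rfl⟩, by
      rintro _ ⟨v, rfl⟩
      exact hFF v⟩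
  have htrF : LinearMap.trace ℂ _ F = 0 := by
    rw [hF, map_smul, hE, map_sum]
    have : ∑ j ∈ range p, LinearMap.trace ℂ (Fin n → ℂ) (ρ (x ^ j)) = 0 := htr
    rw [this, smul_zero]
  have h5 := hproj.trace
  rw [htrF] at h5
  have h6 : Module.finrank ℂ (LinearMap.range F) = 0 := by
    exact_mod_cast h5.symm
  have h7 : LinearMap.range F = ⊥ := Submodule.finrank_eq_zero.1 h6
  have h8 : F = 0 := LinearMap.range_eq_bot.1 h7
  have h9 : E = (p : ℂ) • F := by
    rw [hF, smul_smul, mul_inv_cancel₀ hp0, one_smul]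
  rw [h9, h8, smul_zero]

/-- If the whole coset `z ⟨x⟩` is in the class of `z`, then the character vanishes at `z`. -/
theorem character_eq_zero_of_coset {n : ℕ} (ρ : Representation ℂ G (Fin n → ℂ)) {x : G} {p : ℕ} (hp : 0 < p)
    (hE : ∑ j ∈ range p, ρ (x ^ j) = 0) (z : G) (hc : ∀ j ∈ range p, IsConj z (z * x ^ j)) :
    ρ.character z = 0 := by
  have h1 : ∑ j ∈ range p, ρ.character (z * x ^ j) = 0 := by
    have h2 : ∑ j ∈ range p, ρ.character (z * x ^ j) =
        LinearMap.trace ℂ _ (ρ z ∘ₗ ∑ j ∈ range p, ρ (x ^ j)) := by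
      rw [comp_sum', map_sum]
      refine Finset.sum_congr rfl fun j _ => ?_
      show LinearMap.trace ℂ _ (ρ (z * x ^ j)) = _
      rw [map_mul]
      rfl
    rw [h2, hE, LinearMap.comp_zero, map_zero]
  have h3 : ∀ j ∈ range p, ρ.character (z * x ^ j) = ρ.character z := by
    intro j hj
    obtain ⟨g, hg⟩ := isConj_iff.1 (hc j hj)
    rw [← hg]
    exact Representation.char_conj ρ z g
  rw [Finset.sum_congr rfl h3, Finset.sum_const, Finset.card_range] at h1
  have hp0 : (p : ℂ) ≠ 0 := Nat.cast_ne_zero.mpr hp.ne'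
  have h4 : (p : ℂ) * ρ.character z = 0 := by simpa using h1
  exact (mul_eq_zero.1 h4).resolve_left hp0

/-- The whole coset `z ⟨x⟩` lies in the class of `z` if `z` normalizes `⟨x⟩` and no nontrivial element of
`⟨x⟩` commutes with `z`. -/
theorem isConj_mul_of_fpf [Finite G] {x z : G} (hnorm : ∀ u ∈ Subgroup.zpowers x, z⁻¹ * u * z ∈ Subgroup.zpowers x)
    (hfpf : ∀ u ∈ Subgroup.zpowers x, z * u = u * z → u = 1) (w : G) (hw : w ∈ Subgroup.zpowers x) :
    IsConj z (z * w) := by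
  have hcomm : ∀ a b : G, a ∈ Subgroup.zpowers x → b ∈ Subgroup.zpowers x → a * b = b * a := by
    intro a b ha hb
    obtain ⟨k, rfl⟩ := Subgroup.mem_zpowers_iff.1 ha
    obtain ⟨l, rfl⟩ := Subgroup.mem_zpowers_iff.1 hb
    exact ((Commute.refl x).zpow_zpow k l).eq
  let f : Subgroup.zpowers x → Subgroup.zpowers x := fun u =>
    ⟨z⁻¹ * u * z * (u : G)⁻¹, (Subgroup.zpowers x).mul_mem (hnorm _ u.2) ((Subgroup.zpowers x).inv_mem u.2)⟩
  have hinj : Function.Injective f := by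
    intro u v huv
    have h1 : z⁻¹ * (u : G) * z * (u : G)⁻¹ = z⁻¹ * v * z * (v : G)⁻¹ := congrArg Subtype.val huv
    have h2 : (u : G) * (v : G)⁻¹ = 1 := by
      apply hfpf _ ((Subgroup.zpowers x).mul_mem u.2 ((Subgroup.zpowers x).inv_mem v.2))
      -- commuting with `z`
      have h3 : z⁻¹ * (u : G) * z * (z⁻¹ * (v : G) * z)⁻¹ = (u : G) * (v : G)⁻¹ := by
        have h4 := hcomm _ _ ((Subgroup.zpowers x).inv_mem u.2) (hnorm _ v.2)
        have h5 : z⁻¹ * (u : G) * z = (z⁻¹ * v * z * (v : G)⁻¹) * u := by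
          rw [← h1]
          group
        calc z⁻¹ * (u : G) * z * (z⁻¹ * (v : G) * z)⁻¹
            = (z⁻¹ * v * z * (v : G)⁻¹) * u * (z⁻¹ * (v : G) * z)⁻¹ := by rw [h5]
          _ = (z⁻¹ * v * z) * ((v : G)⁻¹ * u) * (z⁻¹ * (v : G) * z)⁻¹ := by group
          _ = ((v : G)⁻¹ * u) * (z⁻¹ * v * z) * (z⁻¹ * (v : G) * z)⁻¹ := by
                rw [hcomm (z⁻¹ * v * z) ((v : G)⁻¹ * u) (hnorm _ v.2)
                  ((Subgroup.zpowers x).mul_mem ((Subgroup.zpowers x).inv_mem v.2) u.2)]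
          _ = (v : G)⁻¹ * u := by group
          _ = (u : G) * (v : G)⁻¹ := hcomm _ _ ((Subgroup.zpowers x).inv_mem v.2) u.2
      calc z * ((u : G) * (v : G)⁻¹) = z * (z⁻¹ * (u : G) * z * (z⁻¹ * (v : G) * z)⁻¹) := by rw [h3]
        _ = (u : G) * (v : G)⁻¹ * z := by group
    apply Subtype.ext
    exact mul_inv_eq_one.1 h2
  have hsurj : Function.Surjective f := Finite.injective_iff_surjective.1 hinj
  obtain ⟨u, hu⟩ := hsurj ⟨w, hw⟩
  have h1 : z⁻¹ * (u : G) * z * (u : G)⁻¹ = w := congrArg Subtype.val hu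
  rw [isConj_iff]
  refine ⟨u, ?_⟩
  rw [← h1]
  group

/-- The determinant of an element of order dividing four with vanishing traces. -/
theorem det_eq_neg_one (ρ : Representation ℂ G (Fin 4 → ℂ)) {y : G} (hy : y ^ 4 = 1)
    (h1 : ρ.character y = 0) (h2 : ρ.character (y ^ 2) = 0) (h3 : ρ.character (y ^ 3) = 0) :
    LinearMap.det (ρ y) = -1 := by
  let A : Matrix (Fin 4) (Fin 4) ℂ := LinearMap.toMatrix' (ρ y)
  have hdetA : LinearMap.det (ρ y) = A.det := (LinearMap.det_toMatrix' (ρ y)).symm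
  have htr : ∀ k : ℕ, (A ^ k).trace = ρ.character (y ^ k) := by
    intro k
    have h4 : A ^ k = LinearMap.toMatrix' (ρ (y ^ k)) := by
      rw [map_pow]
      show (LinearMap.toMatrix' (ρ y)) ^ k = _
      induction k with
      | zero =>
        simp only [pow_zero]
        exact (LinearMap.toMatrix'_one).symm
      | succ k ih =>
        rw [pow_succ, ih, pow_succ]
        exact (LinearMap.toMatrix'_mul _ _).symm
    rw [h4]
    show _ = LinearMap.trace ℂ _ (ρ (y ^ k))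
    rw [LinearMap.trace_eq_matrix_trace ℂ (Pi.basisFun ℂ (Fin 4))]
    rfl
  have h6 := det_fin_four_trace A
  have t1 := htr 1
  have t2 := htr 2
  have t3 := htr 3
  have t4 := htr 4
  rw [pow_one, pow_one, h1] at t1
  rw [pow_two, h2] at t2
  rw [h3, pow_succ, pow_two] at t3
  rw [hy, Representation.char_one, pow_succ, pow_succ, pow_two] at t4
  rw [t1, t2, t3, t4] at h6
  rw [hdetA]
  have h7 : (Module.finrank ℂ (Fin 4 → ℂ) : ℂ) = 4 := by simp
  rw [h7] at h6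
  have h8 : (24 : ℂ) * A.det = 24 * (-1) := by
    rw [h6]
    norm_num
  have h24 : (24 : ℂ) ≠ 0 := by norm_num
  exact mul_left_cancel₀ h24 h8

end Cfsg.Agent.Lib.Perm.Det4
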