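import Mathlib
import Cfsg.Agent.Lib.Perm.Derange

/-!
# Extremely primitive groups: block arguments on factors of a minimal normal subgroup
-/

set_option autoImplicit false
set_option linter.style.haveILetI false
set_option linter.unusedSimpArgs false
set_option linter.unusedVariables false
set_option linter.unusedSectionVars false

namespace Cfsg.Agent.Lib.Perm.ExtPrim

open MulAction
open scoped Pointwise
open Cfsg.Agent.Lib.Solvable.MinimalNormal
open Cfsg.Agent.Lib.Perm.Basic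
open Cfsg.Agent.Lib.Perm.Derange

variable {G Ω : Type*} [Group G] [MulAction G Ω]

/-- Dichotomy for a block in a primitive orbit of a subgroup, phrased on subsets of `Ω`. -/
theorem block_dich {S : Subgroup G} {β : Ω} (hp : IsPreprimitive S (orbit S β)) (B : Set Ω)
    (hβ : β ∈ B)
    (hB : ∀ g ∈ S, ∀ ω ∈ B, ω ∈ orbit S β → g • ω ∈ B → ∀ ω' ∈ B, ω' ∈ orbit S β → g • ω' ∈ B) :
    (∀ ω ∈ B, ω ∈ orbit S β → ω = β) ∨ orbit S β ⊆ B := by
  let B' : Set (orbit S β) := {ω | (ω : Ω) ∈ B}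
  have hb : IsBlock S B' := by
    rw [isBlock_iff_smul_eq_of_mem]
    intro g a ha hga
    have hforw : ∀ (g : S) (a : orbit S β), a ∈ B' → g • a ∈ B' → ∀ x ∈ B', g • x ∈ B' := by
      intro g a ha hga x hx
      exact hB g g.2 a ha a.2 hga x hx x.2
    apply Set.Subset.antisymm
    · rintro _ ⟨x, hx, rfl⟩
      exact hforw g a ha hga x hx
    · intro x hx
      refine ⟨g⁻¹ • x, ?_, by simp⟩
      refine hforw g⁻¹ (g • a) hga ?_ x hx
      simpa using ha
  rcases hp.isTrivialBlock_of_isBlock hb with h | h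
  · left
    intro ω hω hωo
    have := h (show (⟨ω, hωo⟩ : orbit S β) ∈ B' from hω)
      (show (⟨β, mem_orbit_self β⟩ : orbit S β) ∈ B' from hβ)
    exact congrArg Subtype.val this
  · right
    intro ω hω
    have : (⟨ω, hω⟩ : orbit S β) ∈ B' := by rw [h]; trivial
    exact this


theorem smul_conj {g : G} {α : Ω} (hg : g • α = α) (a : G) : g • (a • α) = (g * a * g⁻¹) • α := by
  rw [mul_smul, mul_smul, inv_smul_eq_iff.mpr hg.symm]

/-- Elements of the join `H ⊔ K` when `H` normalizes `K`. -/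
theorem mem_sup_of_norm (H K : Subgroup G) (hn : ∀ h ∈ H, ∀ k ∈ K, h * k * h⁻¹ ∈ K) {x : G}
    (hx : x ∈ H ⊔ K) : ∃ h ∈ H, ∃ k ∈ K, x = h * k := by
  let W : Subgroup G :=
    { carrier := {g | ∃ h ∈ H, ∃ k ∈ K, g = h * k}
      one_mem' := ⟨1, H.one_mem, 1, K.one_mem, by simp⟩
      mul_mem' := by
        rintro _ _ ⟨h, hh, k, hk, rfl⟩ ⟨h', hh', k', hk', rfl⟩
        refine ⟨h * h', mul_mem hh hh', h'⁻¹ * k * h' * k', mul_mem ?_ hk', by group⟩
        have := hn h'⁻¹ (inv_mem hh') k hk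
        simpa using this
      inv_mem' := by
        rintro _ ⟨h, hh, k, hk, rfl⟩
        refine ⟨h⁻¹, inv_mem hh, h * k⁻¹ * h⁻¹, hn h hh _ (inv_mem hk), by group⟩ }
  have hle : H ⊔ K ≤ W := sup_le (fun h hh => ⟨h, hh, 1, K.one_mem, by simp⟩)
    (fun k hk => ⟨1, H.one_mem, k, hk, by simp⟩)
  exact hle hx

section struct

variable {N A : Subgroup G}

theorem cj_eq_of_mem (hA : IsMinInv N A) {n : G} (hn : n ∈ N) : cj n A = A := by
  apply le_antisymm
  · intro x hx
    rw [mem_cj] at hx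
    have := hA.inv n hn _ hx
    have e : n * (n⁻¹ * x * n) * n⁻¹ = x := by group
    rwa [e] at this
  · intro x hx
    rw [mem_cj]
    have := hA.inv n⁻¹ (inv_mem hn) x hx
    simpa using this

theorem iSup_cj_eq [Finite G] (hN : IsMinNormal N) (hA : IsMinInv N A) : (⨆ g, cj g A) = N := by
  let L : Subgroup G := ⨆ g, cj g A
  have hLn : L.Normal := by
    constructor
    intro x hx g
    have hLmap : L.map (MulAut.conj g).toMonoidHom ≤ L := by
      rw [Subgroup.map_iSup]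
      apply iSup_le
      intro h
      have : (cj h A).map (MulAut.conj g).toMonoidHom = cj (g * h) A := cj_cj g h A
      rw [this]
      exact le_iSup (fun g => cj g A) (g * h)
    exact hLmap ⟨x, hx, rfl⟩
  haveI := hN.1
  have hLN : L ≤ N := iSup_le fun g => (hA.cj g).le
  have hA1 : A ≤ L := by
    calc A = cj 1 A := (cj_one A).symm
      _ ≤ L := le_iSup (fun g => cj g A) 1
  have hLne : L ≠ ⊥ := by
    intro hb
    apply hA.ne_bot
    rw [eq_bot_iff]
    rw [hb] at hA1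
    exact hA1
  exact (hN.2.2 L hLn hLN).resolve_left hLne

/-- `A` is noncommutative when `N` is. -/
theorem noncomm_of_isMinInv [Finite G] (hN : IsMinNormal N)
    (hNc : ¬ ∀ x ∈ N, ∀ y ∈ N, x * y = y * x) (hA : IsMinInv N A) :
    ¬ ∀ x ∈ A, ∀ y ∈ A, x * y = y * x := by
  intro hcA
  haveI := hN.1
  have hcj : ∀ g, IsMinInv N (cj g A) := fun g => hA.cj g
  have hcomm : ∀ g h, ∀ x ∈ cj g A, ∀ y ∈ cj h A, x * y = y * x := by
    intro g h x hx y hy
    by_cases he : cj g A = cj h A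
    · rw [← he] at hy
      rw [mem_cj] at hx hy
      have := hcA _ hx _ hy
      have e1 : x = g * (g⁻¹ * x * g) * g⁻¹ := by group
      have e2 : y = g * (g⁻¹ * y * g) * g⁻¹ := by group
      rw [e1, e2]
      calc g * (g⁻¹ * x * g) * g⁻¹ * (g * (g⁻¹ * y * g) * g⁻¹)
          = g * ((g⁻¹ * x * g) * (g⁻¹ * y * g)) * g⁻¹ := by group
        _ = g * ((g⁻¹ * y * g) * (g⁻¹ * x * g)) * g⁻¹ := by rw [this]
        _ = _ := by group
    · exact (hcj g).comm_of_ne (hcj h) he x hx y hy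
  apply hNc
  rw [← iSup_cj_eq hN hA]
  have hLc : (⨆ g, cj g A) ≤ Subgroup.centralizer (((⨆ g, cj g A) : Subgroup G) : Set G) := by
    apply iSup_le
    intro g
    rw [Subgroup.le_centralizer_iff]
    apply iSup_le
    intro h x hx
    rw [Subgroup.mem_centralizer_iff]
    intro y hy
    exact hcomm g h y hy x hx
  intro x hx y hy
  exact (Subgroup.mem_centralizer_iff.mp (hLc hx) y hy).symm

theorem center_A [Finite G] (hN : IsMinNormal N)
    (hNc : ¬ ∀ x ∈ N, ∀ y ∈ N, x * y = y * x) (hA : IsMinInv N A) :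
    ∀ a ∈ A, (∀ n ∈ A, a * n = n * a) → a = 1 :=
  center_trivial_of_min N A hA.inv hA.min (noncomm_of_isMinInv hN hNc hA)

theorem center_N [Finite G] (hN : IsMinNormal N)
    (hNc : ¬ ∀ x ∈ N, ∀ y ∈ N, x * y = y * x) :
    ∀ a ∈ N, (∀ n ∈ N, a * n = n * a) → a = 1 := by
  haveI hNn := hN.1
  exact center_trivial_of_min ⊤ N (fun n _ a ha => hNn.conj_mem a ha n)
    (fun K hK hKne hKinv => by
      haveI hKn : K.Normal := ⟨fun k hk g => hKinv g (Subgroup.mem_top g) k hk⟩
      exact (hN.2.2 K hKn hK).resolve_left hKne) hNc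

/-- Factorisation `n = c * a` with `a ∈ A` and `c ∈ N` centralizing `A`. -/
theorem exists_decomp [Finite G] (hN : IsMinNormal N) (hA : IsMinInv N A) {n : G} (hn : n ∈ N) :
    ∃ a ∈ A, ∃ c ∈ N, (∀ x ∈ A, c * x = x * c) ∧ n = c * a := by
  haveI := hN.1
  let C : Subgroup G := N ⊓ Subgroup.centralizer (A : Set G)
  have hle : N ≤ A ⊔ C := by
    rw [← iSup_cj_eq hN hA]
    apply iSup_le
    intro g
    by_cases he : cj g A = A
    · rw [he]; exact le_sup_left
    · apply le_sup_of_le_right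
      intro x hx
      refine Subgroup.mem_inf.mpr ⟨(hA.cj g).le hx, ?_⟩
      rw [Subgroup.mem_centralizer_iff]
      intro y hy
      exact (hA.comm_of_ne (hA.cj g) (Ne.symm he)) y hy x hx
  have hcomm : ∀ a ∈ A, ∀ b ∈ C, a * b = b * a := fun a ha b hb =>
    Subgroup.mem_centralizer_iff.mp (Subgroup.mem_inf.mp hb).2 a ha
  obtain ⟨a, ha, b, hb, e⟩ := mem_sup_of_commute A C hcomm (hle hn)
  refine ⟨a, ha, b, (Subgroup.mem_inf.mp hb).1, ?_, e⟩
  intro x hx
  exact (hcomm x hx b hb).symm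

/-- `A` is simple in the elementary sense. -/
theorem simple_A [Finite G] (hN : IsMinNormal N) (hA : IsMinInv N A) {K : Subgroup G}
    (hKA : K ≤ A) (hK : K ≠ ⊥) (hinv : ∀ a ∈ A, ∀ k ∈ K, a * k * a⁻¹ ∈ K) : K = A := by
  apply hA.min K hKA hK
  intro n hn k hk
  obtain ⟨a, ha, c, hc, hcomm, rfl⟩ := exists_decomp hN hA hn
  have h1 := hinv a ha k hk
  have h2 : c * (a * k * a⁻¹) * c⁻¹ = a * k * a⁻¹ := by
    rw [hcomm _ (hKA h1)]
    group
  have e : c * a * k * (c * a)⁻¹ = c * (a * k * a⁻¹) * c⁻¹ := by group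
  rw [e, h2]
  exact h1

end struct

section action

variable [Finite G] [FaithfulSMul G Ω] [IsPreprimitive G Ω] {N A : Subgroup G} {α : Ω}

/-- Every conjugate of `A` is a conjugate under the stabilizer. -/
theorem exists_stab_cj (hN : IsMinNormal N) (hA : IsMinInv N A) (α : Ω) (g : G) :
    ∃ s ∈ stabilizer G α, cj g A = cj s A := by
  haveI := hN.1
  haveI : IsPretransitive N Ω := isPretransitive_of_normal_of_ne_bot N hN.2.1
  obtain ⟨n, hn, s, hs, rfl⟩ := exists_mem_mul_mem_stabilizer N α g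
  refine ⟨s, hs, ?_⟩
  rw [← cj_cj, cj_eq_of_mem (hA.cj s) hn]

/-- `A` does not fix `α`. -/
theorem not_le_stab (hN : IsMinNormal N) (hA : IsMinInv N A) {β : Ω} (hβ : β ≠ α) :
    ¬ A ≤ stabilizer G α := by
  intro h
  haveI := hN.1
  haveI : IsPretransitive N Ω := isPretransitive_of_normal_of_ne_bot N hN.2.1
  have hNle : N ≤ stabilizer G α := by
    rw [← iSup_cj_eq hN hA]
    apply iSup_le
    intro g
    obtain ⟨s, hs, e⟩ := exists_stab_cj hN hA α g
    rw [e]
    intro x hx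
    rw [mem_cj] at hx
    have := h hx
    have h2 : s * (s⁻¹ * x * s) * s⁻¹ ∈ stabilizer G α :=
      mul_mem (mul_mem hs this) (inv_mem hs)
    have e2 : s * (s⁻¹ * x * s) * s⁻¹ = x := by group
    rwa [e2] at h2
  obtain ⟨n, hn, hnβ⟩ := exists_mem_smul_eq N α β
  apply hβ
  rw [← hnβ]
  exact hNle hn


theorem mem_cj_self {g a : G} {A : Subgroup G} (ha : a ∈ A) : g * a * g⁻¹ ∈ cj g A := ⟨a, ha, rfl⟩

/-- A subgroup `D` with `S ⊔ D = ⊤` and `S` normalizing `D` is normal. -/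
theorem normal_of_sup {D S : Subgroup G} (hS : ∀ s ∈ S, ∀ x ∈ D, s * x * s⁻¹ ∈ D)
    (hsup : S ⊔ D = ⊤) : D.Normal := by
  constructor
  intro x hx g
  have hg : g ∈ S ⊔ D := hsup ▸ Subgroup.mem_top g
  obtain ⟨s, hs, d, hd, rfl⟩ := mem_sup_of_norm S D hS hg
  have e : s * d * x * (s * d)⁻¹ = s * (d * x * d⁻¹) * s⁻¹ := by group
  rw [e]
  exact hS s hs _ (mul_mem (mul_mem hd hx) (inv_mem hd))

/-- The closure of a commuting set is commutative. -/
theorem closure_comm {X : Set G} (hX : ∀ x ∈ X, ∀ y ∈ X, x * y = y * x) :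
    ∀ x ∈ Subgroup.closure X, ∀ y ∈ Subgroup.closure X, x * y = y * x := by
  intro x hx y hy
  induction hx using Subgroup.closure_induction with
  | mem a ha =>
    induction hy using Subgroup.closure_induction with
    | mem b hb => exact hX a ha b hb
    | one => simp
    | mul u v _ _ hu hv => rw [← mul_assoc, hu, mul_assoc, hv, mul_assoc]
    | inv u _ hu => exact (Commute.inv_right (show Commute a u from hu)).eq
  | one => simp
  | mul u v _ _ hu hv => rw [mul_assoc, hv, ← mul_assoc, hu, mul_assoc]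
  | inv u _ hu => exact (Commute.inv_left (show Commute u y from hu)).eq

/-- The case where different conjugates of `A` have disjoint orbits through `α`. -/
theorem no_partner {β : Ω} (hβ : β ≠ α) (hN : IsMinNormal N)
    (hNc : ¬ ∀ x ∈ N, ∀ y ∈ N, x * y = y * x) (hA : IsMinInv N A)
    (hep : ∀ ω : Ω, IsPreprimitive (stabilizer G α) (orbit (stabilizer G α) ω))
    (hk : ∃ s ∈ stabilizer G α, cj s A ≠ A)
    (hnp : ∀ s ∈ stabilizer G α, cj s A ≠ A → ∀ t ∈ A, ∀ t' ∈ cj s A, t • α = t' • α → t • α = α) :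
    False := by
  classical
  set S := stabilizer G α with hSdef
  haveI := hN.1
  have hSα : ∀ s ∈ S, s • α = α := fun s hs => hs
  -- Claim 1
  have claim1 : ∀ t ∈ A, t • α ≠ α → ∀ g ∈ S, cj g A = A → g • (t • α) = t • α := by
    intro t ht htα g hg hgA
    have hαΓ : ∀ ω ∈ orbit S (t • α), ω ≠ α := by
      rintro _ ⟨s, rfl⟩ h
      apply htα
      have h1 : (s : G) • (t • α) = α := h
      have h2 : t • α = (s : G)⁻¹ • α := by rw [eq_inv_smul_iff]; exact h1
      rw [h2]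
      exact hSα _ (inv_mem s.2)
    let B : Set Ω := {ω | ∃ a ∈ A, ω = a • α}
    have hBl : ∀ g ∈ S, ∀ ω ∈ B, ω ∈ orbit S (t • α) → g • ω ∈ B → ∀ ω' ∈ B,
        ω' ∈ orbit S (t • α) → g • ω' ∈ B := by
      rintro g hg ω ⟨a, ha, rfl⟩ hωo ⟨a₁, ha₁, e⟩ ω' ⟨a', ha', rfl⟩ hω'o
      by_cases hc : cj g A = A
      · refine ⟨g * a' * g⁻¹, ?_, smul_conj (hSα g hg) a'⟩
        have := mem_cj_self (g := g) ha'
        rwa [hc] at this
      · exfalso
        have h2 := hnp g hg hc a₁ ha₁ (g * a * g⁻¹) (mem_cj_self ha)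
          (by rw [← e, smul_conj (hSα g hg) a])
        apply hαΓ _ hωo
        rw [h2] at e
        have h3 : a • α = g⁻¹ • α := by rw [eq_inv_smul_iff]; exact e
        rw [h3]
        exact hSα _ (inv_mem hg)
    rcases block_dich (hep (t • α)) B ⟨t, ht, rfl⟩ hBl with hl | hr
    · apply hl
      · refine ⟨g * t * g⁻¹, ?_, smul_conj (hSα g hg) t⟩
        have := mem_cj_self (g := g) ht
        rwa [hgA] at this
      · exact ⟨⟨g, hg⟩, rfl⟩
    · exfalso
      obtain ⟨s, hs, hne⟩ := hk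
      have h1 : s • (t • α) ∈ orbit S (t • α) := ⟨⟨s, hs⟩, rfl⟩
      obtain ⟨a, ha, e⟩ := hr h1
      have h2 := hnp s hs hne a ha (s * t * s⁻¹) (mem_cj_self ht)
        (by rw [← e, smul_conj (hSα s hs) t])
      exact hαΓ _ h1 (e.trans h2)
  -- Claim 2
  have claim2 : ∀ t ∈ A, ∀ n ∈ N, n ∈ S → t⁻¹ * n * t ∈ S := by
    intro t ht n hnN hnS
    by_cases h : t • α = α
    · have htS : t ∈ S := h
      exact mul_mem (mul_mem (inv_mem htS) hnS) htS
    · have h1 := claim1 t ht h n hnS (cj_eq_of_mem hA hnN)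
      change (t⁻¹ * n * t) • α = α
      rw [mul_smul, mul_smul, h1, inv_smul_smul]
  -- Claim 3
  have hfree : ∀ a ∈ A, a • α = α → a = 1 := by
    have hK : A ⊓ S = ⊥ := by
      by_contra hne
      have h := simple_A hN hA (inf_le_left : A ⊓ S ≤ A) hne ?_
      · exact not_le_stab hN hA hβ (inf_eq_left.mp h)
      · intro a ha k hk
        refine Subgroup.mem_inf.mpr ⟨mul_mem (mul_mem ha (Subgroup.mem_inf.mp hk).1) (inv_mem ha), ?_⟩
        have := claim2 a⁻¹ (inv_mem ha) k (hA.le (Subgroup.mem_inf.mp hk).1) (Subgroup.mem_inf.mp hk).2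
        simpa using this
    intro a ha h
    have : a ∈ A ⊓ S := Subgroup.mem_inf.mpr ⟨ha, h⟩
    rw [hK] at this
    exact this
  -- Claim 4
  have claim4 : ∀ n ∈ N, n ∈ S → ∀ a ∈ A, a * n = n * a := by
    intro n hnN hnS a ha
    have hc1 : a * n * a⁻¹ * n⁻¹ ∈ A := by
      have h1 := hA.inv n hnN a⁻¹ (inv_mem ha)
      have h2 := mul_mem ha h1
      have e : a * (n * a⁻¹ * n⁻¹) = a * n * a⁻¹ * n⁻¹ := by group
      rwa [e] at h2
    have hc2 : a * n * a⁻¹ * n⁻¹ ∈ S := by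
      have h1 := claim2 a⁻¹ (inv_mem ha) n hnN hnS
      rw [inv_inv] at h1
      exact mul_mem h1 (inv_mem hnS)
    have := hfree _ hc1 hc2
    rw [mul_inv_eq_one, mul_inv_eq_iff_eq_mul] at this
    exact this
  -- Claim 5
  have claim5 : ∀ n ∈ N, n ∈ S → n = 1 := by
    intro n hnN hnS
    apply center_N hN hNc n hnN
    have hle : N ≤ Subgroup.centralizer ({n} : Set G) := by
      rw [← iSup_cj_eq hN hA]
      apply iSup_le
      intro g
      obtain ⟨s, hs, e⟩ := exists_stab_cj hN hA α g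
      rw [e]
      intro x hx
      rw [mem_cj] at hx
      rw [Subgroup.mem_centralizer_iff]
      intro y hy
      rw [Set.mem_singleton_iff] at hy
      subst hy
      have h1 : s⁻¹ * y * s ∈ N := by
        have := (inferInstance : N.Normal).conj_mem y hnN s⁻¹
        simpa using this
      have h2 : s⁻¹ * y * s ∈ S := mul_mem (mul_mem (inv_mem hs) hnS) hs
      have h3 := claim4 _ h1 h2 _ hx
      have h4 : y * x * y⁻¹ = x := by
        have e3 : s⁻¹ * (y * x * y⁻¹) * s = (s⁻¹ * y * s) * (s⁻¹ * x * s) * (s⁻¹ * y * s)⁻¹ := by group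
        have e4 : (s⁻¹ * y * s) * (s⁻¹ * x * s) * (s⁻¹ * y * s)⁻¹ = s⁻¹ * x * s := by
          rw [← h3]; group
        have e5 := e3.trans e4
        have e6 : y * x * y⁻¹ = s * (s⁻¹ * (y * x * y⁻¹) * s) * s⁻¹ := by group
        rw [e6, e5]
        group
      rw [mul_inv_eq_iff_eq_mul] at h4
      exact h4
    intro m hm
    exact Subgroup.mem_centralizer_iff.mp (hle hm) n (Set.mem_singleton n)
  -- Claim 6
  have claim6 : ∀ g ∈ S, cj g A = A → ∀ a ∈ A, g * a * g⁻¹ = a := by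
    intro g hg hgA a ha
    by_cases ha1 : a = 1
    · subst ha1; simp
    · have h1 : a • α ≠ α := fun h => ha1 (hfree a ha h)
      have h2 := claim1 a ha h1 g hg hgA
      rw [smul_conj (hSα g hg) a] at h2
      have h3 : g * a * g⁻¹ ∈ A := by
        have := mem_cj_self (g := g) ha
        rwa [hgA] at this
      have h4 : a⁻¹ * (g * a * g⁻¹) = 1 := by
        apply hfree _ (mul_mem (inv_mem ha) h3)
        rw [mul_smul, h2, inv_smul_smul]
      rw [inv_mul_eq_one] at h4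
      exact h4.symm
  -- Claim 7
  obtain ⟨⟨a₀, ha₀⟩, ha₀1⟩ := Subgroup.ne_bot_iff_exists_ne_one.mp hA.ne_bot
  have ha₀ne : a₀ ≠ 1 := fun h => ha₀1 (Subtype.ext h)
  let X : Set G := {x | ∃ s ∈ S, x = s * a₀ * s⁻¹}
  have hXc : ∀ x ∈ X, ∀ y ∈ X, x * y = y * x := by
    rintro _ ⟨s, hs, rfl⟩ _ ⟨s', hs', rfl⟩
    by_cases he : cj s A = cj s' A
    · have h1 : cj (s'⁻¹ * s) A = A := by
        rw [← cj_cj, he, cj_cj, inv_mul_cancel, cj_one]
      have h2 := claim6 (s'⁻¹ * s) (mul_mem (inv_mem hs') hs) h1 a₀ ha₀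
      have h3 : s * a₀ * s⁻¹ = s' * a₀ * s'⁻¹ := by
        have e : s * a₀ * s⁻¹ = s' * ((s'⁻¹ * s) * a₀ * (s'⁻¹ * s)⁻¹) * s'⁻¹ := by group
        rw [e, h2]
      rw [h3]
    · exact (hA.cj s).comm_of_ne (hA.cj s') he _ (mem_cj_self ha₀) _ (mem_cj_self ha₀)
  let D : Subgroup G := Subgroup.closure X
  have hDc : ∀ x ∈ D, ∀ y ∈ D, x * y = y * x := closure_comm hXc
  have ha₀D : a₀ ∈ D := Subgroup.subset_closure ⟨1, S.one_mem, by simp⟩
  have hDN : D ≤ N := by
    rw [Subgroup.closure_le]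
    rintro _ ⟨s, hs, rfl⟩
    exact (inferInstance : N.Normal).conj_mem a₀ (hA.le ha₀) s
  have hSD : ∀ s ∈ S, ∀ x ∈ D, s * x * s⁻¹ ∈ D := by
    intro s hs x hx
    have hle : D ≤ D.comap (MulAut.conj s).toMonoidHom := by
      rw [Subgroup.closure_le]
      rintro _ ⟨s', hs', rfl⟩
      refine Subgroup.subset_closure ⟨s * s', mul_mem hs hs', ?_⟩
      simp [MulAut.conj_apply]
      group
    exact hle hx
  haveI : Nontrivial Ω := ⟨⟨α, β, hβ.symm⟩⟩
  have hco := IsPreprimitive.isCoatom_stabilizer_of_isPreprimitive G α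
  have hnle : ¬ D ≤ S := fun h => ha₀ne (hfree a₀ ha₀ (h ha₀D))
  have hsup : S ⊔ D = ⊤ := hco.2 _ (lt_of_le_of_ne le_sup_left (fun h =>
    hnle (le_trans le_sup_right (le_of_eq h.symm))))
  haveI hDn : D.Normal := normal_of_sup hSD hsup
  rcases hN.2.2 D hDn hDN with h | h
  · rw [h] at ha₀D
    exact ha₀ne ha₀D
  · exact hNc (h ▸ hDc)


/-- The join `(N ⊓ S) ⊔ C_N(B)`. -/
private def YY (N S B : Subgroup G) : Subgroup G :=
  (N ⊓ S) ⊔ (N ⊓ Subgroup.centralizer (B : Set G))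

private theorem YY_le (N S B : Subgroup G) : YY N S B ≤ N :=
  sup_le inf_le_left inf_le_left

private theorem YY_conj {N S B : Subgroup G} [N.Normal] {u x : G} (hu : u ∈ S)
    (hx : x ∈ YY N S B) : u * x * u⁻¹ ∈ YY N S (cj u B) := by
  have hle : YY N S B ≤ (YY N S (cj u B)).comap (MulAut.conj u).toMonoidHom := by
    apply sup_le
    · intro y hy
      obtain ⟨h1, h2⟩ := Subgroup.mem_inf.mp hy
      apply Subgroup.mem_sup_left
      exact Subgroup.mem_inf.mpr ⟨(inferInstance : N.Normal).conj_mem y h1 u,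
        mul_mem (mul_mem hu h2) (inv_mem hu)⟩
    · intro y hy
      obtain ⟨h1, h2⟩ := Subgroup.mem_inf.mp hy
      apply Subgroup.mem_sup_right
      refine Subgroup.mem_inf.mpr ⟨(inferInstance : N.Normal).conj_mem y h1 u, ?_⟩
      rw [Subgroup.mem_centralizer_iff]
      intro z hz
      have hz' : u⁻¹ * z * u ∈ B := mem_cj.mp hz
      have h3 := Subgroup.mem_centralizer_iff.mp h2 _ hz'
      show z * (u * y * u⁻¹) = u * y * u⁻¹ * z
      have e1 : z * (u * y * u⁻¹) = u * ((u⁻¹ * z * u) * y) * u⁻¹ := by group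
      have e2 : u * y * u⁻¹ * z = u * (y * (u⁻¹ * z * u)) * u⁻¹ := by group
      rw [e1, e2, h3]
  exact hle hx

/-- The basic facts on a pair of different conjugates of `A` sharing a nontrivial point of
the orbit of `α`. -/
theorem pair_lemma {β : Ω} (hβ : β ≠ α) (hN : IsMinNormal N) (hA : IsMinInv N A)
    {s₀ : G} (hs₀ : s₀ ∈ stabilizer G α) (hne : cj s₀ A ≠ A) {t t' : G} (ht : t ∈ A)
    (ht' : t' ∈ cj s₀ A) (he : t • α = t' • α) (htα : t • α ≠ α) :
    (∀ a ∈ A, ∃ c ∈ N, (∀ x ∈ A, c * x = x * c) ∧ a * c ∈ stabilizer G α) ∧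
    (∀ a ∈ A, a • α = α → a = 1) ∧
    (∀ a ∈ A, ∃ a' ∈ cj s₀ A, a * a' ∈ stabilizer G α) := by
  classical
  set S := stabilizer G α with hSdef
  haveI hNn := hN.1
  have hA' := hA.cj s₀
  have hcomm' : ∀ a ∈ A, ∀ b ∈ cj s₀ A, a * b = b * a := hA.comm_of_ne hA' (Ne.symm hne)
  have ht1 : t ≠ 1 := by
    rintro rfl
    exact htα (one_smul _ _)
  have hw : t * t'⁻¹ ∈ S := by
    have e : t * t'⁻¹ = t'⁻¹ * t := by
      have := hcomm' t ht t'⁻¹ (inv_mem ht')
      exact this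
    show (t * t'⁻¹) • α = α
    rw [e, mul_smul, he, inv_smul_smul]
  have htN : t ∈ N := hA.le ht
  have ht'N : t' ∈ N := hA'.le ht'
  -- Step 1
  have hstep1 : N ≤ YY N S A := by
    by_contra hnot
    let R : Subgroup G := ⨅ s : S, YY N S (cj (s : G) A)
    have hRA : R ≤ YY N S A := by
      have := iInf_le (fun s : S => YY N S (cj (s : G) A)) 1
      simpa [cj_one] using this
    have hRN : R ≤ N := hRA.trans (YY_le N S A)
    have htR : t ∈ R := by
      rw [Subgroup.mem_iInf]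
      intro s
      by_cases hc : cj (s : G) A = A
      · rw [hc]
        have h1 : t * t'⁻¹ ∈ N ⊓ S := Subgroup.mem_inf.mpr ⟨mul_mem htN (inv_mem ht'N), hw⟩
        have h2 : t' ∈ N ⊓ Subgroup.centralizer (A : Set G) := by
          refine Subgroup.mem_inf.mpr ⟨ht'N, ?_⟩
          rw [Subgroup.mem_centralizer_iff]
          intro y hy
          exact hcomm' y hy t' ht'
        have e : t = (t * t'⁻¹) * t' := by group
        rw [e]
        exact mul_mem (Subgroup.mem_sup_left h1) (Subgroup.mem_sup_right h2)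
      · apply Subgroup.mem_sup_right
        refine Subgroup.mem_inf.mpr ⟨htN, ?_⟩
        rw [Subgroup.mem_centralizer_iff]
        intro y hy
        exact (hA.comm_of_ne (hA.cj (s : G)) (Ne.symm hc) t ht y hy).symm
    have hRne : R ≠ ⊥ := by
      intro h
      rw [h] at htR
      exact ht1 htR
    have hRnN : R ≠ N := by
      intro h
      exact hnot (le_trans (le_of_eq h.symm) hRA)
    have hSR : ∀ u ∈ S, ∀ x ∈ R, u * x * u⁻¹ ∈ R := by
      intro u hu x hx
      rw [Subgroup.mem_iInf] at hx ⊢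
      intro s
      have h1 := hx ⟨u⁻¹ * s, mul_mem (inv_mem hu) s.2⟩
      have h2 := YY_conj hu h1
      have e : cj u (cj (u⁻¹ * (s : G)) A) = cj (s : G) A := by
        rw [cj_cj]
        congr 1
        group
      rwa [e] at h2
    haveI : Nontrivial Ω := ⟨⟨α, β, hβ.symm⟩⟩
    have hco := IsPreprimitive.isCoatom_stabilizer_of_isPreprimitive G α
    have hnle : ¬ R ≤ S := fun h => htα (h htR)
    have hsup : S ⊔ R = ⊤ := hco.2 _ (lt_of_le_of_ne le_sup_left (fun h =>
      hnle (le_trans le_sup_right (le_of_eq h.symm))))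
    haveI hRn : R.Normal := normal_of_sup hSR hsup
    rcases hN.2.2 R hRn hRN with h | h
    · exact hRne h
    · exact hRnN h
  -- factorisation
  have hfac : ∀ a ∈ A, ∃ u ∈ N, u ∈ S ∧ ∃ c ∈ N, (∀ x ∈ A, c * x = x * c) ∧ a = u * c := by
    intro a ha
    have hnorm : ∀ h ∈ N ⊓ S, ∀ k ∈ N ⊓ Subgroup.centralizer (A : Set G),
        h * k * h⁻¹ ∈ N ⊓ Subgroup.centralizer (A : Set G) := by
      intro h hh k hk
      obtain ⟨h1, -⟩ := Subgroup.mem_inf.mp hh
      obtain ⟨k1, k2⟩ := Subgroup.mem_inf.mp hk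
      refine Subgroup.mem_inf.mpr ⟨mul_mem (mul_mem h1 k1) (inv_mem h1), ?_⟩
      rw [Subgroup.mem_centralizer_iff]
      intro z hz
      have hz' : h⁻¹ * z * h ∈ A := by
        have := hA.inv h⁻¹ (inv_mem h1) z hz
        simpa using this
      have h3 := Subgroup.mem_centralizer_iff.mp k2 _ hz'
      have e1 : z * (h * k * h⁻¹) = h * ((h⁻¹ * z * h) * k) * h⁻¹ := by group
      have e2 : h * k * h⁻¹ * z = h * (k * (h⁻¹ * z * h)) * h⁻¹ := by group
      rw [e1, e2, h3]
    obtain ⟨u, hu, c, hc, e⟩ := mem_sup_of_norm _ _ hnorm (hstep1 (hA.le ha))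
    obtain ⟨u1, u2⟩ := Subgroup.mem_inf.mp hu
    obtain ⟨c1, c2⟩ := Subgroup.mem_inf.mp hc
    exact ⟨u, u1, u2, c, c1, fun x hx => (Subgroup.mem_centralizer_iff.mp c2 x hx).symm, e⟩
  have hY : ∀ a ∈ A, ∃ c ∈ N, (∀ x ∈ A, c * x = x * c) ∧ a * c ∈ S := by
    intro a ha
    obtain ⟨u, -, hu, c, hc, hcomm, rfl⟩ := hfac a ha
    refine ⟨c⁻¹, inv_mem hc, ?_, by simpa using hu⟩
    intro x hx
    exact (Commute.inv_left (show Commute c x from hcomm x hx)).eq
  -- conjugation action of the factors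
  have hconj : ∀ a ∈ A, ∃ u ∈ N, u ∈ S ∧ ∀ x ∈ A, u * x * u⁻¹ = a * x * a⁻¹ := by
    intro a ha
    obtain ⟨c, hc, hcomm, hu⟩ := hY a ha
    refine ⟨a * c, mul_mem (hA.le ha) hc, hu, ?_⟩
    intro x hx
    have e : a * c * x * (a * c)⁻¹ = a * (c * x * c⁻¹) * a⁻¹ := by group
    rw [e, hcomm x hx]
    group
  -- Step 2
  have hfree : ∀ a ∈ A, a • α = α → a = 1 := by
    have hK : A ⊓ S = ⊥ := by
      by_contra hnb
      have h := simple_A hN hA (inf_le_left : A ⊓ S ≤ A) hnb ?_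
      · exact not_le_stab hN hA hβ (inf_eq_left.mp h)
      · intro a ha k hk
        obtain ⟨k1, k2⟩ := Subgroup.mem_inf.mp hk
        refine Subgroup.mem_inf.mpr ⟨mul_mem (mul_mem ha k1) (inv_mem ha), ?_⟩
        obtain ⟨u, -, hu, hux⟩ := hconj a ha
        rw [← hux k k1]
        exact mul_mem (mul_mem hu k2) (inv_mem hu)
    intro a ha h
    have : a ∈ A ⊓ S := Subgroup.mem_inf.mpr ⟨ha, h⟩
    rw [hK] at this
    exact this
  refine ⟨hY, hfree, ?_⟩
  -- Step 3
  let P : Subgroup G :=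
    { carrier := {a | a ∈ A ∧ ∃ a' ∈ cj s₀ A, a * a' ∈ S}
      one_mem' := ⟨A.one_mem, 1, Subgroup.one_mem _, by simp⟩
      mul_mem' := by
        rintro a b ⟨ha, a', ha', h1⟩ ⟨hb, b', hb', h2⟩
        refine ⟨mul_mem ha hb, a' * b', mul_mem ha' hb', ?_⟩
        have e : a * b * (a' * b') = (a * a') * (b * b') := by
          have := hcomm' b hb a' ha'
          calc a * b * (a' * b') = a * (b * a') * b' := by group
            _ = a * (a' * b) * b' := by rw [this]
            _ = _ := by group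
        rw [e]
        exact mul_mem h1 h2
      inv_mem' := by
        rintro a ⟨ha, a', ha', h1⟩
        refine ⟨inv_mem ha, a'⁻¹, inv_mem ha', ?_⟩
        have e : a⁻¹ * a'⁻¹ = (a * a')⁻¹ := by
          have := hcomm' a ha a' ha'
          rw [this]
          group
        rw [e]
        exact inv_mem h1 }
  have hPA : P ≤ A := fun a ha => ha.1
  have htP : t ∈ P := ⟨ht, t'⁻¹, inv_mem ht', hw⟩
  have hPne : P ≠ ⊥ := by
    intro h
    rw [h] at htP
    exact ht1 htP
  have hPinv : ∀ a ∈ A, ∀ k ∈ P, a * k * a⁻¹ ∈ P := by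
    rintro a ha k ⟨hk, k', hk', h1⟩
    obtain ⟨u, huN, hu, hux⟩ := hconj a ha
    refine ⟨mul_mem (mul_mem ha hk) (inv_mem ha), u * k' * u⁻¹, hA'.inv u huN k' hk', ?_⟩
    rw [← hux k hk]
    have e : u * k * u⁻¹ * (u * k' * u⁻¹) = u * (k * k') * u⁻¹ := by group
    rw [e]
    exact mul_mem (mul_mem hu h1) (inv_mem hu)
  have hPeq := simple_A hN hA hPA hPne hPinv
  intro a ha
  have : a ∈ P := hPeq ▸ ha
  exact this.2


/-- Commuting involutions when a factor acts regularly with inner action inside the stabilizer. -/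
theorem invol_comm {A : Subgroup G} (hep : ∀ ω : Ω, IsPreprimitive (stabilizer G α) (orbit (stabilizer G α) ω))
    (hsimple : ∀ K : Subgroup G, K ≤ A → K ≠ ⊥ → (∀ a ∈ A, ∀ k ∈ K, a * k * a⁻¹ ∈ K) → K = A)
    (hAc : ¬ ∀ x ∈ A, ∀ y ∈ A, x * y = y * x)
    (hfree : ∀ a ∈ A, a • α = α → a = 1)
    (hd : ∀ a ∈ A, ∃ d ∈ stabilizer G α, ∀ x ∈ A, d * x * d⁻¹ = a * x * a⁻¹)
    (hψ : ∀ g ∈ stabilizer G α, ∀ x ∈ A, ∃ u ∈ A, g • (x • α) = u • α ∧ g • (x⁻¹ • α) = u⁻¹ • α)
    {t u : G} (ht : t ∈ A) (hu : u ∈ A) (ht2 : t * t = 1) (hu2 : u * u = 1) : t * u = u * t := by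
  classical
  set S := stabilizer G α with hSdef
  have hSα : ∀ s ∈ S, s • α = α := fun s hs => hs
  have htinv : t⁻¹ = t := by
    rw [inv_eq_iff_mul_eq_one]; exact ht2
  have huinv : u⁻¹ = u := by
    rw [inv_eq_iff_mul_eq_one]; exact hu2
  by_cases hx1 : t * u = 1
  · have : u = t := by
      have h2 : u = t⁻¹ := by
        rw [eq_inv_iff_mul_eq_one, ]
        have := hx1
        rw [mul_eq_one_iff_eq_inv] at this
        rw [this, huinv]
        exact hu2
      rw [h2, htinv]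
    rw [this]
  set x := t * u with hxdef
  have hxA : x ∈ A := mul_mem ht hu
  have hxinv : x⁻¹ = u * t := by
    rw [hxdef, mul_inv_rev, htinv, huinv]
  have hinj : ∀ a ∈ A, ∀ b ∈ A, a • α = b • α → a = b := by
    intro a ha b hb h
    have := hfree (b⁻¹ * a) (mul_mem (inv_mem hb) ha) (by rw [mul_smul, h, inv_smul_smul])
    rw [inv_mul_eq_one] at this
    exact this.symm
  have hxα : x • α ≠ α := fun h => hx1 (hfree x hxA h)
  let B : Set Ω := {ω | ω = x • α ∨ ω = x⁻¹ • α}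
  -- block
  have hBl : ∀ g ∈ S, ∀ ω ∈ B, ω ∈ orbit S (x • α) → g • ω ∈ B → ∀ ω' ∈ B,
      ω' ∈ orbit S (x • α) → g • ω' ∈ B := by
    intro g hg ω hω _ hgω ω' hω' _
    obtain ⟨v, hv, h1, h2⟩ := hψ g hg x hxA
    have hvcase : v = x ∨ v = x⁻¹ := by
      rcases hω with rfl | rfl
      · rw [h1] at hgω
        rcases hgω with h | h
        · exact Or.inl (hinj v hv x hxA h)
        · exact Or.inr (hinj v hv _ (inv_mem hxA) h)
      · rw [h2] at hgω
        rcases hgω with h | h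
        · right
          have := hinj _ (inv_mem hv) x hxA h
          rw [← this, inv_inv]
        · left
          have := hinj _ (inv_mem hv) _ (inv_mem hxA) h
          exact inv_injective this
    rcases hω' with rfl | rfl
    · rw [h1]
      rcases hvcase with rfl | rfl
      · exact Or.inl rfl
      · exact Or.inr rfl
    · rw [h2]
      rcases hvcase with rfl | rfl
      · exact Or.inr rfl
      · left; rw [inv_inv]
  obtain ⟨dt, hdt, hdtx⟩ := hd t ht
  have hx' : x⁻¹ • α ∈ orbit S (x • α) := by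
    refine ⟨⟨dt, hdt⟩, ?_⟩
    show dt • (x • α) = x⁻¹ • α
    rw [smul_conj (hSα dt hdt), hdtx x hxA, hxinv, hxdef]
    congr 1
    calc t * (t * u) * t⁻¹ = (t * t) * u * t⁻¹ := by group
      _ = u * t := by rw [ht2, htinv, one_mul]
  rcases block_dich (hep (x • α)) B (Or.inl rfl) hBl with hl | hr
  · have h1 := hl (x⁻¹ • α) (Or.inr rfl) hx'
    have h2 := hinj _ (inv_mem hxA) _ hxA h1
    rw [hxinv] at h2
    exact h2.symm
  · exfalso
    apply hAc
    have hK : Subgroup.zpowers x = A := by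
      apply hsimple
      · rw [Subgroup.zpowers_le]; exact hxA
      · intro h
        rw [Subgroup.zpowers_eq_bot] at h
        exact hx1 h
      · intro a ha k hk
        obtain ⟨d, hd1, hd2⟩ := hd a ha
        have h1 : d • (x • α) ∈ orbit S (x • α) := ⟨⟨d, hd1⟩, rfl⟩
        have h2 := hr h1
        rw [smul_conj (hSα d hd1), hd2 x hxA] at h2
        have haxa : a * x * a⁻¹ ∈ A := mul_mem (mul_mem ha hxA) (inv_mem ha)
        have h3 : a * x * a⁻¹ ∈ Subgroup.zpowers x := by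
          rcases h2 with h | h
          · rw [hinj _ haxa _ hxA h]
            exact Subgroup.mem_zpowers x
          · rw [hinj _ haxa _ (inv_mem hxA) h]
            exact inv_mem (Subgroup.mem_zpowers x)
        obtain ⟨j, rfl⟩ := Subgroup.mem_zpowers_iff.mp hk
        have e : a * x ^ j * a⁻¹ = (a * x * a⁻¹) ^ j := by
          simp [conj_zpow]
        rw [e]
        exact zpow_mem h3 j
    intro y hy z hz
    rw [← hK] at hy hz
    obtain ⟨i, rfl⟩ := Subgroup.mem_zpowers_iff.mp hy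
    obtain ⟨j, rfl⟩ := Subgroup.mem_zpowers_iff.mp hz
    exact (Commute.refl x).zpow_zpow i j

/-- Nonabelian "simple" subgroups of even order cannot have all involutions commuting. -/
theorem no_such_simple {A : Subgroup G}
    (hsimple : ∀ K : Subgroup G, K ≤ A → K ≠ ⊥ → (∀ a ∈ A, ∀ k ∈ K, a * k * a⁻¹ ∈ K) → K = A)
    (hAc : ¬ ∀ x ∈ A, ∀ y ∈ A, x * y = y * x)
    (hodd : Odd (Nat.card A) → Group.IsSolvable A)
    (hinv : ∀ t ∈ A, ∀ u ∈ A, t * t = 1 → u * u = 1 → t * u = u * t) : False := by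
  classical
  let X : Set G := {t | t ∈ A ∧ t * t = 1}
  have hXc : ∀ x ∈ X, ∀ y ∈ X, x * y = y * x := fun x hx y hy => hinv x hx.1 y hy.1 hx.2 hy.2
  let I : Subgroup G := Subgroup.closure X
  have hIc : ∀ x ∈ I, ∀ y ∈ I, x * y = y * x := closure_comm hXc
  have hIA : I ≤ A := by
    rw [Subgroup.closure_le]
    exact fun t ht => ht.1
  have hIinv : ∀ a ∈ A, ∀ k ∈ I, a * k * a⁻¹ ∈ I := by
    intro a ha k hk
    have hle : I ≤ I.comap (MulAut.conj a).toMonoidHom := by
      rw [Subgroup.closure_le]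
      intro t ht
      apply Subgroup.subset_closure
      refine ⟨mul_mem (mul_mem ha ht.1) (inv_mem ha), ?_⟩
      show a * t * a⁻¹ * (a * t * a⁻¹) = 1
      have e : a * t * a⁻¹ * (a * t * a⁻¹) = a * (t * t) * a⁻¹ := by group
      rw [e, ht.2]
      group
    exact hle hk
  have hIbot : I = ⊥ := by
    by_contra h
    have := hsimple I hIA h hIinv
    exact hAc (this ▸ hIc)
  have hnoinv : ¬ 2 ∣ Nat.card A := by
    intro h2
    haveI : Fact (Nat.Prime 2) := ⟨Nat.prime_two⟩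
    obtain ⟨y, hy⟩ := exists_prime_orderOf_dvd_card' (G := A) 2 h2
    have hyX : (y : G) ∈ I := by
      apply Subgroup.subset_closure
      refine ⟨y.2, ?_⟩
      have := pow_orderOf_eq_one y
      rw [hy, pow_two] at this
      exact congrArg Subtype.val this
    rw [hIbot] at hyX
    have : y = 1 := Subtype.ext hyX
    rw [this, orderOf_one] at hy
    omega
  have hOdd : Odd (Nat.card A) := by
    rw [← Nat.not_even_iff_odd, even_iff_two_dvd]
    exact hnoinv
  haveI hsol := hodd hOdd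
  -- the commutator subgroup
  haveI : Nontrivial A := by
    by_contra hn
    rw [not_nontrivial_iff_subsingleton] at hn
    apply hAc
    intro x hx y hy
    have := Subsingleton.elim (⟨x, hx⟩ : A) 1
    have hx1 : x = 1 := congrArg Subtype.val this
    rw [hx1]; simp
  have hlt := Group.IsSolvable.commutator_lt_top_of_nontrivial A
  let K : Subgroup G := (commutator A).map A.subtype
  have hKA : K ≤ A := Subgroup.map_subtype_le _
  have hKne : K ≠ ⊥ := by
    intro h
    apply hAc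
    intro x hx y hy
    have hcc : (⟨x, hx⟩ : A) * ⟨y, hy⟩ * (⟨x, hx⟩ : A)⁻¹ * (⟨y, hy⟩ : A)⁻¹ ∈ commutator A := by
      rw [commutator_def]
      exact Subgroup.commutator_mem_commutator (Subgroup.mem_top _) (Subgroup.mem_top _)
    have h1 : x * y * x⁻¹ * y⁻¹ ∈ K := ⟨_, hcc, rfl⟩
    rw [h] at h1
    have h2 : x * y * x⁻¹ * y⁻¹ = 1 := h1
    rw [mul_inv_eq_one, mul_inv_eq_iff_eq_mul] at h2
    exact h2
  have hKinv : ∀ a ∈ A, ∀ k ∈ K, a * k * a⁻¹ ∈ K := by
    rintro a ha _ ⟨k, hk, rfl⟩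
    refine ⟨⟨a, ha⟩ * k * (⟨a, ha⟩ : A)⁻¹, ?_, rfl⟩
    exact (inferInstance : (commutator A).Normal).conj_mem k hk ⟨a, ha⟩
  have hKeq := hsimple K hKA hKne hKinv
  apply (ne_of_lt hlt)
  rw [eq_top_iff]
  intro x _
  have : (x : G) ∈ K := (le_of_eq hKeq.symm : A ≤ K) x.2
  obtain ⟨y, hy, hyx⟩ := this
  have : y = x := Subtype.ext hyx
  rwa [← this]


/-- The partner case: two different conjugates of `A` share a nontrivial point of `A • α`. -/
theorem partner_case {β : Ω} (hβ : β ≠ α) (hN : IsMinNormal N)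
    (hNc : ¬ ∀ x ∈ N, ∀ y ∈ N, x * y = y * x) (hA : IsMinInv N A)
    (hep : ∀ ω : Ω, IsPreprimitive (stabilizer G α) (orbit (stabilizer G α) ω))
    (hodd : Odd (Nat.card A) → Group.IsSolvable A)
    {s₀ : G} (hs₀ : s₀ ∈ stabilizer G α) (hne : cj s₀ A ≠ A) {t t' : G} (ht : t ∈ A)
    (ht' : t' ∈ cj s₀ A) (he : t • α = t' • α) (htα : t • α ≠ α) : False := by
  classical
  set S := stabilizer G α with hSdef
  haveI hNn := hN.1
  have hSα : ∀ s ∈ S, s • α = α := fun s hs => hs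
  have hA' := hA.cj s₀
  have hcomm' : ∀ a ∈ A, ∀ b ∈ cj s₀ A, a * b = b * a := hA.comm_of_ne hA' (Ne.symm hne)
  have hAc := noncomm_of_isMinInv hN hNc hA
  obtain ⟨hY, hfree, hφ⟩ := pair_lemma hβ hN hA hs₀ hne ht ht' he htα
  have hcj0 : cj s₀⁻¹ (cj s₀ A) = A := by
    rw [cj_cj, inv_mul_cancel, cj_one]
  have hne' : cj s₀⁻¹ (cj s₀ A) ≠ cj s₀ A := by
    rw [hcj0]; exact Ne.symm hne
  have ht'' : t ∈ cj s₀⁻¹ (cj s₀ A) := by rw [hcj0]; exact ht
  obtain ⟨-, -, hφ0⟩ := pair_lemma hβ hN hA' (inv_mem hs₀) hne' ht' ht'' he.symm (he ▸ htα)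
  have hφ' : ∀ b ∈ cj s₀ A, ∃ a ∈ A, b * a ∈ S := by
    intro b hb
    obtain ⟨a, ha, h⟩ := hφ0 b hb
    rw [hcj0] at ha
    exact ⟨a, ha, h⟩
  -- image of a point of `A'` lies in `A • α`
  have hmove : ∀ b ∈ cj s₀ A, ∃ c ∈ A, b • α = c • α ∧ b⁻¹ • α = c⁻¹ • α := by
    intro b hb
    obtain ⟨a, ha, h⟩ := hφ' b hb
    have hc : b * a = a * b := (hcomm' a ha b hb).symm
    refine ⟨a⁻¹, inv_mem ha, ?_, ?_⟩
    · have h1 : (a * b) • α = α := hc ▸ h
      rw [mul_smul] at h1
      rw [eq_inv_smul_iff]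
      exact h1
    · have h1 : (b * a) • α = α := h
      rw [inv_inv, inv_smul_eq_iff, ← mul_smul]
      exact h1.symm
  -- uniqueness of the partner
  have hP5 : ∀ s ∈ S, cj s A ≠ A → cj s A ≠ cj s₀ A → ∀ v ∈ A, ∀ v₂ ∈ cj s A, v • α = v₂ • α →
      v • α = α := by
    intro s hs hsA hsA' v hv v₂ hv₂ hvv
    by_contra hvα
    obtain ⟨-, -, hφ₂⟩ := pair_lemma hβ hN hA hs hsA hv hv₂ hvv hvα
    apply hAc
    intro a ha b hb
    obtain ⟨a', ha', h1⟩ := hφ a ha
    obtain ⟨b₂, hb₂, h2⟩ := hφ₂ b hb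
    have c1 : a' * b = b * a' := (hcomm' b hb a' ha').symm
    have c2 : a' * b₂ = b₂ * a' := hA'.comm_of_ne (hA.cj s) (Ne.symm hsA') a' ha' b₂ hb₂
    have c3 : a * b₂ = b₂ * a := hA.comm_of_ne (hA.cj s) (Ne.symm hsA) a ha b₂ hb₂
    have e : (a * a') * (b * b₂) * (a * a')⁻¹ * (b * b₂)⁻¹ = a * b * a⁻¹ * b⁻¹ := by
      calc (a * a') * (b * b₂) * (a * a')⁻¹ * (b * b₂)⁻¹
          = a * (a' * b) * b₂ * a'⁻¹ * a⁻¹ * b₂⁻¹ * b⁻¹ := by group
        _ = a * b * (a' * b₂) * a'⁻¹ * a⁻¹ * b₂⁻¹ * b⁻¹ := by rw [c1]; group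
        _ = a * b * b₂ * a⁻¹ * b₂⁻¹ * b⁻¹ := by rw [c2]; group
        _ = a * b * (b₂ * a⁻¹) * b₂⁻¹ * b⁻¹ := by group
        _ = a * b * (a⁻¹ * b₂) * b₂⁻¹ * b⁻¹ := by
          rw [show b₂ * a⁻¹ = a⁻¹ * b₂ from (Commute.inv_left (show Commute a b₂ from c3)).eq.symm]
        _ = _ := by group
    have h3 : a * b * a⁻¹ * b⁻¹ ∈ S := by
      rw [← e]
      exact mul_mem (mul_mem (mul_mem h1 h2) (inv_mem h1)) (inv_mem h2)
    have h4 : a * b * a⁻¹ * b⁻¹ ∈ A := mul_mem (mul_mem (mul_mem ha hb) (inv_mem ha)) (inv_mem hb)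
    have h5 := hfree _ h4 h3
    rw [mul_inv_eq_one, mul_inv_eq_iff_eq_mul] at h5
    exact h5
  -- only two conjugates
  have hP6 : ∀ s ∈ S, cj s A = A ∨ cj s A = cj s₀ A := by
    intro s₂ hs₂
    by_contra hcon
    push Not at hcon
    obtain ⟨hc1, hc2⟩ := hcon
    apply hAc
    -- `N ∩ S` centralizes `A`
    have hcen : ∀ n ∈ N, n ∈ S → ∀ x ∈ A, n * x * n⁻¹ = x := by
      intro n hnN hnS x hx
      by_cases hx1 : x • α = α
      · rw [hfree x hx hx1]; group
      have hαΓ : ∀ ω ∈ orbit S (x • α), ω ≠ α := by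
        rintro _ ⟨s, rfl⟩ h
        apply hx1
        have h1 : (s : G) • (x • α) = α := h
        have h2 : x • α = (s : G)⁻¹ • α := by rw [eq_inv_smul_iff]; exact h1
        rw [h2]
        exact hSα _ (inv_mem s.2)
      let B : Set Ω := {ω | ∃ a ∈ A, ω = a • α}
      have hBl : ∀ g ∈ S, ∀ ω ∈ B, ω ∈ orbit S (x • α) → g • ω ∈ B → ∀ ω' ∈ B,
          ω' ∈ orbit S (x • α) → g • ω' ∈ B := by
        rintro g hg ω ⟨a, ha, rfl⟩ hωo ⟨a₁, ha₁, e⟩ ω' ⟨a', ha', rfl⟩ hω'o
        by_cases hc : cj g A = A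
        · refine ⟨g * a' * g⁻¹, ?_, smul_conj (hSα g hg) a'⟩
          have := mem_cj_self (g := g) ha'
          rwa [hc] at this
        · by_cases hc' : cj g A = cj s₀ A
          · have h1 := mem_cj_self (g := g) ha'
            rw [hc'] at h1
            obtain ⟨c, hc, h2, -⟩ := hmove _ h1
            exact ⟨c, hc, by rw [smul_conj (hSα g hg) a', h2]⟩
          · exfalso
            have h2 := hP5 g hg hc hc' a₁ ha₁ (g * a * g⁻¹) (mem_cj_self ha)
              (by rw [← e, smul_conj (hSα g hg) a])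
            apply hαΓ _ hωo
            rw [h2] at e
            have h3 : a • α = g⁻¹ • α := by rw [eq_inv_smul_iff]; exact e
            rw [h3]
            exact hSα _ (inv_mem hg)
      have hnx : n * x * n⁻¹ ∈ A := hA.inv n hnN x hx
      rcases block_dich (hep (x • α)) B ⟨x, hx, rfl⟩ hBl with hl | hr
      · have h1 := hl (n • (x • α)) ⟨n * x * n⁻¹, hnx, smul_conj (hSα n hnS) x⟩ ⟨⟨n, hnS⟩, rfl⟩
        rw [smul_conj (hSα n hnS) x] at h1
        have h2 := hfree (x⁻¹ * (n * x * n⁻¹)) (mul_mem (inv_mem hx) hnx)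
          (by rw [mul_smul, h1, inv_smul_smul])
        rw [inv_mul_eq_one] at h2
        exact h2.symm
      · exfalso
        have h1 : s₂ • (x • α) ∈ orbit S (x • α) := ⟨⟨s₂, hs₂⟩, rfl⟩
        obtain ⟨a, ha, e⟩ := hr h1
        have h2 := hP5 s₂ hs₂ hc1 hc2 a ha (s₂ * x * s₂⁻¹) (mem_cj_self hx)
          (by rw [← e, smul_conj (hSα s₂ hs₂) x])
        exact hαΓ _ h1 (e.trans h2)
    intro a ha b hb
    obtain ⟨a', ha', h1⟩ := hφ a ha
    have h2 := hcen (a * a') (mul_mem (hA.le ha) (hA'.le ha')) h1 b hb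
    have c1 : a' * b = b * a' := (hcomm' b hb a' ha').symm
    have e : a * a' * b * (a * a')⁻¹ = a * b * a⁻¹ := by
      calc a * a' * b * (a * a')⁻¹ = a * (a' * b) * a'⁻¹ * a⁻¹ := by group
        _ = a * b * a⁻¹ := by rw [c1]; group
    rw [e, mul_inv_eq_iff_eq_mul] at h2
    exact h2
  -- conclusion
  have hsimple : ∀ K : Subgroup G, K ≤ A → K ≠ ⊥ → (∀ a ∈ A, ∀ k ∈ K, a * k * a⁻¹ ∈ K) → K = A :=
    fun K h1 h2 h3 => simple_A hN hA h1 h2 h3
  apply no_such_simple hsimple hAc hodd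
  intro x hx y hy hx2 hy2
  refine invol_comm hep hsimple hAc hfree ?_ ?_ hx hy hx2 hy2
  · intro a ha
    obtain ⟨a', ha', h1⟩ := hφ a ha
    refine ⟨a * a', h1, ?_⟩
    intro z hz
    have c1 : a' * z = z * a' := (hcomm' z hz a' ha').symm
    calc a * a' * z * (a * a')⁻¹ = a * (a' * z) * a'⁻¹ * a⁻¹ := by group
      _ = a * z * a⁻¹ := by rw [c1]; group
  · intro g hg z hz
    rcases hP6 g hg with hc | hc
    · refine ⟨g * z * g⁻¹, ?_, smul_conj (hSα g hg) z, ?_⟩
      · have := mem_cj_self (g := g) hz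
        rwa [hc] at this
      · rw [smul_conj (hSα g hg) z⁻¹]
        congr 1
        group
    · have h1 := mem_cj_self (g := g) hz
      rw [hc] at h1
      obtain ⟨c, hcA, h2, h3⟩ := hmove _ h1
      refine ⟨c, hcA, by rw [smul_conj (hSα g hg) z, h2], ?_⟩
      rw [smul_conj (hSα g hg) z⁻¹, ← h3]
      congr 1
      group

/-- The main theorem (with the odd order theorem as a hypothesis). -/
theorem main_ext (hodd : ∀ A : Subgroup G, Odd (Nat.card A) → Group.IsSolvable A)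
    {α β : Ω} (hβ : β ≠ α)
    (hep : ∀ (α : Ω) (ω : Ω), IsPreprimitive (stabilizer G α) (orbit (stabilizer G α) ω)) :
    (∃ N : Subgroup G, N.Normal ∧ N ≠ ⊥ ∧ IsMulCommutative N ∧ ∀ ω : Ω, stabilizer N ω = ⊥) ∨
    (∃ T : Subgroup G, T.Normal ∧ IsSimpleGroup T ∧ ¬ IsMulCommutative T ∧
      Subgroup.centralizer (T : Set G) = ⊥) := by
  classical
  haveI : Nontrivial G := by
    obtain ⟨g, hg⟩ := exists_smul_eq G α β
    refine ⟨⟨g, 1, ?_⟩⟩
    rintro rfl
    rw [one_smul] at hg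
    exact hβ hg.symm
  obtain ⟨N, hN⟩ := exists_isMinNormal (G := G)
  haveI hNn : N.Normal := hN.1
  haveI hNtr : IsPretransitive N Ω := isPretransitive_of_normal_of_ne_bot N hN.2.1
  by_cases hNc : ∀ x ∈ N, ∀ y ∈ N, x * y = y * x
  · left
    refine ⟨N, hNn, hN.2.1, ⟨⟨fun a b => Subtype.ext (hNc a a.2 b b.2)⟩⟩, ?_⟩
    intro ω
    rw [eq_bot_iff]
    intro c hc
    have h1 : (c : G) • ω = ω := hc
    rw [Subgroup.mem_bot]
    exact Subtype.ext (eq_one_of_commutative_transitive N hNc c.2 h1)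
  by_cases hs : ∃ K : Subgroup G, K ≤ N ∧ K ≠ ⊥ ∧ K ≠ N ∧ ∀ n ∈ N, ∀ k ∈ K, n * k * n⁻¹ ∈ K
  · -- several factors
    exfalso
    obtain ⟨K, hKN, hKne, hKN', hKinv⟩ := hs
    obtain ⟨A, hA, hAN⟩ := exists_isMinInv hKN hKne hKN' hKinv
    have hk : ∃ s ∈ stabilizer G α, cj s A ≠ A := by
      by_contra hcon
      push Not at hcon
      have hall : ∀ g, cj g A = A := by
        intro g
        obtain ⟨s, hs, e⟩ := exists_stab_cj hN hA α g
        rw [e]; exact hcon s hs
      haveI hAn : A.Normal := by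
        constructor
        intro x hx g
        have : g * x * g⁻¹ ∈ cj g A := mem_cj_self hx
        rwa [hall g] at this
      exact hAN ((hN.2.2 A hAn hA.le).resolve_left hA.ne_bot)
    by_cases hp : ∃ s ∈ stabilizer G α, cj s A ≠ A ∧ ∃ t ∈ A, ∃ t' ∈ cj s A,
        t • α = t' • α ∧ t • α ≠ α
    · obtain ⟨s, hs, hne, t, ht, t', ht', he, hα⟩ := hp
      exact partner_case hβ hN hNc hA (hep α) (hodd A) hs hne ht ht' he hα
    · push Not at hp
      exact no_partner hβ hN hNc hA (hep α) hk hp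
  · -- one factor
    push Not at hs
    have hmin : ∀ K : Subgroup G, K ≤ N → K ≠ ⊥ → (∀ n ∈ N, ∀ k ∈ K, n * k * n⁻¹ ∈ K) → K = N := by
      intro K h1 h2 h3
      by_contra h4
      obtain ⟨n, hn, k, hk, hnk⟩ := hs K h1 h2 h4
      exact hnk (h3 n hn k hk)
    by_cases hc : Subgroup.centralizer (N : Set G) = ⊥
    · right
      refine ⟨N, hNn, ?_, ?_, hc⟩
      · haveI : Nontrivial N := by
          obtain ⟨x, hne⟩ := Subgroup.ne_bot_iff_exists_ne_one.mp hN.2.1
          exact ⟨⟨x, 1, hne⟩⟩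
        refine ⟨fun K hK => ?_⟩
        by_cases hb : K = ⊥
        · exact Or.inl hb
        · right
          have hmap : K.map N.subtype = N := by
            apply hmin
            · exact Subgroup.map_subtype_le K
            · intro h
              apply hb
              rwa [Subgroup.map_eq_bot_iff_of_injective _ N.subtype_injective] at h
            · rintro n hn _ ⟨k, hkK, rfl⟩
              exact ⟨⟨n, hn⟩ * k * (⟨n, hn⟩ : N)⁻¹, hK.conj_mem k hkK ⟨n, hn⟩, rfl⟩
          rw [eq_top_iff]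
          intro x _
          have hx : (x : G) ∈ K.map N.subtype := by rw [hmap]; exact x.2
          obtain ⟨y, hy, hyx⟩ := hx
          have : y = x := Subtype.ext hyx
          rwa [← this]
      · intro hcomm
        apply hNc
        intro x hx y hy
        have := hcomm.is_comm.comm (⟨x, hx⟩ : N) ⟨y, hy⟩
        exact congrArg Subtype.val this
    · exfalso
      haveI : (Subgroup.centralizer (N : Set G)).Normal := Subgroup.normal_centralizer
      obtain ⟨M, hM, hMC⟩ := exists_isMinNormal_le _ inferInstance hc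
      haveI hMn : M.Normal := hM.1
      haveI hMtr : IsPretransitive M Ω := isPretransitive_of_normal_of_ne_bot M hM.2.1
      have hcomm : ∀ x ∈ N, ∀ y ∈ M, x * y = y * x := fun x hx y hy =>
        Subgroup.mem_centralizer_iff.mp (hMC hy) x hx
      have hsimple : ∀ K : Subgroup G, K ≤ N → K ≠ ⊥ → (∀ a ∈ N, ∀ k ∈ K, a * k * a⁻¹ ∈ K) → K = N :=
        hmin
      apply no_such_simple hsimple hNc (hodd N)
      intro x hx y hy hx2 hy2
      refine invol_comm (hep α) hsimple hNc ?_ ?_ ?_ hx hy hx2 hy2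
      · intro a ha h
        exact eq_one_of_mem_centralizer_of_smul_eq M
          (Subgroup.mem_centralizer_iff.mpr fun y hy => (hcomm a ha y hy).symm) h
      · intro a ha
        obtain ⟨m, hm, hma⟩ := exists_mem_smul_eq M α (a⁻¹ • α)
        refine ⟨a * m, ?_, ?_⟩
        · show (a * m) • α = α
          rw [mul_smul, hma, smul_inv_smul]
        · intro z hz
          have c1 : m * z = z * m := (hcomm z hz m hm).symm
          calc a * m * z * (a * m)⁻¹ = a * (m * z) * m⁻¹ * a⁻¹ := by group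
            _ = a * z * a⁻¹ := by rw [c1]; group
      · intro g hg z hz
        have hSg : g • α = α := hg
        refine ⟨g * z * g⁻¹, hNn.conj_mem z hz g, smul_conj hSg z, ?_⟩
        rw [smul_conj hSg z⁻¹]
        congr 1
        group

end action

end Cfsg.Agent.Lib.Perm.ExtPrim
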