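import Mathlib
import Cfsg.Agent.Lib.Perm.Basic

/-!
# The isometry group of a Hamming graph

`ι → Δ` with `|Δ| ≥ 3`, `|ι| ≥ 2`: the group of Hamming isometries is primitive and not doubly
transitive; it contains a regular copy of any direct product of groups of order `|Δ|`.
-/

set_option linter.unusedSectionVars false

namespace Cfsg.Agent.Lib.Perm.Hamming

open MulAction Equiv

variable {ι Δ : Type*} [Fintype ι] [DecidableEq ι] [DecidableEq Δ]

/-- Hamming isometries. -/
def iso (ι Δ : Type*) [Fintype ι] [DecidableEq ι] [DecidableEq Δ] : Subgroup (Perm (ι → Δ)) where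
  carrier := {σ | ∀ x y, hammingDist (σ x) (σ y) = hammingDist x y}
  one_mem' := fun _ _ => rfl
  mul_mem' := by
    intro a b ha hb x y
    simp only [Perm.coe_mul, Function.comp_apply]
    rw [ha, hb]
  inv_mem' := by
    intro a ha x y
    have := ha (a⁻¹ x) (a⁻¹ y)
    have h1 : ∀ z, a (a⁻¹ z) = z := fun z => by
      rw [← Perm.mul_apply, mul_inv_cancel]
      rfl
    rw [h1, h1] at this
    exact this.symm

theorem mem_iso {σ : Perm (ι → Δ)} :
    σ ∈ iso ι Δ ↔ ∀ x y, hammingDist (σ x) (σ y) = hammingDist x y := Iff.rfl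

/-- Coordinatewise permutations. -/
def cw (π : ι → Perm Δ) : Perm (ι → Δ) := Equiv.piCongrRight π

@[simp] theorem cw_apply (π : ι → Perm Δ) (x : ι → Δ) (i : ι) : cw π x i = π i (x i) := rfl

theorem cw_mem (π : ι → Perm Δ) : cw π ∈ iso ι Δ := by
  intro x y
  unfold hammingDist
  congr 1
  ext i
  simp

/-- Coordinate permutations. -/
def cp (s : Perm ι) : Perm (ι → Δ) := s.arrowCongr (Equiv.refl Δ)

@[simp] theorem cp_apply (s : Perm ι) (x : ι → Δ) (i : ι) : cp s x i = x (s.symm i) := rfl

theorem cp_mem (s : Perm ι) : cp s ∈ iso ι Δ := by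
  intro x y
  unfold hammingDist
  refine Finset.card_equiv s.symm ?_
  intro i
  simp only [Finset.mem_filter, Finset.mem_univ, true_and]
  exact Iff.rfl

theorem hammingDist_update {x : ι → Δ} {i : ι} {c : Δ} (hc : c ≠ x i) :
    hammingDist x (Function.update x i c) = 1 := by
  unfold hammingDist
  rw [Finset.card_eq_one]
  refine ⟨i, ?_⟩
  ext k
  simp only [Finset.mem_filter, Finset.mem_univ, true_and, Finset.mem_singleton]
  constructor
  · intro h
    by_contra hk
    rw [Function.update_of_ne hk] at h
    exact h rfl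
  · rintro rfl
    rw [Function.update_self]
    exact hc.symm

theorem exists_update_of_hammingDist_eq_one {x y : ι → Δ} (h : hammingDist x y = 1) :
    ∃ i, y i ≠ x i ∧ y = Function.update x i (y i) := by
  unfold hammingDist at h
  rw [Finset.card_eq_one] at h
  obtain ⟨i, hi⟩ := h
  have hm : ∀ k, x k ≠ y k ↔ k = i := by
    intro k
    have := Finset.ext_iff.mp hi k
    simpa using this
  refine ⟨i, ((hm i).mpr rfl).symm, ?_⟩
  ext k
  by_cases hk : k = i
  · subst hk
    rw [Function.update_self]
  · rw [Function.update_of_ne hk]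
    by_contra h2
    exact hk ((hm k).mp (Ne.symm h2))

/-- One coordinatewise swap at coordinate `j`. -/
def sw (j : ι) (a b : Δ) : Perm (ι → Δ) := cw (Function.update (fun _ => 1) j (Equiv.swap a b))

theorem sw_mem (j : ι) (a b : Δ) : sw j a b ∈ iso ι Δ := cw_mem _

theorem sw_apply_same (j : ι) (a b : Δ) (x : ι → Δ) : sw j a b x j = Equiv.swap a b (x j) := by
  simp [sw]

theorem sw_apply_ne {j k : ι} (hk : k ≠ j) (a b : Δ) (x : ι → Δ) : sw j a b x k = x k := by
  simp [sw, Function.update_of_ne hk]

section Primitive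

variable {G : Subgroup (Perm (ι → Δ))}

theorem block_step {B : Set (ι → Δ)} (hB : IsBlock (iso ι Δ) B) {g : Perm (ι → Δ)}
    (hg : g ∈ iso ι Δ) {y : ι → Δ} (hy : y ∈ B) (hgy : g y ∈ B) {u : ι → Δ} (hu : u ∈ B) :
    g u ∈ B := by
  rw [isBlock_iff_smul_eq_or_disjoint] at hB
  rcases hB ⟨g, hg⟩ with h | h
  · rw [← h]
    exact ⟨u, hu, rfl⟩
  · exact absurd hgy (Set.disjoint_left.mp h ⟨y, hy, rfl⟩)

theorem isPretransitive_iso : IsPretransitive (iso ι Δ) (ι → Δ) := by
  constructor
  intro x y
  refine ⟨⟨cw fun i => Equiv.swap (x i) (y i), cw_mem _⟩, ?_⟩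
  ext i
  change Equiv.swap (x i) (y i) (x i) = y i
  simp

/-- The isometry group of the Hamming graph with alphabet of size at least three is primitive. -/
theorem isPreprimitive_iso [Finite Δ] (hΔ : 3 ≤ Nat.card Δ) :
    IsPreprimitive (iso ι Δ) (ι → Δ) := by
  classical
  have hpt := isPretransitive_iso (ι := ι) (Δ := Δ)
  obtain ⟨z⟩ : Nonempty Δ := by
    by_contra h
    rw [not_nonempty_iff] at h
    have : Nat.card Δ = 0 := Nat.card_of_isEmpty
    omega
  have hthird : ∀ a b : Δ, ∃ c : Δ, c ≠ a ∧ c ≠ b := by
    intro a b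
    by_contra hcon
    push Not at hcon
    have hle : Nat.card Δ ≤ 2 := by
      have hsub : (Set.univ : Set Δ) ⊆ {a, b} := by
        intro c _
        by_cases hc : c = a
        · left; exact hc
        · right; exact hcon c hc
      have := Set.ncard_le_ncard hsub (Set.toFinite _)
      rw [Set.ncard_univ] at this
      exact this.trans ((Set.ncard_insert_le a {b}).trans (by rw [Set.ncard_singleton]))
    omega
  let o : ι → Δ := fun _ => z
  refine IsPreprimitive.of_isTrivialBlock_base o ?_
  intro B hoB hB
  by_cases hs : B.Subsingleton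
  · exact Or.inl hs
  right
  obtain ⟨x, hxB, hxo⟩ : ∃ x ∈ B, x ≠ o := by
    by_contra hcon
    push Not at hcon
    apply hs
    intro a ha b hb
    rw [hcon a ha, hcon b hb]
  -- a point at distance one from `o`
  obtain ⟨i₀, hi₀⟩ : ∃ i, x i ≠ z := by
    by_contra hcon
    push Not at hcon
    exact hxo (funext hcon)
  obtain ⟨c, hcz, hcx⟩ := hthird z (x i₀)
  have hswz : Equiv.swap (x i₀) c z = z :=
    Equiv.swap_apply_of_ne_of_ne (Ne.symm hi₀) (Ne.symm hcz)
  have hho : sw i₀ (x i₀) c o = o := by
    ext k
    by_cases hk : k = i₀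
    · subst hk
      rw [sw_apply_same]
      exact hswz
    · rw [sw_apply_ne hk]
  have hx₂ : Function.update x i₀ c = sw i₀ (x i₀) c x := by
    ext k
    by_cases hk : k = i₀
    · subst hk
      rw [sw_apply_same, Function.update_self, Equiv.swap_apply_left]
    · rw [sw_apply_ne hk, Function.update_of_ne hk]
  have hx₂B : Function.update x i₀ c ∈ B := by
    rw [hx₂]
    exact block_step hB (sw_mem _ _ _) hoB (by rw [hho]; exact hoB) hxB
  let g : Perm (ι → Δ) := cw fun i => Equiv.swap (x i) z
  have hgm : g ∈ iso ι Δ := cw_mem _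
  have hgx : g x = o := by
    ext i
    change Equiv.swap (x i) z (x i) = z
    simp
  have hy : g (Function.update x i₀ c) ∈ B :=
    block_step hB hgm hxB (by rw [hgx]; exact hoB) hx₂B
  have hDy : hammingDist o (g (Function.update x i₀ c)) = 1 := by
    rw [← hgx, hgm]
    exact hammingDist_update hcx
  obtain ⟨i, hyi, hyu⟩ := exists_update_of_hammingDist_eq_one hDy
  set a := g (Function.update x i₀ c) i with ha
  rw [hyu] at hy
  -- all neighbours of `o` are in `B`
  have hnb : ∀ (j : ι) (b : Δ), Function.update o j b ∈ B := by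
    intro j b
    by_cases hbz : b = z
    · have : Function.update o j b = o := by
        rw [hbz]
        exact Function.update_eq_self_iff.mpr rfl
      rw [this]
      exact hoB
    have hcp : (cp (Equiv.swap i j) : Perm (ι → Δ)) o = o := rfl
    let h : Perm (ι → Δ) := sw j a b * cp (Equiv.swap i j)
    have hm : h ∈ iso ι Δ := mul_mem (sw_mem _ _ _) (cp_mem _)
    have hho' : h o = o := by
      change sw j a b (cp (Equiv.swap i j) o) = o
      rw [hcp]
      ext k
      by_cases hk : k = j
      · subst hk
        rw [sw_apply_same]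
        exact Equiv.swap_apply_of_ne_of_ne (Ne.symm hyi) (Ne.symm hbz)
      · rw [sw_apply_ne hk]
    have hu : h (Function.update o i a) = Function.update o j b := by
      change sw j a b (cp (Equiv.swap i j) (Function.update o i a)) = _
      ext k
      by_cases hk : k = j
      · subst hk
        rw [sw_apply_same, Function.update_self, cp_apply]
        simp
      · rw [sw_apply_ne hk, Function.update_of_ne hk, cp_apply]
        have hk2 : (Equiv.swap i j).symm k ≠ i := by
          intro h2
          apply hk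
          have := congrArg (Equiv.swap i j) h2
          simpa using this
        rw [Function.update_of_ne hk2]
    rw [← hu]
    exact block_step hB hm hoB (by rw [hho']; exact hoB) hy
  -- closure under changing one coordinate
  have hstep : ∀ u ∈ B, ∀ (j : ι) (b : Δ), Function.update u j b ∈ B := by
    intro u hu j b
    let g' : Perm (ι → Δ) := cw fun i => Equiv.swap z (u i)
    have hgm' : g' ∈ iso ι Δ := cw_mem _
    have hgo : g' o = u := by
      ext i
      change Equiv.swap z (u i) z = u i
      simp
    have hnb' := hnb j (Equiv.swap z (u j) b)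
    have hres := block_step hB hgm' hoB (by rw [hgo]; exact hu) hnb'
    have : g' (Function.update o j (Equiv.swap z (u j) b)) = Function.update u j b := by
      ext k
      change Equiv.swap z (u k) (Function.update o j (Equiv.swap z (u j) b) k) = _
      by_cases hk : k = j
      · subst hk
        simp
      · rw [Function.update_of_ne hk, Function.update_of_ne hk]
        simp [o]
    rwa [this] at hres
  -- everything is in `B`
  rw [Set.eq_univ_iff_forall]
  intro w
  have hall : ∀ S : Finset ι, (fun i => if i ∈ S then w i else z) ∈ B := by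
    intro S
    induction S using Finset.induction_on with
    | empty => simpa using hoB
    | insert i S _ ih =>
      have := hstep _ ih i (w i)
      convert this using 1
      ext k
      by_cases hk : k = i
      · subst hk
        simp
      · rw [Function.update_of_ne hk]
        simp [hk]
  have := hall Finset.univ
  simpa using this

/-- With at least two coordinates and a nontrivial alphabet, Hamming isometries are not doubly
transitive. -/
theorem not_isMultiplyPretransitive_iso (hι : 2 ≤ Fintype.card ι) {a z : Δ} (haz : a ≠ z) :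
    ¬ IsMultiplyPretransitive (iso ι Δ) (ι → Δ) 2 := by
  intro h2
  obtain ⟨i, j, hij⟩ := Fintype.exists_pair_of_one_lt_card (α := ι) (by omega)
  let o : ι → Δ := fun _ => z
  let y₁ : ι → Δ := Function.update o i a
  let y₂ : ι → Δ := Function.update y₁ j a
  have hy₁ : y₁ ≠ o := by
    intro h
    have := congrFun h i
    simp [y₁, o] at this
    exact haz this
  have hy₂ : y₂ ≠ o := by
    intro h
    have := congrFun h j
    simp [y₂, o] at this
    exact haz this
  obtain ⟨g, hg, hgy⟩ := Basic.exists_mem_stabilizer_smul_eq (G := iso ι Δ) (a := o) hy₁ hy₂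
  have hgo : (g : Perm (ι → Δ)) o = o := hg
  have hgy' : (g : Perm (ι → Δ)) y₁ = y₂ := hgy
  have h1 : hammingDist o y₁ = 1 := hammingDist_update (Ne.symm (Ne.symm haz))
  have h3 : hammingDist o y₂ = 2 := by
    unfold hammingDist
    rw [Finset.card_eq_two]
    refine ⟨i, j, hij, ?_⟩
    ext k
    simp only [Finset.mem_filter, Finset.mem_univ, true_and, Finset.mem_insert,
      Finset.mem_singleton]
    constructor
    · intro h
      by_contra hk
      push Not at hk
      apply h
      simp [y₂, y₁, o, Function.update_of_ne hk.1, Function.update_of_ne hk.2]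
    · rintro (rfl | rfl)
      · simp only [y₂, y₁, o]
        rw [Function.update_of_ne hij, Function.update_self]
        exact Ne.symm haz
      · simp only [y₂]
        rw [Function.update_self]
        exact Ne.symm haz
  have := g.2 o y₁
  rw [hgo, hgy', h1, h3] at this
  omega

end Primitive

section Regular

variable {F : ι → Type*} [∀ i, Group (F i)] (φ : ∀ i, F i ≃ Δ)

/-- The regular representation of a direct product on the Hamming space. -/
def reg : (∀ i, F i) →* Perm (ι → Δ) where
  toFun f := cw fun i => (φ i).symm.trans ((Equiv.mulLeft (f i)).trans (φ i))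
  map_one' := by
    ext x i
    simp [cw]
  map_mul' := by
    intro f f'
    ext x i
    simp [cw, mul_assoc]

theorem reg_apply (f : ∀ i, F i) (x : ι → Δ) (i : ι) :
    reg φ f x i = φ i (f i * (φ i).symm (x i)) := rfl

theorem reg_mem (f : ∀ i, F i) : reg φ f ∈ iso ι Δ := cw_mem _

theorem reg_free (f : ∀ i, F i) (a : ι → Δ) (h : reg φ f a = a) : f = 1 := by
  funext i
  have h1 := congrFun h i
  rw [reg_apply] at h1
  have h2 := congrArg (φ i).symm h1
  simp only [Equiv.symm_apply_apply] at h2
  simpa using h2

theorem reg_trans (x y : ι → Δ) : ∃ f : ∀ i, F i, reg φ f x = y := by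
  refine ⟨fun i => (φ i).symm (y i) * ((φ i).symm (x i))⁻¹, ?_⟩
  funext i
  rw [reg_apply]
  simp

theorem reg_injective : Function.Injective (reg φ (F := F)) := by
  intro f f' h
  rw [← mul_inv_eq_one]
  obtain ⟨a⟩ : Nonempty (ι → Δ) := ⟨fun i => φ i 1⟩
  apply reg_free φ _ a
  rw [map_mul, map_inv, h, mul_inv_cancel]
  rfl

end Regular

/-- Transfer from a general finite set to `Fin n`. -/
theorem transfer {Ω₀ : Type*} [Fintype Ω₀] (G₀ R₀ : Subgroup (Perm Ω₀)) (hle : R₀ ≤ G₀)
    (htr : ∀ x y : Ω₀, ∃ r ∈ R₀, r x = y) (hfree : ∀ r ∈ R₀, ∀ a, r a = a → r = 1)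
    (hprim : IsPreprimitive G₀ Ω₀) (hn2 : ¬ IsMultiplyPretransitive G₀ Ω₀ 2) :
    ∃ (n : ℕ) (G R : Subgroup (Perm (Fin n))), R ≤ G ∧ Nonempty (↥R ≃* ↥R₀) ∧
      IsPretransitive ↥R (Fin n) ∧ (∀ a : Fin n, stabilizer ↥R a = ⊥) ∧
      IsPreprimitive ↥G (Fin n) ∧ ¬ IsMultiplyPretransitive ↥G (Fin n) 2 := by
  classical
  let e : Ω₀ ≃ Fin (Fintype.card Ω₀) := Fintype.equivFin Ω₀
  let θ : Perm Ω₀ ≃* Perm (Fin (Fintype.card Ω₀)) := e.permCongrHom
  have hθ : ∀ (s : Perm Ω₀) (x : Ω₀), θ s (e x) = e (s x) := by
    intro s x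
    simp [θ, Equiv.permCongrHom, Equiv.permCongr_apply]
  refine ⟨Fintype.card Ω₀, G₀.map θ.toMonoidHom, R₀.map θ.toMonoidHom, Subgroup.map_mono hle,
    ⟨(θ.subgroupMap R₀).symm⟩, ?_, ?_, ?_, ?_⟩
  · constructor
    intro a b
    obtain ⟨r, hr, hrab⟩ := htr (e.symm a) (e.symm b)
    refine ⟨⟨θ r, r, hr, rfl⟩, ?_⟩
    change θ r a = b
    have := hθ r (e.symm a)
    simp only [Equiv.apply_symm_apply] at this
    rw [this, hrab, Equiv.apply_symm_apply]
  · intro a
    rw [eq_bot_iff]
    rintro ⟨_, r, hr, rfl⟩ hfix
    rw [Subgroup.mem_bot]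
    have h1 : θ r a = a := hfix
    have h3 : r (e.symm a) = e.symm a := by
      apply e.injective
      rw [← hθ, Equiv.apply_symm_apply, h1]
    have h4 := hfree r hr _ h3
    apply Subtype.ext
    change θ r = 1
    rw [h4, map_one]
  · let f : Ω₀ →ₑ[(θ.subgroupMap G₀).toMonoidHom] Fin (Fintype.card Ω₀) :=
      { toFun := e
        map_smul' := fun g x => (hθ g.1 x).symm }
    exact (isPreprimitive_congr (θ.subgroupMap G₀).surjective e.bijective (f := f)).mp hprim
  · let f : Ω₀ →ₑ[(θ.subgroupMap G₀).toMonoidHom] Fin (Fintype.card Ω₀) :=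
      { toFun := e
        map_smul' := fun g x => (hθ g.1 x).symm }
    intro h
    apply hn2
    exact (IsPretransitive.of_embedding_congr (θ.subgroupMap G₀).surjective
      (f := f) e.bijective).mpr h

end Cfsg.Agent.Lib.Perm.Hamming
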