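import Mathlib

/-!
# Orbit-wise inversion for an abelian permutation group

For an abelian subgroup `P` of `Perm α`, choose a base point in each `P`-orbit and define
`inv0 (x • b) = x⁻¹ • b`.  This is a well-defined involution of `α` preserving each `P`-orbit, and
`inv0 (z a) = z⁻¹ (inv0 a)` for `z ∈ P`.  Restricting it to a `P`-invariant set `Q` gives the
involution `tQ`.
-/

set_option autoImplicit false

namespace Cfsg.Agent.Lib.Perm.OrbitInversion

open Equiv Equiv.Perm Subgroup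

variable {α : Type*} (P : Subgroup (Perm α))

/-- Base point of the `P`-orbit through `a`. -/
noncomputable def base (a : α) : α := Quotient.out (Quotient.mk'' a : MulAction.orbitRel.Quotient ↥P α)

lemma exists_mem_base (a : α) : ∃ x ∈ P, x (base P a) = a := by
  have h := Quotient.mk_out (s := MulAction.orbitRel ↥P α) a
  obtain ⟨x, hx⟩ := MulAction.orbitRel_apply.mp h
  refine ⟨x⁻¹, P.inv_mem x.2, ?_⟩
  have hx' : (x : Perm α) a = base P a := hx
  show ((x : Perm α))⁻¹ (base P a) = a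
  rw [← hx']
  simp

lemma base_apply {z : Perm α} (hz : z ∈ P) (a : α) : base P (z a) = base P a := by
  unfold base
  congr 1
  apply Quotient.sound'
  apply MulAction.orbitRel_apply.mpr
  exact ⟨⟨z, hz⟩, rfl⟩

variable {P}

lemma comm_of_mem [hab : IsMulCommutative P] {x y : Perm α} (hx : x ∈ P) (hy : y ∈ P) : x * y = y * x := by
  have := hab.is_comm.comm ⟨x, hx⟩ ⟨y, hy⟩
  exact congrArg Subtype.val this

/-- Key property of abelian groups: points with equal images have equal inverse images. -/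
lemma inv_apply_eq [IsMulCommutative P] {x y : Perm α} (hx : x ∈ P) (hy : y ∈ P) {b : α}
    (h : x b = y b) : x⁻¹ b = y⁻¹ b := by
  have hc : y⁻¹ * x = x * y⁻¹ := comm_of_mem (P.inv_mem hy) hx
  have h1 : (y⁻¹ * x) b = b := by
    show y⁻¹ (x b) = b
    rw [h]; simp
  have h2 : x⁻¹ ((y⁻¹ * x) b) = y⁻¹ b := by
    have e : x⁻¹ * (y⁻¹ * x) = y⁻¹ := by
      rw [hc]; group
    have := congrArg (fun f : Perm α => f b) e
    exact this
  rw [h1] at h2
  exact h2

variable (P)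

/-- Orbit-wise inversion. -/
noncomputable def inv0 (a : α) : α := (Classical.choose (exists_mem_base P a))⁻¹ (base P a)

variable {P}

lemma inv0_eq [IsMulCommutative P] {a : α} {x : Perm α} (hx : x ∈ P) (h : x (base P a) = a) :
    inv0 P a = x⁻¹ (base P a) := by
  have hs := Classical.choose_spec (exists_mem_base P a)
  exact inv_apply_eq hs.1 hx (hs.2.trans h.symm)

lemma inv0_apply [IsMulCommutative P] {z : Perm α} (hz : z ∈ P) (a : α) :
    inv0 P (z a) = z⁻¹ (inv0 P a) := by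
  obtain ⟨x, hx, hxa⟩ := exists_mem_base P a
  have h1 : (z * x) (base P (z a)) = z a := by
    rw [base_apply P hz]
    show z (x (base P a)) = z a
    rw [hxa]
  rw [inv0_eq (P.mul_mem hz hx) h1, inv0_eq hx hxa, base_apply P hz]
  have e : (z * x)⁻¹ = z⁻¹ * x⁻¹ := by
    rw [mul_inv_rev]
    exact comm_of_mem (P.inv_mem hx) (P.inv_mem hz)
  rw [e]
  rfl

lemma exists_inv0 [IsMulCommutative P] (a : α) : ∃ u ∈ P, inv0 P a = u a := by
  obtain ⟨x, hx, hxa⟩ := exists_mem_base P a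
  refine ⟨x⁻¹ * x⁻¹, P.mul_mem (P.inv_mem hx) (P.inv_mem hx), ?_⟩
  rw [inv0_eq hx hxa]
  nth_rewrite 2 [← hxa]
  simp

lemma base_inv0 [IsMulCommutative P] (a : α) : base P (inv0 P a) = base P a := by
  obtain ⟨u, hu, e⟩ := exists_inv0 (P := P) a
  rw [e, base_apply P hu]

lemma inv0_inv0 [IsMulCommutative P] (a : α) : inv0 P (inv0 P a) = a := by
  obtain ⟨x, hx, hxa⟩ := exists_mem_base P a
  have h1 : x⁻¹ (base P (inv0 P a)) = inv0 P a := by
    rw [base_inv0, inv0_eq hx hxa]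
  rw [inv0_eq (P.inv_mem hx) h1, base_inv0, inv_inv, hxa]

/-- Restriction of `z` to a `P`-invariant set `Q`. -/
noncomputable def restr (Q : Set α) (hQ : ∀ z ∈ P, ∀ a, z a ∈ Q ↔ a ∈ Q) {z : Perm α} (hz : z ∈ P) : Perm α := by
  classical
  exact
  { toFun := fun a => if a ∈ Q then z a else a
    invFun := fun a => if a ∈ Q then z⁻¹ a else a
    left_inv := by
      intro a
      show (if (if a ∈ Q then z a else a) ∈ Q then z⁻¹ (if a ∈ Q then z a else a) else (if a ∈ Q then z a else a)) = a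
      by_cases h : a ∈ Q
      · have h2 : z a ∈ Q := (hQ z hz a).mpr h
        rw [if_pos h, if_pos h2]
        simp
      · rw [if_neg h, if_neg h]
    right_inv := by
      intro a
      show (if (if a ∈ Q then z⁻¹ a else a) ∈ Q then z (if a ∈ Q then z⁻¹ a else a) else (if a ∈ Q then z⁻¹ a else a)) = a
      by_cases h : a ∈ Q
      · have h2 : z⁻¹ a ∈ Q := (hQ z⁻¹ (P.inv_mem hz) a).mpr h
        rw [if_pos h, if_pos h2]
        simp
      · rw [if_neg h, if_neg h] }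

lemma restr_apply_mem {Q : Set α} {hQ : ∀ z ∈ P, ∀ a, z a ∈ Q ↔ a ∈ Q} {z : Perm α} (hz : z ∈ P)
    {a : α} (h : a ∈ Q) : restr Q hQ hz a = z a := by
  classical
  show (if a ∈ Q then z a else a) = z a
  simp [h]

lemma restr_apply_notMem {Q : Set α} {hQ : ∀ z ∈ P, ∀ a, z a ∈ Q ↔ a ∈ Q} {z : Perm α} (hz : z ∈ P)
    {a : α} (h : a ∉ Q) : restr Q hQ hz a = a := by
  classical
  show (if a ∈ Q then z a else a) = a
  simp [h]

lemma restr_mem_iff {Q : Set α} {hQ : ∀ z ∈ P, ∀ a, z a ∈ Q ↔ a ∈ Q} {z : Perm α} (hz : z ∈ P)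
    (a : α) : restr Q hQ hz a ∈ Q ↔ a ∈ Q := by
  by_cases h : a ∈ Q
  · rw [restr_apply_mem hz h]
    exact hQ z hz a
  · rw [restr_apply_notMem hz h]

lemma restr_comm [IsMulCommutative P] {Q : Set α} {hQ : ∀ z ∈ P, ∀ a, z a ∈ Q ↔ a ∈ Q} {z u : Perm α}
    (hz : z ∈ P) (hu : u ∈ P) : restr Q hQ hz * u = u * restr Q hQ hz := by
  ext a
  show restr Q hQ hz (u a) = u (restr Q hQ hz a)
  by_cases h : a ∈ Q
  · have h2 : u a ∈ Q := (hQ u hu a).mpr h
    rw [restr_apply_mem hz h2, restr_apply_mem hz h]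
    have := congrArg (fun f : Perm α => f a) (comm_of_mem hz hu)
    exact this
  · have h2 : u a ∉ Q := fun h3 => h ((hQ u hu a).mp h3)
    rw [restr_apply_notMem hz h2, restr_apply_notMem hz h]

open Classical in
lemma restr_pow {Q : Set α} {hQ : ∀ z ∈ P, ∀ a, z a ∈ Q ↔ a ∈ Q} {z : Perm α}
    (hz : z ∈ P) (k : ℕ) (a : α) : (restr Q hQ hz ^ k) a = if a ∈ Q then (z ^ k) a else a := by
  classical
  induction k generalizing a with
  | zero => simp
  | succ k ih =>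
    rw [pow_succ, Perm.mul_apply, ih]
    by_cases h : a ∈ Q
    · have h2 : restr Q hQ hz a ∈ Q := (restr_mem_iff hz a).mpr h
      rw [if_pos h2, restr_apply_mem hz h, if_pos h, pow_succ, Perm.mul_apply]
    · have h2 : restr Q hQ hz a ∉ Q := fun h3 => h ((restr_mem_iff hz a).mp h3)
      rw [if_neg h2, restr_apply_notMem hz h, if_neg h]

/-- The restriction lies in a Sylow subgroup. -/
lemma restr_mem_sylow [Finite α] [IsMulCommutative P] {p : ℕ} [Fact p.Prime] (hP : ∀ (J : Subgroup (Perm α)), IsPGroup p J → P ≤ J → P = J)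
    (hPp : IsPGroup p P)
    {Q : Set α} {hQ : ∀ z ∈ P, ∀ a, z a ∈ Q ↔ a ∈ Q} {z : Perm α} (hz : z ∈ P) : restr Q hQ hz ∈ P := by
  classical
  have hpow : IsPGroup p (zpowers (restr Q hQ hz)) := by
    rw [IsPGroup.iff_orderOf] at hPp ⊢
    rintro ⟨g, hg⟩
    obtain ⟨k, hk⟩ := hPp ⟨z, hz⟩
    have hk' : orderOf z = p ^ k := by rw [← Subgroup.orderOf_mk z hz]; exact hk
    have h1 : (restr Q hQ hz) ^ (p ^ k) = 1 := by
      ext a
      rw [restr_pow]
      by_cases h : a ∈ Q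
      · rw [if_pos h, ← hk', pow_orderOf_eq_one]
      · rw [if_neg h]; rfl
    have h2 : orderOf g ∣ orderOf (restr Q hQ hz) := orderOf_dvd_of_mem_zpowers hg
    have h3 : orderOf (restr Q hQ hz) ∣ p ^ k := orderOf_dvd_of_pow_eq_one h1
    obtain ⟨j, -, hj⟩ := (Nat.dvd_prime_pow Fact.out).mp (h2.trans h3)
    exact ⟨j, by rw [Subgroup.orderOf_mk]; exact hj⟩
  have hle : zpowers (restr Q hQ hz) ≤ normalizer (P : Set (Perm α)) := by
    rw [zpowers_le]
    rw [mem_normalizer_iff]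
    intro u
    have hc : ∀ v ∈ P, restr Q hQ hz * v * (restr Q hQ hz)⁻¹ = v := by
      intro v hv
      rw [restr_comm hz hv]
      group
    constructor
    · intro hu
      rw [hc u hu]; exact hu
    · intro hu
      have h5 := hc _ hu
      have h6 : u = restr Q hQ hz * u * (restr Q hQ hz)⁻¹ := by
        calc u = (restr Q hQ hz)⁻¹ * (restr Q hQ hz * u * (restr Q hQ hz)⁻¹) * restr Q hQ hz := by group
          _ = (restr Q hQ hz)⁻¹ * (restr Q hQ hz * (restr Q hQ hz * u * (restr Q hQ hz)⁻¹) * (restr Q hQ hz)⁻¹) * restr Q hQ hz := by rw [h5]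
          _ = restr Q hQ hz * u * (restr Q hQ hz)⁻¹ := by group
      rw [h6]; exact hu
  have hJ : IsPGroup p ↥(zpowers (restr Q hQ hz) ⊔ P) := hpow.to_sup_of_normal_right' hPp hle
  have h1 := hP _ hJ le_sup_right
  have h2 : restr Q hQ hz ∈ zpowers (restr Q hQ hz) ⊔ P :=
    (le_sup_left : zpowers (restr Q hQ hz) ≤ _) (mem_zpowers _)
  rw [← h1] at h2
  exact h2

/-- `tQ`: orbit-wise inversion restricted to `Q`. -/
noncomputable def tQ [IsMulCommutative P] (Q : Set α) (hQ : ∀ z ∈ P, ∀ a, z a ∈ Q ↔ a ∈ Q) : Perm α := by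
  classical
  have hinv : ∀ a, inv0 P a ∈ Q ↔ a ∈ Q := by
    intro a
    obtain ⟨u, hu, e⟩ := exists_inv0 (P := P) a
    rw [e]
    exact hQ u hu a
  exact Function.Involutive.toPerm (fun a => if a ∈ Q then inv0 P a else a) (by
    intro a
    by_cases h : a ∈ Q
    · have h2 := (hinv a).mpr h
      simp [h, h2, inv0_inv0]
    · simp [h])

lemma tQ_apply_mem [IsMulCommutative P] {Q : Set α} {hQ : ∀ z ∈ P, ∀ a, z a ∈ Q ↔ a ∈ Q} {a : α}
    (h : a ∈ Q) : tQ Q hQ a = inv0 P a := by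
  classical
  show (if a ∈ Q then inv0 P a else a) = _
  simp [h]

lemma tQ_apply_notMem [IsMulCommutative P] {Q : Set α} {hQ : ∀ z ∈ P, ∀ a, z a ∈ Q ↔ a ∈ Q} {a : α}
    (h : a ∉ Q) : tQ Q hQ a = a := by
  classical
  show (if a ∈ Q then inv0 P a else a) = _
  simp [h]

lemma tQ_mul_self [IsMulCommutative P] {Q : Set α} {hQ : ∀ z ∈ P, ∀ a, z a ∈ Q ↔ a ∈ Q} :
    tQ Q hQ * tQ Q hQ = 1 := by
  ext a
  show tQ Q hQ (tQ Q hQ a) = a
  by_cases h : a ∈ Q
  · obtain ⟨u, hu, e⟩ := exists_inv0 (P := P) a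
    have h2 : inv0 P a ∈ Q := by rw [e]; exact (hQ u hu a).mpr h
    rw [tQ_apply_mem h, tQ_apply_mem h2, inv0_inv0]
  · rw [tQ_apply_notMem h, tQ_apply_notMem h]

open Classical in
/-- Conjugation by `tQ` inverts on `Q` and fixes outside `Q`. -/
lemma tQ_conj_apply [IsMulCommutative P] {Q : Set α} {hQ : ∀ z ∈ P, ∀ a, z a ∈ Q ↔ a ∈ Q} {z : Perm α}
    (hz : z ∈ P) (a : α) : (tQ Q hQ * z * (tQ Q hQ)⁻¹) a = if a ∈ Q then z⁻¹ a else z a := by
  classical
  have hinv : (tQ Q hQ)⁻¹ = tQ Q hQ := inv_eq_of_mul_eq_one_left tQ_mul_self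
  rw [hinv]
  show tQ Q hQ (z (tQ Q hQ a)) = _
  by_cases h : a ∈ Q
  · obtain ⟨u, hu, e⟩ := exists_inv0 (P := P) a
    have h2 : inv0 P a ∈ Q := by rw [e]; exact (hQ u hu a).mpr h
    have h3 : z (inv0 P a) ∈ Q := (hQ z hz _).mpr h2
    rw [tQ_apply_mem h, tQ_apply_mem h3, inv0_apply hz, inv0_inv0, if_pos h]
  · have h3 : z a ∉ Q := fun h4 => h ((hQ z hz a).mp h4)
    rw [tQ_apply_notMem h, tQ_apply_notMem h3, if_neg h]

/-- `tQ` normalizes a Sylow subgroup. -/
lemma tQ_mem_normalizer [Finite α] [IsMulCommutative P] {p : ℕ} [Fact p.Prime]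
    (hP : ∀ (J : Subgroup (Perm α)), IsPGroup p J → P ≤ J → P = J) (hPp : IsPGroup p P)
    {Q : Set α} {hQ : ∀ z ∈ P, ∀ a, z a ∈ Q ↔ a ∈ Q} : tQ Q hQ ∈ normalizer (P : Set (Perm α)) := by
  classical
  have hfor : ∀ z ∈ P, tQ Q hQ * z * (tQ Q hQ)⁻¹ ∈ P := by
    intro z hz
    have e : tQ Q hQ * z * (tQ Q hQ)⁻¹ = z * ((restr Q hQ hz)⁻¹ * (restr Q hQ hz)⁻¹) := by
      ext a
      rw [tQ_conj_apply hz]
      show _ = z ((restr Q hQ hz)⁻¹ ((restr Q hQ hz)⁻¹ a))
      by_cases h : a ∈ Q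
      · rw [if_pos h]
        have hinv : ∀ b, b ∈ Q → (restr Q hQ hz)⁻¹ b = z⁻¹ b := by
          intro b hb
          rw [Perm.inv_eq_iff_eq, restr_apply_mem hz ((hQ z⁻¹ (P.inv_mem hz) b).mpr hb)]
          simp
        have h2 : z⁻¹ a ∈ Q := (hQ z⁻¹ (P.inv_mem hz) a).mpr h
        rw [hinv a h, hinv _ h2]
        simp
      · rw [if_neg h]
        have hinv : (restr Q hQ hz)⁻¹ a = a := by
          rw [Perm.inv_eq_iff_eq, restr_apply_notMem hz h]
        rw [hinv, hinv]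
    rw [e]
    have hr := restr_mem_sylow hP hPp (Q := Q) (hQ := hQ) hz
    exact P.mul_mem hz (P.mul_mem (P.inv_mem hr) (P.inv_mem hr))
  have hinvt : (tQ Q hQ)⁻¹ = tQ Q hQ := inv_eq_of_mul_eq_one_left tQ_mul_self
  rw [mem_normalizer_iff]
  intro u
  constructor
  · exact hfor u
  · intro hu
    have := hfor _ hu
    have e : tQ Q hQ * (tQ Q hQ * u * (tQ Q hQ)⁻¹) * (tQ Q hQ)⁻¹ = u := by
      have h1 : tQ Q hQ * (tQ Q hQ * u * (tQ Q hQ)⁻¹) * (tQ Q hQ)⁻¹ = (tQ Q hQ * tQ Q hQ) * u * ((tQ Q hQ)⁻¹ * (tQ Q hQ)⁻¹) := by group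
      rw [h1, hinvt, tQ_mul_self]
      simp
    rwa [e] at this

end Cfsg.Agent.Lib.Perm.OrbitInversion
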