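import Mathlib
import Cfsg.Agent.Lib.Basic.SmallSimple
import Cfsg.Agent.Lib.Basic.SylowUtil
import Cfsg.Agent.Lib.SmallCen.SmallOrder
import Cfsg.Agent.Lib.SmallOrd.Basic
import Cfsg.Agent.Lib.SmallOrd.ClassSign
import Cfsg.Agent.Lib.SmallOrd.InvolTools
import Cfsg.Agent.Lib.Perm.SylowIn
import Cfsg.Agent.Lib.Perm.Det4

/-!
# There is no simple group of order `420` or of order `840`; self-centralizing Sylow subgroups of prime order
-/

set_option autoImplicit false
set_option linter.style.haveILetI false
set_option linter.unusedVariables false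
set_option linter.unusedSectionVars false

namespace Cfsg.Agent.Lib.Perm.Order420

open Subgroup Cfsg.Agent.Lib.SmallCen.SmallOrder Cfsg.Agent.Lib.SmallOrd Cfsg.Agent.Lib.Basic.SmallSimple
open scoped Pointwise

universe u

variable {G : Type u} [Group G] [Finite G]

/-- A `p`-element is conjugate to an element of a given Sylow subgroup. -/
theorem exists_conj_mem_sylow {p : ℕ} [Fact p.Prime] (S : Sylow p G) {v : G} {k : ℕ} (hv : orderOf v = p ^ k) :
    ∃ u ∈ (S : Subgroup G), IsConj u v := by
  obtain ⟨Q, hQ⟩ := Cfsg.Agent.Lib.Basic.SylowUtil.exists_sylow_of_orderOf hv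
  obtain ⟨g, hg⟩ := Cfsg.Agent.Lib.Basic.SylowUtil.exists_conj_smul_eq S Q
  have h1 : v ∈ MulAut.conj g • (S : Subgroup G) := by
    rw [hg]
    exact hQ
  obtain ⟨u, hu, rfl⟩ := (Subgroup.mem_smul_pointwise_iff_exists _ _ _).mp h1
  exact ⟨u, hu, isConj_iff.2 ⟨g, by simp [MulAut.smul_def]⟩⟩

variable [IsSimpleGroup G]

/-- Data of a Sylow subgroup of prime order. -/
theorem exists_generator {p m : ℕ} [Fact p.Prime] (hG : Nat.card G = p * m) (hpm : ¬ p ∣ m) (P : Sylow p G) :
    Nat.card (P : Subgroup G) = p ∧ ∃ x ∈ (P : Subgroup G), orderOf x = p ∧ zpowers x = (P : Subgroup G) := by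
  have hp : p.Prime := Fact.out
  have hc : Nat.card (P : Subgroup G) = p := card_sylow_eq_of_card_eq hp hG hpm P
  refine ⟨hc, ?_⟩
  haveI : Nontrivial (P : Subgroup G) := by
    apply Finite.one_lt_card_iff_nontrivial.1
    rw [hc]
    exact hp.one_lt
  obtain ⟨y, hy⟩ := exists_ne (1 : (P : Subgroup G))
  have h1 : orderOf y ∣ p := by
    have := orderOf_dvd_natCard y
    rwa [hc] at this
  have h2 : orderOf y = p := by
    rcases (Nat.dvd_prime hp).1 h1 with h2 | h2
    · exact absurd (orderOf_eq_one_iff.1 h2) hy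
    · exact h2
  have h3 : orderOf (y : G) = p := by rw [Subgroup.orderOf_coe, h2]
  refine ⟨y, y.2, h3, ?_⟩
  apply Subgroup.eq_of_le_of_card_ge ((Subgroup.zpowers_le).2 y.2)
  rw [Nat.card_zpowers, h3, hc]

/-- The numerical data of a Sylow subgroup of prime order. -/
theorem sylow_numbers {p m : ℕ} [Fact p.Prime] (hG : Nat.card G = p * m) (hpm : ¬ p ∣ m) (P : Sylow p G) :
    Nat.card (normalizer ((P : Subgroup G) : Set G)) * Nat.card (Sylow p G) = p * m ∧
      Nat.card (Sylow p G) ∣ m ∧ Nat.card (Sylow p G) % p = 1 % p ∧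
      (normalizer ((P : Subgroup G) : Set G)).index = Nat.card (Sylow p G) := by
  have hp : p.Prime := Fact.out
  have hc : Nat.card (P : Subgroup G) = p := card_sylow_eq_of_card_eq hp hG hpm P
  have hidx := Subgroup.card_mul_index (P : Subgroup G)
  rw [hc, hG] at hidx
  have hpidx : (P : Subgroup G).index = m := Nat.eq_of_mul_eq_mul_left hp.pos hidx
  refine ⟨by rw [← hG]; exact card_normalizer_mul P, hpidx ▸ P.card_dvd_index, card_sylow_modEq_one p G,
    (Sylow.card_eq_index_normalizer P).symm⟩

/-- No simple group has order `p * m`, `1 < m`, with self-centralizing Sylow `p`-subgroups unless `m / d` divides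
`p - 1` for a possible number `d` of Sylow subgroups. -/
theorem false_of_selfcent {p m : ℕ} [Fact p.Prime] (hG : Nat.card G = p * m) (hpm : ¬ p ∣ m) (hm : 1 < m)
    (hC : ∀ S : Sylow p G, centralizer ((S : Subgroup G) : Set G) = (S : Subgroup G))
    (hd : ∀ d ∈ m.divisors, d % p = 1 % p → m / d = 1 ∨ ¬ (m / d ∣ p - 1)) : False := by
  have hp : p.Prime := Fact.out
  obtain ⟨P⟩ : Nonempty (Sylow p G) := inferInstance
  obtain ⟨h1, h2, h3, -⟩ := sylow_numbers hG hpm P
  have hc : Nat.card (P : Subgroup G) = p := card_sylow_eq_of_card_eq hp hG hpm P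
  obtain ⟨e, he, hN⟩ := exists_card_normalizer_eq hp (P : Subgroup G) hc
  rw [hC P, hc] at hN
  have hm0 : m ≠ 0 := by omega
  have hem : e = m / Nat.card (Sylow p G) := by
    rw [hN, mul_assoc] at h1
    have h4 : e * Nat.card (Sylow p G) = m := Nat.eq_of_mul_eq_mul_left hp.pos h1
    rw [← h4, Nat.mul_div_cancel _ (Nat.pos_of_ne_zero (by
      intro h0
      rw [h0] at h4
      omega))]
  rcases hd _ (Nat.mem_divisors.2 ⟨h2, hm0⟩) h3 with h4 | h4
  · rw [← hem] at h4
    subst h4
    rw [mul_one] at hN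
    have hle : normalizer ((P : Subgroup G) : Set G) ≤ centralizer ((P : Subgroup G) : Set G) := by
      rw [hC P]
      have h5 : (P : Subgroup G) = normalizer ((P : Subgroup G) : Set G) :=
        Subgroup.eq_of_le_of_card_ge Subgroup.le_normalizer (by rw [hN, hc])
      rw [← h5]
    have h5 := card_eq_of_le_centralizer (p := p) (by rw [hG]; exact dvd_mul_right p m) P hle
    rw [hG, hc] at h5
    have h6 : m = 1 := by
      have : p * m = p * 1 := by rw [mul_one]; exact h5
      exact Nat.eq_of_mul_eq_mul_left hp.pos this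
    omega
  · rw [← hem] at h4
    exact h4 he

/-- There is no simple group of order `840`. -/
theorem no_840 (h : Nat.card G = 840) : False := by
  classical
  haveI h7 : Fact (Nat.Prime 7) := ⟨by norm_num⟩
  obtain ⟨P⟩ : Nonempty (Sylow 7 G) := inferInstance
  have hG : Nat.card G = 7 * 120 := by rw [h]
  obtain ⟨hc, x, hxP, hx, hz⟩ := exists_generator (p := 7) (m := 120) hG (by norm_num) P
  obtain ⟨h1, h2, h3, h4⟩ := sylow_numbers (p := 7) (m := 120) hG (by norm_num) P
  obtain ⟨e, he, hN⟩ := exists_card_normalizer_eq (p := 7) (by norm_num) (P : Subgroup G) hc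
  set N := normalizer ((P : Subgroup G) : Set G) with hNdef
  set C := centralizer ((P : Subgroup G) : Set G) with hCdef
  have hCx : C ≤ centralizer {x} := by
    intro c hc'
    rw [Subgroup.mem_centralizer_singleton_iff]
    exact (Subgroup.mem_centralizer_iff.1 hc' x hxP).symm
  have hNne : N ≠ ⊤ := normalizer_ne_top P (by rw [hc]; norm_num) (by rw [hc, h]; norm_num)
  have he' : e = 1 ∨ e = 2 ∨ e = 3 ∨ e = 6 := by
    have key : ∀ d ∈ (6 : ℕ).divisors, d = 1 ∨ d = 2 ∨ d = 3 ∨ d = 6 := by decide +kernel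
    exact key _ (Nat.mem_divisors.2 ⟨he, by norm_num⟩)
  have hn7 : Nat.card (Sylow 7 G) = 1 ∨ Nat.card (Sylow 7 G) = 8 ∨ Nat.card (Sylow 7 G) = 15 ∨
      Nat.card (Sylow 7 G) = 120 := by
    have key : ∀ d ∈ (120 : ℕ).divisors, d % 7 = 1 → d = 1 ∨ d = 8 ∨ d = 15 ∨ d = 120 := by decide +kernel
    exact key _ (Nat.mem_divisors.2 ⟨h2, by norm_num⟩) h3
  rcases hn7 with hn | hn | hn | hn
  · rw [hn, Subgroup.index_eq_one] at h4
    exact hNne h4
  · rw [hn] at h1 h4
    have hNc : Nat.card N = 105 := by omega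
    obtain ⟨b, hb1, hb2, -, hb3⟩ := exists_cycle_data (p := 7) (by norm_num) N hNne x hx
    rw [h4] at hb2 hb3
    have hb : b = 1 := by omega
    subst hb
    have h5 := hb3 C hCx
    norm_num [Nat.factorial] at h5
    have h6 : Nat.card C ≤ 7 := Nat.le_of_dvd (by norm_num) h5
    rw [hNc] at hN
    rcases he' with rfl | rfl | rfl | rfl <;> omega
  · rw [hn] at h1 h4
    have hNc : Nat.card N = 56 := by omega
    have huniq : ∀ c d : G ⧸ N, act N x c = c → act N x d = d → c = d := by
      have h1' : ∀ c : G ⧸ N, act N x c = c → c = ((1 : G) : G ⧸ N) := by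
        intro c
        induction c using QuotientGroup.induction_on with
        | H g =>
          intro hc'
          have h2' : (x • ((g : G) : G ⧸ N)) = ((g : G) : G ⧸ N) := hc'
          rw [MulAction.Quotient.smul_mk] at h2'
          have h3' := QuotientGroup.eq.mp h2'.symm
          have h4' : g⁻¹ * x * g ∈ N := by simpa [mul_assoc] using h3'
          have h5' := ClassSign.mem_normalizer_of_conj_mem P hc x hxP hx g h4'
          rw [QuotientGroup.eq, mul_one]
          exact inv_mem h5'
      intro c d hc' hd'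
      rw [h1' c hc', h1' d hd']
    obtain ⟨b, hb1, hb2, hb3⟩ := ClassSign.exists_cycle_data_unique (p := 7) (by norm_num) N hNne x hx huniq
    rw [h4] at hb1 hb2 hb3
    have hb : b = 2 := by omega
    subst hb
    have h5 := hb3 C hCx
    norm_num [Nat.factorial] at h5
    rw [hNc] at hN
    rcases he' with rfl | rfl | rfl | rfl
    · have h6 : Nat.card C = 56 := by omega
      rw [h6] at h5
      exact absurd h5 (by norm_num)
    · have h6 : Nat.card C = 28 := by omega
      rw [h6] at h5
      exact absurd h5 (by norm_num)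
    · omega
    · omega
  · rw [hn] at h1
    have hNc : Nat.card N = 7 := by omega
    have hP1 : (P : Subgroup G) = N :=
      Subgroup.eq_of_le_of_card_ge Subgroup.le_normalizer (by rw [hNc, hc])
    have hle : N ≤ C := by
      have hcop : Nat.Coprime (Nat.card N) (Nat.card (MulAut (P : Subgroup G))) := by
        haveI : IsCyclic (P : Subgroup G) := isCyclic_of_prime_card (p := 7) hc
        rw [IsCyclic.card_mulAut, hc, Nat.totient_prime (by norm_num), hNc]
        norm_num
      exact normalizer_le_centralizer_of_coprime (P : Subgroup G) hcop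
    have h5 := card_eq_of_le_centralizer (p := 7) (by rw [h]; norm_num) P hle
    rw [h, hc] at h5
    omega

/-- In a simple group of order `420`, all involutions are conjugate, and there are no elements of order four. -/
theorem exists_invol_class (h : Nat.card G = 420) :
    ∃ s : G, orderOf s = 2 ∧ 4 ∣ Nat.card (centralizer ({s} : Set G)) ∧
      (∀ t : G, orderOf t = 2 → IsConj s t) ∧ (∀ y : G, orderOf y ≠ 4) := by
  classical
  haveI h2 : Fact (Nat.Prime 2) := ⟨by norm_num⟩
  obtain ⟨S⟩ : Nonempty (Sylow 2 G) := inferInstance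
  have hS : Nat.card (S : Subgroup G) = 2 ^ 2 :=
    card_sylow_eq (p := 2) (a := 2) (m := 105) (by rw [h]; norm_num) (by norm_num) S
  have hab : ∀ a ∈ (S : Subgroup G), ∀ b ∈ (S : Subgroup G), a * b = b * a := by
    intro a ha b hb
    haveI := IsPGroup.isMulCommutative_of_card_eq_prime_sq hS
    have h1 : (⟨a, ha⟩ : (S : Subgroup G)) * ⟨b, hb⟩ = ⟨b, hb⟩ * ⟨a, ha⟩ := mul_comm' _ _
    exact congrArg Subtype.val h1
  set N := normalizer ((S : Subgroup G) : Set G) with hNdef
  set C := centralizer ((S : Subgroup G) : Set G) with hCdef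
  have hnle : ¬ N ≤ C := by
    intro hle
    have h1 := card_eq_of_le_centralizer (p := 2) (by rw [h]; norm_num) S hle
    rw [h, hS] at h1
    norm_num at h1
  obtain ⟨g, hgN, hgC⟩ := SetLike.not_le_iff_exists.1 hnle
  have hSC : (S : Subgroup G) ≤ C := fun a ha => Subgroup.mem_centralizer_iff.2 (fun b hb => hab b hb a ha)
  have hCN : C ≤ N := Subgroup.centralizer_le_normalizer _
  have hcard := Cfsg.Agent.Lib.Perm.SylowIn.card_mul_relIndex hCN
  have hr : C.relIndex N ∣ 105 := by
    obtain ⟨a, ha⟩ := Subgroup.card_dvd_of_le hSC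
    obtain ⟨b, hb⟩ := Subgroup.card_subgroup_dvd_card N
    rw [h] at hb
    rw [hS] at ha
    refine ⟨a * b, ?_⟩
    rw [← hcard, ha] at hb
    have : 4 * 105 = 4 * (C.relIndex N * (a * b)) := by
      calc 4 * 105 = 2 ^ 2 * a * C.relIndex N * b := hb
        _ = 4 * (C.relIndex N * (a * b)) := by ring
    exact Nat.eq_of_mul_eq_mul_left (by norm_num) this
  have hg105 : g ^ 105 ∈ C := by
    have hk : ((S : Subgroup G).normalizerMonoidHom).ker = C.subgroupOf N :=
      Subgroup.normalizerMonoidHom_ker _
    haveI hnorm : (C.subgroupOf N).Normal := by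
      rw [← hk]
      infer_instance
    have hpow := Subgroup.pow_index_mem (C.subgroupOf N) (⟨g, hgN⟩ : N)
    rw [Subgroup.mem_subgroupOf] at hpow
    have hpow' : g ^ (C.relIndex N) ∈ C := by
      simpa [Subgroup.relIndex] using hpow
    obtain ⟨k, hk'⟩ := hr
    rw [hk', pow_mul]
    exact C.pow_mem hpow' k
  obtain ⟨s, hs, hgs⟩ : ∃ s ∈ (S : Subgroup G), s * g ≠ g * s := by
    by_contra hcon
    push Not at hcon
    exact hgC (Subgroup.mem_centralizer_iff.2 hcon)
  have hconj : ∀ u ∈ (S : Subgroup G), g * u * g⁻¹ ∈ (S : Subgroup G) := fun u hu =>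
    (Subgroup.mem_normalizer_iff.1 hgN u).1 hu
  have hs1 : s ≠ 1 := by
    rintro rfl
    simp at hgs
  set s₁ := g * s * g⁻¹ with hs₁
  set s₂ := g * s₁ * g⁻¹ with hs₂
  have hs₁S : s₁ ∈ (S : Subgroup G) := hconj s hs
  have hs₂S : s₂ ∈ (S : Subgroup G) := hconj s₁ hs₁S
  have hne01 : s ≠ s₁ := by
    intro he
    apply hgs
    calc s * g = (g * s * g⁻¹) * g := by rw [← hs₁, ← he]
      _ = g * s := by group
  have hne12 : s₁ ≠ s₂ := by
    intro he
    apply hne01
    have : g⁻¹ * s₁ * g = g⁻¹ * s₂ * g := by rw [he]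
    simpa [hs₁, hs₂, mul_assoc] using this
  have hne02 : s ≠ s₂ := by
    intro he
    -- `g ^ 2` commutes with `s`
    have h21 : g ^ 2 * s = s * g ^ 2 := by
      have h3 : s₂ = g ^ 2 * s * (g ^ 2)⁻¹ := by
        rw [hs₂, hs₁]
        simp [pow_two, mul_assoc]
      rw [← he] at h3
      calc g ^ 2 * s = (g ^ 2 * s * (g ^ 2)⁻¹) * g ^ 2 := by group
        _ = s * g ^ 2 := by rw [← h3]
    have h104 : g ^ 104 * s = s * g ^ 104 := by
      have : g ^ 104 = (g ^ 2) ^ 52 := by rw [← pow_mul]
      rw [this]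
      have hc : Commute (g ^ 2) s := h21
      exact (hc.pow_left 52).eq
    have h105 : s * g ^ 105 = g ^ 105 * s := (Subgroup.mem_centralizer_iff.1 hg105) s hs
    apply hgs
    have h4 : g ^ 105 = g ^ 104 * g := by rw [pow_succ]
    rw [h4] at h105
    have h5 : s * (g ^ 104 * g) = g ^ 104 * (s * g) := by
      rw [← mul_assoc, ← h104, mul_assoc]
    have h6 : g ^ 104 * g * s = g ^ 104 * (g * s) := by rw [mul_assoc]
    rw [h5, h6] at h105
    exact mul_left_cancel h105
  have hs₁1 : s₁ ≠ 1 := by
    intro he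
    apply hs1
    have : g⁻¹ * s₁ * g = 1 := by rw [he]; group
    simpa [hs₁, mul_assoc] using this
  have hs₂1 : s₂ ≠ 1 := by
    intro he
    apply hs₁1
    have : g⁻¹ * s₂ * g = 1 := by rw [he]; group
    simpa [hs₂, mul_assoc] using this
  -- the elements of `S`
  let T : Finset G := {1, s, s₁, s₂}
  have hTc : T.card = 4 := by
    rw [Finset.card_insert_of_notMem, Finset.card_insert_of_notMem, Finset.card_insert_of_notMem,
      Finset.card_singleton]
    · simpa using hne12
    · simp [hne01, hne02]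
    · simp [hs1.symm, hs₁1.symm, hs₂1.symm]
  have hTS : ((T : Finset G) : Set G) ⊆ ((S : Subgroup G) : Set G) := by
    intro u hu
    simp only [T, Finset.coe_insert, Finset.coe_singleton, Set.mem_insert_iff, Set.mem_singleton_iff] at hu
    rcases hu with rfl | rfl | rfl | rfl
    · exact (S : Subgroup G).one_mem
    · exact hs
    · exact hs₁S
    · exact hs₂S
  have hTe : ((T : Finset G) : Set G) = ((S : Subgroup G) : Set G) := by
    apply Set.eq_of_subset_of_ncard_le hTS
    · rw [Set.ncard_coe_finset, hTc]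
      have h3 : Nat.card (((S : Subgroup G) : Set G)) = ((S : Subgroup G) : Set G).ncard := Nat.card_coe_set_eq _
      have h4 : Nat.card (((S : Subgroup G) : Set G)) = Nat.card (S : Subgroup G) := rfl
      rw [← h3, h4, hS]
      norm_num
  have hall : ∀ u ∈ (S : Subgroup G), u ≠ 1 → IsConj s u := by
    intro u hu hu1
    have h3 : u ∈ ((T : Finset G) : Set G) := by rw [hTe]; exact hu
    simp only [T, Finset.coe_insert, Finset.coe_singleton, Set.mem_insert_iff, Set.mem_singleton_iff] at h3
    rcases h3 with rfl | rfl | rfl | rfl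
    · exact absurd rfl hu1
    · exact IsConj.refl _
    · exact isConj_iff.2 ⟨g, rfl⟩
    · exact isConj_iff.2 ⟨g * g, by rw [hs₂, hs₁]; group⟩
  have hord : ∀ {a b : G}, IsConj a b → orderOf a = orderOf b := by
    intro a b hab'
    obtain ⟨c, rfl⟩ := isConj_iff.1 hab'
    exact (MulEquiv.orderOf_eq (MulAut.conj c) a).symm
  -- orders
  have hs2 : orderOf s = 2 := by
    obtain ⟨z, hz⟩ := exists_prime_orderOf_dvd_card' (G := (S : Subgroup G)) 2 (by rw [hS]; norm_num)
    have hzG : orderOf (z : G) = 2 := by rw [Subgroup.orderOf_coe, hz]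
    have hz1 : (z : G) ≠ 1 := by
      intro he
      rw [he, orderOf_one] at hzG
      omega
    rw [hord (hall z z.2 hz1), hzG]
  refine ⟨s, hs2, ?_, ?_, ?_⟩
  · have hle : (S : Subgroup G) ≤ centralizer ({s} : Set G) := by
      intro a ha
      rw [Subgroup.mem_centralizer_singleton_iff]
      exact hab a ha s hs
    have h3 := Subgroup.card_dvd_of_le hle
    rw [hS] at h3
    exact h3
  · intro t ht
    obtain ⟨u, hu, huc⟩ := exists_conj_mem_sylow (k := 1) S (v := t) (by rw [ht]; norm_num)
    have hu1 : u ≠ 1 := by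
      rintro rfl
      rw [← hord huc, orderOf_one] at ht
      omega
    exact (hall u hu hu1).trans huc
  · intro y hy
    obtain ⟨u, hu, huc⟩ := exists_conj_mem_sylow (k := 2) S (v := y) (by rw [hy]; norm_num)
    have hu1 : u ≠ 1 := by
      rintro rfl
      rw [← hord huc, orderOf_one] at hy
      omega
    have h3 := hord ((hall u hu hu1).trans huc)
    rw [hs2, hy] at h3
    omega

omit [IsSimpleGroup G] in
/-- An element of order four in the normalizer of a self-centralizing subgroup of order five, when the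
normalizer has order twenty. -/
theorem exists_order_four {x : G} (hx : orderOf x = 5) (hcen : ∀ c : G, c * x = x * c → c ∈ zpowers x)
    (hN : Nat.card (normalizer (zpowers x : Set G)) = 20) :
    ∃ y ∈ normalizer (zpowers x : Set G), orderOf y = 4 := by
  classical
  haveI h2 : Fact (Nat.Prime 2) := ⟨by norm_num⟩
  set N := normalizer (zpowers x : Set G) with hNdef
  obtain ⟨S⟩ : Nonempty (Sylow 2 N) := inferInstance
  have hS : Nat.card S = 4 := by
    have h1 := Sylow.card_eq_multiplicity S
    rw [hN] at h1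
    have h3 : (Nat.factorization 20) 2 = 2 := by
      have : (20 : ℕ) = 2 ^ 2 * 5 := by norm_num
      rw [this, Nat.factorization_mul (by norm_num) (by norm_num), Nat.factorization_pow]
      simp [Nat.Prime.factorization (by norm_num : Nat.Prime 2), Nat.factorization_eq_zero_of_not_dvd (by norm_num : ¬ 2 ∣ 5)]
    rw [h3] at h1
    simpa using h1
  have hcP : Nat.card (zpowers x) = 5 := by rw [Nat.card_zpowers, hx]
  haveI hcyc : IsCyclic (zpowers x) := inferInstance
  haveI h5f : Fact (Nat.Prime 5) := ⟨by norm_num⟩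
  haveI hunits : IsCyclic (ZMod (Nat.card (zpowers x)))ˣ := by
    rw [hcP]
    infer_instance
  haveI hauto : IsCyclic (MulAut (zpowers x)) :=
    isCyclic_of_surjective (IsCyclic.mulAutMulEquiv (zpowers x)).symm.toMonoidHom
      (IsCyclic.mulAutMulEquiv (zpowers x)).symm.surjective
  let φ : (S : Subgroup N) →* MulAut (zpowers x) := (zpowers x).normalizerMonoidHom.comp (S : Subgroup N).subtype
  have hinj : Function.Injective φ := by
    rw [injective_iff_map_eq_one]
    intro t ht
    have h1 : ((t : N) : G) * x = x * ((t : N) : G) := by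
      have h3 : ((zpowers x).normalizerMonoidHom (t : N)) ⟨x, mem_zpowers x⟩ = ⟨x, mem_zpowers x⟩ := by
        have : (zpowers x).normalizerMonoidHom (t : N) = 1 := ht
        rw [this]
        rfl
      have h4 := congrArg Subtype.val h3
      have h5 : ((t : N) : G) * x * ((t : N) : G)⁻¹ = x := h4
      calc ((t : N) : G) * x = (((t : N) : G) * x * ((t : N) : G)⁻¹) * ((t : N) : G) := by group
        _ = x * ((t : N) : G) := by rw [h5]
    have h2 := hcen _ h1
    have h3 : orderOf ((t : N) : G) ∣ 5 := by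
      have := orderOf_dvd_natCard (⟨_, h2⟩ : zpowers x)
      rw [hcP, Subgroup.orderOf_mk] at this
      exact this
    have h4 : orderOf ((t : N) : G) ∣ 4 := by
      have := orderOf_dvd_natCard t
      rw [hS] at this
      rw [Subgroup.orderOf_coe, Subgroup.orderOf_coe]
      exact this
    have h5 : orderOf ((t : N) : G) = 1 := by
      have := Nat.dvd_gcd h3 h4
      simpa using this
    have h6 : ((t : N) : G) = 1 := orderOf_eq_one_iff.1 h5
    apply Subtype.ext
    apply Subtype.ext
    exact h6
  haveI hSc : IsCyclic (S : Subgroup N) := isCyclic_of_injective φ hinj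
  obtain ⟨g, hg⟩ := IsCyclic.exists_ofOrder_eq_natCard (α := (S : Subgroup N))
  refine ⟨((g : N) : G), (g : N).2, ?_⟩
  rw [Subgroup.orderOf_coe, Subgroup.orderOf_coe, hg]
  exact hS

omit [IsSimpleGroup G] in
/-- An involution commuting with a given element of a Sylow subgroup. -/
theorem exists_invol_comm {p : ℕ} [Fact p.Prime] (P : Sylow p G) {x : G} (hxP : x ∈ (P : Subgroup G))
    (hC : 2 ∣ Nat.card (centralizer ((P : Subgroup G) : Set G))) : ∃ t : G, orderOf t = 2 ∧ t * x = x * t := by
  haveI h2 : Fact (Nat.Prime 2) := ⟨by norm_num⟩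
  obtain ⟨t, ht⟩ := exists_prime_orderOf_dvd_card' (G := centralizer ((P : Subgroup G) : Set G)) 2 hC
  refine ⟨t, by rw [Subgroup.orderOf_coe, ht], ?_⟩
  exact ((Subgroup.mem_centralizer_iff.1 t.2) x hxP).symm

/-- There is no simple group of order `420`. -/
theorem no_420 (h : Nat.card G = 420) : False := by
  classical
  haveI h2 : Fact (Nat.Prime 2) := ⟨by norm_num⟩
  haveI h5 : Fact (Nat.Prime 5) := ⟨by norm_num⟩
  haveI h7 : Fact (Nat.Prime 7) := ⟨by norm_num⟩
  obtain ⟨s, hs2, hs4, hsc, hno4⟩ := exists_invol_class h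
  have hnp : ¬ (Nat.card G).Prime := by rw [h]; norm_num
  have hdvd : ∀ {t x : G}, orderOf t = 2 → t * x = x * t → orderOf x ∣ Nat.card (centralizer ({s} : Set G)) := by
    intro t x ht hx
    rw [← InvolTools.card_centralizer_of_isConj (hsc t ht)]
    have h1 : x ∈ centralizer ({t} : Set G) := by
      rw [Subgroup.mem_centralizer_singleton_iff]
      exact hx.symm
    have h3 := orderOf_dvd_natCard (⟨x, h1⟩ : centralizer ({t} : Set G))
    rwa [Subgroup.orderOf_mk] at h3
  -- the prime `5`
  have h5d : 5 ∣ Nat.card (centralizer ({s} : Set G)) := by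
    obtain ⟨P⟩ : Nonempty (Sylow 5 G) := inferInstance
    have hG : Nat.card G = 5 * 84 := by rw [h]
    obtain ⟨hc, x, hxP, hx, hz⟩ := exists_generator (p := 5) (m := 84) hG (by norm_num) P
    obtain ⟨h1, h2', h3, h4⟩ := sylow_numbers (p := 5) (m := 84) hG (by norm_num) P
    obtain ⟨e, he, hN⟩ := exists_card_normalizer_eq (p := 5) (by norm_num) (P : Subgroup G) hc
    have hNne : normalizer ((P : Subgroup G) : Set G) ≠ ⊤ :=
      normalizer_ne_top P (by rw [hc]; norm_num) (by rw [hc, h]; norm_num)
    have hidx := lt_index (n := 6) (by rw [h]; norm_num [Nat.factorial]) _ hNne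
    have hn : Nat.card (Sylow 5 G) = 21 := by
      have key : ∀ d ∈ (84 : ℕ).divisors, d % 5 = 1 → d = 1 ∨ d = 6 ∨ d = 21 := by decide +kernel
      rcases key _ (Nat.mem_divisors.2 ⟨h2', by norm_num⟩) h3 with h6 | h6 | h6
      · omega
      · omega
      · exact h6
    rw [hn] at h1
    have hNc : Nat.card (normalizer ((P : Subgroup G) : Set G)) = 20 := by omega
    have he' : e = 1 ∨ e = 2 ∨ e = 4 := by
      have key : ∀ d ∈ (4 : ℕ).divisors, d = 1 ∨ d = 2 ∨ d = 4 := by decide +kernel
      exact key _ (Nat.mem_divisors.2 ⟨he, by norm_num⟩)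
    have hfive : ∀ {t : G}, orderOf t = 2 → t * x = x * t → 5 ∣ Nat.card (centralizer ({s} : Set G)) := by
      intro t ht hx'
      have := hdvd ht hx'
      rwa [hx] at this
    rcases he' with rfl | rfl | rfl
    · obtain ⟨t, ht, htx⟩ := exists_invol_comm P hxP (by omega)
      exact hfive ht htx
    · obtain ⟨t, ht, htx⟩ := exists_invol_comm P hxP (by omega)
      exact hfive ht htx
    · exfalso
      have hCc : Nat.card (centralizer ((P : Subgroup G) : Set G)) = 5 := by omega
      have hPC : (P : Subgroup G) = centralizer ((P : Subgroup G) : Set G) := by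
        apply Subgroup.eq_of_le_of_card_ge
        · rw [← hz]
          intro a ha
          rw [Subgroup.mem_centralizer_iff]
          intro b hb
          obtain ⟨i, rfl⟩ := Subgroup.mem_zpowers_iff.1 ha
          obtain ⟨j, rfl⟩ := Subgroup.mem_zpowers_iff.1 hb
          exact (Commute.zpow_zpow_self x j i).eq
        · rw [hCc, hc]
      have hcen : ∀ c : G, c * x = x * c → c ∈ zpowers x := by
        intro c hc'
        rw [hz, hPC, Subgroup.mem_centralizer_iff]
        intro y hy
        rw [← hz] at hy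
        obtain ⟨k, rfl⟩ := Subgroup.mem_zpowers_iff.1 hy
        exact ((Commute.zpow_left (show Commute x c from hc'.symm) k)).eq
      obtain ⟨y, -, hy⟩ := exists_order_four hx hcen (by rw [hz]; exact hNc)
      exact hno4 y hy
  -- the prime `7`
  have h7d : 7 ∣ Nat.card (centralizer ({s} : Set G)) := by
    obtain ⟨P⟩ : Nonempty (Sylow 7 G) := inferInstance
    have hG : Nat.card G = 7 * 60 := by rw [h]
    obtain ⟨hc, x, hxP, hx, hz⟩ := exists_generator (p := 7) (m := 60) hG (by norm_num) P
    obtain ⟨h1, h2', h3, h4⟩ := sylow_numbers (p := 7) (m := 60) hG (by norm_num) P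
    obtain ⟨e, he, hN⟩ := exists_card_normalizer_eq (p := 7) (by norm_num) (P : Subgroup G) hc
    have hNne : normalizer ((P : Subgroup G) : Set G) ≠ ⊤ :=
      normalizer_ne_top P (by rw [hc]; norm_num) (by rw [hc, h]; norm_num)
    have hidx := lt_index (n := 6) (by rw [h]; norm_num [Nat.factorial]) _ hNne
    have hn : Nat.card (Sylow 7 G) = 15 := by
      have key : ∀ d ∈ (60 : ℕ).divisors, d % 7 = 1 → d = 1 ∨ d = 15 := by decide +kernel
      rcases key _ (Nat.mem_divisors.2 ⟨h2', by norm_num⟩) h3 with h6 | h6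
      · omega
      · exact h6
    rw [hn] at h1
    have hNc : Nat.card (normalizer ((P : Subgroup G) : Set G)) = 28 := by omega
    have he' : e = 1 ∨ e = 2 ∨ e = 3 ∨ e = 6 := by
      have key : ∀ d ∈ (6 : ℕ).divisors, d = 1 ∨ d = 2 ∨ d = 3 ∨ d = 6 := by decide +kernel
      exact key _ (Nat.mem_divisors.2 ⟨he, by norm_num⟩)
    have hseven : ∀ {t : G}, orderOf t = 2 → t * x = x * t → 7 ∣ Nat.card (centralizer ({s} : Set G)) := by
      intro t ht hx'
      have := hdvd ht hx'
      rwa [hx] at this
    rcases he' with rfl | rfl | rfl | rfl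
    · obtain ⟨t, ht, htx⟩ := exists_invol_comm P hxP (by omega)
      exact hseven ht htx
    · obtain ⟨t, ht, htx⟩ := exists_invol_comm P hxP (by omega)
      exact hseven ht htx
    · omega
    · omega
  have h140 : 140 ∣ Nat.card (centralizer ({s} : Set G)) := by
    have h1 : Nat.Coprime 4 5 := by norm_num
    have h2' : Nat.Coprime (4 * 5) 7 := by norm_num
    exact h2'.mul_dvd_of_dvd_of_dvd (h1.mul_dvd_of_dvd_of_dvd hs4 h5d) h7d
  have hs1 : s ≠ 1 := by
    rintro rfl
    rw [orderOf_one] at hs2
    omega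
  have hne := InvolTools.centralizer_ne_top hnp s hs1
  have hidx := lt_index (n := 6) (by rw [h]; norm_num [Nat.factorial]) _ hne
  have hmul := Subgroup.card_mul_index (centralizer ({s} : Set G))
  rw [h] at hmul
  obtain ⟨k, hk⟩ := h140
  rw [hk] at hmul
  have hk0 : 0 < k := by
    rcases Nat.eq_zero_or_pos k with h0 | h0
    · rw [h0] at hmul
      omega
    · exact h0
  nlinarith

end Cfsg.Agent.Lib.Perm.Order420
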