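import Mathlib
import Cfsg.Agent.S0904
import Cfsg.Agent.Lib.M11Order.Local
import Cfsg.Agent.Lib.ThreePQ.Basic
import Cfsg.Agent.Lib.SmallCen.SmallOrder
import Cfsg.Agent.Lib.SmallOrd.Basic
import Cfsg.Agent.Lib.Perm.Det4

/-!
# There is no simple group of order `720`

The Sylow `5`-subgroup is self-centralizing (`S0904`), with normalizer of order `20`.  The principal
`5`-block has five characters; their degrees satisfy the block relation, which forces a character of
degree `4` in the block.  On the normalizer it is the irreducible character of degree `4` of the Frobenius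
group of order `20`, so the determinant of an element of order four is `-1`: impossible in a perfect group.
-/

set_option autoImplicit false
set_option linter.style.haveILetI false
set_option linter.unusedVariables false
set_option linter.unusedSectionVars false

namespace Cfsg.Agent.Lib.Perm.Order720

open Subgroup Cfsg Finset Cfsg.Agent.Lib.DefectOne Cfsg.Agent.Lib.M11Order
open Cfsg.Agent.Lib.SmallCen.SmallOrder Cfsg.Agent.Lib.SmallOrd Cfsg.Agent.Lib.Perm.Det4

universe u

section General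

variable {G : Type u} [Group G] [Finite G]

/-- An element of order four in the normalizer of a self-centralizing subgroup of order five, when the
normalizer has order twenty. -/
theorem exists_order_four {x : G} (hx : orderOf x = 5) (hcen : ∀ c : G, c * x = x * c → c ∈ zpowers x)
    (hN : Nat.card (normalizer (zpowers x : Set G)) = 20) :
    ∃ y ∈ normalizer (zpowers x : Set G), orderOf y = 4 := by
  classical
  haveI h2 : Fact (Nat.Prime 2) := ⟨by norm_num⟩
  set N := normalizer (zpowers x : Set G) with hNdef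
  obtain ⟨S⟩ : Nonempty (Sylow 2 N) := inferInstance
  have hS : Nat.card S = 4 := by
    have h1 := Sylow.card_eq_multiplicity S
    rw [hN] at h1
    have h3 : (Nat.factorization 20) 2 = 2 := by
      have : (20 : ℕ) = 2 ^ 2 * 5 := by norm_num
      rw [this, Nat.factorization_mul (by norm_num) (by norm_num), Nat.factorization_pow]
      simp [Nat.Prime.factorization (by norm_num : Nat.Prime 2), Nat.factorization_eq_zero_of_not_dvd (by norm_num : ¬ 2 ∣ 5)]
    rw [h3] at h1
    simpa using h1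
  have hcP : Nat.card (zpowers x) = 5 := by rw [Nat.card_zpowers, hx]
  haveI hcyc : IsCyclic (zpowers x) := inferInstance
  haveI h5f : Fact (Nat.Prime 5) := ⟨by norm_num⟩
  haveI hunits : IsCyclic (ZMod (Nat.card (zpowers x)))ˣ := by
    rw [hcP]
    infer_instance
  haveI hauto : IsCyclic (MulAut (zpowers x)) :=
    isCyclic_of_surjective (IsCyclic.mulAutMulEquiv (zpowers x)).symm.toMonoidHom
      (IsCyclic.mulAutMulEquiv (zpowers x)).symm.surjective
  let φ : (S : Subgroup N) →* MulAut (zpowers x) := (zpowers x).normalizerMonoidHom.comp (S : Subgroup N).subtype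
  have hinj : Function.Injective φ := by
    rw [injective_iff_map_eq_one]
    intro t ht
    have h1 : ((t : N) : G) * x = x * ((t : N) : G) := by
      have h3 : ((zpowers x).normalizerMonoidHom (t : N)) ⟨x, mem_zpowers x⟩ = ⟨x, mem_zpowers x⟩ := by
        have : (zpowers x).normalizerMonoidHom (t : N) = 1 := ht
        rw [this]
        rfl
      have h4 := congrArg Subtype.val h3
      have h5 : ((t : N) : G) * x * ((t : N) : G)⁻¹ = x := h4
      calc ((t : N) : G) * x = (((t : N) : G) * x * ((t : N) : G)⁻¹) * ((t : N) : G) := by group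
        _ = x * ((t : N) : G) := by rw [h5]
    have h2 := hcen _ h1
    have h3 : orderOf ((t : N) : G) ∣ 5 := by
      have := orderOf_dvd_natCard (⟨_, h2⟩ : zpowers x)
      rw [hcP, Subgroup.orderOf_mk] at this
      exact this
    have h4 : orderOf ((t : N) : G) ∣ 4 := by
      have := orderOf_dvd_natCard t
      rw [hS] at this
      rw [Subgroup.orderOf_coe, Subgroup.orderOf_coe]
      exact this
    have h5 : orderOf ((t : N) : G) = 1 := by
      have := Nat.dvd_gcd h3 h4
      simpa using this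
    have h6 : ((t : N) : G) = 1 := orderOf_eq_one_iff.1 h5
    apply Subtype.ext
    apply Subtype.ext
    exact h6
  haveI hSc : IsCyclic (S : Subgroup N) := isCyclic_of_injective φ hinj
  obtain ⟨g, hg⟩ := IsCyclic.exists_ofOrder_eq_natCard (α := (S : Subgroup N))
  refine ⟨((g : N) : G), (g : N).2, ?_⟩
  rw [Subgroup.orderOf_coe, Subgroup.orderOf_coe, hg]
  exact hS

/-- The sum of the values of a character over `⟨x⟩`, for `x` of order five. -/
lemma sum_erase_zmod_five {M : Type*} [AddCommMonoid M] (f : ZMod 5 → M) :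
    ∑ i ∈ (univ : Finset (ZMod 5)).erase 0, f i = f 1 + (f 2 + (f 3 + f 4)) := by
  have h : (univ : Finset (ZMod 5)).erase 0 = {1, 2, 3, 4} := by decide
  rw [h, Finset.sum_insert (by decide), Finset.sum_insert (by decide), Finset.sum_insert (by decide),
    Finset.sum_singleton]

end General

section Rep

variable {G : Type u} [Group G] [Finite G] [IsSimpleGroup G]

/-- A representation of dimension four of a non-abelian simple group which has no trivial constituent
on the cyclic group `⟨x⟩` of order five does not exist if an element of order four normalizes `⟨x⟩`. -/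
theorem false_of_rep (hna : ∃ a b : G, a * b ≠ b * a) (ρ : Representation ℂ G (Fin 4 → ℂ)) {x y : G}
    (hx : orderOf x = 5) (hcen : ∀ c : G, c * x = x * c → c ∈ zpowers x)
    (hy : y ∈ normalizer (zpowers x : Set G)) (hy4 : orderOf y = 4)
    (htr : ∑ j ∈ range 5, ρ.character (x ^ j) = 0) : False := by
  have hx5 : x ^ 5 = 1 := by rw [← hx]; exact pow_orderOf_eq_one x
  have hE := sum_pow_eq_zero ρ (by norm_num) hx5 htr
  have hyy : y ^ 4 = 1 := by rw [← hy4]; exact pow_orderOf_eq_one y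
  have key : ∀ k : ℕ, y ^ k ≠ 1 → (y ^ k) ^ 4 = 1 → ρ.character (y ^ k) = 0 := by
    intro k hk1 hk4
    refine character_eq_zero_of_coset ρ (by norm_num) hE _ fun j _ => ?_
    refine isConj_mul_of_fpf ?_ ?_ _ (npow_mem_zpowers x j)
    · intro u hu
      have h1 : (y ^ k)⁻¹ ∈ normalizer (zpowers x : Set G) := inv_mem (pow_mem hy k)
      have h2 := (Subgroup.mem_normalizer_iff.1 h1 u).1 hu
      simpa using h2
    · intro u hu hcomm
      by_contra hu1
      -- `u` generates
      have hu5 : orderOf u = 5 := by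
        have h1 : orderOf u ∣ 5 := by
          have := orderOf_dvd_natCard (⟨u, hu⟩ : zpowers x)
          rw [Nat.card_zpowers, hx, Subgroup.orderOf_mk] at this
          exact this
        rcases (Nat.dvd_prime (by norm_num : Nat.Prime 5)).1 h1 with h2 | h2
        · exact absurd (orderOf_eq_one_iff.1 h2) hu1
        · exact h2
      have hzu : zpowers u = zpowers x := by
        apply Subgroup.eq_of_le_of_card_ge ((Subgroup.zpowers_le).2 hu)
        rw [Nat.card_zpowers, Nat.card_zpowers, hu5, hx]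
      have hxu : x ∈ zpowers u := by rw [hzu]; exact mem_zpowers x
      obtain ⟨l, rfl⟩ := Subgroup.mem_zpowers_iff.1 hxu
      have h3 : y ^ k * u ^ l = u ^ l * y ^ k := ((show Commute (y ^ k) u from hcomm).zpow_right l).eq
      have h4 := hcen _ h3
      have h5 : orderOf (y ^ k) ∣ 5 := by
        have := orderOf_dvd_natCard (⟨_, h4⟩ : zpowers (u ^ l))
        rw [Nat.card_zpowers, hx, Subgroup.orderOf_mk] at this
        exact this
      have h6 : orderOf (y ^ k) ∣ 4 := orderOf_dvd_of_pow_eq_one hk4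
      have h7 : orderOf (y ^ k) = 1 := by
        have := Nat.dvd_gcd h5 h6
        simpa using this
      exact hk1 (orderOf_eq_one_iff.1 h7)
  have ne1 : ∀ k : ℕ, 0 < k → k < 4 → y ^ k ≠ 1 := by
    intro k h0 h4 h
    have := orderOf_le_of_pow_eq_one h0 h
    omega
  have pow4 : ∀ k : ℕ, (y ^ k) ^ 4 = 1 := by
    intro k
    rw [← pow_mul, mul_comm, pow_mul, hyy, one_pow]
  have h1 : ρ.character y = 0 := by
    have := key 1 (ne1 1 (by norm_num) (by norm_num)) (pow4 1)
    rwa [pow_one] at this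
  have h2 := key 2 (ne1 2 (by norm_num) (by norm_num)) (pow4 2)
  have h3 := key 3 (ne1 3 (by norm_num) (by norm_num)) (pow4 3)
  have hdet := det_eq_neg_one ρ hyy h1 h2 h3
  have hdet1 := Cfsg.Agent.Lib.ThreePQ.det_eq_one hna ρ y
  rw [hdet] at hdet1
  norm_num at hdet1

end Rep

section Main

variable {G : Type u} [Group G] [Fintype G] [IsSimpleGroup G]

/-- The arithmetic of the block relation. -/
lemma arith (Wa Wb Wc Wd Sa Sb Sc Sd : ℤ)
    (ha : (Wa = 6 ∧ Sa = 36) ∨ (Wa = -9 ∧ Sa = 81) ∨ (Wa = 16 ∧ Sa = 256) ∨ (Wa = -24 ∧ Sa = 576))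
    (hb : (Wb = 6 ∧ Sb = 36) ∨ (Wb = -9 ∧ Sb = 81) ∨ (Wb = 16 ∧ Sb = 256) ∨ (Wb = -24 ∧ Sb = 576))
    (hc : (Wc = 6 ∧ Sc = 36) ∨ (Wc = -9 ∧ Sc = 81) ∨ (Wc = 16 ∧ Sc = 256) ∨ (Wc = -24 ∧ Sc = 576))
    (hd : (Wd = 6 ∧ Sd = 36) ∨ (Wd = -9 ∧ Sd = 81) ∨ (Wd = 16 ∧ Sd = 256) ∨ (Wd = -24 ∧ Sd = 576))
    (hsum : 1 + (Wa + (Wb + (Wc + Wd))) = 0) (hS : Sa + (Sb + (Sc + Sd)) ≤ 719) : False := by
  omega

/-- A degree of a nontrivial character in the block. -/
lemma deg_cases (d : ℕ) (hd2 : 2 ≤ d) (hdvd : d ∣ 720) (hsq : d ^ 2 ≤ 719) (w : ℤ) (hw : w = 1 ∨ w = -1)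
    (hcong : (d : ℤ) ≡ w [ZMOD 5]) (hne : d ≠ 4) :
    ((w * d : ℤ) = 6 ∧ ((d ^ 2 : ℕ) : ℤ) = 36) ∨ ((w * d : ℤ) = -9 ∧ ((d ^ 2 : ℕ) : ℤ) = 81) ∨
      ((w * d : ℤ) = 16 ∧ ((d ^ 2 : ℕ) : ℤ) = 256) ∨ ((w * d : ℤ) = -24 ∧ ((d ^ 2 : ℕ) : ℤ) = 576) := by
  have hd26 : d ≤ 26 := by nlinarith
  interval_cases d <;> first
    | omega
    | (exfalso; revert hdvd; decide)
    | (rcases hw with rfl | rfl <;> first
        | (exfalso; revert hcong; decide)
        | norm_num)

theorem no_720 (h : Nat.card G = 720) : False := by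
  classical
  haveI h5 : Fact (Nat.Prime 5) := ⟨by norm_num⟩
  letI : Fintype (IrrCharacter G) := Fintype.ofFinite _
  have hna : ∃ a b : G, a * b ≠ b * a := by
    by_contra hcon
    push Not at hcon
    letI : CommGroup G := { (inferInstance : Group G) with mul_comm := hcon }
    have := IsSimpleGroup.prime_card (α := G)
    rw [h] at this
    norm_num at this
  obtain ⟨P⟩ : Nonempty (Sylow 5 G) := inferInstance
  have hc5 : Nat.card (P : Subgroup G) = 5 := by
    have := card_sylow_eq (p := 5) (a := 1) (m := 144) (by rw [h]; norm_num) (by norm_num) P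
    simpa using this
  obtain ⟨x, hxP, hx⟩ : ∃ x ∈ (P : Subgroup G), orderOf x = 5 := by
    haveI : Nontrivial (P : Subgroup G) := by
      apply Finite.one_lt_card_iff_nontrivial.1
      omega
    obtain ⟨y, hy⟩ := exists_ne (1 : (P : Subgroup G))
    refine ⟨y, y.2, ?_⟩
    have h1 : orderOf y ∣ 5 := by
      have := orderOf_dvd_natCard y
      rwa [hc5] at this
    rw [Subgroup.orderOf_coe]
    rcases (Nat.dvd_prime (by norm_num : Nat.Prime 5)).1 h1 with h2 | h2
    · exact absurd (orderOf_eq_one_iff.1 h2) hy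
    · exact h2
  have hz : zpowers x = (P : Subgroup G) := by
    apply Subgroup.eq_of_le_of_card_ge ((Subgroup.zpowers_le).2 hxP)
    rw [Nat.card_zpowers, hx, hc5]
  have hC := Cfsg.Agent.S0904.result (G := G) 2 3 5 4 2 (by norm_num) (by norm_num) (by norm_num) (by norm_num)
    (by norm_num) (by rw [h]; norm_num) P
  have hcen : ∀ c : G, c * x = x * c → c ∈ zpowers x := by
    intro c hc
    rw [hz, ← hC, Subgroup.mem_centralizer_iff]
    intro g hg
    have hg' : g ∈ zpowers x := by rw [hz]; exact hg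
    obtain ⟨k, rfl⟩ := Subgroup.mem_zpowers_iff.1 hg'
    exact ((show Commute c x from hc).zpow_right k).eq.symm
  have hζ : IsPrimitiveRoot (Complex.exp (2 * Real.pi * Complex.I / (5 : ℕ))) 5 :=
    Complex.isPrimitiveRoot_exp 5 (by norm_num)
  obtain ⟨e, t, X, Y, δ, ε, b, T⟩ := exists_scTable (p := 5) hx hcen P hz hζ
  -- `e = 4`, `t = 1`
  have hN5 : Nat.card (normalizer (zpowers x : Set G)) * Nat.card (Sylow 5 G) = 720 := by
    rw [← h, hz]
    exact card_normalizer_mul P
  have hmod : Nat.card (Sylow 5 G) % 5 = 1 := card_sylow_modEq_one 5 G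
  have he : e = 4 ∧ t = 1 := by
    have h1 := T.het
    have h2 := T.cardN
    rw [h2] at hN5
    have h3 : e * t = 4 := by omega
    have h4 : e ∣ 4 := ⟨t, h3.symm⟩
    have h5' : e = 1 ∨ e = 2 ∨ e = 4 := by
      have key : ∀ d ∈ (4 : ℕ).divisors, d = 1 ∨ d = 2 ∨ d = 4 := by decide +kernel
      exact key _ (Nat.mem_divisors.2 ⟨h4, by norm_num⟩)
    rcases h5' with rfl | rfl | rfl
    · exfalso; omega
    · exfalso; omega
    · exact ⟨rfl, by omega⟩
  obtain ⟨rfl, rfl⟩ := he
  have hNc : Nat.card (normalizer (zpowers x : Set G)) = 20 := T.cardN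
  obtain ⟨y, hyN, hy4⟩ := exists_order_four hx hcen hNc
  -- no character of degree `4` in the block
  have htrX : ∀ χ : IrrCharacter G, (∑ i ∈ (univ : Finset (ZMod 5)).erase 0, (χ : G → ℂ) (XX x i)) =
      ((χ : G → ℂ) (x ^ 1) + ((χ : G → ℂ) (x ^ 2) + ((χ : G → ℂ) (x ^ 3) + (χ : G → ℂ) (x ^ 4)))) := by
    intro χ
    rw [sum_erase_zmod_five]
    rfl
  have hno4 : ∀ χ : IrrCharacter G, dg χ = 4 →
      (∑ i ∈ (univ : Finset (ZMod 5)).erase 0, (χ : G → ℂ) (XX x i)) = -4 → False := by
    intro χ hd hs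
    rw [htrX] at hs
    have hval1 := dg_cast χ
    obtain ⟨χ', n, ρ, hρ, rfl⟩ := χ
    simp only at hs hval1 hd
    have hn : n = 4 := by
      rw [hd, Representation.char_one] at hval1
      simp only [Module.finrank_fin_fun] at hval1
      exact_mod_cast hval1
    subst hn
    refine false_of_rep hna ρ hx hcen hyN hy4 ?_
    rw [Finset.sum_range_succ', Finset.sum_range_succ', Finset.sum_range_succ', Finset.sum_range_succ',
      Finset.sum_range_succ', Finset.sum_range_zero]
    simp only [pow_zero, zero_add] at *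
    rw [hval1, hd]
    have h5 : ρ.character (x ^ 1) + (ρ.character (x ^ 2) + (ρ.character (x ^ 3) + ρ.character (x ^ 4))) = -4 := hs
    push_cast
    linear_combination h5
  -- the values
  set τ := Cfsg.Agent.Lib.Blocks.Principal.trivChar G with hτ
  have hτ1 : ∀ g : G, (τ : G → ℂ) g = 1 := fun g => rfl
  have hnontriv : ∀ χ : IrrCharacter G, χ ≠ τ → (χ : G → ℂ) ≠ fun _ => 1 := by
    intro χ hχ h1
    exact hχ (Subtype.ext h1)
  obtain ⟨θ, hθ⟩ := Finset.card_eq_one.1 T.cardY
  have hθY : θ ∈ Y := by rw [hθ]; exact Finset.mem_singleton_self θ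
  have hdisj := T.disj
  have hθX : θ ∉ X := fun h => (Finset.disjoint_left.1 hdisj h) hθY
  -- the weights
  let w : IrrCharacter G → ℤ := fun χ => if χ ∈ X then δ χ else -ε
  have hwX : ∀ χ ∈ X, w χ = δ χ := fun χ hχ => if_pos hχ
  have hwθ : w θ = -ε := if_neg hθX
  have hw1 : ∀ χ ∈ X ∪ Y, w χ = 1 ∨ w χ = -1 := by
    intro χ hχ
    by_cases h1 : χ ∈ X
    · rw [hwX χ h1]
      exact T.signX χ h1
    · have h2 : χ = θ := by
        have h3 := (Finset.mem_union.1 hχ).resolve_left h1
        rw [hθ] at h3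
        exact Finset.mem_singleton.1 h3
      rw [h2, hwθ]
      rcases T.sign with h3 | h3 <;> simp [h3]
  have hcong : ∀ χ ∈ X ∪ Y, (dg χ : ℤ) ≡ w χ [ZMOD 5] := by
    intro χ hχ
    by_cases h1 : χ ∈ X
    · rw [hwX χ h1]
      exact T.degX χ h1
    · have h2 : χ = θ := by
        have h3 := (Finset.mem_union.1 hχ).resolve_left h1
        rw [hθ] at h3
        exact Finset.mem_singleton.1 h3
      rw [h2, hwθ]
      obtain ⟨m, hm, -⟩ := T.degY θ hθY
      rw [hm]
      apply Int.ModEq.symm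
      apply Int.modEq_iff_dvd.2
      refine ⟨m + ε, ?_⟩
      push_cast
      ring
  have hsumval : ∀ χ ∈ X ∪ Y, (∑ i ∈ (univ : Finset (ZMod 5)).erase 0, (χ : G → ℂ) (XX x i)) = 4 * (w χ : ℂ) := by
    intro χ hχ
    by_cases h1 : χ ∈ X
    · rw [hwX χ h1, Finset.sum_congr rfl (fun i hi => T.valX χ h1 i (Finset.ne_of_mem_erase hi)),
        Finset.sum_const]
      have : ((univ : Finset (ZMod 5)).erase 0).card = 4 := by
        rw [Finset.card_erase_of_mem (Finset.mem_univ _), Finset.card_univ, ZMod.card]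
      rw [this]
      simp
    · have h2 : χ = θ := by
        have h3 := (Finset.mem_union.1 hχ).resolve_left h1
        rw [hθ] at h3
        exact Finset.mem_singleton.1 h3
      rw [h2, hwθ, Finset.sum_congr rfl (fun i hi => T.valY θ hθY i (Finset.ne_of_mem_erase hi)),
        ← Finset.mul_sum, sum_perEta hζ, T.cardF θ hθY]
      push_cast
      ring
  -- trivial character in the block
  have hτZ : τ ∈ X ∪ Y := by
    by_contra hcon
    have h1 := T.out τ hcon 1 one_ne_zero
    rw [hτ1] at h1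
    exact one_ne_zero h1
  have hwτ : w τ = 1 := by
    have h1 := hcong τ hτZ
    have h2 : dg τ = 1 := by
      have h3 := dg_cast τ
      rw [hτ1] at h3
      exact_mod_cast h3.symm
    rw [h2] at h1
    rcases hw1 τ hτZ with h3 | h3
    · exact h3
    · rw [h3] at h1
      exact absurd h1 (by decide)
  -- the block relation
  have hrel : ∑ χ ∈ X ∪ Y, (w χ * dg χ : ℤ) = 0 := by
    rw [Finset.sum_union hdisj, hθ, Finset.sum_singleton, hwθ]
    have h1 := T.rel 1 (by simp) θ hθY
    have h2 : ∑ χ ∈ X, (w χ * dg χ : ℤ) = ε * dg θ := by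
      have h3 : ∑ χ ∈ X, (w χ * dg χ : ℤ) = ∑ χ ∈ X, (δ χ * dg χ : ℤ) :=
        Finset.sum_congr rfl fun χ hχ => by rw [hwX χ hχ]
      rw [h3]
      have h4 : ((∑ χ ∈ X, (δ χ * dg χ : ℤ) : ℤ) : ℂ) = ((ε * dg θ : ℤ) : ℂ) := by
        push_cast
        rw [dg_cast θ] at h1
        rw [h1]
        refine Finset.sum_congr rfl fun χ _ => ?_
        rw [dg_cast χ]
      exact_mod_cast h4
    rw [h2]
    ring
  -- the degrees
  have hcards : (X ∪ Y).card = 5 := by
    rw [Finset.card_union_of_disjoint hdisj, T.cardX, T.cardY]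
  have hcardT : ((X ∪ Y).erase τ).card = 4 := by
    rw [Finset.card_erase_of_mem hτZ, hcards]
  have hdeg : ∀ χ ∈ (X ∪ Y).erase τ, ((w χ * dg χ : ℤ) = 6 ∧ ((dg χ ^ 2 : ℕ) : ℤ) = 36) ∨
      ((w χ * dg χ : ℤ) = -9 ∧ ((dg χ ^ 2 : ℕ) : ℤ) = 81) ∨
      ((w χ * dg χ : ℤ) = 16 ∧ ((dg χ ^ 2 : ℕ) : ℤ) = 256) ∨
      ((w χ * dg χ : ℤ) = -24 ∧ ((dg χ ^ 2 : ℕ) : ℤ) = 576) := by
    intro χ hχ
    have h1 := Finset.mem_erase.1 hχ
    refine deg_cases (dg χ) ?_ ?_ ?_ (w χ) (hw1 χ h1.2) (hcong χ h1.2) ?_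
    · exact Cfsg.Agent.Lib.ThreePQ.two_le_degree hna χ (hnontriv χ h1.1)
    · rw [← h]
      exact dg_dvd χ
    · have h2 := sum_subset_dg_sq_le ({τ, χ} : Finset (IrrCharacter G))
      rw [Finset.sum_pair (Ne.symm h1.1), h] at h2
      have h3 : dg τ = 1 := by
        have h3 := dg_cast τ
        rw [hτ1] at h3
        exact_mod_cast h3.symm
      rw [h3] at h2
      omega
    · intro hd4
      refine hno4 χ hd4 ?_
      rw [hsumval χ h1.2]
      have h3 := hcong χ h1.2
      rw [hd4] at h3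
      rcases hw1 χ h1.2 with h5' | h5'
      · rw [h5'] at h3
        exact absurd h3 (by decide)
      · rw [h5']
        push_cast
        ring
  -- final arithmetic
  obtain ⟨a, T', haT, hT', hc⟩ := Finset.card_eq_succ.1 hcardT
  obtain ⟨b', c, d, hbc, hbd, hcd, rfl⟩ := Finset.card_eq_three.1 hc
  have hrel2 : 1 + ∑ χ ∈ (X ∪ Y).erase τ, (w χ * dg χ : ℤ) = 0 := by
    have h1 := Finset.add_sum_erase (X ∪ Y) (fun χ => (w χ * dg χ : ℤ)) hτZ
    have h3 : dg τ = 1 := by
      have h3 := dg_cast τ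
      rw [hτ1] at h3
      exact_mod_cast h3.symm
    simp only [hwτ, h3] at h1
    rw [hrel] at h1
    push_cast at h1
    linarith
  have hsq : ∑ χ ∈ (X ∪ Y).erase τ, ((dg χ ^ 2 : ℕ) : ℤ) ≤ 719 := by
    have h1 := sum_subset_dg_sq_le (X ∪ Y)
    rw [← Finset.add_sum_erase (X ∪ Y) (fun χ => dg χ ^ 2) hτZ, h] at h1
    have h3 : dg τ = 1 := by
      have h3 := dg_cast τ
      rw [hτ1] at h3
      exact_mod_cast h3.symm
    rw [h3] at h1
    have h4 : ((∑ χ ∈ (X ∪ Y).erase τ, dg χ ^ 2 : ℕ) : ℤ) ≤ 719 := by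
      have : ∑ χ ∈ (X ∪ Y).erase τ, dg χ ^ 2 ≤ 719 := by omega
      exact_mod_cast this
    push_cast at h4 ⊢
    exact h4
  rw [← hT'] at hrel2 hsq hdeg
  have hanot : a ∉ ({b', c, d} : Finset (IrrCharacter G)) := haT
  rw [Finset.sum_insert hanot, Finset.sum_insert (by simp [hbc, hbd]), Finset.sum_insert (by simp [hcd]),
    Finset.sum_singleton] at hrel2 hsq
  refine arith _ _ _ _ _ _ _ _ (hdeg a (by simp)) (hdeg b' (by simp)) (hdeg c (by simp)) (hdeg d (by simp)) hrel2 hsq

end Main

end Cfsg.Agent.Lib.Perm.Order720
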