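import Cfsg.Prelude.Def_Local
import Cfsg.Agent.Lib.Basic.PCore
import Cfsg.Agent.Lib.Solvable.PSeries
import Cfsg.Agent.Lib.Solvable.Hall
import Mathlib

/-!
# `p`-length of groups all of whose maximal subgroups are `p`-nilpotent or of prime index

Minimal counterexample: a normal `p'`-subgroup is absorbed in the first term; a minimal normal
`p`-subgroup is either in every maximal subgroup (Frattini argument) or is complemented by a
maximal subgroup `M`, and `M` `p`-nilpotent or of prime index gives the chain directly.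
-/

set_option autoImplicit false
set_option linter.unusedSectionVars false

open Cfsg Subgroup

namespace Cfsg.Agent.Lib.Perm.PLenMax

universe u

/-- The hypothesis on maximal subgroups. -/
def Hyp (p : ℕ) (G : Type u) [Group G] : Prop :=
  ∀ M : Subgroup G, IsCoatom M →
    (∃ K : Subgroup ↥M, K.Normal ∧ ¬ p ∣ Nat.card K ∧ ∃ k : ℕ, K.index = p ^ k) ∨ (M.index).Prime

/-- The chain `O_{p',p,p',p,p'}`; with `τ`, the last term is required to be everything. -/
def Chain (p : ℕ) (τ : Prop) (G : Type u) [Group G] : Prop :=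
  ∃ A B C D : Subgroup G, A.Normal ∧ B.Normal ∧ C.Normal ∧ D.Normal ∧ A ≤ B ∧ B ≤ C ∧ C ≤ D ∧
    ¬ p ∣ Nat.card A ∧ (∃ k : ℕ, A.relIndex B = p ^ k) ∧ ¬ p ∣ B.relIndex C ∧
    (∃ k : ℕ, C.relIndex D = p ^ k) ∧ ¬ p ∣ D.index ∧ (τ → D = ⊤)

variable {G : Type u} [Group G] [Finite G] {p : ℕ} [hp : Fact p.Prime]

/-- Comap of a coatom under the quotient map is a coatom. -/
theorem isCoatom_comap (N : Subgroup G) [N.Normal] {M : Subgroup (G ⧸ N)} (hM : IsCoatom M) :
    IsCoatom (M.comap (QuotientGroup.mk' N)) := by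
  constructor
  · intro h
    apply hM.1
    rw [eq_top_iff]
    intro x _
    obtain ⟨g, rfl⟩ := QuotientGroup.mk'_surjective N x
    have : g ∈ M.comap (QuotientGroup.mk' N) := by rw [h]; trivial
    exact this
  · intro H hH
    have hle : M ≤ H.map (QuotientGroup.mk' N) := by
      intro x hx
      obtain ⟨g, rfl⟩ := QuotientGroup.mk'_surjective N x
      exact ⟨g, hH.le hx, rfl⟩
    have hne : M ≠ H.map (QuotientGroup.mk' N) := by
      intro h
      apply hH.not_ge
      intro g hg
      show QuotientGroup.mk' N g ∈ M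
      rw [h]
      exact ⟨g, hg, rfl⟩
    have htop : H.map (QuotientGroup.mk' N) = ⊤ := hM.2 _ (lt_of_le_of_ne hle hne)
    have hNH : N ≤ H := by
      intro n hn
      apply hH.le
      show QuotientGroup.mk' N n ∈ M
      have : QuotientGroup.mk' N n = 1 := by
        rw [← MonoidHom.mem_ker, QuotientGroup.ker_mk']; exact hn
      rw [this]; exact M.one_mem
    rw [eq_top_iff]
    intro g _
    have : QuotientGroup.mk' N g ∈ H.map (QuotientGroup.mk' N) := by rw [htop]; trivial
    obtain ⟨h, hh, he⟩ := this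
    have h2 : h⁻¹ * g ∈ N := by
      rw [← QuotientGroup.eq]
      exact he
    have : g = h * (h⁻¹ * g) := by group
    rw [this]
    exact H.mul_mem hh (hNH h2)

/-- The hypothesis passes to quotients. -/
theorem hyp_quotient (N : Subgroup G) [N.Normal] (h : Hyp p G) : Hyp p (G ⧸ N) := by
  intro M hM
  rcases h _ (isCoatom_comap N hM) with ⟨K, hK, hp', k, hk⟩ | hprime
  · left
    let φ : ↥(M.comap (QuotientGroup.mk' N)) →* ↥M := (QuotientGroup.mk' N).subgroupComap M
    have hφ : Function.Surjective φ :=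
      (QuotientGroup.mk' N).subgroupComap_surjective_of_surjective M (QuotientGroup.mk'_surjective N)
    refine ⟨K.map φ, hK.map φ hφ, ?_, ?_⟩
    · intro hd
      apply hp'
      exact hd.trans (Subgroup.card_dvd_of_surjective (φ.subgroupMap K) (φ.subgroupMap_surjective K))
    · have hd : (K.map φ).index ∣ K.index := Subgroup.index_map_dvd K hφ
      rw [hk] at hd
      obtain ⟨j, -, hj⟩ := (Nat.dvd_prime_pow hp.out).1 hd
      exact ⟨j, hj⟩
  · right
    rwa [index_comap_of_surjective M (QuotientGroup.mk'_surjective N)] at hprime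

/-- A chain in the quotient by a normal `p'`-subgroup lifts. -/
theorem chain_of_quotient_p' {τ : Prop} (N : Subgroup G) [N.Normal] (hN : ¬ p ∣ Nat.card N)
    (h : Chain p τ (G ⧸ N)) : Chain p τ G := by
  obtain ⟨A, B, C, D, hA, hB, hC, hD, hAB, hBC, hCD, h1, ⟨k1, h2⟩, h3, ⟨k2, h4⟩, h5, h6⟩ := h
  have hs := QuotientGroup.mk'_surjective N
  have hrel : ∀ X Y : Subgroup (G ⧸ N), (X.comap (QuotientGroup.mk' N)).relIndex
      (Y.comap (QuotientGroup.mk' N)) = X.relIndex Y := by
    intro X Y
    rw [Subgroup.relIndex_comap, map_comap_eq_self_of_surjective hs]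
  refine ⟨A.comap (QuotientGroup.mk' N), B.comap (QuotientGroup.mk' N), C.comap (QuotientGroup.mk' N),
    D.comap (QuotientGroup.mk' N), hA.comap _, hB.comap _, hC.comap _,
    hD.comap _, comap_mono hAB, comap_mono hBC, comap_mono hCD, ?_, ⟨k1, ?_⟩, ?_, ⟨k2, ?_⟩, ?_, ?_⟩
  · rw [Cfsg.Agent.Lib.Solvable.Hall.card_comap_mk N A]
    intro hd
    rcases (Nat.Prime.dvd_mul hp.out).1 hd with h | h
    · exact h1 h
    · exact hN h
  · rw [hrel, h2]
  · rw [hrel]; exact h3
  · rw [hrel, h4]
  · rw [index_comap_of_surjective D hs]; exact h5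
  · intro ht
    rw [h6 ht]
    exact comap_top _

/-- Elements of `N ⊔ M = ⊤` factor. -/
theorem exists_mul_of_sup (N M : Subgroup G) [N.Normal] (hsup : N ⊔ M = ⊤) (g : G) :
    ∃ n ∈ N, ∃ m ∈ M, n * m = g := by
  have hg : g ∈ ((N ⊔ M : Subgroup G) : Set G) := by rw [hsup]; trivial
  rw [Subgroup.normal_mul] at hg
  obtain ⟨n, hn, m, hm, rfl⟩ := Set.mem_mul.1 hg
  exact ⟨n, hn, m, hm, rfl⟩

/-- Intersecting with a subgroup shrinks relative indices. -/
theorem relIndex_inf_dvd (U V L : Subgroup G) [U.Normal] (hUV : U ≤ V) :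
    (U ⊓ L).relIndex (V ⊓ L) ∣ U.relIndex V := by
  have h1 : (U ⊓ L).relIndex (V ⊓ L) = U.relIndex (V ⊓ L) := by
    rw [← Subgroup.inf_relIndex_right U (V ⊓ L)]
    congr 1
    apply le_antisymm
    · exact le_inf inf_le_left (le_inf (inf_le_left.trans hUV) inf_le_right)
    · exact le_inf inf_le_left (inf_le_right.trans inf_le_right)
  rw [h1]
  exact Cfsg.Agent.Lib.Solvable.PSeries.relIndex_dvd_relIndex_of_le_right U inf_le_left

/-- A minimal normal `p`-subgroup. -/
theorem exists_minimal_normal_p (hne : pCore p G ≠ ⊥) :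
    ∃ N : Subgroup G, N.Normal ∧ N ≠ ⊥ ∧ IsPGroup p N ∧
      ∀ Y : Subgroup G, Y.Normal → Y ≠ ⊥ → Y ≤ N → Y = N := by
  let S : Set (Subgroup G) := {X | X.Normal ∧ X ≠ ⊥ ∧ IsPGroup p X}
  have hS : S.Nonempty := ⟨pCore p G, inferInstance, hne,
    Cfsg.Agent.Lib.Basic.PCore.pCore_isPGroup p⟩
  obtain ⟨N, hN⟩ := (Set.toFinite S).exists_minimal hS
  refine ⟨N, hN.1.1, hN.1.2.1, hN.1.2.2, ?_⟩
  intro Y hY hY1 hYN
  have : Y ∈ S := ⟨hY, hY1, hN.1.2.2.to_le hYN⟩
  exact le_antisymm hYN (hN.2 this hYN)

/-- A minimal normal `p`-subgroup is abelian. -/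
theorem le_centralizer_of_minimal {N : Subgroup G} (hNn : N.Normal) (hN : N ≠ ⊥) (hpN : IsPGroup p N)
    (hmin : ∀ Y : Subgroup G, Y.Normal → Y ≠ ⊥ → Y ≤ N → Y = N) :
    N ≤ centralizer (N : Set G) := by
  have : Nontrivial N := (Subgroup.nontrivial_iff_ne_bot N).2 hN
  have hc := hpN.center_nontrivial
  obtain ⟨z, hz⟩ := exists_ne (1 : Subgroup.center N)
  have hY : (N ⊓ centralizer (N : Set G)) = N := by
    apply hmin _ inferInstance _ inf_le_left
    intro hbot
    apply hz
    have hmem : ((z : N) : G) ∈ N ⊓ centralizer (N : Set G) := by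
      refine ⟨(z : N).2, ?_⟩
      show ((z : N) : G) ∈ centralizer (N : Set G)
      rw [Subgroup.mem_centralizer_iff]
      intro n hn
      have := (Subgroup.mem_center_iff.1 z.2) ⟨n, hn⟩
      exact congrArg Subtype.val this
    rw [hbot, Subgroup.mem_bot] at hmem
    exact Subtype.ext (Subtype.ext hmem)
  exact inf_eq_left.1 hY

/-- The Frattini argument. -/
theorem eq_bot_of_frattini (N : Subgroup G) [hNn : N.Normal] (hNab : N ≤ centralizer (N : Set G))
    (hpN : IsPGroup p N) (hΦ : ∀ M : Subgroup G, IsCoatom M → N ≤ M)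
    (hcore : ∀ T : Subgroup G, T.Normal → ¬ p ∣ Nat.card T → T = ⊥)
    (A : Subgroup (G ⧸ N)) (hAn : A.Normal) (hA : ¬ p ∣ Nat.card A) : A = ⊥ := by
  classical
  let A₁ : Subgroup G := A.comap (QuotientGroup.mk' N)
  have hA₁n : A₁.Normal := hAn.comap _
  have hNA₁ : N ≤ A₁ := by
    intro n hn
    show QuotientGroup.mk' N n ∈ A
    have : QuotientGroup.mk' N n = 1 := by
      rw [← MonoidHom.mem_ker, QuotientGroup.ker_mk']; exact hn
    rw [this]; exact A.one_mem
  let N' : Subgroup A₁ := N.subgroupOf A₁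
  have hN'n : N'.Normal := inferInstance
  have hN'card : Nat.card N' = Nat.card N := by
    have : N' = (N.subgroupOf A₁) := rfl
    exact Nat.card_congr (Subgroup.subgroupOfEquivOfLe hNA₁).toEquiv
  have hA₁card : Nat.card A₁ = Nat.card A * Nat.card N :=
    Cfsg.Agent.Lib.Solvable.Hall.card_comap_mk N A
  have hN'idx : N'.index = Nat.card A := by
    have h1 := Subgroup.card_mul_index N'
    rw [hN'card, hA₁card, mul_comm] at h1
    exact Nat.eq_of_mul_eq_mul_right Nat.card_pos h1
  obtain ⟨k, hk⟩ := IsPGroup.iff_card.1 hpN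
  have hcop0 : Nat.Coprime (Nat.card N) (Nat.card A) := by
    rw [hk]
    exact Nat.Coprime.pow_left k ((Nat.Prime.coprime_iff_not_dvd hp.out).2 hA)
  have hcop : Nat.Coprime (Nat.card N') N'.index := by
    rw [hN'card, hN'idx]; exact hcop0
  obtain ⟨H, hH⟩ := Subgroup.exists_right_complement'_of_coprime hcop
  have hHcard : Nat.card H = Nat.card A := by
    have h1 := hH.card_mul_card
    rw [hN'card, hA₁card, mul_comm (Nat.card A)] at h1
    exact Nat.eq_of_mul_eq_mul_left Nat.card_pos h1
  let A₀ : Subgroup G := H.map A₁.subtype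
  have hA₀card : Nat.card A₀ = Nat.card A := by
    rw [← hHcard]
    exact Nat.card_congr (H.equivMapOfInjective _ A₁.subtype_injective).symm.toEquiv
  have : IsMulCommutative N' := by
    refine ⟨⟨fun x y => ?_⟩⟩
    apply Subtype.ext
    apply Subtype.ext
    have hx : ((x : A₁) : G) ∈ N := x.2
    have hy : ((y : A₁) : G) ∈ N := y.2
    have := (Subgroup.mem_centralizer_iff.1 (hNab hx)) _ hy
    exact this.symm
  have hsup : N ⊔ normalizer (A₀ : Set G) = ⊤ := by
    rw [eq_top_iff]
    intro g _
    let ψ : MulAut A₁ := MulAut.conjNormal g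
    let K : Subgroup A₁ := H.map ψ.toMonoidHom
    have hKcard : Nat.card K = Nat.card H :=
      Nat.card_congr (H.equivMapOfInjective _ ψ.injective).symm.toEquiv
    have hK : IsComplement' N' K := by
      apply Subgroup.isComplement'_of_coprime
      · rw [hKcard]; exact hH.card_mul_card
      · rw [hKcard, hHcard, hN'card]; exact hcop0
    obtain ⟨a, ha, hae⟩ := Cfsg.Agent.Lib.Solvable.Hall.exists_conj_of_isComplement' N'
      hcop H K hH hK
    -- `a⁻¹ g` normalizes `A₀`.
    have hnorm : ((a : G)⁻¹ * g) ∈ normalizer (A₀ : Set G) := by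
      have hfwd : ∀ x ∈ A₀, ((a : G)⁻¹ * g) * x * ((a : G)⁻¹ * g)⁻¹ ∈ A₀ := by
        rintro x ⟨h, hh, rfl⟩
        have h1 : ψ h ∈ K := ⟨h, hh, rfl⟩
        rw [← hae] at h1
        obtain ⟨h', hh', he⟩ := h1
        have h2 : (a : G) * (h' : G) * (a : G)⁻¹ = g * (h : G) * g⁻¹ := by
          have := congrArg Subtype.val he
          simpa [ψ, MulAut.conjNormal_apply] using this
        refine ⟨h', hh', ?_⟩
        show (h' : G) = ((a : G)⁻¹ * g) * (h : G) * ((a : G)⁻¹ * g)⁻¹
        have : ((a : G)⁻¹ * g) * (h : G) * ((a : G)⁻¹ * g)⁻¹ =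
          (a : G)⁻¹ * (g * (h : G) * g⁻¹) * (a : G) := by group
        rw [this, ← h2]
        group
      rw [Subgroup.mem_normalizer_iff]
      intro x
      constructor
      · exact hfwd x
      · intro hx
        -- counting: the conjugation map is injective on the finite set `A₀`.
        have hinj : Function.Injective (fun y : A₀ => (⟨((a : G)⁻¹ * g) * y * ((a : G)⁻¹ * g)⁻¹,
            hfwd y y.2⟩ : A₀)) := by
          intro y z hyz
          have := congrArg Subtype.val hyz
          apply Subtype.ext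
          simpa using this
        obtain ⟨y, hy⟩ := (Finite.injective_iff_surjective.1 hinj) ⟨_, hx⟩
        have h3 := congrArg Subtype.val hy
        have h4 : (y : G) = x := by simpa using h3
        rw [← h4]; exact y.2
    have hg : g = (a : G) * ((a : G)⁻¹ * g) := by group
    rw [hg]
    exact Subgroup.mul_mem _ (Subgroup.mem_sup_left ha) (Subgroup.mem_sup_right hnorm)
  have hnormtop : normalizer (A₀ : Set G) = ⊤ := by
    rcases eq_top_or_exists_le_coatom (normalizer (A₀ : Set G)) with h | ⟨M, hM, hle⟩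
    · exact h
    · exfalso
      apply hM.1
      rw [eq_top_iff, ← hsup]
      exact sup_le (hΦ M hM) hle
  have hA₀n : A₀.Normal := Subgroup.normalizer_eq_top_iff.1 hnormtop
  have hA₀bot : A₀ = ⊥ := hcore A₀ hA₀n (by rw [hA₀card]; exact hA)
  have hAone : Nat.card A = 1 := by
    rw [← hA₀card, hA₀bot]; exact Subgroup.card_bot
  exact Subgroup.eq_bot_of_card_eq A hAone

/-- A chain in the quotient by a Frattini minimal normal `p`-subgroup lifts. -/
theorem chain_of_frattini {τ : Prop} (N : Subgroup G) [hNn : N.Normal]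
    (hNab : N ≤ centralizer (N : Set G))
    (hpN : IsPGroup p N) (hΦ : ∀ M : Subgroup G, IsCoatom M → N ≤ M)
    (hcore : ∀ T : Subgroup G, T.Normal → ¬ p ∣ Nat.card T → T = ⊥)
    (h : Chain p τ (G ⧸ N)) : Chain p τ G := by
  obtain ⟨A, B, C, D, hA, hB, hC, hD, hAB, hBC, hCD, h1, ⟨k1, h2⟩, h3, ⟨k2, h4⟩, h5, h6⟩ := h
  have hAbot : A = ⊥ := eq_bot_of_frattini N hNab hpN hΦ hcore A hA h1
  subst hAbot
  have hs := QuotientGroup.mk'_surjective N
  have hrel : ∀ X Y : Subgroup (G ⧸ N), (X.comap (QuotientGroup.mk' N)).relIndex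
      (Y.comap (QuotientGroup.mk' N)) = X.relIndex Y := by
    intro X Y
    rw [Subgroup.relIndex_comap, map_comap_eq_self_of_surjective hs]
  refine ⟨⊥, B.comap (QuotientGroup.mk' N), C.comap (QuotientGroup.mk' N),
    D.comap (QuotientGroup.mk' N), inferInstance, hB.comap _, hC.comap _,
    hD.comap _, bot_le, comap_mono hBC, comap_mono hCD, ?_, ?_, ?_, ⟨k2, ?_⟩, ?_, ?_⟩
  · rw [Subgroup.card_bot]; exact hp.out.one_lt.ne' ∘ Nat.dvd_one.1
  · obtain ⟨k, hk⟩ := IsPGroup.iff_card.1 hpN
    refine ⟨k1 + k, ?_⟩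
    rw [relIndex_bot_left, Cfsg.Agent.Lib.Solvable.Hall.card_comap_mk N B, hk, pow_add, ← h2,
      relIndex_bot_left]
  · rw [hrel]; exact h3
  · rw [hrel, h4]
  · rw [index_comap_of_surjective D hs]; exact h5
  · intro ht
    rw [h6 ht]
    exact comap_top _

/-- The case of a `p`-nilpotent complement. -/
theorem chain_of_complement_nilp {τ : Prop} (N M : Subgroup G) [hNn : N.Normal] (hpN : IsPGroup p N)
    (hinf : N ⊓ M = ⊥) (hsup : N ⊔ M = ⊤) (K : Subgroup ↥M) (hK : K.Normal)
    (hp' : ¬ p ∣ Nat.card K) (k : ℕ) (hk : K.index = p ^ k) : Chain p τ G := by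
  classical
  let f : ↥M →* G ⧸ N := (QuotientGroup.mk' N).comp M.subtype
  have hfinj : Function.Injective f := by
    rw [injective_iff_map_eq_one]
    intro x hx
    have h1 : (x : G) ∈ N := by
      rw [← QuotientGroup.ker_mk' N, MonoidHom.mem_ker]; exact hx
    have h2 : (x : G) ∈ N ⊓ M := ⟨h1, x.2⟩
    rw [hinf, Subgroup.mem_bot] at h2
    exact Subtype.ext h2
  have hfsurj : Function.Surjective f := by
    intro y
    obtain ⟨g, rfl⟩ := QuotientGroup.mk'_surjective N y
    obtain ⟨n, hn, m, hm, rfl⟩ := exists_mul_of_sup N M hsup g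
    refine ⟨⟨m, hm⟩, ?_⟩
    show QuotientGroup.mk' N m = QuotientGroup.mk' N (n * m)
    rw [map_mul]
    have : QuotientGroup.mk' N n = 1 := by
      rw [← MonoidHom.mem_ker, QuotientGroup.ker_mk']; exact hn
    rw [this, one_mul]
  let Khat : Subgroup (G ⧸ N) := K.map f
  have hKhat : Khat.Normal := hK.map f hfsurj
  have hs := QuotientGroup.mk'_surjective N
  have hcardK : Nat.card Khat = Nat.card K :=
    Nat.card_congr (K.equivMapOfInjective f hfinj).symm.toEquiv
  have hidxK : Khat.index = K.index := by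
    have h1 := Subgroup.card_mul_index Khat
    have h2 := Subgroup.card_mul_index K
    have h3 : Nat.card (G ⧸ N) = Nat.card M :=
      (Nat.card_congr (Equiv.ofBijective f ⟨hfinj, hfsurj⟩)).symm
    rw [h3, hcardK, ← h2] at h1
    exact Nat.eq_of_mul_eq_mul_left Nat.card_pos h1
  refine ⟨⊥, N, Khat.comap (QuotientGroup.mk' N), ⊤, inferInstance, hNn, hKhat.comap _,
    inferInstance, bot_le, ?_, le_top, ?_, ?_, ?_, ?_, ?_, fun _ => rfl⟩
  · intro n hn
    show QuotientGroup.mk' N n ∈ Khat
    have : QuotientGroup.mk' N n = 1 := by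
      rw [← MonoidHom.mem_ker, QuotientGroup.ker_mk']; exact hn
    rw [this]; exact Khat.one_mem
  · rw [Subgroup.card_bot]; exact hp.out.one_lt.ne' ∘ Nat.dvd_one.1
  · obtain ⟨j, hj⟩ := IsPGroup.iff_card.1 hpN
    exact ⟨j, by rw [relIndex_bot_left, hj]⟩
  · rw [← Cfsg.Agent.Lib.Solvable.PSeries.card_map_mk', map_comap_eq_self_of_surjective hs, hcardK]
    exact hp'
  · rw [Subgroup.relIndex_top_right, index_comap_of_surjective Khat hs, hidxK, hk]
    exact ⟨k, rfl⟩
  · rw [Subgroup.index_top]; exact hp.out.one_lt.ne' ∘ Nat.dvd_one.1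

/-- The index of the centralizer of a normal subgroup of prime order `p` is prime to `p`. -/
theorem not_dvd_index_centralizer (N : Subgroup G) [hNn : N.Normal] (hcard : Nat.card N = p) :
    ¬ p ∣ (centralizer (N : Set G)).index := by
  have hcyc : IsCyclic N := by
    have : Fact (Nat.card N).Prime := ⟨by rw [hcard]; exact hp.out⟩
    exact isCyclic_of_prime_card rfl
  let ψ : G →* MulAut N := MulAut.conjNormal
  have hker : ψ.ker = centralizer (N : Set G) := by
    ext g
    rw [MonoidHom.mem_ker, Subgroup.mem_centralizer_iff]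
    constructor
    · intro h n hn
      have h1 : ψ g ⟨n, hn⟩ = ⟨n, hn⟩ := by rw [h]; rfl
      have h2 := congrArg Subtype.val h1
      have h3 : g * n * g⁻¹ = n := by simpa [ψ, MulAut.conjNormal_apply] using h2
      calc n * g = (g * n * g⁻¹) * g := by rw [h3]
        _ = g * n := by group
    · intro h
      ext n
      have h3 : (((ψ g) n : N) : G) = g * n * g⁻¹ := MulAut.conjNormal_apply g n
      rw [h3, (h n n.2).symm]
      simp
  have hd : (centralizer (N : Set G)).index ∣ Nat.card (MulAut N) := by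
    rw [← hker, Subgroup.index_ker]
    exact Subgroup.card_subgroup_dvd_card _
  rw [IsCyclic.card_mulAut, hcard, Nat.totient_prime hp.out] at hd
  intro hdvd
  have h1 := hp.out.two_le
  have h2 := Nat.le_of_dvd (by omega) (hdvd.trans hd)
  omega

/-- The case of a complement of prime index. -/
theorem chain_of_complement_prime {τ : Prop} (hτ : τ → p = 2) (N M : Subgroup G) [hNn : N.Normal]
    (hNab : N ≤ centralizer (N : Set G)) (hcard : Nat.card N = p) (hinf : N ⊓ M = ⊥) (hsup : N ⊔ M = ⊤)
    (hcore : ∀ T : Subgroup G, T.Normal → ¬ p ∣ Nat.card T → T = ⊥)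
    (h : Chain p τ (G ⧸ N)) : Chain p τ G := by
  classical
  obtain ⟨A, B, C, D, hA, hB, hC, hD, hAB, hBC, hCD, h1, ⟨k1, h2⟩, h3, ⟨k2, h4⟩, h5, h6⟩ := h
  have hs := QuotientGroup.mk'_surjective N
  have hrel : ∀ X Y : Subgroup (G ⧸ N), (X.comap (QuotientGroup.mk' N)).relIndex
      (Y.comap (QuotientGroup.mk' N)) = X.relIndex Y := by
    intro X Y
    rw [Subgroup.relIndex_comap, map_comap_eq_self_of_surjective hs]
  let Z : Subgroup G := centralizer (N : Set G)
  have hZn : Z.Normal := inferInstance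
  let A₁ : Subgroup G := A.comap (QuotientGroup.mk' N)
  let B₁ : Subgroup G := B.comap (QuotientGroup.mk' N)
  let C₁ : Subgroup G := C.comap (QuotientGroup.mk' N)
  let D₁ : Subgroup G := D.comap (QuotientGroup.mk' N)
  have hA₁n : A₁.Normal := hA.comap _
  have hB₁n : B₁.Normal := hB.comap _
  have hC₁n : C₁.Normal := hC.comap _
  have hD₁n : D₁.Normal := hD.comap _
  have hNA₁ : N ≤ A₁ := by
    intro n hn
    show QuotientGroup.mk' N n ∈ A
    have : QuotientGroup.mk' N n = 1 := by
      rw [← MonoidHom.mem_ker, QuotientGroup.ker_mk']; exact hn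
    rw [this]; exact A.one_mem
  -- the part of `A₁` inside `M` and centralizing `N` is a normal `p'`-subgroup
  let T : Subgroup G := A₁ ⊓ (M ⊓ Z)
  have hTn : T.Normal := by
    refine ⟨fun x hx g => ?_⟩
    obtain ⟨n, hn, m, hm, rfl⟩ := exists_mul_of_sup N M hsup g
    have hxA : x ∈ A₁ := hx.1
    have hxM : x ∈ M := hx.2.1
    have hxZ : x ∈ Z := hx.2.2
    have hconjZ : m * x * m⁻¹ ∈ Z := hZn.conj_mem x hxZ m
    have hcomm : n * (m * x * m⁻¹) * n⁻¹ = m * x * m⁻¹ := by
      have := (Subgroup.mem_centralizer_iff.1 hconjZ) n hn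
      rw [this]; group
    have he : (n * m) * x * (n * m)⁻¹ = m * x * m⁻¹ := by
      rw [← hcomm]; group
    rw [he]
    exact ⟨hA₁n.conj_mem x hxA m, M.mul_mem (M.mul_mem hm hxM) (M.inv_mem hm), hconjZ⟩
  have hTp : ¬ p ∣ Nat.card T := by
    have hTinf : T ⊓ N = ⊥ := by
      rw [eq_bot_iff]
      rintro x ⟨hxT, hxN⟩
      have : x ∈ N ⊓ M := ⟨hxN, hxT.2.1⟩
      rwa [hinf] at this
    have hc : Nat.card T = N.relIndex T := by
      rw [← Subgroup.inf_relIndex_right N T, inf_comm, hTinf, relIndex_bot_left]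
    have hd : N.relIndex T ∣ N.relIndex A₁ :=
      Cfsg.Agent.Lib.Solvable.PSeries.relIndex_dvd_relIndex_of_le_right N inf_le_left
    rw [← Cfsg.Agent.Lib.Solvable.PSeries.card_map_mk' N A₁,
      map_comap_eq_self_of_surjective hs] at hd
    rw [hc]
    intro hdvd
    exact h1 (hdvd.trans hd)
  have hTbot : T = ⊥ := hcore T hTn hTp
  have hAZ : A₁ ⊓ Z = N := by
    apply le_antisymm
    · rintro x ⟨hxA, hxZ⟩
      obtain ⟨n, hn, m, hm, rfl⟩ := exists_mul_of_sup N M hsup x
      have hmA : m ∈ A₁ := by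
        have : m = n⁻¹ * (n * m) := by group
        rw [this]
        exact A₁.mul_mem (A₁.inv_mem (hNA₁ hn)) hxA
      have hmZ : m ∈ Z := by
        have : m = n⁻¹ * (n * m) := by group
        rw [this]
        exact Z.mul_mem (Z.inv_mem (hNab hn)) hxZ
      have hmT : m ∈ T := ⟨hmA, hm, hmZ⟩
      rw [hTbot, Subgroup.mem_bot] at hmT
      rw [hmT, mul_one]
      exact hn
    · exact le_inf hNA₁ hNab
  have hle1 : A₁ ≤ B₁ := comap_mono hAB
  have hle2 : B₁ ≤ C₁ := comap_mono hBC
  have hle3 : C₁ ≤ D₁ := comap_mono hCD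
  refine ⟨⊥, B₁ ⊓ Z, C₁ ⊓ Z, D₁ ⊓ Z, inferInstance, inferInstance, inferInstance, inferInstance,
    bot_le, inf_le_inf_right _ hle2, inf_le_inf_right _ hle3, ?_, ?_, ?_, ?_, ?_, ?_⟩
  · rw [Subgroup.card_bot]; exact hp.out.one_lt.ne' ∘ Nat.dvd_one.1
  · -- `|B₁ ⊓ Z|` is a power of `p`
    have hd : (A₁ ⊓ Z).relIndex (B₁ ⊓ Z) ∣ p ^ k1 := by
      have := relIndex_inf_dvd A₁ B₁ Z hle1
      rwa [hrel, h2] at this
    obtain ⟨j, -, hj⟩ := (Nat.dvd_prime_pow hp.out).1 hd
    refine ⟨1 + j, ?_⟩
    have hm := Subgroup.relIndex_mul_relIndex ⊥ (A₁ ⊓ Z) (B₁ ⊓ Z) bot_le (inf_le_inf_right _ hle1)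
    rw [← hm, relIndex_bot_left, hj, hAZ, hcard, pow_add, pow_one]
  · have hd : (B₁ ⊓ Z).relIndex (C₁ ⊓ Z) ∣ B.relIndex C := by
      have := relIndex_inf_dvd B₁ C₁ Z hle2
      rwa [hrel] at this
    intro hdvd
    exact h3 (hdvd.trans hd)
  · have hd : (C₁ ⊓ Z).relIndex (D₁ ⊓ Z) ∣ p ^ k2 := by
      have := relIndex_inf_dvd C₁ D₁ Z hle3
      rwa [hrel, h4] at this
    obtain ⟨j, -, hj⟩ := (Nat.dvd_prime_pow hp.out).1 hd
    exact ⟨j, hj⟩
  · have hm := Subgroup.relIndex_mul_index (H := D₁ ⊓ Z) (K := Z) inf_le_right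
    rw [← hm, Subgroup.inf_relIndex_right]
    intro hdvd
    rcases (Nat.Prime.dvd_mul hp.out).1 hdvd with h7 | h7
    · have h8 : D₁.relIndex Z ∣ D₁.index := Subgroup.relIndex_dvd_index_of_normal D₁ Z
      rw [index_comap_of_surjective D hs] at h8
      exact h5 (h7.trans h8)
    · exact not_dvd_index_centralizer N hcard h7
  · intro ht
    have hp2 := hτ ht
    have hZtop : Z = ⊤ := by
      rw [eq_top_iff]
      intro g _
      rw [Subgroup.mem_centralizer_iff]
      intro n hn
      by_cases hn1 : n = 1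
      · simp [hn1]
      · have hc2 : Nat.card N = 2 := by rw [hcard, hp2]
        obtain ⟨a, b, hab, hall⟩ := Nat.card_eq_two_iff.1 hc2
        have hconj : g * n * g⁻¹ ∈ N := hNn.conj_mem n hn g
        have hconj1 : g * n * g⁻¹ ≠ 1 := by
          intro he
          apply hn1
          have : n = g⁻¹ * (g * n * g⁻¹) * g := by group
          rw [this, he]; group
        have heq : (⟨g * n * g⁻¹, hconj⟩ : N) = ⟨n, hn⟩ := by
          have key : ∀ x y : N, x ≠ 1 → y ≠ 1 → x = y := by
            intro x y hx hy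
            have h1' : (1 : N) ∈ ({a, b} : Set N) := by rw [hall]; trivial
            have hx' : x ∈ ({a, b} : Set N) := by rw [hall]; trivial
            have hy' : y ∈ ({a, b} : Set N) := by rw [hall]; trivial
            simp only [Set.mem_insert_iff, Set.mem_singleton_iff] at h1' hx' hy'
            rcases h1' with h1' | h1' <;> rcases hx' with hx' | hx' <;> rcases hy' with hy' | hy' <;>
              first
              | exact hx'.trans hy'.symm
              | exact absurd (hx'.trans h1'.symm) hx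
              | exact absurd (hy'.trans h1'.symm) hy
          apply key
          · intro h; exact hconj1 (congrArg Subtype.val h)
          · intro h; exact hn1 (congrArg Subtype.val h)
        have h8 : g * n * g⁻¹ = n := congrArg Subtype.val heq
        calc n * g = (g * n * g⁻¹) * g := by rw [h8]
          _ = g * n := by group
    have hDtop : D₁ = ⊤ := by
      show D.comap (QuotientGroup.mk' N) = ⊤
      rw [h6 ht]; exact comap_top _
    rw [hDtop, hZtop, inf_top_eq]

/-- **Main theorem.** -/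
theorem chain_main (τ : Prop) (hτ : τ → p = 2) : ∀ (n : ℕ) (G : Type u) [Group G] [Finite G],
    Nat.card G = n → IsPSolvable p G → Hyp p G → Chain p τ G := by
  intro n
  induction n using Nat.strong_induction_on with
  | _ n ih =>
    intro G _ _ hcard hsol hmax
    classical
    by_cases htriv : Nat.card G = 1
    · -- trivial group
      have hbot : (⊤ : Subgroup G) = ⊥ := by
        have := (Nat.card_eq_one_iff_unique.1 htriv).1
        exact Subsingleton.elim _ _
      refine ⟨⊥, ⊥, ⊥, ⊤, inferInstance, inferInstance, inferInstance, inferInstance, le_refl _,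
        le_refl _, bot_le, ?_, ⟨0, ?_⟩, ?_, ⟨0, ?_⟩, ?_, fun _ => rfl⟩
      · rw [Subgroup.card_bot]; exact hp.out.one_lt.ne' ∘ Nat.dvd_one.1
      · simp
      · simp; exact hp.out.one_lt.ne'
      · rw [hbot]; simp
      · rw [Subgroup.index_top]; exact hp.out.one_lt.ne' ∘ Nat.dvd_one.1
    have hnt : Nontrivial G := by
      apply Finite.one_lt_card_iff_nontrivial.1
      have := Nat.card_pos (α := G)
      omega
    -- quotients are smaller
    have hquot : ∀ (N : Subgroup G) [N.Normal], N ≠ ⊥ → Chain p τ (G ⧸ N) := by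
      intro N hN hN1
      apply ih (Nat.card (G ⧸ N)) _ (G ⧸ N) rfl
        (Cfsg.Agent.Lib.Solvable.PSeries.isPSolvable_quotient hsol N) (hyp_quotient N hmax)
      rw [← hcard]
      have h1 := Subgroup.card_mul_index N
      have h2 : N.index = Nat.card (G ⧸ N) := rfl
      have h3 : 1 < Nat.card N := by
        have : Nontrivial N := (Subgroup.nontrivial_iff_ne_bot N).2 hN1
        exact Finite.one_lt_card
      rw [← h2, ← h1]
      have h4 : 0 < N.index := Nat.pos_of_ne_zero Subgroup.index_ne_zero_of_finite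
      nlinarith
    by_cases hcore : ∀ T : Subgroup G, T.Normal → ¬ p ∣ Nat.card T → T = ⊥
    · -- no nontrivial normal `p'`-subgroup
      have hne : pCore p G ≠ ⊥ := by
        rcases Cfsg.Agent.Lib.Solvable.PSeries.isPSolvable_core_ne_bot hsol with h | h
        · exact h
        · exfalso
          apply h
          apply hcore _ inferInstance
          have := Cfsg.Agent.Lib.Solvable.PSeries.pPrimeCore_coprime (G := G) p
          intro hd
          have h2 := Nat.Coprime.eq_one_of_dvd this.symm hd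
          exact hp.out.one_lt.ne' h2
      obtain ⟨N, hNn, hN1, hpN, hmin⟩ := exists_minimal_normal_p hne
      haveI := hNn
      have hNab := le_centralizer_of_minimal hNn hN1 hpN hmin
      have hQ := hquot N hN1
      by_cases hΦ : ∀ M : Subgroup G, IsCoatom M → N ≤ M
      · exact chain_of_frattini N hNab hpN hΦ hcore hQ
      · push Not at hΦ
        obtain ⟨M, hM, hNM⟩ := hΦ
        have hsup : N ⊔ M = ⊤ := by
          rw [sup_comm]
          exact hM.2 _ (lt_of_le_of_ne le_sup_left (fun h => hNM (h ▸ le_sup_right)))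
        have hinf : N ⊓ M = ⊥ := by
          by_contra hne'
          have hY : (N ⊓ M).Normal := by
            refine ⟨fun x hx g => ?_⟩
            obtain ⟨n, hn, m, hm, rfl⟩ := exists_mul_of_sup N M hsup g
            have hxN : x ∈ N := hx.1
            have hxM : x ∈ M := hx.2
            have hcN : m * x * m⁻¹ ∈ N := hNn.conj_mem x hxN m
            have hcomm : n * (m * x * m⁻¹) * n⁻¹ = m * x * m⁻¹ := by
              have := (Subgroup.mem_centralizer_iff.1 (hNab hcN)) n hn
              rw [this]; group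
            have he : (n * m) * x * (n * m)⁻¹ = m * x * m⁻¹ := by
              rw [← hcomm]; group
            rw [he]
            exact ⟨hcN, M.mul_mem (M.mul_mem hm hxM) (M.inv_mem hm)⟩
          have := hmin _ hY hne' inf_le_left
          exact hNM (inf_eq_left.1 this)
        rcases hmax M hM with ⟨K, hK, hp', k, hk⟩ | hprime
        · exact chain_of_complement_nilp N M hpN hinf hsup K hK hp' k hk
        · -- `|N| = p`
          have hidx : M.index = Nat.card N := by
            have h1 := Cfsg.Agent.Lib.Solvable.Hall.card_sup_mul_card_inf M N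
            rw [sup_comm, hsup, inf_comm, hinf, Subgroup.card_bot, mul_one,
              Subgroup.card_top] at h1
            have h2 := Subgroup.card_mul_index M
            rw [← h2, mul_comm] at h1
            exact Nat.eq_of_mul_eq_mul_right Nat.card_pos (by rw [h1, mul_comm])
          obtain ⟨j, hj⟩ := IsPGroup.iff_card.1 hpN
          have hNcard : Nat.card N = p := by
            rw [hidx, hj] at hprime
            have hj1 : j = 1 := by
              by_contra hne1
              rcases Nat.lt_or_ge j 2 with hlt | hge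
              · have : j = 0 := by omega
                rw [this, pow_zero] at hprime
                exact Nat.not_prime_one hprime
              · exact Nat.Prime.not_prime_pow hge hprime
            rw [hj, hj1, pow_one]
          exact chain_of_complement_prime hτ N M hNab hNcard hinf hsup hcore hQ
    · push Not at hcore
      obtain ⟨T, hT, hTp, hT1⟩ := hcore
      haveI := hT
      exact chain_of_quotient_p' T hTp (hquot T hT1)

end Cfsg.Agent.Lib.Perm.PLenMax
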