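import Mathlib

/-!
# Functions on `ZMod p` with few directions are affine

If `f : ZMod p → ZMod p` has at most `p / 2` directions `(f x - f y) / (x - y)`, then `f` is affine
(a weak form of the Rédei--Megyesi theorem, via power sums).
-/

namespace Cfsg.Agent.Lib.Perm.Redei

open Polynomial Finset

variable {p : ℕ} [hp : Fact p.Prime]

theorem sum_pow_zero {k : ℕ} (hk : k + 1 < p) : ∑ x : ZMod p, x ^ k = 0 := by
  apply FiniteField.sum_pow_lt_card_sub_one
  rw [ZMod.card]
  omega

theorem sum_pow_top : ∑ x : ZMod p, x ^ (p - 1) = -1 := by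
  have hp1 : p - 1 ≠ 0 := by
    have := hp.out.two_le
    omega
  have h1 : ∀ x : ZMod p, x ^ (p - 1) = if x = 0 then 0 else 1 := by
    intro x
    split_ifs with h
    · rw [h, zero_pow hp1]
    · exact ZMod.pow_card_sub_one_eq_one h
  simp only [h1]
  rw [Finset.sum_ite]
  simp only [Finset.sum_const_zero, zero_add, Finset.sum_const, nsmul_eq_mul, mul_one]
  have : (Finset.univ.filter fun x : ZMod p => ¬ x = 0) = Finset.univ.erase 0 := by
    ext x; simp
  rw [this, Finset.card_erase_of_mem (Finset.mem_univ _), Finset.card_univ, ZMod.card]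
  have h2 : 1 ≤ p := hp.out.one_lt.le
  rw [Nat.cast_sub h2, CharP.cast_eq_zero (ZMod p) p]
  simp

/-- The moment of a polynomial of degree `e ≤ p - 1` against `x ^ (p - 1 - e)`. -/
theorem sum_eval_mul_pow (g : (ZMod p)[X]) (hdeg : g.natDegree ≤ p - 1) :
    ∑ x : ZMod p, g.eval x * x ^ (p - 1 - g.natDegree) = -g.leadingCoeff := by
  have h1 : ∀ x : ZMod p, g.eval x * x ^ (p - 1 - g.natDegree) =
      ∑ i ∈ Finset.range (g.natDegree + 1), g.coeff i * x ^ (i + (p - 1 - g.natDegree)) := by
    intro x
    rw [Polynomial.eval_eq_sum_range, Finset.sum_mul]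
    refine Finset.sum_congr rfl fun i _ => ?_
    rw [pow_add, mul_assoc]
  simp only [h1]
  rw [Finset.sum_comm]
  simp only [← Finset.mul_sum]
  rw [Finset.sum_range_succ, Finset.sum_eq_zero, zero_add]
  · have : g.natDegree + (p - 1 - g.natDegree) = p - 1 := by omega
    rw [this, sum_pow_top, mul_neg, mul_one, Polynomial.leadingCoeff]
  · intro i hi
    rw [Finset.mem_range] at hi
    rw [sum_pow_zero (by have := hp.out.two_le; omega), mul_zero]

/-- The power-sum vanishing: few directions force mixed moments to vanish. -/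
theorem moments (f : ZMod p → ZMod p) (D : Finset (ZMod p))
    (hD : ∀ y, y ∉ D → Function.Injective fun x => f x - y * x) {k : ℕ} (hk1 : 1 ≤ k)
    (hk2 : k + 1 < p) (hk3 : k + D.card ≤ p) {l : ℕ} (hl : l < k) :
    ∑ x : ZMod p, f x ^ (k - l) * x ^ l = 0 := by
  classical
  let M : ℕ → ZMod p := fun i => ∑ x : ZMod p, f x ^ (k - i) * x ^ i
  let c : ℕ → ZMod p := fun i => (k.choose i : ZMod p) * (-1) ^ i * M i
  let Q : (ZMod p)[X] := ∑ i ∈ Finset.range k, Polynomial.C (c i) * X ^ i
  have hQc : ∀ n, Q.coeff n = if n < k then c n else 0 := by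
    intro n
    simp only [Q, Polynomial.finsetSum_coeff, Polynomial.coeff_C_mul_X_pow]
    rw [Finset.sum_ite_eq]
    simp
  have hQe : ∀ y, Q.eval y = ∑ x : ZMod p, (f x - y * x) ^ k := by
    intro y
    have h1 : ∀ x : ZMod p, (f x - y * x) ^ k =
        ∑ i ∈ Finset.range (k + 1), f x ^ (k - i) * x ^ i * ((k.choose i : ZMod p) * (-1) ^ i * y ^ i) := by
      intro x
      rw [sub_eq_add_neg, add_comm, add_pow]
      refine Finset.sum_congr rfl fun i hi => ?_
      rw [neg_pow, mul_pow]
      ring
    simp only [h1]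
    rw [Finset.sum_comm]
    simp only [← Finset.sum_mul]
    rw [Finset.sum_range_succ]
    have h2 : (∑ x : ZMod p, f x ^ (k - k) * x ^ k) = 0 := by
      simp only [Nat.sub_self, pow_zero, one_mul]
      exact sum_pow_zero hk2
    rw [h2, zero_mul, add_zero]
    simp only [Q, Polynomial.eval_finsetSum, Polynomial.eval_mul, Polynomial.eval_C,
      Polynomial.eval_pow, Polynomial.eval_X, c, M]
    refine Finset.sum_congr rfl fun i _ => ?_
    ring
  have hQ0 : ∀ y, y ∉ D → Q.eval y = 0 := by
    intro y hy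
    rw [hQe]
    have hbij : Function.Bijective fun x => f x - y * x :=
      Finite.injective_iff_bijective.mp (hD y hy)
    have := Function.Bijective.sum_comp hbij (fun z : ZMod p => z ^ k)
    rw [this]
    exact sum_pow_zero hk2
  have hdeg : Q.degree < ((Finset.univ \ D).card : ℕ) := by
    rw [Polynomial.degree_lt_iff_coeff_zero]
    intro n hn
    rw [hQc, if_neg]
    rw [Finset.card_sdiff_of_subset (Finset.subset_univ _), Finset.card_univ, ZMod.card] at hn
    omega
  have hQz : Q = 0 := Polynomial.eq_zero_of_degree_lt_of_eval_finset_eq_zero _ hdeg (fun y hy =>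
    hQ0 y (by simpa using hy))
  have hcl : c l = 0 := by
    have := hQc l
    rw [hQz, if_pos hl] at this
    simpa using this.symm
  have hch : (k.choose l : ZMod p) ≠ 0 := by
    intro h
    rw [ZMod.natCast_eq_zero_iff] at h
    have h3 : p ∣ k.factorial := by
      rw [← Nat.choose_mul_factorial_mul_factorial hl.le]
      exact Dvd.dvd.mul_right (Dvd.dvd.mul_right h _) _
    have := (Nat.Prime.dvd_factorial hp.out).mp h3
    omega
  have hsign : ((-1 : ZMod p) ^ l) ≠ 0 := pow_ne_zero _ (by simp)
  exact (mul_eq_zero.mp hcl).resolve_left (mul_ne_zero hch hsign)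

/-- A function on `ZMod p` (`p ≥ 3`) with at most `p / 2` directions is affine. -/
theorem exists_affine (f : ZMod p → ZMod p) (D : Finset (ZMod p))
    (hD : ∀ y, y ∉ D → Function.Injective fun x => f x - y * x) (hcard : 2 * D.card ≤ p)
    (hp3 : 3 ≤ p) : ∃ a b : ZMod p, ∀ x, f x = a * x + b := by
  classical
  let g : (ZMod p)[X] := Lagrange.interpolate Finset.univ id f
  have hge : ∀ x, g.eval x = f x := fun x =>
    Lagrange.eval_interpolate_at_node f (v := id) (s := Finset.univ)
      (Function.injective_id.injOn) (Finset.mem_univ x)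
  have hgdeg : g.degree < (Finset.univ : Finset (ZMod p)).card :=
    Lagrange.degree_interpolate_lt f (v := id) (s := Finset.univ) (Function.injective_id.injOn)
  rw [Finset.card_univ, ZMod.card] at hgdeg
  by_cases hg0 : g = 0
  · refine ⟨0, 0, fun x => ?_⟩
    rw [← hge, hg0]
    simp
  have hnd : g.natDegree < p := by
    rw [Polynomial.degree_eq_natDegree hg0] at hgdeg
    exact_mod_cast hgdeg
  by_cases hd : g.natDegree ≤ 1
  · have := Polynomial.eq_X_add_C_of_natDegree_le_one hd
    refine ⟨g.coeff 1, g.coeff 0, fun x => ?_⟩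
    rw [← hge, this]
    simp
  exfalso
  push Not at hd
  set d := g.natDegree with hd_def
  have hpos : 0 < d := by omega
  let j := (p - 1) / d
  let s := (p - 1) % d
  have hjs : d * j + s = p - 1 := Nat.div_add_mod _ _
  have hs : s < d := Nat.mod_lt _ hpos
  have hj1 : 1 ≤ j := (Nat.one_le_div_iff hpos).mpr (by omega)
  have hineq : 2 * (j + s) ≤ p := by
    obtain ⟨j', hj'⟩ : ∃ j', j = j' + 1 := ⟨j - 1, by omega⟩
    obtain ⟨d', hd'⟩ : ∃ d', d = d' + 2 := ⟨d - 2, by omega⟩
    rw [hj', hd'] at hjs
    rw [hd'] at hs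
    rw [hj']
    have hp' : (d' + 2) * (j' + 1) + s + 1 = p := by
      rw [hjs]
      omega
    nlinarith [Nat.zero_le (d' * j')]
  have hg1 : (g ^ j).natDegree = j * d := Polynomial.natDegree_pow g j
  have hgne : (g ^ j) ≠ 0 := pow_ne_zero _ hg0
  have hmom := sum_eval_mul_pow (g ^ j) (by rw [hg1]; nlinarith)
  have hexp : p - 1 - (g ^ j).natDegree = s := by
    rw [hg1, mul_comm]
    omega
  rw [hexp] at hmom
  have hevl : ∀ x : ZMod p, (g ^ j).eval x * x ^ s = f x ^ j * x ^ s := by
    intro x
    rw [Polynomial.eval_pow, hge]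
  simp only [hevl] at hmom
  have hk := moments f D hD (k := j + s) (l := s) (by omega) (by omega) (by omega) (by omega)
  rw [Nat.add_sub_cancel] at hk
  rw [hk] at hmom
  have hlc : (g ^ j).leadingCoeff ≠ 0 := Polynomial.leadingCoeff_ne_zero.mpr hgne
  apply hlc
  simpa using hmom.symm

end Cfsg.Agent.Lib.Perm.Redei
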