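import Mathlib

/-!
# Kernel-checkable finite computations with permutation tables

A permutation of `Fin n` (`n ≤ 16`) is encoded by a natural number, its table in base 16.
All operations use only the arithmetic which the kernel evaluates with big numbers.
The enumerators `permGo` and `invGo` need no completeness argument: their soundness theorems say
that every permutation of the right shape is reached.
-/

set_option autoImplicit false

namespace Cfsg.Agent.Lib.Perm.TableCheck

open Equiv Equiv.Perm

/-- Digit `i` of `s` in base 16. -/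
def dig (s i : ℕ) : ℕ := Nat.mod (Nat.div s (Nat.pow 16 i)) 16

/-- The number with the digits `f 0, ..., f (k - 1)`. -/
def encF (f : ℕ → ℕ) : ℕ → ℕ
  | 0 => 0
  | k + 1 => Nat.add (encF f k) (Nat.mul (f k) (Nat.pow 16 k))

/-- Composition of encoded tables. -/
def mulL (s t : ℕ) : ℕ → ℕ
  | 0 => 0
  | k + 1 => Nat.add (mulL s t k) (Nat.mul (dig s (dig t k)) (Nat.pow 16 k))

/-- The power `s ^ (k + 1)`. -/
def powS (n s : ℕ) : ℕ → ℕ
  | 0 => s
  | k + 1 => mulL s (powS n s k) n

/-- The power `s ^ k`. -/
def powZ (n s : ℕ) : ℕ → ℕ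
  | 0 => encF (fun i => i) n
  | k + 1 => mulL s (powZ n s k) n

/-- Number of `i < k` moved by `s`. -/
def suppE (s : ℕ) : ℕ → ℕ
  | 0 => 0
  | k + 1 => Nat.add (suppE s k) (cond (Nat.beq (dig s k) k) 0 1)

/-- Evaluate a nonempty word: `z Rs(i₁) z Rs(i₂) ⋯ z Rs(i_r)`. -/
def evalW (n z : ℕ) (Rs : ℕ → ℕ) : List ℕ → ℕ
  | [] => z
  | [i] => mulL z (Rs i) n
  | i :: j :: w => mulL (mulL z (Rs i) n) (evalW n z Rs (j :: w)) n

/-- The `(k+1)`-st power of the word `w` has exactly three moved points. -/
def verify (n z : ℕ) (Rs : ℕ → ℕ) (w : List ℕ) (k : ℕ) : Bool :=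
  Nat.beq (suppE (powS n (evalW n z Rs w) k) n) 3

/-- Enumerate all tables of permutations, positions `i, i+1, ...`. -/
def permGo (check : ℕ → Bool) : ℕ → ℕ → List ℕ → ℕ → Bool
  | 0, _, _, acc => check acc
  | k + 1, i, avail, acc =>
    avail.all fun a => permGo check k (Nat.add i 1) (avail.erase a)
      (Nat.add acc (Nat.mul a (Nat.pow 16 i)))

/-- Position of `a` in the list (only used to index certificates). -/
def posIn : List ℕ → ℕ → ℕ
  | [], _ => 0
  | b :: l, a => cond (Nat.beq b a) 0 (Nat.succ (posIn l a))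

/-- Enumerate all fixed-point-free involutions of the list `avail`;
`idx` numbers the leaves, for looking up certificates. -/
def invGo (check : ℕ → ℕ → Bool) : ℕ → List ℕ → ℕ → ℕ → Bool
  | _, [], acc, idx => check idx acc
  | 0, _ :: _, _, _ => false
  | k + 1, i :: rest, acc, idx =>
    rest.all fun a => invGo check k (rest.erase a)
      (Nat.add (Nat.add acc (Nat.mul a (Nat.pow 16 i))) (Nat.mul i (Nat.pow 16 a)))
      (Nat.add (Nat.mul idx rest.length) (posIn rest a))

theorem dig_eq (s i : ℕ) : dig s i = s / 16 ^ i % 16 := rfl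

theorem encF_succ (f : ℕ → ℕ) (k : ℕ) : encF f (k + 1) = encF f k + f k * 16 ^ k := rfl

theorem mulL_succ (s t k : ℕ) : mulL s t (k + 1) = mulL s t k + dig s (dig t k) * 16 ^ k := rfl

theorem encF_succ_eq_sum (f : ℕ → ℕ) (k : ℕ) :
    encF f (k + 1) = f 0 * 16 ^ 0 + ((List.range' 1 k).map fun j => f j * 16 ^ j).sum := by
  induction k with
  | zero => simp [encF]
  | succ k ih =>
    rw [encF_succ, ih, List.range'_concat, List.map_append, List.sum_append]
    simp only [List.map_cons, List.map_nil, List.sum_cons, List.sum_nil, add_zero]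
    rw [show 1 + 1 * k = k + 1 by omega]
    ring

theorem encF_lt (f : ℕ → ℕ) (k : ℕ) (h : ∀ j < k, f j < 16) : encF f k < 16 ^ k := by
  induction k with
  | zero => simp [encF]
  | succ k ih =>
    rw [encF_succ, pow_succ]
    have h1 := ih (fun j hj => h j (by omega))
    have h2 := h k (by omega)
    have h3 : (f k + 1) * 16 ^ k ≤ 16 * 16 ^ k := Nat.mul_le_mul_right _ (by omega)
    nlinarith

theorem dig_encF (f : ℕ → ℕ) (k : ℕ) (h : ∀ j < k, f j < 16) (i : ℕ) (hi : i < k) :
    dig (encF f k) i = f i := by
  induction k with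
  | zero => omega
  | succ k ih =>
    rw [dig_eq, encF_succ]
    rcases Nat.lt_succ_iff_lt_or_eq.mp hi with hi' | rfl
    · have h1 := ih (fun j hj => h j (by omega)) hi'
      rw [dig_eq] at h1
      obtain ⟨m, rfl⟩ : ∃ m, k = i + 1 + m := ⟨k - (i + 1), by omega⟩
      have e : encF f (i + 1 + m) + f (i + 1 + m) * 16 ^ (i + 1 + m) =
          encF f (i + 1 + m) + 16 ^ i * (16 * (f (i + 1 + m) * 16 ^ m)) := by ring
      rw [e, Nat.add_mul_div_left _ _ (by positivity), Nat.add_mul_mod_self_left, h1]
    · have h1 := encF_lt f i (fun j hj => h j (by omega))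
      have e : encF f i + f i * 16 ^ i = encF f i + 16 ^ i * f i := by ring
      rw [e, Nat.add_mul_div_left _ _ (by positivity), Nat.div_eq_of_lt h1, zero_add]
      exact Nat.mod_eq_of_lt (h i (by omega))

variable {n : ℕ}

/-- The values of a permutation, as a function on `ℕ`. -/
def gf (g : Perm (Fin n)) (i : ℕ) : ℕ := if h : i < n then (g ⟨i, h⟩ : ℕ) else 0

/-- The encoded table of a permutation. -/
def enc (g : Perm (Fin n)) : ℕ := encF (gf g) n

theorem gf_lt (hn : 0 < n) (g : Perm (Fin n)) (i : ℕ) : gf g i < n := by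
  unfold gf; split_ifs
  · exact Fin.is_lt _
  · exact hn

theorem gf_val (g : Perm (Fin n)) (i : Fin n) : gf g i = (g i : ℕ) := by
  simp [gf]

theorem gf_lt' (hn : n ≤ 16) (g : Perm (Fin n)) (i : ℕ) (hi : i < n) : gf g i < 16 :=
  (gf_lt (by omega) g i).trans_le hn

theorem dig_enc (hn : n ≤ 16) (g : Perm (Fin n)) (i : ℕ) (hi : i < n) :
    dig (enc g) i = gf g i :=
  dig_encF _ _ (fun j hj => gf_lt' hn g j hj) i hi

theorem mulL_enc (hn : n ≤ 16) (g h : Perm (Fin n)) (k : ℕ) (hk : k ≤ n) :
    mulL (enc g) (enc h) k = encF (gf (g * h)) k := by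
  induction k with
  | zero => rfl
  | succ k ih =>
    rw [mulL_succ, encF_succ, ih (by omega), dig_enc hn h k (by omega),
      dig_enc hn g _ (gf_lt (by omega) h k)]
    congr 2
    have hk' : k < n := by omega
    simp [gf, hk', Perm.mul_apply]

theorem enc_mul (hn : n ≤ 16) (g h : Perm (Fin n)) :
    enc (g * h) = mulL (enc g) (enc h) n :=
  (mulL_enc hn g h n le_rfl).symm

theorem enc_one : enc (1 : Perm (Fin n)) = encF (fun i => i) n := by
  unfold enc
  have : ∀ k, k ≤ n → encF (gf (1 : Perm (Fin n))) k = encF (fun i => i) k := by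
    intro k hk
    induction k with
    | zero => rfl
    | succ k ih =>
      rw [encF_succ, encF_succ, ih (by omega)]
      congr 2
      have hk' : k < n := by omega
      simp [gf, hk']
  exact this n le_rfl

theorem enc_powS (hn : n ≤ 16) (g : Perm (Fin n)) (k : ℕ) :
    enc (g ^ (k + 1)) = powS n (enc g) k := by
  induction k with
  | zero => simp [powS]
  | succ k ih => rw [pow_succ', enc_mul hn, ih, powS]

theorem enc_powZ (hn : n ≤ 16) (g : Perm (Fin n)) (k : ℕ) :
    enc (g ^ k) = powZ n (enc g) k := by
  induction k with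
  | zero => simp [powZ, enc_one]
  | succ k ih => rw [pow_succ', enc_mul hn, ih, powZ]

theorem enc_injective (hn : n ≤ 16) : Function.Injective (enc : Perm (Fin n) → ℕ) := by
  intro g h e
  ext i
  have h1 := dig_enc hn g i i.2
  have h2 := dig_enc hn h i i.2
  rw [e, h2] at h1
  rw [← gf_val, ← gf_val, h1]

theorem suppE_eq (s k : ℕ) :
    suppE s k = ∑ i ∈ Finset.range k, if dig s i = i then 0 else 1 := by
  induction k with
  | zero => simp [suppE]
  | succ k ih =>
    rw [Finset.sum_range_succ, ← ih]
    change suppE s k + cond (Nat.beq (dig s k) k) 0 1 = _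
    by_cases h : dig s k = k
    · simp [h]
    · have : Nat.beq (dig s k) k = false := by
        cases e : Nat.beq (dig s k) k
        · rfl
        · exact absurd (Nat.eq_of_beq_eq_true e) h
      simp [h, this]

theorem suppE_enc (hn : n ≤ 16) (g : Perm (Fin n)) : suppE (enc g) n = g.support.card := by
  rw [suppE_eq, Finset.card_eq_sum_ones, Finset.sum_congr rfl (fun i hi => ?_ :
    ∀ i ∈ Finset.range n, (if dig (enc g) i = i then 0 else 1) =
      if gf g i = i then 0 else 1)]
  · rw [← Fin.sum_univ_eq_sum_range (fun i => if gf g i = i then 0 else 1) n]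
    rw [Equiv.Perm.support, Finset.sum_filter]
    refine Finset.sum_congr rfl fun i _ => ?_
    rw [gf_val]
    by_cases h : g i = i
    · simp [h]
    · have : ((g i : Fin n) : ℕ) ≠ i := fun e => h (Fin.ext e)
      simp [h, this]
  · rw [dig_enc hn g i (Finset.mem_range.mp hi)]

/-- A word in members of `G` is the table of a member of `G`. -/
theorem evalW_mem (hn : n ≤ 16) (G : Subgroup (Perm (Fin n))) {g : Perm (Fin n)} (hg : g ∈ G)
    {Rs : ℕ → ℕ} (hRs : ∀ i, ∃ h ∈ G, enc h = Rs i) (w : List ℕ) :
    ∃ h ∈ G, enc h = evalW n (enc g) Rs w := by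
  induction w with
  | nil => exact ⟨g, hg, rfl⟩
  | cons i w ih =>
    obtain ⟨a, ha, ea⟩ := hRs i
    cases w with
    | nil => exact ⟨g * a, G.mul_mem hg ha, by rw [enc_mul hn, ea, evalW]⟩
    | cons j w =>
      obtain ⟨b, hb, eb⟩ := ih
      exact ⟨g * a * b, G.mul_mem (G.mul_mem hg ha) hb, by
        rw [enc_mul hn, enc_mul hn, ea, eb, evalW]⟩

/-- Soundness of `verify`. -/
theorem verify_sound (hn : n ≤ 16) (G : Subgroup (Perm (Fin n))) {g : Perm (Fin n)} (hg : g ∈ G)
    {Rs : ℕ → ℕ} (hRs : ∀ i, ∃ h ∈ G, enc h = Rs i) {w : List ℕ} {k : ℕ}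
    (h : verify n (enc g) Rs w k = true) : ∃ t ∈ G, t.IsThreeCycle := by
  obtain ⟨u, hu, eu⟩ := evalW_mem hn G hg hRs w
  refine ⟨u ^ (k + 1), G.pow_mem hu _, ?_⟩
  unfold verify at h
  rw [← eu, ← enc_powS hn, suppE_enc hn] at h
  exact card_support_eq_three_iff.mp (Nat.eq_of_beq_eq_true h)

/-- Cutting a literal table of powers. -/
def RsOf (N w RT i : ℕ) : ℕ :=
  Nat.mod (Nat.div RT (Nat.pow 2 (Nat.mul w (Nat.mod i N)))) (Nat.pow 2 w)

theorem RsOf_mem (G : Subgroup (Perm (Fin n))) (hn : n ≤ 16) {R : Perm (Fin n)} (hR : R ∈ G)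
    {N w RT : ℕ} (hN : 0 < N)
    (h : ∀ i, i < N → RsOf N w RT i = powZ n (enc R) i) (i : ℕ) :
    ∃ h ∈ G, enc h = RsOf N w RT i := by
  refine ⟨R ^ (i % N), G.pow_mem hR _, ?_⟩
  rw [enc_powZ hn, ← h _ (Nat.mod_lt _ hN)]
  unfold RsOf
  rw [show Nat.mod (i % N) N = Nat.mod i N from Nat.mod_mod _ _]

/-- Soundness of `permGo`. -/
theorem permGo_sound (check : ℕ → Bool) (f : ℕ → ℕ) (k i : ℕ) (avail : List ℕ)
    (hnd : avail.Nodup) (hinj : ∀ a b, i ≤ a → a < i + k → i ≤ b → b < i + k → f a = f b → a = b)
    (hv : ∀ j, i ≤ j → j < i + k → f j ∈ avail)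
    (h : permGo check k i avail (encF f i) = true) : check (encF f (i + k)) = true := by
  induction k generalizing i avail with
  | zero => simpa [permGo] using h
  | succ k ih =>
    rw [permGo, List.all_eq_true] at h
    have h1 := h (f i) (hv i le_rfl (by omega))
    have := ih (i + 1) (avail.erase (f i)) (hnd.erase _)
      (fun a b h1 h2 h3 h4 => hinj a b (by omega) (by omega) (by omega) (by omega))
      (fun j h2 h3 => by
        rw [List.Nodup.mem_erase_iff hnd]
        refine ⟨fun e => ?_, hv j (by omega) (by omega)⟩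
        have := hinj j i (by omega) (by omega) le_rfl (by omega) e
        omega) h1
    rwa [show i + 1 + k = i + (k + 1) by omega] at this

/-- Soundness of `permGo` for permutations. -/
theorem permGo_perm (hn : n ≤ 16) (check : ℕ → Bool)
    (h : permGo check n 0 (List.range n) 0 = true) (g : Perm (Fin n)) :
    check (enc g) = true := by
  have := permGo_sound check (gf g) n 0 (List.range n) List.nodup_range
    (fun a b _ ha _ hb e => by
      have ha' : a < n := by omega
      have hb' : b < n := by omega
      simp only [gf, ha', hb', dite_true] at e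
      have := g.injective (Fin.ext e)
      simpa using this)
    (fun j _ hj => List.mem_range.mpr (gf_lt (by omega) g j)) h
  simpa [enc] using this

/-- Soundness of `invGo`. -/
theorem invGo_sound (check : ℕ → ℕ → Bool) (f : ℕ → ℕ) (k : ℕ) (avail : List ℕ)
    (acc target idx : ℕ)
    (hk : avail.length ≤ 2 * k) (hnd : avail.Nodup) (hv : ∀ j ∈ avail, f j ∈ avail)
    (hfp : ∀ j ∈ avail, f j ≠ j) (hff : ∀ j ∈ avail, f (f j) = j)
    (hacc : acc + (avail.map fun j => f j * 16 ^ j).sum = target)
    (h : invGo check k avail acc idx = true) : ∃ idx', check idx' target = true := by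
  induction k generalizing avail acc idx with
  | zero =>
    have : avail = [] := List.length_eq_zero_iff.mp (by omega)
    subst this
    simp only [List.map_nil, List.sum_nil, add_zero] at hacc
    subst hacc
    exact ⟨idx, by simpa [invGo] using h⟩
  | succ k ih =>
    cases avail with
    | nil =>
      simp only [List.map_nil, List.sum_nil, add_zero] at hacc
      subst hacc
      exact ⟨idx, by simpa [invGo] using h⟩
    | cons i rest =>
      rw [invGo, List.all_eq_true] at h
      have hi : i ∈ i :: rest := List.mem_cons_self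
      have hnd' := List.nodup_cons.mp hnd
      have hfi : f i ∈ rest := by
        rcases List.mem_cons.mp (hv i hi) with e | e
        · exact absurd e (hfp i hi)
        · exact e
      have h1 := h (f i) hfi
      have hfi' : f i ∈ i :: rest := List.mem_cons_of_mem _ hfi
      have hmem : ∀ j, j ∈ rest.erase (f i) → j ∈ rest ∧ j ≠ f i := by
        intro j hj
        rw [List.Nodup.mem_erase_iff hnd'.2] at hj
        exact ⟨hj.2, hj.1⟩
      refine ih (rest.erase (f i)) _ _ ?_ (hnd'.2.erase _) ?_ ?_ ?_ ?_ h1
      · rw [List.length_erase_of_mem hfi]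
        simp only [List.length_cons] at hk
        omega
      · intro j hj
        obtain ⟨hj1, hj2⟩ := hmem j hj
        have hj' : j ∈ i :: rest := List.mem_cons_of_mem _ hj1
        rw [List.Nodup.mem_erase_iff hnd'.2]
        refine ⟨fun e => ?_, ?_⟩
        · have := congrArg f e
          rw [hff j hj', hff i hi] at this
          exact hnd'.1 (this ▸ hj1)
        · rcases List.mem_cons.mp (hv j hj') with e | e
          · exfalso
            have := congrArg f e
            rw [hff j hj'] at this
            exact hj2 this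
          · exact e
      · intro j hj
        exact hfp j (List.mem_cons_of_mem _ (hmem j hj).1)
      · intro j hj
        exact hff j (List.mem_cons_of_mem _ (hmem j hj).1)
      · rw [← hacc]
        have e1 : (rest.map fun j => f j * 16 ^ j).sum =
            f (f i) * 16 ^ (f i) + ((rest.erase (f i)).map fun j => f j * 16 ^ j).sum := by
          exact (List.sum_map_erase _ hfi).symm
        rw [List.map_cons, List.sum_cons, e1, hff i hi]
        change acc + f i * 16 ^ i + i * 16 ^ f i + _ = _
        ring

end Cfsg.Agent.Lib.Perm.TableCheck
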