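import Mathlib
import Cfsg.Agent.Lib.PGroup.Timmesfeld
import Cfsg.Agent.Lib.Coprime.Coset

/-!
# Abelian subgroups of maximal order in a `p`-group and abelian normal subgroups

Thompson's replacement style lemmas: if `A` is an abelian subgroup of maximal order in `S` and `E` an abelian
subgroup of `S` normalized by `A`, there is a subgroup `A ⊓ E ≤ X ≤ E` such that `C_A(X) X` again has maximal order
and `[A, E] ≤ X`, `[C_A(X), E] ≤ A ⊓ E`.
-/

set_option autoImplicit false
set_option linter.style.haveILetI false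
set_option linter.unusedVariables false
set_option linter.unusedSectionVars false

namespace Cfsg.Agent.Lib.Perm.ThompsonJ

open Subgroup Cfsg.Agent.Lib.PGroup.Timmesfeld Cfsg.Agent.Lib.Coprime.Coset
open scoped commutatorElement

variable {G : Type*} [Group G]

/-- `X` is commutative (as a property of the elements of the ambient group). -/
def Cm (X : Subgroup G) : Prop := ∀ a ∈ X, ∀ b ∈ X, a * b = b * a

/-- `X` and `Y` commute elementwise. -/
def CmW (X Y : Subgroup G) : Prop := ∀ a ∈ X, ∀ b ∈ Y, a * b = b * a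

/-- `A` is an abelian subgroup of `S` of the largest order. -/
def IsMaxAb (S A : Subgroup G) : Prop :=
  A ≤ S ∧ Cm A ∧ ∀ B : Subgroup G, B ≤ S → Cm B → Nat.card B ≤ Nat.card A

theorem Cm.sup {C Y : Subgroup G} (hC : Cm C) (hY : Cm Y) (h : CmW C Y) : Cm (C ⊔ Y) := by
  have h1 : C ⊔ Y ≤ centralizer (((C : Set G) ∪ (Y : Set G))) := by
    refine sup_le ?_ ?_
    · intro c hc
      rw [mem_centralizer_iff]
      rintro z (hz | hz)
      · exact hC z hz c hc
      · exact (h c hc z hz).symm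
    · intro y hy
      rw [mem_centralizer_iff]
      rintro z (hz | hz)
      · exact h z hz y hy
      · exact hY z hz y hy
  intro a ha b hb
  have h2 : C ⊔ Y ≤ centralizer ({a} : Set G) := by
    refine sup_le ?_ ?_
    · intro c hc
      rw [mem_centralizer_iff]
      rintro z rfl
      exact ((mem_centralizer_iff.1 (h1 ha)) c (Or.inl hc)).symm
    · intro y hy
      rw [mem_centralizer_iff]
      rintro z rfl
      exact ((mem_centralizer_iff.1 (h1 ha)) y (Or.inr hy)).symm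
  exact (mem_centralizer_iff.1 (h2 hb)) a rfl

theorem Cm.mono {C Y : Subgroup G} (hC : Cm C) (h : Y ≤ C) : Cm Y :=
  fun a ha b hb => hC a (h ha) b (h hb)

theorem le_normalizer_of_cmW {C Y : Subgroup G} (h : CmW C Y) : C ≤ normalizer (Y : Set G) := by
  intro c hc
  rw [mem_normalizer_iff]
  intro y
  constructor
  · intro hy
    have e : c * y * c⁻¹ = y := by rw [h c hc y hy]; group
    rwa [e]
  · intro hy
    have h2 := h c hc _ hy
    have h3 : c * (c * y * c⁻¹) = c * y := by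
      rw [h2]; group
    have h4 := mul_left_cancel h3
    rwa [h4] at hy

section finite

variable [Finite G]

/-- The inequality `(★)`: if `C ≤ A` commutes with the abelian `Y ≤ S`, then `|C||Y| ≤ |A||C ⊓ Y|`. -/
theorem star {S A C Y : Subgroup G} (hA : IsMaxAb S A) (hCA : C ≤ A) (hY : Y ≤ S) (hYc : Cm Y)
    (hCY : CmW C Y) : Nat.card C * Nat.card Y ≤ Nat.card A * Nat.card ↥(C ⊓ Y) := by
  have e := card_sup_mul_card_inf_of_le_normalizer C Y (le_normalizer_of_cmW hCY)
  rw [← e]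
  refine Nat.mul_le_mul_right _ (hA.2.2 _ (sup_le (hCA.trans hA.1) hY) ?_)
  exact Cm.sup (hA.2.1.mono hCA) hYc hCY

/-- Abelian subgroups of maximal order are self-centralizing. -/
theorem mem_of_comm {S A : Subgroup G} (hA : IsMaxAb S A) {s : G} (hs : s ∈ S)
    (hc : ∀ a ∈ A, s * a = a * s) : s ∈ A := by
  have hcm : Cm (zpowers s) := by
    intro a ha b hb
    obtain ⟨i, rfl⟩ := ha
    obtain ⟨j, rfl⟩ := hb
    simp only
    rw [← zpow_add, ← zpow_add, add_comm]
  have hle : zpowers s ≤ S := by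
    rw [zpowers_le]; exact hs
  have hcmw : CmW A (zpowers s) := by
    intro a ha b hb
    obtain ⟨j, rfl⟩ := hb
    have : Commute s a := hc a ha
    exact ((this.zpow_left j).symm).eq
  have h := star hA le_rfl hle hcm hcmw
  have hpos : 0 < Nat.card A := Nat.card_pos
  have h1 : Nat.card (zpowers s) ≤ Nat.card ↥(A ⊓ zpowers s) := Nat.le_of_mul_le_mul_left h hpos
  have h2 : A ⊓ zpowers s = zpowers s :=
    Subgroup.eq_of_le_of_card_ge inf_le_right h1
  have h3 : s ∈ A ⊓ zpowers s := by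
    rw [h2]; exact mem_zpowers s
  exact h3.1

/-- `(★)` for `A ⊓ E ≤ X ≤ E`. -/
theorem star_X {S A E X : Subgroup G} (hA : IsMaxAb S A) (hES : E ≤ S) (hEc : Cm E)
    (h1 : A ⊓ E ≤ X) (h2 : X ≤ E) :
    Nat.card ↥(A ⊓ centralizer (X : Set G)) * Nat.card X ≤ Nat.card A * Nat.card ↥(A ⊓ E) := by
  have hXc : Cm X := hEc.mono h2
  have hcw : CmW (A ⊓ centralizer (X : Set G)) X := by
    intro a ha b hb
    exact ((mem_centralizer_iff.1 ha.2) b hb).symm
  have h := star hA (inf_le_left : A ⊓ centralizer (X : Set G) ≤ A) (h2.trans hES) hXc hcw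
  have e : A ⊓ centralizer (X : Set G) ⊓ X = A ⊓ E := by
    apply le_antisymm
    · intro z hz
      exact ⟨hz.1.1, h2 hz.2⟩
    · intro z hz
      exact ⟨⟨hz.1, mem_centralizer_iff.2 fun x hx => hXc x hx z (h1 hz)⟩, h1 hz⟩
  rwa [e] at h

/-- Coset counting. -/
theorem coset_count {P Ps Z Z₀ : Subgroup G} (φ : G → G) (hφ : ∀ q ∈ P, φ q ∈ Z)
    (hPs : Ps ≤ P) (hZ₀ : Z₀ ≤ Z)
    (h : ∀ q ∈ P, ∀ r ∈ P, q⁻¹ * r ∈ Ps ↔ (φ q)⁻¹ * φ r ∈ Z₀) :
    Nat.card P * Nat.card Z₀ ≤ Nat.card Ps * Nat.card Z := by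
  classical
  let f : P ⧸ Ps.subgroupOf P → Z ⧸ Z₀.subgroupOf Z :=
    fun c => ((⟨φ (c.out : P), hφ _ c.out.2⟩ : Z) : Z ⧸ Z₀.subgroupOf Z)
  have hf : Function.Injective f := by
    intro c d hcd
    have h1 := QuotientGroup.eq.1 hcd
    rw [Subgroup.mem_subgroupOf] at h1
    have h2 : (c.out : G)⁻¹ * d.out ∈ Ps := (h _ c.out.2 _ d.out.2).2 (by simpa using h1)
    have h3 : (c.out : P ⧸ Ps.subgroupOf P) = d.out := by
      apply QuotientGroup.eq.2
      rw [Subgroup.mem_subgroupOf]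
      simpa using h2
    simpa using h3
  have h1 := Nat.card_le_card_of_injective f hf
  have h2 : Nat.card P = Nat.card (P ⧸ Ps.subgroupOf P) * Nat.card (Ps.subgroupOf P) :=
    Subgroup.card_eq_card_quotient_mul_card_subgroup _
  have h3 : Nat.card Z = Nat.card (Z ⧸ Z₀.subgroupOf Z) * Nat.card (Z₀.subgroupOf Z) :=
    Subgroup.card_eq_card_quotient_mul_card_subgroup _
  have h4 : Nat.card (Ps.subgroupOf P) = Nat.card Ps := Nat.card_congr (Subgroup.subgroupOfEquivOfLe hPs).toEquiv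
  have h5 : Nat.card (Z₀.subgroupOf Z) = Nat.card Z₀ := Nat.card_congr (Subgroup.subgroupOfEquivOfLe hZ₀).toEquiv
  rw [h4] at h2
  rw [h5] at h3
  rw [h2, h3]
  calc _ = Nat.card (P ⧸ Ps.subgroupOf P) * (Nat.card Ps * Nat.card Z₀) := by ring
    _ ≤ Nat.card (Z ⧸ Z₀.subgroupOf Z) * (Nat.card Ps * Nat.card Z₀) := Nat.mul_le_mul_right _ h1
    _ = _ := by ring

/-- `C_A(X) X` has maximal order when `X` is tight. -/
theorem isMaxAb_sup {S A E X : Subgroup G} (hA : IsMaxAb S A) (hES : E ≤ S) (hEc : Cm E)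
    (h1 : A ⊓ E ≤ X) (h2 : X ≤ E)
    (ht : Nat.card ↥(A ⊓ centralizer (X : Set G)) * Nat.card X = Nat.card A * Nat.card ↥(A ⊓ E)) :
    IsMaxAb S ((A ⊓ centralizer (X : Set G)) ⊔ X) := by
  have hXc : Cm X := hEc.mono h2
  have hcw : CmW (A ⊓ centralizer (X : Set G)) X := by
    intro a ha b hb
    exact ((mem_centralizer_iff.1 ha.2) b hb).symm
  have hc : Cm ((A ⊓ centralizer (X : Set G)) ⊔ X) := Cm.sup (hA.2.1.mono inf_le_left) hXc hcw
  have hle : (A ⊓ centralizer (X : Set G)) ⊔ X ≤ S := sup_le (inf_le_left.trans hA.1) (h2.trans hES)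
  have e := card_sup_mul_card_inf_of_le_normalizer (A ⊓ centralizer (X : Set G)) X (le_normalizer_of_cmW hcw)
  have e2 : A ⊓ centralizer (X : Set G) ⊓ X = A ⊓ E := by
    apply le_antisymm
    · intro z hz
      exact ⟨hz.1.1, h2 hz.2⟩
    · intro z hz
      exact ⟨⟨hz.1, mem_centralizer_iff.2 fun x hx => hXc x hx z (h1 hz)⟩, h1 hz⟩
  rw [e2, ht] at e
  have hpos : 0 < Nat.card ↥(A ⊓ E) := Nat.card_pos
  have e3 := Nat.eq_of_mul_eq_mul_right hpos e
  refine ⟨hle, hc, fun B hB hBc => ?_⟩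
  rw [e3]
  exact hA.2.2 B hB hBc

/-- The intersection of `C_A(X) X` with `E`. -/
theorem sup_inf_eq {A E X : Subgroup G} (hEc : Cm E) (h1 : A ⊓ E ≤ X) (h2 : X ≤ E) :
    ((A ⊓ centralizer (X : Set G)) ⊔ X) ⊓ E = X := by
  apply le_antisymm
  · rintro z ⟨hz, hzE⟩
    have hz' : z ∈ X ⊔ (A ⊓ centralizer (X : Set G)) := by
      rw [sup_comm]; exact hz
    obtain ⟨x, hx, a, ha, rfl⟩ := (mem_sup_iff_of_le_normalizer (le_normalizer_of_cmW (C := A ⊓ centralizer (X : Set G)) (Y := X)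
      (fun a ha b hb => ((mem_centralizer_iff.1 ha.2) b hb).symm)) z).1 hz'
    have h3 : a ∈ E := by
      have : a = x⁻¹ * (x * a) := by group
      rw [this]
      exact E.mul_mem (E.inv_mem (h2 hx)) hzE
    exact X.mul_mem hx (h1 ⟨ha.1, h3⟩)
  · exact le_inf le_sup_right h2

end finite

end Cfsg.Agent.Lib.Perm.ThompsonJ
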