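import Mathlib
import Cfsg.Agent.Lib.Perm.ThompsonJ

/-!
# A norm lemma for an abelian `p`-group acting on an abelian `p'`-group and a module in characteristic `p`

If the abelian `p`-group `A ≠ 1` acts faithfully on an abelian `p'`-group `K` and `A K` acts faithfully on a module `M`
in characteristic `p`, there is a subgroup `A₁` of index `p` in `A` and `g ∈ A`, and a vector `y` fixed by `A₁` such that
`∑_{i<p} g^i y ≠ 0`.
-/

set_option autoImplicit false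
set_option linter.style.haveILetI false
set_option linter.unusedVariables false
set_option linter.unusedSectionVars false

namespace Cfsg.Agent.Lib.Perm.ThompsonL

open Subgroup Cfsg.Agent.Lib.Perm.ThompsonJ
open scoped commutatorElement

variable {H : Type*} [Group H] {p : ℕ} [hp : Fact p.Prime]

/-- The vector level averaging argument. -/
theorem lemma_N {M : Type*} [AddCommGroup M] [Module (ZMod p) M] (ρ : H →* Module.End (ZMod p) M)
    (R : Subgroup H) [Finite R] (hRcop : (Nat.card R).Coprime p) (M₂ : Set M)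
    (hM₂ : ∀ r ∈ R, ∀ v ∈ M₂, ρ r v ∈ M₂) {ι : Type*} [Fintype ι] [DecidableEq ι] (a : ι → H) (j₀ : ι)
    (hbij : ∀ j, j ≠ j₀ → ∃ ψ : R → R, Function.Bijective ψ ∧
      ∀ r : R, (r : H) * a j * (r : H)⁻¹ = (ψ r : H) * a j)
    (hj₀ : ∀ r ∈ R, r * a j₀ = a j₀ * r) (hj₀v : ∀ v ∈ M₂, ρ (a j₀) v = v)
    (hsum : ∀ v ∈ M₂, ∑ j, ρ (a j) v = 0) : ∀ r ∈ R, ∀ v ∈ M₂, ρ r v = v := by
  classical
  haveI : Fintype R := Fintype.ofFinite R
  set S : Module.End (ZMod p) M := ∑ r : R, ρ r with hS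
  have hSv : ∀ v ∈ M₂, S v = (Nat.card R) • v := by
    intro v hv
    have h0 : ∑ r : R, ρ r (∑ j, ρ (a j) (ρ (r : H)⁻¹ v)) = 0 := by
      refine Finset.sum_eq_zero fun r _ => ?_
      rw [hsum _ (hM₂ _ (R.inv_mem r.2) v hv), map_zero]
    have h1 : ∀ r : R, ρ r (∑ j, ρ (a j) (ρ (r : H)⁻¹ v)) = ∑ j, ρ ((r : H) * a j * (r : H)⁻¹) v := by
      intro r
      rw [map_sum]
      refine Finset.sum_congr rfl fun j _ => ?_
      rw [map_mul, map_mul, Module.End.mul_apply, Module.End.mul_apply]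
    rw [Finset.sum_congr rfl (fun r _ => h1 r), Finset.sum_comm] at h0
    have hj0term : ∑ r : R, ρ ((r : H) * a j₀ * (r : H)⁻¹) v = (Nat.card R) • v := by
      have h2 : ∀ r : R, ρ ((r : H) * a j₀ * (r : H)⁻¹) v = v := by
        intro r
        rw [hj₀ r r.2]
        have e : a j₀ * (r : H) * (r : H)⁻¹ = a j₀ := by group
        rw [e, hj₀v v hv]
      rw [Finset.sum_congr rfl (fun r _ => h2 r), Finset.sum_const, Finset.card_univ,
        Nat.card_eq_fintype_card]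
    have hjterm : ∀ j ∈ Finset.univ.erase j₀, ∑ r : R, ρ ((r : H) * a j * (r : H)⁻¹) v = S (ρ (a j) v) := by
      intro j hj
      obtain ⟨ψ, hψ, he⟩ := hbij j (Finset.ne_of_mem_erase hj)
      have h2 : ∀ r : R, ρ ((r : H) * a j * (r : H)⁻¹) v = (ρ (ψ r)) (ρ (a j) v) := by
        intro r
        rw [he r, map_mul, Module.End.mul_apply]
      rw [Finset.sum_congr rfl (fun r _ => h2 r), hS, LinearMap.sum_apply]
      exact hψ.sum_comp (fun r : R => ρ r (ρ (a j) v))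
    rw [← Finset.add_sum_erase _ _ (Finset.mem_univ j₀), hj0term,
      Finset.sum_congr rfl hjterm, ← map_sum] at h0
    have h3 := hsum v hv
    rw [← Finset.add_sum_erase _ _ (Finset.mem_univ j₀), hj₀v v hv] at h3
    have h4 : ∑ j ∈ Finset.univ.erase j₀, ρ (a j) v = -v := (neg_eq_of_add_eq_zero_right h3).symm
    rw [h4, map_neg] at h0
    exact (add_neg_eq_zero.1 h0).symm
  intro r hr v hv
  have h1 : ρ r * S = S := by
    rw [hS, Finset.mul_sum]
    have h2 : ∀ b : R, ρ r * ρ b = ρ ((⟨r, hr⟩ : R) * b) := by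
      intro b
      rw [← map_mul]
    rw [Finset.sum_congr rfl (fun b _ => h2 b)]
    exact Equiv.sum_comp (Equiv.mulLeft (⟨r, hr⟩ : R)) (fun b : R => ρ b)
  have h2 : ρ r (S v) = S v := by
    rw [← Module.End.mul_apply, h1]
  rw [hSv v hv, map_nsmul] at h2
  have h3 : (Nat.card R : ZMod p) • (ρ r v - v) = 0 := by
    rw [smul_sub, Nat.cast_smul_eq_nsmul, Nat.cast_smul_eq_nsmul, h2, sub_self]
  have hcard : (Nat.card R : ZMod p) ≠ 0 := by
    intro h
    rw [ZMod.natCast_eq_zero_iff] at h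
    exact (Nat.Prime.coprime_iff_not_dvd hp.out).1 hRcop.symm h
  rcases smul_eq_zero.1 h3 with h4 | h4
  · exact absurd h4 hcard
  · exact sub_eq_zero.1 h4

/-- A `p`-group acting linearly on the image of a commuting operator has a nonzero fixed vector there. -/
theorem exists_fixed {M : Type*} [AddCommGroup M] [Module (ZMod p) M] [Finite M]
    (ρ : H →* Module.End (ZMod p) M) (A₂ : Subgroup H) (hA₂ : IsPGroup p A₂)
    (T : Module.End (ZMod p) M) (hT : ∀ b ∈ A₂, ρ b * T = T * ρ b) (hne : T ≠ 0) :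
    ∃ v, T v ≠ 0 ∧ ∀ b ∈ A₂, ρ b (T v) = T v := by
  classical
  set W : Submodule (ZMod p) M := LinearMap.range T with hW
  have hWst : ∀ b ∈ A₂, ∀ w ∈ W, ρ b w ∈ W := by
    rintro b hb _ ⟨v, rfl⟩
    refine ⟨ρ b v, ?_⟩
    rw [← Module.End.mul_apply, ← hT b hb, Module.End.mul_apply]
  let act : MulAction A₂ W :=
    { smul := fun b w => ⟨ρ b w, hWst b b.2 w w.2⟩
      one_smul := fun w => by
        apply Subtype.ext
        show ρ ((1 : A₂) : H) w = w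
        rw [OneMemClass.coe_one, map_one, Module.End.one_apply]
      mul_smul := fun x y w => by
        apply Subtype.ext
        show ρ ((x * y : A₂) : H) w = ρ (x : H) (ρ (y : H) w)
        rw [MulMemClass.coe_mul, map_mul, Module.End.mul_apply] }
  obtain ⟨v₀, hv₀⟩ : ∃ v₀, T v₀ ≠ 0 := by
    by_contra hcon
    push Not at hcon
    exact hne (LinearMap.ext hcon)
  have hpdvd : p ∣ Nat.card W := by
    let w₀ : W := ⟨T v₀, ⟨v₀, rfl⟩⟩
    have hw₀ : w₀ ≠ 0 := fun h => hv₀ (congrArg Subtype.val h)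
    have hpw : p • w₀ = 0 := by
      have : ((p : ZMod p)) • w₀ = 0 := by
        rw [ZMod.natCast_self, zero_smul]
      rwa [Nat.cast_smul_eq_nsmul] at this
    have h1 := addOrderOf_eq_prime hpw hw₀
    have h2 := addOrderOf_dvd_natCard w₀
    rw [h1] at h2
    exact h2
  have h0fix : (0 : W) ∈ MulAction.fixedPoints A₂ W := by
    intro b
    apply Subtype.ext
    show ρ (b : H) ((0 : W) : M) = 0
    simp
  obtain ⟨w, hwfix, hw0⟩ := IsPGroup.exists_fixed_point_of_prime_dvd_card_of_fixed_point hA₂ W hpdvd h0fix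
  obtain ⟨w', hw'⟩ := w
  obtain ⟨v, rfl⟩ := hw'
  refine ⟨v, fun h => hw0 ?_, fun b hb => ?_⟩
  · apply Subtype.ext
    exact h.symm
  · have := hwfix ⟨b, hb⟩
    exact congrArg Subtype.val this

section norm

variable [Finite H]

/-- An element of `[K₂, A]` fixed by the `p`-group `A` is trivial. -/
theorem norm_kill (A K₂ : Subgroup H) (hA : IsPGroup p A) (hK₂c : Cm K₂)
    (hAK : ∀ a ∈ A, ∀ e ∈ K₂, a * e * a⁻¹ ∈ K₂) (hcop : (Nat.card K₂).Coprime p) {k : H}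
    (hk : k ∈ closure {w | ∃ a ∈ A, ∃ e ∈ K₂, w = ⁅a, e⁆}) (hfix : ∀ a ∈ A, a * k = k * a) : k = 1 := by
  classical
  haveI : Fintype A := Fintype.ofFinite A
  letI : CommGroup K₂ :=
    { (inferInstance : Group K₂) with
      mul_comm := fun x y => Subtype.ext (hK₂c x x.2 y y.2) }
  let cj : A → K₂ →* K₂ := fun a =>
    { toFun := fun z => ⟨a * z * (a : H)⁻¹, hAK a a.2 z z.2⟩
      map_one' := by
        apply Subtype.ext
        show (a : H) * ((1 : K₂) : H) * (a : H)⁻¹ = 1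
        simp
      map_mul' := fun x y => by
        apply Subtype.ext
        show (a : H) * ((x * y : K₂) : H) * (a : H)⁻¹ = (a * x * (a : H)⁻¹) * (a * y * (a : H)⁻¹)
        rw [MulMemClass.coe_mul]
        group }
  let N : K₂ →* K₂ := ∏ a : A, cj a
  have hN : ∀ z : K₂, N z = ∏ a : A, cj a z := fun z => MonoidHom.finsetProd_apply _ _ _
  have hcj : ∀ (a b : A) (z : K₂), cj a (cj b z) = cj (a * b) z := by
    intro a b z
    apply Subtype.ext
    show (a : H) * (b * z * (b : H)⁻¹) * (a : H)⁻¹ = ((a * b : A) : H) * z * (((a * b : A) : H))⁻¹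
    rw [MulMemClass.coe_mul]
    group
  have hNcj : ∀ (b : A) (z : K₂), N (cj b z) = N z := by
    intro b z
    rw [hN, hN]
    have h1 : ∀ a : A, cj a (cj b z) = cj (a * b) z := fun a => hcj a b z
    rw [Finset.prod_congr rfl (fun a _ => h1 a)]
    exact Equiv.prod_comp (Equiv.mulRight b) (fun a : A => cj a z)
  have hker : closure {w | ∃ a ∈ A, ∃ e ∈ K₂, w = ⁅a, e⁆} ≤ N.ker.map K₂.subtype := by
    rw [closure_le]
    rintro _ ⟨a, ha, e, he, rfl⟩
    have hm : a * e * a⁻¹ * e⁻¹ ∈ K₂ := K₂.mul_mem (hAK a ha e he) (K₂.inv_mem he)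
    refine ⟨⟨a * e * a⁻¹ * e⁻¹, hm⟩, ?_, ?_⟩
    · rw [SetLike.mem_coe, MonoidHom.mem_ker]
      have e1 : (⟨a * e * a⁻¹ * e⁻¹, hm⟩ : K₂) = cj ⟨a, ha⟩ ⟨e, he⟩ * (⟨e, he⟩ : K₂)⁻¹ := rfl
      rw [e1, map_mul, map_inv, hNcj, mul_inv_cancel]
    · simp [commutatorElement_def]
  obtain ⟨z, hz, rfl⟩ := hker hk
  have hz' : N z = 1 := hz
  have hcjz : ∀ a : A, cj a z = z := by
    intro a
    apply Subtype.ext
    show (a : H) * z * (a : H)⁻¹ = z
    have := hfix a a.2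
    simp only [subtype_apply] at this
    rw [this]
    group
  rw [hN, Finset.prod_congr rfl (fun a _ => hcjz a), Finset.prod_const, Finset.card_univ,
    ← Nat.card_eq_fintype_card] at hz'
  obtain ⟨n, hn⟩ := IsPGroup.iff_card.1 hA
  rw [hn] at hz'
  have h1 : orderOf z ∣ p ^ n := orderOf_dvd_of_pow_eq_one hz'
  have h2 : orderOf z ∣ Nat.card K₂ := orderOf_dvd_natCard z
  have h3 : orderOf z = 1 := Nat.eq_one_of_dvd_coprimes (Nat.Coprime.pow_right n hcop) h2 h1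
  rw [orderOf_eq_one_iff] at h3
  rw [h3]
  simp

/-- **The norm lemma.** -/
theorem lemma_L {M : Type*} [AddCommGroup M] [Module (ZMod p) M] [Finite M]
    (ρ : H →* Module.End (ZMod p) M) (hρ : ∀ h, ρ h = 1 → h = 1)
    (A K : Subgroup H) (hAc : Cm A) (hAp : IsPGroup p A) (hKc : Cm K) (hKo : (Nat.card K).Coprime p)
    (hKA : ∀ a ∈ A, ∀ k ∈ K, a * k * a⁻¹ ∈ K) (hmove : ∀ a ∈ A, (∀ k ∈ K, a * k = k * a) → a = 1)
    (hne : A ≠ ⊥) :
    ∃ A₁ : Subgroup H, A₁ ≤ A ∧ Nat.card A ≤ p * Nat.card A₁ ∧ ∃ g ∈ A, g ^ p ∈ A₁ ∧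
      ∃ y : M, (∀ b ∈ A₁, ρ b y = y) ∧ (∑ i ∈ Finset.range p, (ρ g) ^ i) y ≠ 0 := by
  classical
  let Prp : Set (Subgroup H) := {B | B ≤ A ∧ ∃ e ∈ K, (∀ b ∈ B, b * e = e * b) ∧ ∃ a ∈ A, a * e ≠ e * a}
  have hbot : (⊥ : Subgroup H) ∈ Prp := by
    obtain ⟨a, ha, ha1⟩ := (A.bot_or_exists_ne_one).resolve_left hne
    have h1 : ∃ k ∈ K, a * k ≠ k * a := by
      by_contra hcon
      push Not at hcon
      exact ha1 (hmove a ha hcon)
    obtain ⟨k, hk, hak⟩ := h1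
    refine ⟨bot_le, k, hk, fun b hb => ?_, a, ha, hak⟩
    rw [Subgroup.mem_bot.1 hb, one_mul, mul_one]
  obtain ⟨A₂, ⟨hA₂A, e₀, he₀K, he₀c, a₀, ha₀, ha₀e⟩, hmax⟩ := Prp.toFinite.exists_maximal ⟨_, hbot⟩
  have hneA : ¬ A ≤ A₂ := fun h => ha₀e (he₀c a₀ (h ha₀))
  set K₂ : Subgroup H := K ⊓ centralizer (A₂ : Set H) with hK₂
  have hK₂c : Cm K₂ := hKc.mono inf_le_left
  have hAK₂ : ∀ a ∈ A, ∀ e ∈ K₂, a * e * a⁻¹ ∈ K₂ := by
    intro a ha e he
    refine ⟨hKA a ha e he.1, mem_centralizer_iff.2 fun b hb => ?_⟩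
    have c1 : Commute b a := hAc b (hA₂A hb) a ha
    have c2 : Commute b e := mem_centralizer_iff.1 he.2 b hb
    exact (c1.mul_right c2).mul_right c1.inv_right
  have hcopK₂ : (Nat.card K₂).Coprime p :=
    Nat.Coprime.coprime_dvd_left (Subgroup.card_dvd_of_le inf_le_left) hKo
  set R : Subgroup H := closure {w | ∃ a ∈ A, ∃ e ∈ K₂, w = ⁅a, e⁆} with hR
  have hRK₂ : R ≤ K₂ := by
    rw [hR, closure_le]
    rintro _ ⟨a, ha, e, he, rfl⟩
    rw [commutatorElement_def]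
    exact K₂.mul_mem (hAK₂ a ha e he) (K₂.inv_mem he)
  have hRc : Cm R := hK₂c.mono hRK₂
  have hRgen : ∀ a ∈ A, ∀ e ∈ K₂, ⁅a, e⁆ ∈ R := fun a ha e he => subset_closure ⟨a, ha, e, he, rfl⟩
  have hRconj : ∀ c ∈ A, ∀ r ∈ R, c * r * c⁻¹ ∈ R := by
    intro c hc r hr
    have h1 : R ≤ R.comap (MulAut.conj c).toMonoidHom := by
      rw [hR, closure_le]
      rintro _ ⟨a, ha, e, he, rfl⟩
      have e1 : c * ⁅a, e⁆ * c⁻¹ = ⁅c * a, e⁆ * (⁅c, e⁆)⁻¹ := by
        simp only [commutatorElement_def]; group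
      show c * ⁅a, e⁆ * c⁻¹ ∈ R
      rw [e1]
      exact R.mul_mem (hRgen _ (A.mul_mem hc ha) e he) (R.inv_mem (hRgen c hc e he))
    exact h1 hr
  have he₀K₂ : e₀ ∈ K₂ := ⟨he₀K, mem_centralizer_iff.2 fun b hb => he₀c b hb⟩
  have hk₀R : ⁅a₀, e₀⁆ ∈ R := hRgen a₀ ha₀ e₀ he₀K₂
  have hk₀ne : ⁅a₀, e₀⁆ ≠ 1 := fun h => ha₀e ((commutatorElement_eq_one_iff_mul_comm).1 h)
  have hRcop : (Nat.card R).Coprime p :=
    Nat.Coprime.coprime_dvd_left (Subgroup.card_dvd_of_le hRK₂) hcopK₂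
  have hfpf : ∀ c ∈ A, c ∉ A₂ → ∀ k ∈ R, c * k = k * c → k = 1 := by
    intro c hc hcA₂ k hk hck
    have hall : ∀ a ∈ A, a * k = k * a := by
      by_contra hcon
      push Not at hcon
      obtain ⟨a, ha, hak⟩ := hcon
      have hB : (A₂ ⊔ zpowers c) ∈ Prp := by
        refine ⟨sup_le hA₂A (zpowers_le.2 hc), k, (hRK₂ hk).1, fun b hb => ?_, a, ha, hak⟩
        have hle : A₂ ⊔ zpowers c ≤ centralizer ({k} : Set H) := by
          refine sup_le (fun b' hb' => mem_centralizer_iff.2 ?_) (zpowers_le.2 (mem_centralizer_iff.2 ?_))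
          · intro w' hw'
            rw [Set.mem_singleton_iff.1 hw']
            exact (mem_centralizer_iff.1 (hRK₂ hk).2 b' hb').symm
          · intro w' hw'
            rw [Set.mem_singleton_iff.1 hw']
            exact hck.symm
        exact (mem_centralizer_iff.1 (hle hb) k rfl).symm
      have h1 := hmax hB le_sup_left
      exact hcA₂ (h1 (mem_sup_right (mem_zpowers c)))
    exact norm_kill A K₂ hAp hK₂c hAK₂ hcopK₂ hk hall
  have hbij : ∀ c ∈ A, c ∉ A₂ → ∃ ψ : R → R, Function.Bijective ψ ∧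
      ∀ r : R, (r : H) * c * (r : H)⁻¹ = (ψ r : H) * c := by
    intro c hc hcA₂
    refine ⟨fun r => ⟨(r : H) * (c * r * c⁻¹)⁻¹, R.mul_mem r.2 (R.inv_mem (hRconj c hc r r.2))⟩, ?_, ?_⟩
    · rw [← Finite.injective_iff_bijective]
      intro r r' hrr
      have h1 : (r : H) * (c * r * c⁻¹)⁻¹ = (r' : H) * (c * r' * c⁻¹)⁻¹ := congrArg Subtype.val hrr
      have hd : (r' : H)⁻¹ * r ∈ R := R.mul_mem (R.inv_mem r'.2) r.2
      have h2 : c * ((r' : H)⁻¹ * r) * c⁻¹ = (r' : H)⁻¹ * r := by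
        have e1 : (r' : H)⁻¹ * r = (c * r' * c⁻¹)⁻¹ * (c * r * c⁻¹) := by
          calc (r' : H)⁻¹ * r = (r' : H)⁻¹ * ((r : H) * (c * r * c⁻¹)⁻¹) * (c * r * c⁻¹) := by group
            _ = (r' : H)⁻¹ * ((r' : H) * (c * r' * c⁻¹)⁻¹) * (c * r * c⁻¹) := by rw [h1]
            _ = _ := by group
        calc c * ((r' : H)⁻¹ * r) * c⁻¹ = (c * r' * c⁻¹)⁻¹ * (c * r * c⁻¹) := by group
          _ = _ := e1.symm
      have h3 : c * ((r' : H)⁻¹ * r) = ((r' : H)⁻¹ * r) * c := by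
        calc c * ((r' : H)⁻¹ * r) = (c * ((r' : H)⁻¹ * r) * c⁻¹) * c := by group
          _ = _ := by rw [h2]
      have h4 := hfpf c hc hcA₂ _ hd h3
      apply Subtype.ext
      exact (inv_mul_eq_one.1 h4).symm
    · intro r
      show (r : H) * c * (r : H)⁻¹ = (r : H) * (c * r * c⁻¹)⁻¹ * c
      group
  -- the subgroup of index `p`
  obtain ⟨n, hn⟩ := IsPGroup.iff_card.1 hAp
  let D : Subgroup A := A₂.subgroupOf A
  have hDp : IsPGroup p D := hAp.to_subgroup D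
  obtain ⟨m, hm⟩ := IsPGroup.iff_card.1 hDp
  have hcD : Nat.card D = Nat.card A₂ := Nat.card_congr (Subgroup.subgroupOfEquivOfLe hA₂A).toEquiv
  have hmn : m < n := by
    by_contra hle
    push Not at hle
    have h1 : Nat.card A ≤ Nat.card A₂ := by
      rw [← hcD, hm, hn]
      exact Nat.pow_le_pow_right hp.out.pos hle
    exact hneA (Subgroup.eq_of_le_of_card_ge hA₂A h1).ge
  obtain ⟨A₁', hA₁'c, hDA₁'⟩ := Sylow.exists_subgroup_card_pow_prime_le p (n := m) (m := n - 1)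
    (by rw [hn]; exact pow_dvd_pow p (Nat.sub_le n 1)) D hm (by omega)
  set A₁ : Subgroup H := A₁'.map A.subtype with hA₁
  have hA₁A : A₁ ≤ A := by
    rintro _ ⟨a, -, rfl⟩
    exact a.2
  have hA₂A₁ : A₂ ≤ A₁ := by
    intro b hb
    exact ⟨⟨b, hA₂A hb⟩, hDA₁' hb, rfl⟩
  have hcA₁ : Nat.card A₁ = p ^ (n - 1) := by
    rw [hA₁, Subgroup.card_map_of_injective A.subtype_injective, hA₁'c]
  have hcA : Nat.card A = p * Nat.card A₁ := by
    rw [hn, hcA₁, ← pow_succ']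
    congr 1
    omega
  obtain ⟨g, hgA, hgA₁⟩ : ∃ g ∈ A, g ∉ A₁ := by
    by_contra hcon
    push Not at hcon
    have h1 : Nat.card A ≤ Nat.card A₁ := Subgroup.card_le_of_le hcon
    rw [hcA] at h1
    have h2 : 0 < Nat.card A₁ := Nat.card_pos
    have h3 := hp.out.two_le
    nlinarith
  have hA₁'n : A₁'.Normal := by
    refine ⟨fun x hx y => ?_⟩
    have : y * x * y⁻¹ = x := by
      apply Subtype.ext
      show (y : H) * x * (y : H)⁻¹ = x
      rw [hAc y y.2 x x.2]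
      group
    rwa [this]
  have hgp : g ^ p ∈ A₁ := by
    have h1 : Nat.card (↥A ⧸ A₁') = p := by
      have h2 := Subgroup.card_eq_card_quotient_mul_card_subgroup A₁'
      rw [hn, hA₁'c] at h2
      have h3 : p ^ n = p * p ^ (n - 1) := by
        rw [← pow_succ']
        congr 1
        omega
      rw [h3] at h2
      exact (Nat.eq_of_mul_eq_mul_right (pow_pos hp.out.pos _) h2).symm
    have h2 := pow_card_eq_one' (G := ↥A ⧸ A₁') (x := ((⟨g, hgA⟩ : A) : ↥A ⧸ A₁'))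
    rw [h1, ← QuotientGroup.mk_pow, QuotientGroup.eq_one_iff] at h2
    exact ⟨_, h2, by simp⟩
  have hgi : ∀ i : ℕ, 0 < i → i < p → g ^ i ∉ A₁ := by
    intro i hi0 hip hmem
    have hcop : Nat.Coprime i p :=
      ((Nat.Prime.coprime_iff_not_dvd hp.out).2 (Nat.not_dvd_of_pos_of_lt hi0 hip)).symm
    obtain ⟨u, -, hu⟩ := Nat.exists_mul_mod_eq_one_of_coprime hcop hp.out.one_lt
    apply hgA₁
    have h1 : (g ^ i) ^ u = (g ^ p) ^ (i * u / p) * g := by
      rw [← pow_mul, ← pow_mul]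
      conv_lhs => rw [← Nat.div_add_mod (i * u) p, hu, pow_add, pow_one]
    have h2 : g = ((g ^ p) ^ (i * u / p))⁻¹ * (g ^ i) ^ u := by
      rw [h1]; group
    rw [h2]
    exact A₁.mul_mem (A₁.inv_mem (A₁.pow_mem hgp _)) (A₁.pow_mem hmem _)
  refine ⟨A₁, hA₁A, hcA.le, g, hgA, hgp, ?_⟩
  by_contra hcon
  push Not at hcon
  -- the fixed points
  let M₂ : Set M := {v | ∀ b ∈ A₂, ρ b v = v}
  have hcom : ∀ r ∈ R, ∀ b ∈ A₂, b * r = r * b := fun r hr b hb => mem_centralizer_iff.1 (hRK₂ hr).2 b hb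
  have hM₂ : ∀ r ∈ R, ∀ v ∈ M₂, ρ r v ∈ M₂ := by
    intro r hr v hv b hb
    rw [← Module.End.mul_apply, ← map_mul, hcom r hr b hb, map_mul, Module.End.mul_apply, hv b hb]
  let D₁ : Subgroup A₁ := A₂.subgroupOf A₁
  letI : Fintype (↥A₁ ⧸ D₁) := Fintype.ofFinite _
  let yy : M → M := fun v => ∑ c : ↥A₁ ⧸ D₁, ρ ((c.out : A₁) : H) v
  have hyy : ∀ v ∈ M₂, ∀ b ∈ A₁, ρ b (yy v) = yy v := by
    intro v hv b hb
    have h1 : ∀ c : ↥A₁ ⧸ D₁, ρ b (ρ ((c.out : A₁) : H) v) =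
        ρ ((((⟨b, hb⟩ : A₁) • c).out : A₁) : H) v := by
      intro c
      have h2 : ((((⟨b, hb⟩ : A₁) • c).out : A₁) : ↥A₁ ⧸ D₁) = (((⟨b, hb⟩ : A₁) * c.out : A₁) : ↥A₁ ⧸ D₁) := by
        rw [QuotientGroup.out_eq']
        conv_lhs => rw [← QuotientGroup.out_eq' c]
        rfl
      have h3 := QuotientGroup.eq.1 h2
      rw [Subgroup.mem_subgroupOf] at h3
      have e : b * ((c.out : A₁) : H) = (((⟨b, hb⟩ : A₁) • c).out : A₁) *
          ((((((⟨b, hb⟩ : A₁) • c).out)⁻¹ * ((⟨b, hb⟩ : A₁) * c.out) : A₁)) : H) := by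
        simp
      rw [← Module.End.mul_apply, ← map_mul, e, map_mul, Module.End.mul_apply, hv _ h3]
    show ρ b (∑ c : ↥A₁ ⧸ D₁, ρ ((c.out : A₁) : H) v) = ∑ c : ↥A₁ ⧸ D₁, ρ ((c.out : A₁) : H) v
    rw [map_sum, Finset.sum_congr rfl (fun c _ => h1 c)]
    exact Equiv.sum_comp (MulAction.toPerm (⟨b, hb⟩ : A₁)) (fun c : ↥A₁ ⧸ D₁ => ρ ((c.out : A₁) : H) v)
  let ι := Fin p × (↥A₁ ⧸ D₁)
  let a : ι → H := fun j => g ^ (j.1 : ℕ) * ((j.2.out : A₁) : H)
  let c₀ : ↥A₁ ⧸ D₁ := ((1 : A₁) : ↥A₁ ⧸ D₁)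
  let j₀ : ι := (⟨0, hp.out.pos⟩, c₀)
  have hc₀ : ((c₀.out : A₁) : H) ∈ A₂ := by
    have h1 : ((c₀.out : A₁) : ↥A₁ ⧸ D₁) = ((1 : A₁) : ↥A₁ ⧸ D₁) := QuotientGroup.out_eq' _
    have h2 := QuotientGroup.eq.1 h1
    rw [Subgroup.mem_subgroupOf] at h2
    simpa using h2
  have ea₀ : a j₀ = ((c₀.out : A₁) : H) := by
    show g ^ 0 * _ = _
    rw [pow_zero, one_mul]
  have haj : ∀ j, a j ∈ A := fun j => A.mul_mem (A.pow_mem hgA _) (hA₁A (j.2.out : A₁).2)
  have hnot : ∀ j, j ≠ j₀ → a j ∉ A₂ := by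
    rintro ⟨i, c⟩ hj hmem
    have hmem1 : g ^ (i : ℕ) * ((c.out : A₁) : H) ∈ A₁ := hA₂A₁ hmem
    have hgj : g ^ (i : ℕ) ∈ A₁ := by
      have e : g ^ (i : ℕ) = (g ^ (i : ℕ) * ((c.out : A₁) : H)) * ((c.out : A₁) : H)⁻¹ := by group
      rw [e]
      exact A₁.mul_mem hmem1 (A₁.inv_mem (c.out : A₁).2)
    by_cases hi : (i : ℕ) = 0
    · apply hj
      have hmem2 : ((c.out : A₁) : H) ∈ A₂ := by
        have : a (i, c) = ((c.out : A₁) : H) := by
          show g ^ (i : ℕ) * _ = _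
          rw [hi, pow_zero, one_mul]
        rwa [← this]
      have h1 : c₀ = c := by
        rw [← QuotientGroup.out_eq' c]
        apply QuotientGroup.eq.2
        rw [Subgroup.mem_subgroupOf]
        simpa using hmem2
      exact Prod.ext (Fin.ext hi) h1.symm
    · exact hgi _ (Nat.pos_of_ne_zero hi) i.2 hgj
  have hN := lemma_N ρ R hRcop M₂ hM₂ a j₀ (fun j hj => hbij _ (haj j) (hnot j hj))
    (fun r hr => by
      rw [ea₀]
      exact (hcom r hr _ hc₀).symm)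
    (fun v hv => by
      rw [ea₀]
      exact hv _ hc₀)
    (fun v hv => by
      have e1 : ∑ j : ι, ρ (a j) v = ∑ i : Fin p, ∑ c : ↥A₁ ⧸ D₁, ρ (a (i, c)) v :=
        Fintype.sum_prod_type _
      have e2 : ∀ i : Fin p, ∑ c : ↥A₁ ⧸ D₁, ρ (a (i, c)) v = ((ρ g) ^ (i : ℕ)) (yy v) := by
        intro i
        show _ = ((ρ g) ^ (i : ℕ)) (∑ c : ↥A₁ ⧸ D₁, ρ ((c.out : A₁) : H) v)
        rw [map_sum]
        refine Finset.sum_congr rfl fun c _ => ?_
        show ρ (g ^ (i : ℕ) * _) v = _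
        rw [map_mul, map_pow, Module.End.mul_apply]
      rw [e1, Finset.sum_congr rfl (fun i _ => e2 i)]
      have e3 := hcon (yy v) (hyy v hv)
      rw [LinearMap.sum_apply] at e3
      rw [← e3]
      exact Fin.sum_univ_eq_sum_range (fun i => ((ρ g) ^ i) (yy v)) p)
  -- the contradiction
  set k₀ : H := ⁅a₀, e₀⁆ with hk₀
  set T : Module.End (ZMod p) M := ρ k₀ - 1 with hT
  have hTne : T ≠ 0 := by
    intro h
    exact hk₀ne (hρ _ (sub_eq_zero.1 h))
  have hTc : ∀ b ∈ A₂, ρ b * T = T * ρ b := by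
    intro b hb
    rw [hT, mul_sub, sub_mul, mul_one, one_mul, ← map_mul, ← map_mul, hcom k₀ hk₀R b hb]
  obtain ⟨v₁, hv₁, hfix⟩ := exists_fixed ρ A₂ (hAp.to_le hA₂A) T hTc hTne
  set w : M := T v₁ with hw
  have hk₀w : ρ k₀ w = w := hN k₀ hk₀R w hfix
  have hstep : ρ k₀ v₁ = v₁ + w := by
    rw [hw, hT, LinearMap.sub_apply, Module.End.one_apply]
    abel
  have hpow : ∀ i : ℕ, ((ρ k₀) ^ i) v₁ = v₁ + i • w := by
    intro i
    induction i with
    | zero => simp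
    | succ i ih =>
      rw [pow_succ', Module.End.mul_apply, ih, map_add, hstep, map_nsmul, hk₀w, succ_nsmul]
      abel
  have hn0 : ((ρ k₀) ^ orderOf k₀) = 1 := by
    rw [← map_pow, pow_orderOf_eq_one, map_one]
  have h1 := hpow (orderOf k₀)
  rw [hn0, Module.End.one_apply] at h1
  have h2 : (orderOf k₀) • w = 0 := by
    have := left_eq_add.1 h1
    exact this
  have hcopo : (orderOf k₀).Coprime p := by
    have h3 : orderOf k₀ ∣ Nat.card R := by
      have := orderOf_dvd_natCard (⟨k₀, hk₀R⟩ : R)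
      simpa using this
    exact Nat.Coprime.coprime_dvd_left h3 hRcop
  have hcard : ((orderOf k₀ : ℕ) : ZMod p) ≠ 0 := by
    intro h
    rw [ZMod.natCast_eq_zero_iff] at h
    exact (Nat.Prime.coprime_iff_not_dvd hp.out).1 hcopo.symm h
  have h3 : ((orderOf k₀ : ℕ) : ZMod p) • w = 0 := by
    rw [Nat.cast_smul_eq_nsmul]
    exact h2
  rcases smul_eq_zero.1 h3 with h4 | h4
  · exact hcard h4
  · exact hv₁ h4

end norm

end Cfsg.Agent.Lib.Perm.ThompsonL
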