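import Mathlib
import Cfsg.Agent.Lib.Perm.ThompsonJ

/-!
# The replacement lemma for an abelian subgroup normalized by an abelian subgroup of maximal order
-/

set_option autoImplicit false
set_option linter.style.haveILetI false
set_option linter.unusedVariables false
set_option linter.unusedSectionVars false

namespace Cfsg.Agent.Lib.Perm.ThompsonT

open Subgroup Cfsg.Agent.Lib.Perm.ThompsonJ
open scoped commutatorElement

variable {G : Type*} [Group G]

/-- `⁅q, ⁅a, e⁆⁆ = ⁅a, ⁅q, e⁆⁆` on an abelian subgroup normalized by commuting elements. -/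
theorem comm_swap {E : Subgroup G} (hEc : Cm E) {a q e : G} (haq : a * q = q * a)
    (ha : ∀ z ∈ E, a * z * a⁻¹ ∈ E) (hq : ∀ z ∈ E, q * z * q⁻¹ ∈ E) (he : e ∈ E) :
    ⁅q, ⁅a, e⁆⁆ = ⁅a, ⁅q, e⁆⁆ := by
  have h1 : a * e * a⁻¹ ∈ E := ha e he
  have h2 : q * e * q⁻¹ ∈ E := hq e he
  have e1 : ⁅q, ⁅a, e⁆⁆ = (q * a * e * (q * a)⁻¹) * (q * e * q⁻¹)⁻¹ * (e * (a * e * a⁻¹)⁻¹) := by
    simp only [commutatorElement_def]; group
  have e2 : ⁅a, ⁅q, e⁆⁆ = (q * a * e * (q * a)⁻¹) * (a * e * a⁻¹)⁻¹ * (e * (q * e * q⁻¹)⁻¹) := by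
    rw [← haq]
    simp only [commutatorElement_def]; group
  rw [e1, e2]
  set u := q * e * q⁻¹
  set v := a * e * a⁻¹
  have c1 : u⁻¹ * (e * v⁻¹) = v⁻¹ * (e * u⁻¹) := by
    have h3 := hEc _ (E.inv_mem h2) _ (E.mul_mem he (E.inv_mem h1))
    rw [h3]
    have h4 := hEc _ (E.inv_mem h1) _ he
    have h5 := hEc _ (E.inv_mem h1) _ (E.inv_mem h2)
    calc e * v⁻¹ * u⁻¹ = e * (v⁻¹ * u⁻¹) := by group
      _ = e * (u⁻¹ * v⁻¹) := by rw [h5]
      _ = (e * u⁻¹) * v⁻¹ := by group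
      _ = v⁻¹ * (e * u⁻¹) := (hEc _ (E.mul_mem he (E.inv_mem h2)) _ (E.inv_mem h1))
  calc _ = q * a * e * (q * a)⁻¹ * (u⁻¹ * (e * v⁻¹)) := by group
    _ = q * a * e * (q * a)⁻¹ * (v⁻¹ * (e * u⁻¹)) := by rw [c1]
    _ = _ := by group

/-- `⁅a, e⁆⁻¹ ⁅b, e⁆ = a ⁅a⁻¹ b, e⁆ a⁻¹` on an abelian subgroup normalized by `a`, `b`. -/
theorem coset_id {E : Subgroup G} (hEc : Cm E) {a b e : G}
    (ha : a * e * a⁻¹ ∈ E) (hb : b * e * b⁻¹ ∈ E) (he : e ∈ E) :
    (⁅a, e⁆)⁻¹ * ⁅b, e⁆ = a * ⁅a⁻¹ * b, e⁆ * a⁻¹ := by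
  set u := a * e * a⁻¹ with hu
  set v := b * e * b⁻¹ with hv
  have e1 : (⁅a, e⁆)⁻¹ * ⁅b, e⁆ = e * (u⁻¹ * v) * e⁻¹ := by
    simp only [commutatorElement_def, hu, hv]; group
  have e2 : a * ⁅a⁻¹ * b, e⁆ * a⁻¹ = v * u⁻¹ := by
    simp only [commutatorElement_def, hu, hv]; group
  rw [e1, e2]
  have h1 : e * (u⁻¹ * v) = (u⁻¹ * v) * e := hEc _ he _ (E.mul_mem (E.inv_mem ha) hb)
  rw [h1]
  have h2 := hEc _ (E.inv_mem ha) _ hb
  rw [mul_inv_cancel_right, h2]

variable [Finite G]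

/-- The replacement lemma. -/
theorem lemma_T {S A E : Subgroup G} (hA : IsMaxAb S A) (hES : E ≤ S) (hEc : Cm E)
    (hAE : ∀ a ∈ A, ∀ e ∈ E, a * e * a⁻¹ ∈ E) :
    ∃ X : Subgroup G, A ⊓ E ≤ X ∧ X ≤ E ∧ (∀ a ∈ A, ∀ x ∈ X, a * x * a⁻¹ ∈ X) ∧
      Nat.card ↥(A ⊓ centralizer (X : Set G)) * Nat.card X = Nat.card A * Nat.card ↥(A ⊓ E) ∧
      (∀ e ∈ E, ∀ a ∈ A, ⁅a, e⁆ ∈ X) ∧ (∀ e ∈ E, ∀ q ∈ A ⊓ centralizer (X : Set G), ⁅q, e⁆ ∈ A ⊓ E) := by
  classical
  have hAc : Cm A := hA.2.1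
  let 𝒯 : Set (Subgroup G) := {X | A ⊓ E ≤ X ∧ X ≤ E ∧ (∀ a ∈ A, ∀ x ∈ X, a * x * a⁻¹ ∈ X) ∧
    Nat.card ↥(A ⊓ centralizer (X : Set G)) * Nat.card X = Nat.card A * Nat.card ↥(A ⊓ E)}
  have h𝒯 : (A ⊓ E) ∈ 𝒯 := by
    refine ⟨le_rfl, inf_le_right, ?_, ?_⟩
    · intro a ha x hx
      rw [hAc a ha x hx.1]
      simpa using hx
    · have : A ⊓ centralizer ((A ⊓ E : Subgroup G) : Set G) = A := by
        refine inf_eq_left.2 fun a ha => mem_centralizer_iff.2 fun x hx => hAc x hx.1 a ha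
      rw [this]
  obtain ⟨X, ⟨hX1, hX2, hX3, hX4⟩, hmax⟩ := 𝒯.toFinite.exists_maximal ⟨_, h𝒯⟩
  have hXc : Cm X := hEc.mono hX2
  set P : Subgroup G := A ⊓ centralizer (X : Set G) with hP
  have hPA : P ≤ A := inf_le_left
  have hAm : IsMaxAb S (P ⊔ X) := isMaxAb_sup hA hES hEc hX1 hX2 hX4
  -- `C_E(A)` and `C_E(P)`
  have hCEA : ∀ z ∈ E, (∀ a ∈ A, z * a = a * z) → z ∈ A ⊓ E := fun z hz h =>
    ⟨mem_of_comm hA (hES hz) h, hz⟩
  have hCEP : ∀ z ∈ E, (∀ q ∈ P, z * q = q * z) → z ∈ X := by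
    intro z hz h
    have h1 : z ∈ P ⊔ X := by
      refine mem_of_comm hAm (hES hz) ?_
      intro w hw
      have h2 : P ⊔ X ≤ centralizer ({z} : Set G) := by
        refine sup_le (fun q hq => mem_centralizer_iff.2 ?_) (fun x hx => mem_centralizer_iff.2 ?_)
        · intro w' hw'
          rw [Set.mem_singleton_iff.1 hw']
          exact h q hq
        · intro w' hw'
          rw [Set.mem_singleton_iff.1 hw']
          exact hEc z hz x (hX2 hx)
      exact mem_centralizer_iff.1 (h2 hw) z rfl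
    have h3 : z ∈ (P ⊔ X) ⊓ E := ⟨h1, hz⟩
    rw [sup_inf_eq hEc hX1 hX2] at h3
    exact h3
  have key : ∀ e ∈ E, (∀ a ∈ A, ⁅a, e⁆ ∈ X) ∧ (∀ q ∈ P, ⁅q, e⁆ ∈ A ⊓ E) := by
    intro e he
    have hcE : ∀ a ∈ A, ⁅a, e⁆ ∈ E := by
      intro a ha
      rw [commutatorElement_def]
      exact E.mul_mem (hAE a ha e he) (E.inv_mem he)
    set R : Subgroup G := closure {w | ∃ a ∈ A, w = ⁅a, e⁆} with hR
    have hRE : R ≤ E := by
      rw [hR, closure_le]
      rintro _ ⟨a, ha, rfl⟩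
      exact hcE a ha
    have hRgen : ∀ a ∈ A, ⁅a, e⁆ ∈ R := fun a ha => subset_closure ⟨a, ha, rfl⟩
    have hRconj : ∀ a ∈ A, ∀ r ∈ R, a * r * a⁻¹ ∈ R := by
      intro a ha r hr
      have h1 : R ≤ R.comap (MulAut.conj a).toMonoidHom := by
        rw [hR, closure_le]
        rintro _ ⟨c, hc, rfl⟩
        have e1 : a * ⁅c, e⁆ * a⁻¹ = ⁅a * c, e⁆ * (⁅a, e⁆)⁻¹ := by
          simp only [commutatorElement_def]; group
        show a * ⁅c, e⁆ * a⁻¹ ∈ R
        rw [e1]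
        exact R.mul_mem (hRgen _ (A.mul_mem ha hc)) (R.inv_mem (hRgen a ha))
      exact h1 hr
    set X' : Subgroup G := X ⊔ R with hX'
    have hXX' : X ≤ X' := le_sup_left
    have hRX' : R ≤ X' := le_sup_right
    have hX'E : X' ≤ E := sup_le hX2 hRE
    have hX'1 : A ⊓ E ≤ X' := hX1.trans hXX'
    have hX'conj : ∀ a ∈ A, ∀ x ∈ X', a * x * a⁻¹ ∈ X' := by
      intro a ha x hx
      have h1 : X' ≤ X'.comap (MulAut.conj a).toMonoidHom := by
        refine sup_le (fun y hy => ?_) (fun y hy => ?_)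
        · exact hXX' (hX3 a ha y hy)
        · exact hRX' (hRconj a ha y hy)
      exact h1 hx
    set Ps : Subgroup G := A ⊓ centralizer (X' : Set G) with hPs
    set Z₁ : Subgroup G := (A ⊓ E) ⊔ closure {w | ∃ q ∈ P, w = ⁅q, e⁆} with hZ₁
    set Az : Subgroup G := A ⊓ centralizer (Z₁ : Set G) with hAz
    have hZ₁E : Z₁ ≤ E := by
      refine sup_le inf_le_right ?_
      rw [closure_le]
      rintro _ ⟨q, hq, rfl⟩
      exact hcE q (hPA hq)
    have hPsP : Ps ≤ P := fun t ht =>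
      ⟨ht.1, mem_centralizer_iff.2 fun x hx => mem_centralizer_iff.1 ht.2 x (hXX' hx)⟩
    have hPsiff : ∀ t ∈ P, t ∈ Ps ↔ ⁅t, e⁆ ∈ A ⊓ E := by
      intro t ht
      have htA := hPA ht
      constructor
      · intro hts
        refine hCEA _ (hcE t htA) fun a ha => ?_
        have h1 : ⁅t, ⁅a, e⁆⁆ = 1 := by
          rw [commutatorElement_eq_one_iff_mul_comm]
          exact (mem_centralizer_iff.1 hts.2 _ (hRX' (hRgen a ha))).symm
        have h2 := comm_swap hEc (hAc a ha t htA) (hAE a ha) (hAE t htA) he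
        rw [h1] at h2
        exact ((commutatorElement_eq_one_iff_mul_comm).1 h2.symm).symm
      · intro h
        refine ⟨htA, mem_centralizer_iff.2 ?_⟩
        have hle : X' ≤ centralizer ({t} : Set G) := by
          refine sup_le (fun x hx => mem_centralizer_iff.2 ?_) ?_
          · intro w' hw'
            rw [Set.mem_singleton_iff.1 hw']
            exact (mem_centralizer_iff.1 ht.2 x hx).symm
          · rw [hR, closure_le]
            rintro _ ⟨a, ha, rfl⟩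
            refine mem_centralizer_iff.2 ?_
            intro w' hw'
            rw [Set.mem_singleton_iff.1 hw']
            have h2 := comm_swap hEc (hAc a ha t htA) (hAE a ha) (hAE t htA) he
            have h3 : ⁅a, ⁅t, e⁆⁆ = 1 := by
              rw [commutatorElement_eq_one_iff_mul_comm]
              exact hAc a ha _ h.1
            rw [h3, commutatorElement_eq_one_iff_mul_comm] at h2
            exact h2
        intro x hx
        exact (mem_centralizer_iff.1 (hle hx) t rfl).symm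
    have hAziff : ∀ t ∈ A, t ∈ Az ↔ ⁅t, e⁆ ∈ X := by
      intro t htA
      constructor
      · intro hts
        refine hCEP _ (hcE t htA) fun q hq => ?_
        have hgen : ⁅q, e⁆ ∈ Z₁ := (le_sup_right : _ ≤ Z₁) (subset_closure ⟨q, hq, rfl⟩)
        have h1 : ⁅t, ⁅q, e⁆⁆ = 1 := by
          rw [commutatorElement_eq_one_iff_mul_comm]
          exact (mem_centralizer_iff.1 hts.2 _ hgen).symm
        have h2 := comm_swap hEc (hAc q (hPA hq) t htA) (hAE q (hPA hq)) (hAE t htA) he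
        rw [h1] at h2
        exact ((commutatorElement_eq_one_iff_mul_comm).1 h2.symm).symm
      · intro h
        refine ⟨htA, mem_centralizer_iff.2 ?_⟩
        have hle : Z₁ ≤ centralizer ({t} : Set G) := by
          refine sup_le (fun x hx => mem_centralizer_iff.2 ?_) ?_
          · intro w' hw'
            rw [Set.mem_singleton_iff.1 hw']
            exact hAc t htA x hx.1
          · rw [closure_le]
            rintro _ ⟨q, hq, rfl⟩
            refine mem_centralizer_iff.2 ?_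
            intro w' hw'
            rw [Set.mem_singleton_iff.1 hw']
            have h2 := comm_swap hEc (hAc q (hPA hq) t htA) (hAE q (hPA hq)) (hAE t htA) he
            have h3 : ⁅q, ⁅t, e⁆⁆ = 1 := by
              rw [commutatorElement_eq_one_iff_mul_comm]
              exact mem_centralizer_iff.1 hq.2 _ h |>.symm
            rw [← h2, commutatorElement_eq_one_iff_mul_comm] at h3
            exact h3
        intro x hx
        exact (mem_centralizer_iff.1 (hle hx) t rfl).symm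
    -- the counts
    have hcosE : ∀ a ∈ A, ∀ b ∈ A, (⁅a, e⁆)⁻¹ * ⁅b, e⁆ = a * ⁅a⁻¹ * b, e⁆ * a⁻¹ := fun a ha b hb =>
      coset_id hEc (hAE a ha e he) (hAE b hb e he) he
    have hα : Nat.card P * Nat.card ↥(A ⊓ E) ≤ Nat.card Ps * Nat.card Z₁ := by
      refine coset_count (fun q => ⁅q, e⁆) (fun q hq => (le_sup_right : _ ≤ Z₁) (subset_closure ⟨q, hq, rfl⟩))
        hPsP le_sup_left ?_
      intro q hq r hr
      have hq' := hPA hq
      have hr' := hPA hr
      rw [hPsiff _ (P.mul_mem (P.inv_mem hq) hr)]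
      show _ ↔ (⁅q, e⁆)⁻¹ * ⁅r, e⁆ ∈ _
      rw [hcosE q hq' r hr']
      constructor
      · intro h
        have h1 : q * ⁅q⁻¹ * r, e⁆ * q⁻¹ = ⁅q⁻¹ * r, e⁆ := by
          rw [hAc q hq' _ h.1]; group
        rwa [h1]
      · intro h
        have h1 : q⁻¹ * (q * ⁅q⁻¹ * r, e⁆ * q⁻¹) * q = ⁅q⁻¹ * r, e⁆ := by group
        rw [← h1]
        have h2 := hAc q⁻¹ (A.inv_mem hq') _ h.1
        rw [h2]
        simpa using h
    have hβ : Nat.card A * Nat.card X ≤ Nat.card Az * Nat.card X' := by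
      refine coset_count (fun a => ⁅a, e⁆) (fun a ha => hRX' (hRgen a ha)) inf_le_left hXX' ?_
      intro a ha b hb
      rw [hAziff _ (A.mul_mem (A.inv_mem ha) hb)]
      show _ ↔ (⁅a, e⁆)⁻¹ * ⁅b, e⁆ ∈ _
      rw [hcosE a ha b hb]
      constructor
      · intro h
        exact hX3 a ha _ h
      · intro h
        have h1 := hX3 a⁻¹ (A.inv_mem ha) _ h
        have h2 : a⁻¹ * (a * ⁅a⁻¹ * b, e⁆ * a⁻¹) * a⁻¹⁻¹ = ⁅a⁻¹ * b, e⁆ := by group
        rwa [h2] at h1
    have hstarZ : Nat.card Az * Nat.card Z₁ ≤ Nat.card A * Nat.card ↥(A ⊓ E) :=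
      star_X hA hES hEc le_sup_left hZ₁E
    have hstarX' : Nat.card Ps * Nat.card X' ≤ Nat.card A * Nat.card ↥(A ⊓ E) :=
      star_X hA hES hEc hX'1 hX'E
    have htight : Nat.card Ps * Nat.card X' = Nat.card A * Nat.card ↥(A ⊓ E) := by
      refine le_antisymm hstarX' ?_
      have hpos : 0 < Nat.card A * Nat.card ↥(A ⊓ E) := Nat.mul_pos Nat.card_pos Nat.card_pos
      refine Nat.le_of_mul_le_mul_right ?_ hpos
      calc (Nat.card A * Nat.card ↥(A ⊓ E)) * (Nat.card A * Nat.card ↥(A ⊓ E))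
          = (Nat.card P * Nat.card X) * (Nat.card A * Nat.card ↥(A ⊓ E)) := by rw [hX4]
        _ = (Nat.card P * Nat.card ↥(A ⊓ E)) * (Nat.card A * Nat.card X) := by ring
        _ ≤ (Nat.card Ps * Nat.card Z₁) * (Nat.card Az * Nat.card X') := Nat.mul_le_mul hα hβ
        _ = (Nat.card Ps * Nat.card X') * (Nat.card Az * Nat.card Z₁) := by ring
        _ ≤ (Nat.card Ps * Nat.card X') * (Nat.card A * Nat.card ↥(A ⊓ E)) :=
            Nat.mul_le_mul_left _ hstarZ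
    have hX'mem : X' ∈ 𝒯 := ⟨hX'1, hX'E, hX'conj, htight⟩
    have hX'le : X' ≤ X := hmax hX'mem hXX'
    have hXeq : X' = X := le_antisymm hX'le hXX'
    refine ⟨fun a ha => hX'le (hRX' (hRgen a ha)), fun q hq => (hPsiff q hq).1 ?_⟩
    rw [hPs, hXeq]
    exact hq
  exact ⟨X, hX1, hX2, hX3, hX4, fun e he => (key e he).1, fun e he => (key e he).2⟩

end Cfsg.Agent.Lib.Perm.ThompsonT
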