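import Mathlib
import Cfsg.Agent.Lib.Perm.ThompsonT

/-!
# The main commutator computation for abelian subgroups of maximal order acting on a class two section
-/

set_option autoImplicit false
set_option linter.style.haveILetI false
set_option linter.unusedVariables false
set_option linter.unusedSectionVars false

namespace Cfsg.Agent.Lib.Perm.ThompsonM

open Subgroup Cfsg.Agent.Lib.Perm.ThompsonJ Cfsg.Agent.Lib.Perm.ThompsonT
open scoped commutatorElement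

variable {G : Type*} [Group G]

/-- A `p`-element acting on `⟨w⟩` for `w ^ p = 1` acts trivially. -/
theorem conj_pow_trivial {p : ℕ} [hp : Fact p.Prime] {g w : G} {k m : ℕ} (hg : g ^ p ^ k = 1)
    (hw : w ^ p = 1) (h : g * w * g⁻¹ = w ^ m) : g * w * g⁻¹ = w := by
  have h1 : ∀ i : ℕ, g ^ i * w * (g ^ i)⁻¹ = w ^ (m ^ i) := by
    intro i
    induction i with
    | zero => simp
    | succ i ih =>
      have e : g ^ (i + 1) * w * (g ^ (i + 1))⁻¹ = g * (g ^ i * w * (g ^ i)⁻¹) * g⁻¹ := by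
        rw [pow_succ']; group
      rw [e, ih, ← conj_pow, h, ← pow_mul, pow_succ' m i]
  have h2 := h1 (p ^ k)
  rw [hg] at h2
  simp only [one_mul, inv_one, mul_one] at h2
  have h3 : m ^ p ^ k ≡ m [MOD p] := by
    rw [← ZMod.natCast_eq_natCast_iff]
    push_cast
    exact ZMod.pow_card_pow _
  have h4 : w ^ m = w ^ (m ^ p ^ k) := by
    rw [pow_eq_pow_mod m hw, pow_eq_pow_mod (m ^ p ^ k) hw, show m ^ p ^ k % p = m % p from h3]
  rw [h, h4, ← h2]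

section R

variable [Finite G]

/-- The commutator with `g` on an abelian subgroup centralized by `A₁` has range of order at most `p`. -/
theorem lemma_R {p : ℕ} [hp : Fact p.Prime] {S A A₁ : Subgroup G} (hA : IsMaxAb S A)
    (hS : IsPGroup p S) (hA₁ : A₁ ≤ A) (hidx : Nat.card A ≤ p * Nat.card A₁) {g : G} (hg : g ∈ A)
    {T : Set G} (hTS : T ⊆ S) (hTc : ∀ u ∈ T, ∀ v ∈ T, u * v = v * u)
    (hTA : ∀ u ∈ T, ∀ b ∈ A₁, u * b = b * u) (hTg : ∀ u ∈ T, g * u * g⁻¹ ∈ closure T) :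
    (∀ y₁ ∈ closure T, ∀ y₂ ∈ closure T, ⁅g, y₁⁆ ≠ 1 → ∃ n : ℕ, ⁅g, y₂⁆ = ⁅g, y₁⁆ ^ n) ∧
      (∀ y ∈ closure T, ⁅g, ⁅g, y⁆⁆ = 1) := by
  classical
  set Y : Subgroup G := closure T with hY
  have hYS : Y ≤ S := (closure_le _).2 hTS
  have hYc : Cm Y := by
    have h1 : Y ≤ centralizer T := (closure_le _).2 fun u hu => mem_centralizer_iff.2 fun v hv => hTc v hv u hu
    intro a ha b hb
    have h2 : Y ≤ centralizer ({a} : Set G) := (closure_le _).2 fun u hu => by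
      refine mem_centralizer_iff.2 fun v hv => ?_
      rw [Set.mem_singleton_iff.1 hv]
      exact (mem_centralizer_iff.1 (h1 ha) u hu).symm
    exact (mem_centralizer_iff.1 (h2 hb)) a rfl
  have hYA : CmW A₁ Y := by
    intro b hb y hy
    have h2 : Y ≤ centralizer ({b} : Set G) := (closure_le _).2 fun u hu => by
      refine mem_centralizer_iff.2 fun v hv => ?_
      rw [Set.mem_singleton_iff.1 hv]
      exact (hTA u hu b hb).symm
    exact (mem_centralizer_iff.1 (h2 hy)) b rfl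
  have hYg : ∀ y ∈ Y, g * y * g⁻¹ ∈ Y := by
    intro y hy
    have h1 : Y ≤ Y.comap (MulAut.conj g).toMonoidHom := (closure_le _).2 fun u hu => hTg u hu
    exact h1 hy
  have hDY : ∀ y ∈ Y, ⁅g, y⁆ ∈ Y := by
    intro y hy
    rw [commutatorElement_def]
    exact Y.mul_mem (hYg y hy) (Y.inv_mem hy)
  -- the homomorphism
  let θ : Y →* Y := MonoidHom.mk' (fun y => ⟨⁅g, (y : G)⁆, hDY _ y.2⟩) (by
    intro u v
    apply Subtype.ext
    show ⁅g, (u : G) * v⁆ = ⁅g, (u : G)⁆ * ⁅g, (v : G)⁆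
    have h1 := hYc (u : G)⁻¹ (Y.inv_mem u.2) ⁅g, (v : G)⁆ (hDY _ v.2)
    calc ⁅g, (u : G) * v⁆ = g * u * g⁻¹ * (⁅g, (v : G)⁆ * (u : G)⁻¹) := by
          simp only [commutatorElement_def]; group
      _ = g * u * g⁻¹ * ((u : G)⁻¹ * ⁅g, (v : G)⁆) := by rw [h1]
      _ = _ := by simp only [commutatorElement_def]; group)
  have hθ : ∀ y : Y, ((θ y : Y) : G) = ⁅g, (y : G)⁆ := fun y => rfl
  let K₀ : Subgroup Y := (A₁ ⊓ Y).subgroupOf Y
  have hK₀ker : K₀ ≤ θ.ker := by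
    intro y hy
    rw [MonoidHom.mem_ker]
    apply Subtype.ext
    rw [hθ]
    show ⁅g, (y : G)⁆ = 1
    rw [commutatorElement_eq_one_iff_mul_comm]
    exact hA.2.1 g hg y (hA₁ (Subgroup.mem_subgroupOf.1 hy).1)
  have hcK₀ : Nat.card K₀ = Nat.card ↥(A₁ ⊓ Y) :=
    Nat.card_congr (Subgroup.subgroupOfEquivOfLe inf_le_right).toEquiv
  have hindex : K₀.index * Nat.card ↥(A₁ ⊓ Y) = Nat.card Y := by
    rw [← hcK₀, mul_comm]
    exact K₀.card_mul_index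
  have hstar := star hA hA₁ hYS hYc hYA
  have hidx2 : K₀.index ≤ p := by
    have h1 : Nat.card A₁ * Nat.card Y ≤ Nat.card A₁ * (p * Nat.card ↥(A₁ ⊓ Y)) := by
      calc _ ≤ Nat.card A * Nat.card ↥(A₁ ⊓ Y) := hstar
        _ ≤ (p * Nat.card A₁) * Nat.card ↥(A₁ ⊓ Y) := Nat.mul_le_mul_right _ hidx
        _ = _ := by ring
    have h2 := Nat.le_of_mul_le_mul_left h1 Nat.card_pos
    rw [← hindex] at h2
    exact Nat.le_of_mul_le_mul_right h2 Nat.card_pos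
  have hrange : Nat.card θ.range ≤ p := by
    rw [← Subgroup.index_ker]
    have h1 : θ.ker.index ∣ K₀.index := Subgroup.index_dvd_of_le hK₀ker
    have h2 : 0 < K₀.index := Nat.pos_of_ne_zero (Subgroup.index_ne_zero_of_finite)
    exact (Nat.le_of_dvd h2 h1).trans hidx2
  have hpr : IsPGroup p θ.range := by
    have h1 : IsPGroup p Y := hS.to_le hYS
    exact h1.to_subgroup _
  obtain ⟨k, hk⟩ := (IsPGroup.iff_card).1 hpr
  have hcases : Nat.card θ.range = 1 ∨ Nat.card θ.range = p := by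
    rcases Nat.eq_zero_or_pos k with h0 | h0
    · left; rw [hk, h0, pow_zero]
    · right
      rcases Nat.lt_or_ge 1 k with h1 | h1
      · exfalso
        have h2 : p ^ 2 ≤ p ^ k := Nat.pow_le_pow_right hp.out.pos h1
        rw [← hk] at h2
        have h3 := hrange
        have h4 := hp.out.two_le
        nlinarith
      · have : k = 1 := by omega
        rw [hk, this, pow_one]
  have hpow : ∀ y ∈ Y, ⁅g, y⁆ ^ p = 1 := by
    intro y hy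
    rcases hcases with h | h
    · have h1 : (⟨θ ⟨y, hy⟩, ⟨_, rfl⟩⟩ : θ.range) = 1 := by
        haveI : Subsingleton θ.range := (Nat.card_eq_one_iff_unique.1 h).1
        exact Subsingleton.elim _ _
      have h2 : ⁅g, y⁆ = 1 := congrArg (fun z : θ.range => ((z : Y) : G)) h1
      rw [h2, one_pow]
    · have h1 := pow_card_eq_one' (G := θ.range) (x := ⟨θ ⟨y, hy⟩, ⟨_, rfl⟩⟩)
      rw [h] at h1
      exact congrArg (fun z : θ.range => ((z : Y) : G)) h1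
  have hform : ∀ y₁ ∈ Y, ∀ y₂ ∈ Y, ⁅g, y₁⁆ ≠ 1 → ∃ n : ℕ, ⁅g, y₂⁆ = ⁅g, y₁⁆ ^ n := by
    intro y₁ hy₁ y₂ hy₂ hne
    let w₁ : θ.range := ⟨θ ⟨y₁, hy₁⟩, ⟨_, rfl⟩⟩
    let w₂ : θ.range := ⟨θ ⟨y₂, hy₂⟩, ⟨_, rfl⟩⟩
    have hw₁ : w₁ ≠ 1 := by
      intro h
      apply hne
      exact congrArg (fun z : θ.range => ((z : Y) : G)) h
    have hcard : Nat.card θ.range = p := by
      rcases hcases with h | h
      · exfalso
        apply hw₁
        haveI : Subsingleton θ.range := (Nat.card_eq_one_iff_unique.1 h).1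
        exact Subsingleton.elim _ _
      · exact h
    have h1 : w₂ ∈ zpowers w₁ := mem_zpowers_of_prime_card hcard hw₁
    obtain ⟨n, hn⟩ := mem_powers_iff_mem_zpowers.2 h1
    refine ⟨n, ?_⟩
    have h2 := congrArg (fun z : θ.range => ((z : Y) : G)) hn
    have h3 : ((w₂ : Y) : G) = ((w₁ : Y) : G) ^ n := by simpa using h2.symm
    exact h3
  refine ⟨hform, fun y hy => ?_⟩
  by_cases hne : ⁅g, y⁆ = 1
  · rw [hne]
    simp
  · obtain ⟨n, hn⟩ := hform y hy _ (hDY y hy) hne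
    have hgS : g ∈ S := hA.1 hg
    obtain ⟨k', hk'⟩ := hS ⟨g, hgS⟩
    have hg' : g ^ p ^ k' = 1 := by simpa using congrArg Subtype.val hk'
    have h1 : g * ⁅g, y⁆ * g⁻¹ = ⁅g, y⁆ ^ (n + 1) := by
      rw [pow_succ, ← hn]
      simp only [commutatorElement_def]
      group
    have h2 := conj_pow_trivial hg' (hpow y hy) h1
    rw [commutatorElement_eq_one_iff_mul_comm]
    calc g * ⁅g, y⁆ = (g * ⁅g, y⁆ * g⁻¹) * g := by group
      _ = _ := by rw [h2]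

end R

section classTwo

variable {B E : Subgroup G}

/-- `E` is central in `B` and contains the commutators of `B`. -/
structure CT (B E : Subgroup G) : Prop where
  le : E ≤ B
  cen : ∀ e ∈ E, ∀ b ∈ B, e * b = b * e
  comm : ∀ a ∈ B, ∀ b ∈ B, ⁅a, b⁆ ∈ E

theorem CT.cm (h : CT B E) : Cm E := fun a ha b hb => h.cen a ha b (h.le hb)

theorem CT.mul_left (h : CT B E) {u u' v : G} (hu : u ∈ B) (hu' : u' ∈ B) (hv : v ∈ B) :
    ⁅u * u', v⁆ = ⁅u, v⁆ * ⁅u', v⁆ := by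
  have hc := h.comm u' hu' v hv
  have h1 := h.cen _ hc u hu
  have h2 := h.cm _ (h.comm u hu v hv) _ hc
  rw [h2]
  calc ⁅u * u', v⁆ = u * ⁅u', v⁆ * (v * u⁻¹ * v⁻¹) := by simp only [commutatorElement_def]; group
    _ = ⁅u', v⁆ * u * (v * u⁻¹ * v⁻¹) := by rw [h1]
    _ = _ := by simp only [commutatorElement_def]; group

theorem CT.mul_right (h : CT B E) {u v v' : G} (hu : u ∈ B) (hv : v ∈ B) (hv' : v' ∈ B) :
    ⁅u, v * v'⁆ = ⁅u, v⁆ * ⁅u, v'⁆ := by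
  have hc := h.comm u hu v' hv'
  have h1 := h.cen _ hc v hv
  calc ⁅u, v * v'⁆ = ⁅u, v⁆ * (v * ⁅u, v'⁆ * v⁻¹) := by simp only [commutatorElement_def]; group
    _ = ⁅u, v⁆ * (⁅u, v'⁆ * v * v⁻¹) := by rw [h1]
    _ = _ := by group

theorem CT.comm_eq_one_left (h : CT B E) {e b : G} (he : e ∈ E) (hb : b ∈ B) : ⁅e, b⁆ = 1 := by
  rw [commutatorElement_eq_one_iff_mul_comm]
  exact h.cen e he b hb

theorem CT.comm_eq_one_right (h : CT B E) {e b : G} (he : e ∈ E) (hb : b ∈ B) : ⁅b, e⁆ = 1 := by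
  rw [commutatorElement_eq_one_iff_mul_comm]
  exact (h.cen e he b hb).symm

theorem CT.der (h : CT B E) [hBn : B.Normal] {u v : G} (g : G) (hu : u ∈ B) (hv : v ∈ B) :
    ⁅g, ⁅u, v⁆⁆ = ⁅⁅g, u⁆, ⁅g, v⁆⁆ * ⁅⁅g, u⁆, v⁆ * ⁅u, ⁅g, v⁆⁆ := by
  have hDB : ∀ y ∈ B, ⁅g, y⁆ ∈ B := fun y hy => by
    rw [commutatorElement_def]
    exact B.mul_mem (hBn.conj_mem y hy g) (B.inv_mem hy)
  have e1 : g * ⁅u, v⁆ * g⁻¹ = ⁅⁅g, u⁆ * u, ⁅g, v⁆ * v⁆ := by
    simp only [commutatorElement_def]; group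
  have e2 : ⁅g, ⁅u, v⁆⁆ = (g * ⁅u, v⁆ * g⁻¹) * (⁅u, v⁆)⁻¹ := by
    rw [commutatorElement_def]
  rw [e2, e1, h.mul_left (hDB u hu) hu (B.mul_mem (hDB v hv) hv),
    h.mul_right (hDB u hu) (hDB v hv) hv, h.mul_right hu (hDB v hv) hv]
  group

theorem CT.K2 (h : CT B E) {b g y : G} (hbg : b * g = g * b) (hy : y ∈ B) (hw : ⁅g, y⁆ ∈ B)
    (hz : ⁅b, y⁆ ∈ E) : ⁅b, ⁅g, y⁆⁆ = ⁅g, ⁅b, y⁆⁆ := by
  have hb : b * g * b⁻¹ = g := by rw [hbg]; group
  have e1 : b * ⁅g, y⁆ * b⁻¹ = ⁅g, b * y * b⁻¹⁆ := by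
    conv_rhs => rw [← hb]
    simp only [commutatorElement_def]; group
  have e2 : b * y * b⁻¹ = ⁅b, y⁆ * y := by
    simp only [commutatorElement_def]; group
  have e3 : ⁅g, ⁅b, y⁆ * y⁆ = (g * ⁅b, y⁆ * g⁻¹) * ⁅g, y⁆ * (⁅b, y⁆)⁻¹ := by
    simp only [commutatorElement_def]; group
  have e4 : ⁅b, ⁅g, y⁆⁆ = (b * ⁅g, y⁆ * b⁻¹) * (⁅g, y⁆)⁻¹ := by
    rw [commutatorElement_def]
  rw [e4, e1, e2, e3]
  have h1 := h.cen _ (E.inv_mem hz) _ hw
  calc g * ⁅b, y⁆ * g⁻¹ * ⁅g, y⁆ * (⁅b, y⁆)⁻¹ * (⁅g, y⁆)⁻¹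
      = g * ⁅b, y⁆ * g⁻¹ * (⁅g, y⁆ * (⁅b, y⁆)⁻¹) * (⁅g, y⁆)⁻¹ := by group
    _ = g * ⁅b, y⁆ * g⁻¹ * ((⁅b, y⁆)⁻¹ * ⁅g, y⁆) * (⁅g, y⁆)⁻¹ := by rw [h1]
    _ = _ := by
      rw [commutatorElement_def g ⁅b, y⁆]; group

end classTwo

/-- `⁅g, ·⁆` is multiplicative on an abelian subgroup normalized by `g`. -/
theorem comm_mul_of_cm {E : Subgroup G} (hEc : Cm E) {g e e' : G} (hg : ∀ z ∈ E, g * z * g⁻¹ ∈ E)
    (he : e ∈ E) (he' : e' ∈ E) : ⁅g, e * e'⁆ = ⁅g, e⁆ * ⁅g, e'⁆ := by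
  have h1 : ⁅g, e'⁆ ∈ E := by
    rw [commutatorElement_def]
    exact E.mul_mem (hg e' he') (E.inv_mem he')
  have h2 := hEc _ (E.inv_mem he) _ h1
  calc ⁅g, e * e'⁆ = g * e * g⁻¹ * (⁅g, e'⁆ * e⁻¹) := by simp only [commutatorElement_def]; group
    _ = g * e * g⁻¹ * (e⁻¹ * ⁅g, e'⁆) := by rw [h2]
    _ = _ := by simp only [commutatorElement_def]; group

section main

variable [Finite G]

theorem main_M {p : ℕ} [hp : Fact p.Prime] {S O E B A A₁ : Subgroup G} [hEn : E.Normal] [hBn : B.Normal]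
    {g x : G} (hA : IsMaxAb S A) (hS : IsPGroup p S) (hBS : B ≤ S) (hEB : E ≤ B)
    (hEZ : ∀ e ∈ E, ∀ b ∈ B, e * b = b * e) (hBB : ∀ a ∈ B, ∀ b ∈ B, ⁅a, b⁆ ∈ E)
    (hOB : ∀ o ∈ O, ∀ b ∈ B, ⁅o, b⁆ ∈ E)
    (hext : ∀ A' : Subgroup G, IsMaxAb S A' → Nat.card ↥(A ⊓ E) < Nat.card ↥(A' ⊓ E) → A' ≤ O)
    (hA₁ : A₁ ≤ A) (hidx : Nat.card A ≤ p * Nat.card A₁) (hg : g ∈ A) (hx : x ∈ B)
    (hb : ∀ b ∈ A₁, ⁅b, x⁆ ∈ E) (h5 : ⁅g, ⁅g, ⁅g, ⁅g, ⁅g, x⁆⁆⁆⁆⁆ ∈ E) :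
    ⁅g, ⁅g, ⁅g, ⁅g, x⁆⁆⁆⁆ ∈ E := by
  classical
  have hct : CT B E := ⟨hEB, hEZ, hBB⟩
  have hEc : Cm E := hct.cm
  have hAc : Cm A := hA.2.1
  have hES : E ≤ S := hEB.trans hBS
  have hDB : ∀ y ∈ B, ⁅g, y⁆ ∈ B := fun y hy => by
    rw [commutatorElement_def]
    exact B.mul_mem (hBn.conj_mem y hy g) (B.inv_mem hy)
  have hDE : ∀ y ∈ E, ⁅g, y⁆ ∈ E := fun y hy => by
    rw [commutatorElement_def]
    exact E.mul_mem (hEn.conj_mem y hy g) (E.inv_mem hy)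
  have hAE : ∀ a ∈ A, ∀ e ∈ E, a * e * a⁻¹ ∈ E := fun a _ e he => hEn.conj_mem e he a
  obtain ⟨X, hX1, hX2, hX3, hX4, hT1, hT2⟩ := lemma_T hA hES hEc hAE
  set x₁ : G := ⁅g, x⁆ with hx₁
  set x₂ : G := ⁅g, x₁⁆ with hx₂
  set x₃ : G := ⁅g, x₂⁆ with hx₃
  set x₄ : G := ⁅g, x₃⁆ with hx₄
  set x₅ : G := ⁅g, x₄⁆ with hx₅
  have hx₁B : x₁ ∈ B := hDB x hx
  have hx₂B : x₂ ∈ B := hDB _ hx₁B
  have hx₃B : x₃ ∈ B := hDB _ hx₂B
  have hx₄B : x₄ ∈ B := hDB _ hx₃B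
  have hx₅B : x₅ ∈ B := hDB _ hx₄B
  have hbg : ∀ b ∈ A₁, b * g = g * b := fun b hb' => hAc b (hA₁ hb') g hg
  -- the intersection `C₁`
  set C₁ : Subgroup G := E ⊓ centralizer (A₁ : Set G) with hC₁
  have hC₁mem : ∀ c ∈ E, (∀ b ∈ A₁, ⁅b, c⁆ = 1) → c ∈ C₁ := by
    intro c hc h
    refine ⟨hc, mem_centralizer_iff.2 fun b hb' => ?_⟩
    exact (commutatorElement_eq_one_iff_mul_comm).1 (h b hb')
  have hC₁comm : ∀ c ∈ C₁, ∀ b ∈ A₁, c * b = b * c := fun c hc b hb' =>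
    ((mem_centralizer_iff.1 hc.2) b hb').symm
  have hC₁g : ∀ c ∈ C₁, g * c * g⁻¹ ∈ C₁ := by
    intro c hc
    refine hC₁mem _ (hAE g hg c hc.1) fun b hb' => ?_
    have e1 : b * g * b⁻¹ = g := by rw [hbg b hb']; group
    rw [commutatorElement_eq_one_iff_mul_comm]
    have c1 : Commute b g := hbg b hb'
    have c2 : Commute b c := (hC₁comm c hc b hb').symm
    exact (c1.mul_right c2).mul_right c1.inv_right
  have hconj : ∀ y : G, g * y * g⁻¹ = ⁅g, y⁆ * y := fun y => by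
    simp only [commutatorElement_def]; group
  by_cases hXE : X = A ⊓ E
  · subst hXE
    by_contra hx₄E
    have hD2 : ∀ e ∈ E, ⁅g, ⁅g, e⁆⁆ = 1 := fun e he => by
      rw [commutatorElement_eq_one_iff_mul_comm]
      exact hAc g hg _ (hT1 e he g hg).1
    have hb1 : ∀ b ∈ A₁, ⁅b, x₁⁆ ∈ A ⊓ E := fun b hb' => by
      rw [hct.K2 (hbg b hb') hx hx₁B (hb b hb')]
      exact hT1 _ (hb b hb') g hg
    have hb2 : ∀ b ∈ A₁, ⁅b, x₂⁆ = 1 := fun b hb' => by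
      rw [hct.K2 (hbg b hb') hx₁B hx₂B (hb1 b hb').2, commutatorElement_eq_one_iff_mul_comm]
      exact hAc g hg _ (hb1 b hb').1
    have hstep : ∀ y ∈ B, (∀ b ∈ A₁, ⁅b, y⁆ = 1) → ∀ b ∈ A₁, ⁅b, ⁅g, y⁆⁆ = 1 := fun y hy h b hb' => by
      rw [hct.K2 (hbg b hb') hy (hDB y hy) (by rw [h b hb']; exact E.one_mem), h b hb',
        commutatorElement_one_right]
    have hb3 := hstep x₂ hx₂B hb2
    have hb4 := hstep x₃ hx₃B hb3
    have hb5 := hstep x₄ hx₄B hb4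
    have hcomA : ∀ y : G, (∀ b ∈ A₁, ⁅b, y⁆ = 1) → ∀ b ∈ A₁, y * b = b * y := fun y h b hb' =>
      ((commutatorElement_eq_one_iff_mul_comm).1 (h b hb')).symm
    have hx₅C : x₅ ∈ C₁ := hC₁mem _ h5 hb5
    have hc5 : ∀ y ∈ B, ⁅y, x₅⁆ = 1 := fun y hy => hct.comm_eq_one_right h5 hy
    have h04 : ⁅g, ⁅x, x₄⁆⁆ = ⁅x₁, x₄⁆ := by
      rw [hct.der g hx hx₄B]
      show ⁅x₁, x₅⁆ * ⁅x₁, x₄⁆ * ⁅x, x₅⁆ = _
      rw [hc5 _ hx₁B, one_mul, hc5 _ hx, mul_one]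
    have h14 : ⁅g, ⁅x₁, x₄⁆⁆ = ⁅x₂, x₄⁆ := by
      rw [hct.der g hx₁B hx₄B]
      show ⁅x₂, x₅⁆ * ⁅x₂, x₄⁆ * ⁅x₁, x₅⁆ = _
      rw [hc5 _ hx₂B, one_mul, hc5 _ hx₁B, mul_one]
    have h24 : ⁅g, ⁅x₂, x₄⁆⁆ = ⁅x₃, x₄⁆ := by
      rw [hct.der g hx₂B hx₄B]
      show ⁅x₃, x₅⁆ * ⁅x₃, x₄⁆ * ⁅x₂, x₅⁆ = _
      rw [hc5 _ hx₃B, one_mul, hc5 _ hx₂B, mul_one]
    have c24 : ⁅x₂, x₄⁆ = 1 := by
      rw [← h14, ← h04]
      exact hD2 _ (hBB x hx x₄ hx₄B)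
    have c34 : ⁅x₃, x₄⁆ = 1 := by
      rw [← h24, ← h14]
      exact hD2 _ (hBB x₁ hx₁B x₄ hx₄B)
    have c04C : ⁅x, x₄⁆ ∈ C₁ := by
      refine hC₁mem _ (hBB x hx x₄ hx₄B) fun b hb' => ?_
      rw [hct.der b hx hx₄B, hb4 b hb', commutatorElement_one_right, commutatorElement_one_right,
        one_mul, mul_one]
      exact hct.comm_eq_one_left (hb b hb') hx₄B
    -- a general instance of Lemma R
    have hRF : ∀ F : Set G, F ⊆ B → (∀ u ∈ F, ∀ v ∈ F, u * v = v * u) → (∀ u ∈ F, ∀ b ∈ A₁, u * b = b * u) →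
        (∀ u ∈ F, g * u * g⁻¹ ∈ closure (F ∪ (C₁ : Set G))) →
        (∀ y₁ ∈ closure (F ∪ (C₁ : Set G)), ∀ y₂ ∈ closure (F ∪ (C₁ : Set G)), ⁅g, y₁⁆ ≠ 1 →
          ∃ n : ℕ, ⁅g, y₂⁆ = ⁅g, y₁⁆ ^ n) ∧ (∀ y ∈ closure (F ∪ (C₁ : Set G)), ⁅g, ⁅g, y⁆⁆ = 1) := by
      intro F hF1 hF2 hF3 hF4
      refine lemma_R hA hS hA₁ hidx hg ?_ ?_ ?_ ?_
      · rintro u (hu | hu)
        · exact hBS (hF1 hu)
        · exact hES hu.1
      · rintro u (hu | hu) v (hv | hv)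
        · exact hF2 u hu v hv
        · exact (hEZ v hv.1 u (hF1 hu)).symm
        · exact hEZ u hu.1 v (hF1 hv)
        · exact hEc u hu.1 v hv.1
      · rintro u (hu | hu) b hb'
        · exact hF3 u hu b hb'
        · exact hC₁comm u hu b hb'
      · rintro u (hu | hu)
        · exact hF4 u hu
        · exact subset_closure (Or.inr (hC₁g u hu))
    have hx34 : x₃ * x₄ = x₄ * x₃ := (commutatorElement_eq_one_iff_mul_comm).1 c34
    have hx24 : x₂ * x₄ = x₄ * x₂ := (commutatorElement_eq_one_iff_mul_comm).1 c24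
    obtain ⟨hR1, hR2⟩ := hRF {x₃, x₄}
      (by
        intro u hu
        rcases hu with hu | hu
        · rw [hu]; exact hx₃B
        · rw [Set.mem_singleton_iff.1 hu]; exact hx₄B)
      (by
        intro u hu v hv
        rcases hu with hu | hu <;> rcases hv with hv | hv
        · rw [hu, hv]
        · rw [hu, Set.mem_singleton_iff.1 hv]; exact hx34
        · rw [Set.mem_singleton_iff.1 hu, hv]; exact hx34.symm
        · rw [Set.mem_singleton_iff.1 hu, Set.mem_singleton_iff.1 hv])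
      (by
        intro u hu b hb'
        rcases hu with hu | hu
        · rw [hu]; exact hcomA _ hb3 b hb'
        · rw [Set.mem_singleton_iff.1 hu]; exact hcomA _ hb4 b hb')
      (by
        intro u hu
        have m3 : x₃ ∈ closure (({x₃, x₄} : Set G) ∪ (C₁ : Set G)) :=
          subset_closure (Or.inl (Or.inl rfl))
        have m4 : x₄ ∈ closure (({x₃, x₄} : Set G) ∪ (C₁ : Set G)) :=
          subset_closure (Or.inl (Or.inr rfl))
        have m5 : x₅ ∈ closure (({x₃, x₄} : Set G) ∪ (C₁ : Set G)) :=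
          subset_closure (Or.inr hx₅C)
        rcases hu with hu | hu
        · rw [hu, hconj]; exact mul_mem m4 m3
        · rw [Set.mem_singleton_iff.1 hu, hconj]; exact mul_mem m5 m4)
    have hx₅1 : x₅ = 1 := hR2 x₃ (subset_closure (Or.inl (Or.inl rfl)))
    have hgC₁ : ∀ c ∈ C₁, ⁅g, c⁆ = 1 := by
      intro c hc
      by_contra hne
      obtain ⟨n, hn⟩ := hR1 c (subset_closure (Or.inr hc)) x₃ (subset_closure (Or.inl (Or.inl rfl))) hne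
      apply hx₄E
      show ⁅g, x₃⁆ ∈ E
      rw [hn]
      exact E.pow_mem (hDE c hc.1) n
    have c14 : ⁅x₁, x₄⁆ = 1 := by
      rw [← h04]
      exact hgC₁ _ c04C
    have h12 : ⁅g, ⁅x₁, x₂⁆⁆ = ⁅x₂, x₃⁆ * ⁅x₁, x₃⁆ := by
      rw [hct.der g hx₁B hx₂B]
      show ⁅x₂, x₃⁆ * ⁅x₂, x₂⁆ * ⁅x₁, x₃⁆ = _
      rw [commutatorElement_self, mul_one]
    have h13 : ⁅g, ⁅x₁, x₃⁆⁆ = ⁅x₂, x₃⁆ := by
      rw [hct.der g hx₁B hx₃B]
      show ⁅x₂, x₄⁆ * ⁅x₂, x₃⁆ * ⁅x₁, x₄⁆ = _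
      rw [c24, c14, one_mul, mul_one]
    have h23 : ⁅g, ⁅x₂, x₃⁆⁆ = 1 := by
      rw [hct.der g hx₂B hx₃B]
      show ⁅x₃, x₄⁆ * ⁅x₃, x₃⁆ * ⁅x₂, x₄⁆ = _
      rw [c34, c24, commutatorElement_self, one_mul, mul_one]
    have c23 : ⁅x₂, x₃⁆ = 1 := by
      have h1 := hD2 _ (hBB x₁ hx₁B x₂ hx₂B)
      rw [h12, comm_mul_of_cm hEc (hAE g hg) (hBB x₂ hx₂B x₃ hx₃B) (hBB x₁ hx₁B x₃ hx₃B), h23, h13,
        one_mul] at h1
      exact h1
    have hx23 : x₂ * x₃ = x₃ * x₂ := (commutatorElement_eq_one_iff_mul_comm).1 c23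
    obtain ⟨-, hR2'⟩ := hRF {x₂, x₃, x₄}
      (by
        intro u hu
        rcases hu with hu | hu | hu
        · rw [hu]; exact hx₂B
        · rw [hu]; exact hx₃B
        · rw [Set.mem_singleton_iff.1 hu]; exact hx₄B)
      (by
        intro u hu v hv
        rcases hu with hu | hu | hu <;> rcases hv with hv | hv | hv
        · rw [hu, hv]
        · rw [hu, hv]; exact hx23
        · rw [hu, Set.mem_singleton_iff.1 hv]; exact hx24
        · rw [hu, hv]; exact hx23.symm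
        · rw [hu, hv]
        · rw [hu, Set.mem_singleton_iff.1 hv]; exact hx34
        · rw [Set.mem_singleton_iff.1 hu, hv]; exact hx24.symm
        · rw [Set.mem_singleton_iff.1 hu, hv]; exact hx34.symm
        · rw [Set.mem_singleton_iff.1 hu, Set.mem_singleton_iff.1 hv])
      (by
        intro u hu b hb'
        rcases hu with hu | hu | hu
        · rw [hu]; exact hcomA _ hb2 b hb'
        · rw [hu]; exact hcomA _ hb3 b hb'
        · rw [Set.mem_singleton_iff.1 hu]; exact hcomA _ hb4 b hb')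
      (by
        intro u hu
        have m2 : x₂ ∈ closure (({x₂, x₃, x₄} : Set G) ∪ (C₁ : Set G)) :=
          subset_closure (Or.inl (Or.inl rfl))
        have m3 : x₃ ∈ closure (({x₂, x₃, x₄} : Set G) ∪ (C₁ : Set G)) :=
          subset_closure (Or.inl (Or.inr (Or.inl rfl)))
        have m4 : x₄ ∈ closure (({x₂, x₃, x₄} : Set G) ∪ (C₁ : Set G)) :=
          subset_closure (Or.inl (Or.inr (Or.inr rfl)))
        have m5 : x₅ ∈ closure (({x₂, x₃, x₄} : Set G) ∪ (C₁ : Set G)) :=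
          subset_closure (Or.inr hx₅C)
        rcases hu with hu | hu | hu
        · rw [hu, hconj]; exact mul_mem m3 m2
        · rw [hu, hconj]; exact mul_mem m4 m3
        · rw [Set.mem_singleton_iff.1 hu, hconj]; exact mul_mem m5 m4)
    have hx₄1 : x₄ = 1 := hR2' x₂ (subset_closure (Or.inl (Or.inl rfl)))
    apply hx₄E
    rw [hx₄1]
    exact E.one_mem
  · -- Case 2
    have hlt : Nat.card ↥(A ⊓ E) < Nat.card X := by
      by_contra hle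
      exact hXE (Subgroup.eq_of_le_of_card_ge hX1 (not_lt.1 hle)).symm
    have hAm := isMaxAb_sup hA hES hEc hX1 hX2 hX4
    have hAmE := sup_inf_eq (A := A) hEc hX1 hX2
    have hAmO := hext _ hAm (by rw [hAmE]; exact hlt)
    set P : Subgroup G := A ⊓ centralizer (X : Set G) with hP
    have hPO : P ≤ O := le_sup_left.trans hAmO
    have hPA : P ≤ A := inf_le_left
    have hqz : ∀ q ∈ P, ∀ y ∈ B, ⁅q, y⁆ ∈ E := fun q hq y hy => hOB q (hPO hq) y hy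
    have hqg : ∀ q ∈ P, q * g = g * q := fun q hq => hAc q (hPA hq) g hg
    -- `C₁`
    obtain ⟨-, hR2⟩ := lemma_R hA hS hA₁ hidx hg (T := (C₁ : Set G))
      (fun u hu => hES hu.1) (fun u hu v hv => hEc u hu.1 v hv.1) (fun u hu b hb' => hC₁comm u hu b hb')
      (fun u hu => by rw [closure_eq]; exact hC₁g u hu)
    rw [closure_eq] at hR2
    have hq3 : ∀ q ∈ P, ⁅q, x₃⁆ = 1 := by
      intro q hq
      have hz : ⁅q, x⁆ ∈ E := hqz q hq x hx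
      have hbz : ∀ b ∈ A₁, ⁅b, ⁅q, x⁆⁆ ∈ A ⊓ E := fun b hb' => by
        rw [hct.K2 (hAc b (hA₁ hb') q (hPA hq)) hx (hEB hz) (hb b hb')]
        exact hT2 _ (hb b hb') q hq
      have hz₁ : ⁅g, ⁅q, x⁆⁆ ∈ C₁ := by
        refine hC₁mem _ (hDE _ hz) fun b hb' => ?_
        rw [hct.K2 (hbg b hb') (hEB hz) (hEB (hDE _ hz)) (hbz b hb').2,
          commutatorElement_eq_one_iff_mul_comm]
        exact hAc g hg _ (hbz b hb').1
      have h1 := hR2 _ hz₁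
      have e1 : ⁅q, x₁⁆ = ⁅g, ⁅q, x⁆⁆ := hct.K2 (hqg q hq) hx hx₁B (hqz q hq x hx)
      have e2 : ⁅q, x₂⁆ = ⁅g, ⁅q, x₁⁆⁆ := hct.K2 (hqg q hq) hx₁B hx₂B (hqz q hq x₁ hx₁B)
      have e3 : ⁅q, x₃⁆ = ⁅g, ⁅q, x₂⁆⁆ := hct.K2 (hqg q hq) hx₂B hx₃B (hqz q hq x₂ hx₂B)
      rw [e3, e2, e1]
      exact h1
    have hx₃A : x₃ ∈ P ⊔ X := by
      refine mem_of_comm hAm (hBS hx₃B) fun w hw => ?_
      have hle : P ⊔ X ≤ centralizer ({x₃} : Set G) := by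
        refine sup_le (fun q hq => mem_centralizer_iff.2 ?_) (fun c hc => mem_centralizer_iff.2 ?_)
        · intro w' hw'
          rw [Set.mem_singleton_iff.1 hw']
          exact ((commutatorElement_eq_one_iff_mul_comm).1 (hq3 q hq)).symm
        · intro w' hw'
          rw [Set.mem_singleton_iff.1 hw']
          exact (hEZ c (hX2 hc) x₃ hx₃B).symm
      exact mem_centralizer_iff.1 (hle hw) x₃ rfl
    have hx₃A' : x₃ ∈ X ⊔ P := by
      rw [sup_comm]; exact hx₃A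
    obtain ⟨c, hc, q, hq, hcq⟩ := (Cfsg.Agent.Lib.Coprime.Coset.mem_sup_iff_of_le_normalizer
      (le_normalizer_of_cmW (C := P) (Y := X)
        (fun a ha b hb => ((mem_centralizer_iff.1 ha.2) b hb).symm)) x₃).1 hx₃A'
    show ⁅g, x₃⁆ ∈ E
    rw [← hcq]
    have e : ⁅g, c * q⁆ = ⁅g, c⁆ := by
      have h1 : g * q * g⁻¹ = q := by rw [← hqg q hq]; group
      calc ⁅g, c * q⁆ = g * c * g⁻¹ * (g * q * g⁻¹) * q⁻¹ * c⁻¹ := by
            simp only [commutatorElement_def]; group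
        _ = _ := by
            rw [h1]; simp only [commutatorElement_def]; group
    rw [e]
    exact hDE c (hX2 hc)

end main

end Cfsg.Agent.Lib.Perm.ThompsonM
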