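import Mathlib
import Cfsg.Agent.Lib.Perm.ThompsonM
import Cfsg.Agent.Lib.Perm.ThompsonL
import Cfsg.Agent.Lib.Transfer.EngelMaximal

/-!
# Abelian subgroups of maximal order in a maximal Sylow subgroup lie in `O_p`

Let `p ≥ 5`, and let `X` be a finite group with `C(O_p X) ≤ O_p X`, with `X / O_p X` `p`-nilpotent and with a maximal
subgroup `T` which is a Sylow `p`-subgroup. Every abelian subgroup of `T` of maximal order lies in `O_p X`.
-/

set_option autoImplicit false
set_option linter.style.haveILetI false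
set_option linter.unusedVariables false
set_option linter.unusedSectionVars false

universe u

namespace Cfsg.Agent.Lib.Perm.ThompsonX

open Subgroup Cfsg Cfsg.Agent.Lib.Basic.PCore Cfsg.Agent.Lib.Transfer.Basic
open Cfsg.Agent.Lib.Transfer.ChiefNorm Cfsg.Agent.Lib.Transfer.MaximalStable
open Cfsg.Agent.Lib.Thompson.QuadraticStable
open Cfsg.Agent.Lib.Transfer.EngelMaximal
open Cfsg.Agent.Lib.Perm.ThompsonJ Cfsg.Agent.Lib.Perm.ThompsonM Cfsg.Agent.Lib.Perm.ThompsonL
open scoped commutatorElement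

variable {p : ℕ} [hp : Fact p.Prime]

/-- A `p'`-element fixing `⁅r, u⁆`, for `⁅r, u⁆` of `p`-power order, commutes with `u`. -/
theorem stable {G : Type*} [Group G] {r u : G} (hr : (orderOf r).Coprime p)
    (hc : r * ⁅r, u⁆ = ⁅r, u⁆ * r) {k : ℕ} (hk : ⁅r, u⁆ ^ p ^ k = 1) : ⁅r, u⁆ = 1 := by
  set n : G := ⁅r, u⁆ with hn
  have hc' : Commute r n := hc
  have h1 : ∀ i : ℕ, r ^ i * u * (r ^ i)⁻¹ = n ^ i * u := by
    intro i
    induction i with
    | zero => simp
    | succ i ih =>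
      have e1 : r ^ (i + 1) * u * (r ^ (i + 1))⁻¹ = r * (r ^ i * u * (r ^ i)⁻¹) * r⁻¹ := by
        rw [pow_succ']; group
      have e2 : r * u * r⁻¹ = n * u := by
        rw [hn, commutatorElement_def]; group
      rw [e1, ih]
      calc r * (n ^ i * u) * r⁻¹ = (r * n ^ i * r⁻¹) * (r * u * r⁻¹) := by group
        _ = n ^ i * (n * u) := by
          rw [e2, (hc'.pow_right i).eq]; group
        _ = _ := by rw [pow_succ]; group
  have h2 := h1 (orderOf r)
  rw [pow_orderOf_eq_one] at h2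
  simp only [one_mul, inv_one, mul_one] at h2
  have h3 : n ^ orderOf r = 1 := by
    have := mul_eq_right.1 h2.symm
    exact this
  have h4 : orderOf n ∣ orderOf r := orderOf_dvd_of_pow_eq_one h3
  have h5 : orderOf n ∣ p ^ k := orderOf_dvd_of_pow_eq_one hk
  exact orderOf_eq_one_iff.1 (Nat.eq_one_of_dvd_coprimes (Nat.Coprime.pow_right k hr) h4 h5)

/-- The section on which the `p'`-elements act nontrivially. -/
theorem exists_section {G : Type*} [Group G] [Finite G]
    (hc : centralizer ((pCore p G : Subgroup G) : Set G) ≤ pCore p G)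
    (T : Sylow p G) (hT : IsCoatom (T : Subgroup G)) :
    ∃ B E : Subgroup G, IsChiefFactor B E ∧ B ≤ pCore p G ∧
      (∀ e ∈ E, ∀ b ∈ B, e * b = b * e) ∧ (∀ o ∈ pCore p G, ∀ b ∈ B, ⁅o, b⁆ ∈ E) ∧
      ∃ r : G, (orderOf r).Coprime p ∧ ∃ b ∈ B, ⁅b, r⁆ ∉ E := by
  classical
  haveI hOn : (pCore p G).Normal := pCore_normal p G
  have hOp : IsPGroup p (pCore p G) := pCore_isPGroup p
  set O : Subgroup G := pCore p G with hO
  have hOpow : ∀ x ∈ O, ∃ k : ℕ, x ^ p ^ k = 1 := by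
    intro x hx
    obtain ⟨k, hk⟩ := hOp ⟨x, hx⟩
    exact ⟨k, by simpa using congrArg Subtype.val hk⟩
  set R₀ : Subgroup G := pResidual p G with hR₀
  haveI hR₀n : R₀.Normal := by
    rw [hR₀]
    exact closure_normal_of_conj_invariant (fun x hx g => by
      show Nat.Coprime (orderOf (g * x * g⁻¹)) p
      rw [orderOf_conj_eq]
      exact hx)
  have hgen : ∀ r : G, (orderOf r).Coprime p → r ∈ R₀ := fun r hr => subset_closure hr
  set W : Subgroup G := O ⊓ centralizer (R₀ : Set G) with hW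
  haveI hWn : W.Normal := by
    rw [hW]
    infer_instance
  have hWO : W ≤ O := inf_le_left
  -- elements of `W` commute with `p'`-elements
  have hWcomm : ∀ w ∈ W, ∀ r : G, (orderOf r).Coprime p → r * w = w * r := fun w hw r hr =>
    mem_centralizer_iff.1 hw.2 r (hgen r hr)
  -- a subgroup of `O` on which the `p'`-elements act trivially lies in `W`
  have hcen : ∀ x ∈ O, (∀ r : G, (orderOf r).Coprime p → r * x = x * r) → x ∈ W := by
    intro x hx h
    refine ⟨hx, ?_⟩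
    have h1 : R₀ ≤ centralizer ({x} : Set G) := by
      rw [hR₀]
      refine (closure_le _).2 fun r hr => mem_centralizer_iff.2 fun y hy => ?_
      rw [Set.mem_singleton_iff.1 hy]
      exact (h r hr).symm
    exact mem_centralizer_iff.2 fun r hr => (mem_centralizer_iff.1 (h1 hr) x rfl).symm
  -- `W` is a proper subgroup of `O`
  have hWlt : W < O := by
    refine lt_of_le_of_ne inf_le_left fun he => ?_
    have h1 : ∀ r : G, (orderOf r).Coprime p → r = 1 := by
      intro r hr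
      have h2 : r ∈ O := by
        apply hc
        refine mem_centralizer_iff.2 fun o ho => ?_
        have ho' : o ∈ W := by rw [he]; exact ho
        exact (hWcomm o ho' r hr).symm
      obtain ⟨k, hk⟩ := hOpow r h2
      have h3 : orderOf r ∣ p ^ k := orderOf_dvd_of_pow_eq_one hk
      exact orderOf_eq_one_iff.1 (Nat.Coprime.eq_one_of_dvd (Nat.Coprime.pow_right k hr) h3)
    apply hT.1
    have h2 : IsPGroup p G := by
      intro g
      obtain ⟨a, b, hab, -, -, -, ⟨k, hk⟩, hb⟩ := exists_pPart_decomp (p := p) g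
      refine ⟨k, ?_⟩
      rw [← hab, h1 b hb, mul_one, ← hk, pow_orderOf_eq_one]
    have h3 : IsPGroup p (⊤ : Subgroup G) := h2.to_subgroup ⊤
    exact T.is_maximal' h3 le_top |>.symm ▸ rfl
  -- a minimal normal subgroup above `W`
  let 𝒰 : Set (Subgroup G) := {N | N.Normal ∧ W < N ∧ N ≤ O}
  obtain ⟨U, ⟨hUn, hWU, hUO⟩, hUmin⟩ := 𝒰.toFinite.exists_minimal ⟨O, hOn, hWlt, le_rfl⟩
  haveI := hUn
  have hUchief : IsChiefFactor U W := by
    refine ⟨hWU, hUn, hWn, fun N hN h1 h2 => ?_⟩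
    by_cases hNW : N = W
    · exact Or.inl hNW
    · exact Or.inr (le_antisymm h2 (hUmin ⟨hN, lt_of_le_of_ne h1 (Ne.symm hNW), h2.trans hUO⟩ h2))
  have hUOcomm : ∀ x ∈ U, ∀ q ∈ O, ⁅x, q⁆ ∈ W := chief_comm_le hUchief hUO hOn hOp
  set B : Subgroup G := ⁅U, R₀⁆ with hB
  haveI hBn : B.Normal := by
    rw [hB]
    infer_instance
  have hBU : B ≤ U := Subgroup.commutator_le_left U R₀
  have hmemB : ∀ u ∈ U, ∀ r : G, (orderOf r).Coprime p → ⁅u, r⁆ ∈ B := fun u hu r hr =>
    Subgroup.commutator_mem_commutator hu (hgen r hr)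
  set E : Subgroup G := B ⊓ W with hE
  haveI hEn : E.Normal := by
    rw [hE]
    infer_instance
  -- `[B, W] = 1`
  have hRW : ⁅R₀, W⁆ = ⊥ := by
    rw [Subgroup.commutator_eq_bot_iff_le_centralizer]
    exact Subgroup.le_centralizer_iff.1 inf_le_right
  have hBW : ⁅B, W⁆ = ⊥ := by
    refine Subgroup.commutator_commutator_eq_bot_of_rotate ?_ ?_
    · rw [hRW, Subgroup.commutator_bot_left]
    · have h1 : ⁅W, U⁆ ≤ W := Subgroup.commutator_le_left W U
      have h2 : ⁅W, R₀⁆ = ⊥ := by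
        rw [Subgroup.commutator_comm, hRW]
      rw [eq_bot_iff, ← h2]
      exact Subgroup.commutator_mono h1 le_rfl
  have hBWc : ∀ b ∈ B, ∀ w ∈ W, b * w = w * b := by
    intro b hb w hw
    have h1 := Subgroup.commutator_mem_commutator hb hw
    rw [hBW, Subgroup.mem_bot, commutatorElement_eq_one_iff_mul_comm] at h1
    exact h1
  -- the key stability statement: the `p'`-elements do not centralize `U`
  have hnc : ¬ ∀ u ∈ U, ∀ r : G, (orderOf r).Coprime p → r * u = u * r := by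
    intro h
    obtain ⟨u, hu, huW⟩ := SetLike.exists_of_lt hWU
    exact huW (hcen u (hUO hu) fun r hr => h u hu r hr)
  have hcomm_symm : ∀ r u : G, ⁅r, u⁆ = (⁅u, r⁆)⁻¹ := fun r u => (commutatorElement_inv u r).symm
  have hBnotW : ¬ B ≤ W := by
    intro hle
    apply hnc
    intro u hu r hr
    have h1 : ⁅r, u⁆ ∈ W := by
      rw [hcomm_symm]
      exact W.inv_mem (hle (hmemB u hu r hr))
    obtain ⟨k, hk⟩ := hOpow _ (hWO h1)
    have h2 := stable hr (hWcomm _ h1 r hr) hk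
    exact (commutatorElement_eq_one_iff_mul_comm).1 h2
  have hEB : E ≤ B := inf_le_left
  have hchief : IsChiefFactor B E := by
    refine ⟨lt_of_le_of_ne hEB fun he => hBnotW (he ▸ inf_le_right), hBn, hEn, fun N hN h1 h2 => ?_⟩
    haveI := hN
    have hNW : (N ⊔ W : Subgroup G).Normal := inferInstance
    rcases hUchief.2.2.2 _ hNW le_sup_right (sup_le (h2.trans hBU) hWU.le) with h3 | h3
    · left
      refine le_antisymm ?_ h1
      intro n hn
      exact ⟨h2 hn, h3 ▸ (le_sup_left : N ≤ N ⊔ W) hn⟩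
    · right
      refine le_antisymm h2 fun b hb => ?_
      have hb' : b ∈ N ⊔ W := by rw [h3]; exact hBU hb
      obtain ⟨n, hn, w, hw, rfl⟩ := Subgroup.mem_sup_of_normal_right.mp hb'
      have hw' : w ∈ B := by
        have e : w = n⁻¹ * (n * w) := by group
        rw [e]
        exact B.mul_mem (B.inv_mem (h2 hn)) hb
      exact N.mul_mem hn (h1 ⟨hw', hw⟩)
  refine ⟨B, E, hchief, hBU.trans hUO, ?_, ?_, ?_⟩
  · intro e he b hb
    exact (hBWc b hb e he.2).symm
  · intro o ho b hb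
    refine ⟨?_, ?_⟩
    · rw [commutatorElement_def]
      exact B.mul_mem (hBn.conj_mem b hb o) (B.inv_mem hb)
    · rw [hcomm_symm]
      exact W.inv_mem (hUOcomm b (hBU hb) o ho)
  · by_contra hcon
    push Not at hcon
    apply hnc
    intro u hu r hr
    have h1 : ∀ b ∈ B, ⁅r, b⁆ = 1 := by
      intro b hb
      have h2 : ⁅r, b⁆ ∈ E := by
        rw [hcomm_symm]
        exact E.inv_mem (hcon r hr b hb)
      obtain ⟨k, hk⟩ := hOpow _ (hWO h2.2)
      exact stable hr (hWcomm _ h2.2 r hr) hk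
    have h2 : ⁅r, u⁆ ∈ B := by
      rw [hcomm_symm]
      exact B.inv_mem (hmemB u hu r hr)
    have h3 : r * ⁅r, u⁆ = ⁅r, u⁆ * r := (commutatorElement_eq_one_iff_mul_comm).1 (h1 _ h2)
    have hBO : B ≤ O := hBU.trans hUO
    obtain ⟨k, hk⟩ := hOpow _ (hBO h2)
    exact (commutatorElement_eq_one_iff_mul_comm).1 (stable hr h3 hk)

/-- The geometric sum in characteristic `p`. -/
theorem geom_sum_eq_pow {R : Type*} [Ring R] [Algebra (ZMod p) R] (r : R) :
    ∑ i ∈ Finset.range p, r ^ i = (r - 1) ^ (p - 1) := by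
  have hne : (Polynomial.X - 1 : Polynomial (ZMod p)) ≠ 0 := Polynomial.X_sub_C_ne_zero (1 : ZMod p)
  have h1 : (∑ i ∈ Finset.range p, (Polynomial.X : Polynomial (ZMod p)) ^ i) =
      (Polynomial.X - 1) ^ (p - 1) := by
    apply mul_right_cancel₀ hne
    rw [geom_sum_mul, ← pow_succ]
    have h2 : p - 1 + 1 = p := Nat.sub_add_cancel hp.out.pos
    rw [h2, sub_pow_char, one_pow]
  have h2 := congrArg (Polynomial.aeval r) h1
  simpa only [map_sum, map_pow, Polynomial.aeval_X, map_sub, map_one] using h2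

/-- **Abelian subgroups of maximal order lie in `O_p`.** -/
theorem theorem_X {G : Type u} [Group G] [Finite G] (hp5 : 5 ≤ p)
    (hc : centralizer ((pCore p G : Subgroup G) : Set G) ≤ pCore p G)
    (hq : HasNormalPComplement p (G ⧸ pCore p G)) (T : Sylow p G) (hT : IsCoatom (T : Subgroup G))
    {A₀ : Subgroup G} (hA₀ : IsMaxAb (T : Subgroup G) A₀) : A₀ ≤ pCore p G := by
  classical
  by_contra hA₀O
  haveI hOn : (pCore p G).Normal := pCore_normal p G
  have hOp : IsPGroup p (pCore p G) := pCore_isPGroup p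
  set O : Subgroup G := pCore p G with hO
  obtain ⟨B, E, hchief, hBO, hEZ, hOB, r₀, hr₀, b₀, hb₀, hb₀E⟩ := exists_section hc T hT
  obtain ⟨hEB, hBn, hEn, hmin⟩ := id hchief
  haveI := hBn
  haveI := hEn
  have hOT : O ≤ (T : Subgroup G) := pCore_le_sylow T
  have hBT : B ≤ (T : Subgroup G) := hBO.trans hOT
  have hBp : IsPGroup p B := hOp.to_le hBO
  -- the extremal choice
  let 𝒜 : Set (Subgroup G) := {A | IsMaxAb (T : Subgroup G) A ∧ ¬ A ≤ O}
  have hne𝒜 : 𝒜.Nonempty := ⟨A₀, hA₀, hA₀O⟩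
  obtain ⟨A, ⟨hA, hAO⟩, hAmax⟩ := Set.exists_max_image 𝒜 (fun A => Nat.card ↥(A ⊓ E)) 𝒜.toFinite hne𝒜
  have hext : ∀ A' : Subgroup G, IsMaxAb (T : Subgroup G) A' → Nat.card ↥(A ⊓ E) < Nat.card ↥(A' ⊓ E) →
      A' ≤ O := by
    intro A' h1 h2
    by_contra h3
    exact absurd (hAmax A' ⟨h1, h3⟩) (not_le.2 h2)
  -- the representation
  have hcomm : ∀ x ∈ B, ∀ y ∈ B, x * y * x⁻¹ * y⁻¹ ∈ E := fun x hx y hy => hOB x (hBO hx) y hy
  have hpow : ∀ x ∈ B, x ^ p ∈ E := chief_pow_mem hchief hBO hOn hOp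
  obtain ⟨M, i1, i2, ρ, π, hsurj, hadd, hker, hact⟩ := exists_section_rep p B E hcomm hpow
  haveI : Finite M := Finite.of_surjective π hsurj
  have hsub : ∀ u v : B, π (u * v⁻¹) = π u - π v := by
    intro u v
    have := hadd (u * v⁻¹) v
    rw [inv_mul_cancel_right] at this
    rw [this, add_sub_cancel_right]
  have hρker : ∀ k, ρ k = 1 ↔ ∀ x ∈ B, k * x * k⁻¹ * x⁻¹ ∈ E := by
    intro k
    constructor
    · intro hk x hx
      have h1 := hact k ⟨x, hx⟩
      rw [hk, Module.End.one_apply] at h1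
      have h2 := hsub (MulAut.conjNormal k ⟨x, hx⟩) ⟨x, hx⟩
      rw [← h1, sub_self, hker] at h2
      simpa using h2
    · intro hk
      refine LinearMap.ext fun v => ?_
      obtain ⟨x, rfl⟩ := hsurj v
      rw [Module.End.one_apply, hact]
      apply sub_eq_zero.mp
      rw [← hsub, hker]
      simpa using hk x x.2
  have hcomm_iff : ∀ k : G, (∀ x ∈ B, k * x * k⁻¹ * x⁻¹ ∈ E) ↔ ∀ x ∈ B, ⁅x, k⁆ ∈ E := by
    intro k
    constructor
    · intro h x hx
      have e : ⁅x, k⁆ = (k * x * k⁻¹ * x⁻¹)⁻¹ := by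
        rw [commutatorElement_def]; group
      rw [e]
      exact E.inv_mem (h x hx)
    · intro h x hx
      have e : k * x * k⁻¹ * x⁻¹ = (⁅x, k⁆)⁻¹ := by
        rw [commutatorElement_def]; group
      rw [e]
      exact E.inv_mem (h x hx)
  have hOker : ∀ q ∈ O, ρ q = 1 := by
    intro q hq'
    rw [hρker]
    intro x hx
    exact hOB q hq' x hx
  -- the kernel
  have hDO : ρ.ker ≤ O := by
    by_cases hDT : ρ.ker ≤ (T : Subgroup G)
    · exact le_pCore inferInstance (T.isPGroup'.to_le hDT)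
    · exfalso
      have hne1 : (T : Subgroup G) ≠ (T : Subgroup G) ⊔ ρ.ker := by
        intro h
        apply hDT
        rw [h]
        exact le_sup_right
      have htop : (T : Subgroup G) ⊔ ρ.ker = ⊤ :=
        hT.2 _ (lt_of_le_of_ne le_sup_left hne1)
      let τ : G →* G ⧸ ρ.ker := QuotientGroup.mk' ρ.ker
      have hτ : Function.Surjective τ := QuotientGroup.mk'_surjective _
      have hΓ : IsPGroup p (G ⧸ ρ.ker) := by
        have hs : Function.Surjective (τ.comp (T : Subgroup G).subtype) := by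
          intro y
          obtain ⟨x, rfl⟩ := hτ y
          have hx : x ∈ ((T : Subgroup G) ⊔ ρ.ker : Subgroup G) := by rw [htop]; exact mem_top _
          have hx' : x ∈ (((T : Subgroup G) ⊔ ρ.ker : Subgroup G) : Set G) := hx
          rw [Subgroup.mul_normal] at hx'
          obtain ⟨t, ht, d, hd, rfl⟩ := Set.mem_mul.1 hx'
          refine ⟨⟨t, ht⟩, ?_⟩
          show τ t = τ (t * d)
          rw [map_mul]
          have : τ d = 1 := (QuotientGroup.eq_one_iff d).2 hd
          rw [this, mul_one]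
        exact T.isPGroup'.of_surjective _ hs
      have hr : τ r₀ ∈ pCore p (G ⧸ ρ.ker) := by
        have h1 : (⊤ : Subgroup (G ⧸ ρ.ker)) ≤ pCore p (G ⧸ ρ.ker) :=
          le_pCore inferInstance (by
            intro y
            obtain ⟨k, hk⟩ := hΓ y.1
            exact ⟨k, Subtype.ext hk⟩)
        exact h1 (mem_top _)
      have hker' : ∀ k, τ k = 1 → ∀ u ∈ B, ⁅u, k⁆ ∈ E := by
        intro k hk
        have h1 : k ∈ ρ.ker := (QuotientGroup.eq_one_iff k).1 hk
        exact (hcomm_iff k).1 ((hρker k).1 h1)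
      have h2 := Cfsg.Agent.Lib.PGroup.KInfQuartic.chief_central_of_pCore T hchief hBp τ hτ hker' hr
      exact hb₀E (h2 b₀ hb₀)
  -- the quotient
  let κ : G →* G ⧸ O := QuotientGroup.mk' O
  have hκ : Function.Surjective κ := QuotientGroup.mk'_surjective O
  let ρ' : (G ⧸ O) →* Module.End (ZMod p) M := QuotientGroup.lift O ρ hOker
  have hρ' : ∀ a : G, ρ' (κ a) = ρ a := fun a => QuotientGroup.lift_mk' _ _ _
  let T' : Sylow p (G ⧸ O) := T.mapSurjective hκ
  have hT'c : (T' : Subgroup (G ⧸ O)) = (T : Subgroup G).map κ := rfl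
  have hT' : IsCoatom (T' : Subgroup (G ⧸ O)) := coatom_map T hT
  obtain ⟨K, hKn, hKc, hKq⟩ := hasNormalPComplement_iff.1 hq
  have hcommK : ∀ a ∈ K, ∀ b ∈ K, a * b = b * a := comm_of_coatom T' hT' K hKc
  have hfaith : ∀ e, ρ' e = 1 → e = 1 := by
    intro e he
    obtain ⟨a, rfl⟩ := hκ e
    rw [hρ'] at he
    exact (QuotientGroup.eq_one_iff a).2 (hDO he)
  -- `T'` acts faithfully on `K`
  have hmoveT : ∀ a ∈ (T' : Subgroup (G ⧸ O)), (∀ k ∈ K, a * k = k * a) → a = 1 := by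
    intro a haT hak
    set C : Subgroup (G ⧸ O) := centralizer (K : Set (G ⧸ O)) with hC
    have hCn : C.Normal := by rw [hC]; infer_instance
    have hgC : a ∈ C := mem_centralizer_iff.2 fun e he => (hak e he).symm
    have hcompl := isComplement'_of_coprime_of_isPGroup T' hKc hKq
    have htop : (T' : Subgroup (G ⧸ O)) ⊔ K = ⊤ := by
      rw [sup_comm]
      exact hcompl.sup_eq_top
    have hPn : ((T' : Subgroup (G ⧸ O)) ⊓ C).Normal := by
      refine ⟨fun z hz y => ?_⟩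
      have hy : y ∈ (((T' : Subgroup (G ⧸ O)) ⊔ K : Subgroup (G ⧸ O)) : Set (G ⧸ O)) := by
        rw [htop]; exact mem_top _
      rw [Subgroup.mul_normal] at hy
      obtain ⟨t, ht, e, he, rfl⟩ := Set.mem_mul.1 hy
      have h1 := (mem_centralizer_iff.1 hz.2) e he
      have e1 : t * e * z * (t * e)⁻¹ = t * z * t⁻¹ := by
        calc t * e * z * (t * e)⁻¹ = t * (e * z) * e⁻¹ * t⁻¹ := by group
          _ = t * (z * e) * e⁻¹ * t⁻¹ := by rw [h1]
          _ = _ := by group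
      rw [e1]
      exact ⟨(T' : Subgroup (G ⧸ O)).mul_mem ((T' : Subgroup (G ⧸ O)).mul_mem ht hz.1)
        ((T' : Subgroup (G ⧸ O)).inv_mem ht), hCn.conj_mem z hz.2 t⟩
    have hPle : (T' : Subgroup (G ⧸ O)) ⊓ C ≤ pCore p (G ⧸ O) :=
      le_pCore hPn (T'.isPGroup'.to_le inf_le_left)
    have h2 := hPle ⟨haT, hgC⟩
    rw [pCore_quotient_eq_bot, Subgroup.mem_bot] at h2
    exact h2
  have hAT' : A.map κ ≤ (T' : Subgroup (G ⧸ O)) := Subgroup.map_mono hA.1
  have hAcbar : Cm (A.map κ) := by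
    rintro _ ⟨a, ha, rfl⟩ _ ⟨b, hb, rfl⟩
    rw [← map_mul, ← map_mul, hA.2.1 a ha b hb]
  have hApbar : IsPGroup p (A.map κ) :=
    (T.isPGroup'.to_le hA.1).map κ
  have hAbarne : A.map κ ≠ ⊥ := by
    intro h
    apply hAO
    intro a ha
    have h1 : κ a ∈ A.map κ := ⟨a, ha, rfl⟩
    rw [h, Subgroup.mem_bot] at h1
    exact (QuotientGroup.eq_one_iff a).1 h1
  obtain ⟨Abar₁, hAbar₁, hidx, gbar, hgbar, hgbarp, y, hyfix, hyne⟩ := lemma_L ρ' hfaith (A.map κ) K hAcbar hApbar hcommK hKc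
    (fun a _ k hk => hKn.conj_mem k hk a) (fun a ha h => hmoveT a (hAT' ha) h) hAbarne
  obtain ⟨g, hgA, rfl⟩ := hgbar
  set A₁ : Subgroup G := A ⊓ Abar₁.comap κ with hA₁
  have hidx' : Nat.card A ≤ p * Nat.card A₁ := by
    have h1 : A₁.relIndex A = Abar₁.relIndex (A.map κ) := by
      rw [hA₁, Subgroup.inf_relIndex_left, Subgroup.relIndex_comap]
    have h2 : Nat.card ↥(A.map κ) = Nat.card Abar₁ * Abar₁.relIndex (A.map κ) := by
      rw [← Subgroup.relIndex_bot_left, ← Subgroup.relIndex_bot_left,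
        Subgroup.relIndex_mul_relIndex _ _ _ bot_le hAbar₁]
    have h3 : Nat.card A = Nat.card A₁ * A₁.relIndex A := by
      rw [← Subgroup.relIndex_bot_left, ← Subgroup.relIndex_bot_left,
        Subgroup.relIndex_mul_relIndex _ _ _ bot_le inf_le_left]
    have h4 : Abar₁.relIndex (A.map κ) ≤ p := by
      rw [h2] at hidx
      have h5 : 0 < Nat.card Abar₁ := Nat.card_pos
      rw [mul_comm p] at hidx
      exact Nat.le_of_mul_le_mul_left hidx h5
    rw [h3, h1, mul_comm]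
    exact Nat.mul_le_mul_right _ h4
  -- the operators
  set f : Module.End (ZMod p) M := ρ g - 1 with hf
  have hy1 : (f ^ (p - 1)) y ≠ 0 := by
    rw [hf, ← geom_sum_eq_pow, ← hρ' g]
    exact hyne
  have hfp : f ^ p = ρ g ^ p - 1 := by
    have h1 : f ^ p = f ^ (p - 1) * f := (pow_sub_one_mul hp.out.ne_zero f).symm
    rw [h1, hf, ← geom_sum_eq_pow, geom_sum_mul]
  have hgpA₁ : g ^ p ∈ A₁ := ⟨A.pow_mem hgA p, by
    show κ (g ^ p) ∈ Abar₁
    rw [map_pow]
    exact hgbarp⟩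
  have hyfix' : ∀ b ∈ A₁, ρ b y = y := fun b hb => by
    rw [← hρ']
    exact hyfix _ hb.2
  have hy2 : (f ^ p) y = 0 := by
    rw [hfp, LinearMap.sub_apply, Module.End.one_apply, ← map_pow, hyfix' _ hgpA₁, sub_self]
  -- the vector
  set v₀ : M := (f ^ (p - 5)) y with hv₀
  obtain ⟨u₀, hu₀⟩ := hsurj v₀
  have hDB : ∀ (k u : G), u ∈ B → ⁅k, u⁆ ∈ B := fun k u hu => by
    rw [commutatorElement_def]
    exact B.mul_mem (hBn.conj_mem u hu k) (B.inv_mem hu)
  have hπD : ∀ (k u : G) (hu : u ∈ B), π ⟨⁅k, u⁆, hDB k u hu⟩ = (ρ k - 1) (π ⟨u, hu⟩) := by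
    intro k u hu
    have e : (⟨⁅k, u⁆, hDB k u hu⟩ : B) = MulAut.conjNormal k ⟨u, hu⟩ * (⟨u, hu⟩ : B)⁻¹ := by
      apply Subtype.ext
      rfl
    rw [e, hsub, ← hact, LinearMap.sub_apply, Module.End.one_apply]
  obtain ⟨x₀, hx₀⟩ := u₀
  have hb : ∀ b ∈ A₁, ⁅b, x₀⁆ ∈ E := by
    intro b hb'
    have h1 := (hker ⟨⁅b, x₀⁆, hDB b x₀ hx₀⟩).1
    apply h1
    rw [hπD b x₀ hx₀, hu₀, hv₀]
    have hcm : Commute (ρ b - 1) f := by
      have h2 : Commute (ρ b) (ρ g) := by
        show ρ b * ρ g = ρ g * ρ b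
        rw [← map_mul, ← map_mul, hA.2.1 b hb'.1 g hgA]
      rw [hf]
      exact (h2.sub_right (Commute.one_right _)).sub_left (Commute.one_left _)
    have hcm2 := (hcm.pow_right (p - 5)).eq
    rw [← Module.End.mul_apply, hcm2, Module.End.mul_apply, LinearMap.sub_apply, Module.End.one_apply,
      hyfix' b hb', sub_self, map_zero]
  have e1 := hπD g x₀ hx₀
  have e2 := hπD g _ (hDB g x₀ hx₀)
  have e3 := hπD g _ (hDB g _ (hDB g x₀ hx₀))
  have e4 := hπD g _ (hDB g _ (hDB g _ (hDB g x₀ hx₀)))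
  have e5 := hπD g _ (hDB g _ (hDB g _ (hDB g _ (hDB g x₀ hx₀))))
  rw [hu₀] at e1
  rw [e1] at e2
  rw [e2] at e3
  rw [e3] at e4
  rw [e4] at e5
  have hv4 : f (f (f (f v₀))) = (f ^ (p - 1)) y := by
    have h1 : p - 1 = 4 + (p - 5) := by omega
    rw [h1, pow_add, hv₀]
    simp only [pow_succ, pow_zero, one_mul, Module.End.mul_apply]
  have hv5 : f (f (f (f (f v₀)))) = (f ^ p) y := by
    have h1 : f ^ p = f ^ 5 * f ^ (p - 5) := by
      rw [← pow_add]
      congr 1
      omega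
    rw [h1, hv₀]
    simp only [pow_succ, pow_zero, one_mul, Module.End.mul_apply]
  have h5 : ⁅g, ⁅g, ⁅g, ⁅g, ⁅g, x₀⁆⁆⁆⁆⁆ ∈ E := by
    refine (hker ⟨_, hDB g _ (hDB g _ (hDB g _ (hDB g _ (hDB g x₀ hx₀))))⟩).1 ?_
    exact e5.trans (hv5.trans hy2)
  have hM := main_M (p := p) (S := (T : Subgroup G)) (O := O) (E := E) (B := B) (A := A) (A₁ := A₁)
    (g := g) (x := x₀) hA T.isPGroup' hBT hEB.le hEZ (fun a ha b hb' => hOB a (hBO ha) b hb') hOB hext
    inf_le_left hidx' hgA hx₀ hb h5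
  apply hy1
  rw [← hv4]
  exact e4.symm.trans ((hker _).2 hM)

end Cfsg.Agent.Lib.Perm.ThompsonX
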