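import Mathlib
import Cfsg.Prelude.Def_LocalEven
import Cfsg.Agent.Lib.Perm.ThreeCycleGen
import Cfsg.Agent.Lib.Perm.IndexAlt

/-!
# Alternating groups that are not 3-minimal: tools

`NP G`: two proper subgroups generating `G` whose intersection has index prime to 3.  Such a `G` is not
3-minimal.  Tools: the 3-part of `n!`, stabilizers of functions, wreath-like stabilizers, and 3-cycle
generation.
-/

set_option autoImplicit false
set_option linter.unusedSectionVars false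
set_option linter.unusedVariables false

namespace Cfsg.Agent.Lib.Perm.ThreeMinA

open Equiv Equiv.Perm Subgroup
open Cfsg.Agent.Lib.Perm.IndexAlt Cfsg.Agent.Lib.Perm.ThreeCycleGen
open scoped Nat

instance fact3 : Fact (Nat.Prime 3) := ⟨Nat.prime_three⟩

/-- 3-adic valuation of `n!`. -/
abbrev v3 (n : ℕ) : ℕ := padicValNat 3 (n !)

theorem v3_mul (m : ℕ) : v3 (3 * m) = v3 m + m := padicValNat_factorial_mul m

theorem v3_mul_add (m r : ℕ) (h : r < 3) : v3 (3 * m + r) = v3 m + m := by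
  show padicValNat 3 (3 * m + r)! = _
  rw [padicValNat_factorial_mul_add m h]
  exact v3_mul m

theorem v3_one : v3 1 = 0 := by simp [v3]

theorem v3_pow_add : ∀ (a w : ℕ), w < 2 * 3 ^ a → v3 (3 ^ a + w) = v3 (3 ^ a) + v3 w
  | 0, w, hw => by
    have : w = 0 ∨ w = 1 := by simp at hw; omega
    rcases this with rfl | rfl <;> simp [v3]
  | a + 1, w, hw => by
    have hw1 : w / 3 < 2 * 3 ^ a := by
      rw [pow_succ] at hw
      omega
    have h1 : 3 ^ (a + 1) + w = 3 * (3 ^ a + w / 3) + w % 3 := by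
      rw [pow_succ]; omega
    have h2 : w = 3 * (w / 3) + w % 3 := by omega
    have hr : w % 3 < 3 := Nat.mod_lt _ (by norm_num)
    rw [h1, v3_mul_add _ _ hr, v3_pow_add a _ hw1, pow_succ, mul_comm (3 ^ a) 3, v3_mul]
    conv_rhs => rw [h2, v3_mul_add _ _ hr]
    omega

/-- Two proper subgroups generate, and their intersection has index prime to 3. -/
def NP (G : Type*) [Group G] : Prop :=
  ∃ H₁ H₂ : Subgroup G, H₁ ≠ ⊤ ∧ H₂ ≠ ⊤ ∧ H₁ ⊔ H₂ = ⊤ ∧ ¬ 3 ∣ (H₁ ⊓ H₂).index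

theorem NP.map {G G' : Type*} [Group G] [Group G'] (e : G ≃* G') (h : NP G) : NP G' := by
  obtain ⟨H₁, H₂, h1, h2, h3, h4⟩ := h
  have hmap : ∀ H : Subgroup G, H ≠ ⊤ → H.map e.toMonoidHom ≠ ⊤ := by
    intro H hH hc
    apply hH
    rw [eq_top_iff]
    intro x _
    have : e x ∈ H.map e.toMonoidHom := by rw [hc]; trivial
    obtain ⟨y, hy, hyx⟩ := this
    have : y = x := e.injective hyx
    exact this ▸ hy
  refine ⟨H₁.map e.toMonoidHom, H₂.map e.toMonoidHom, hmap _ h1, hmap _ h2, ?_, ?_⟩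
  · rw [← Subgroup.map_sup, h3]
    rw [eq_top_iff]
    intro x _
    exact ⟨e.symm x, trivial, by simp⟩
  · rw [← Subgroup.map_inf _ _ _ e.injective]
    rw [show (H₁ ⊓ H₂).map e.toMonoidHom = (H₁ ⊓ H₂).comap e.symm.toMonoidHom from
      (Subgroup.map_equiv_eq_comap_symm' e _)]
    rw [Subgroup.index_comap_of_surjective _ e.symm.surjective]
    exact h4

theorem not_isPMinimal_of_NP {G : Type*} [Group G] [Finite G] (h : NP G) : ¬ Cfsg.IsPMinimal 3 G := by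
  intro hm
  obtain ⟨H₁, H₂, h1, h2, h3, h4⟩ := h
  obtain ⟨S⟩ : Nonempty (Sylow 3 G) := inferInstance
  set D := H₁ ⊓ H₂ with hD
  have hcard : ¬ 3 ∣ Nat.card (G ⧸ D) := by
    rw [← Subgroup.index_eq_card]
    exact h4
  obtain ⟨q, hq⟩ := IsPGroup.nonempty_fixed_point_of_prime_not_dvd_card S.isPGroup' (G ⧸ D) hcard
  obtain ⟨g, rfl⟩ := QuotientGroup.mk_surjective q
  have hle : ∀ s ∈ (S : Subgroup G), g⁻¹ * s * g ∈ D := by
    intro s hs
    have := hq ⟨s, hs⟩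
    have h5 : (QuotientGroup.mk (s * g) : G ⧸ D) = QuotientGroup.mk g := this
    rw [QuotientGroup.eq] at h5
    have h6 : (s * g)⁻¹ * g ∈ D := h5
    have h7 := D.inv_mem h6
    simpa [mul_assoc] using h7
  set S' : Sylow 3 G := g⁻¹ • S with hS'
  have hS'D : (S' : Subgroup G) ≤ D := by
    intro x hx
    rw [hS', Sylow.coe_subgroup_smul, Subgroup.mem_pointwise_smul_iff_inv_smul_mem] at hx
    have := hle _ hx
    simp only [MulAut.smul_def, map_inv, inv_inv, MulAut.conj_apply] at this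
    have h8 : g⁻¹ * (g * x * g⁻¹) * g = x := by group
    rw [h8] at this
    exact this
  obtain ⟨-, M, ⟨hM1, hM2⟩, huniq⟩ := hm S'
  obtain ⟨M₁, hM₁, hle₁⟩ := (eq_top_or_exists_le_coatom H₁).resolve_left h1
  obtain ⟨M₂, hM₂, hle₂⟩ := (eq_top_or_exists_le_coatom H₂).resolve_left h2
  have e1 := huniq M₁ ⟨hM₁, hS'D.trans (inf_le_left.trans hle₁)⟩
  have e2 := huniq M₂ ⟨hM₂, hS'D.trans (inf_le_right.trans hle₂)⟩
  have : H₁ ⊔ H₂ ≤ M := sup_le (e1 ▸ hle₁) (e2 ▸ hle₂)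
  rw [h3] at this
  exact hM1.1 (top_le_iff.mp this)

variable {Ω : Type*} [Fintype Ω] [DecidableEq Ω]

theorem index_lemma [Nontrivial Ω] (D : Subgroup (Perm Ω)) (hD : 3 ^ v3 (Fintype.card Ω) ∣ Nat.card D) :
    ¬ 3 ∣ (D.subgroupOf (alternatingGroup Ω)).index := by
  intro h3
  set A := alternatingGroup Ω with hA
  set D₀ := D.subgroupOf A with hD₀
  have h1 : Nat.card D₀ * D₀.index = Nat.card A := Subgroup.card_mul_index D₀
  have h2 : 2 * Nat.card A = (Fintype.card Ω)! := by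
    rw [two_mul_nat_card_alternatingGroup, Nat.card_perm, Nat.card_eq_fintype_card]
  -- `Nat.card D₀ = Nat.card (A.subgroupOf D)`
  have h4 : Nat.card D₀ = Nat.card (A.subgroupOf D) := by
    refine Nat.card_congr ⟨fun x => ⟨⟨x.1.1, x.2⟩, x.1.2⟩, fun y => ⟨⟨y.1.1, y.2⟩, y.1.2⟩, ?_, ?_⟩ <;>
      intro x <;> rfl
  have h5 : Nat.card (A.subgroupOf D) * (A.subgroupOf D).index = Nat.card D := Subgroup.card_mul_index _
  have h6 : (A.subgroupOf D).index ∣ 2 := by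
    have : (A.subgroupOf D).index ∣ A.index := Subgroup.relIndex_dvd_index_of_normal A D
    rwa [alternatingGroup.index_eq_two] at this
  have hcop : Nat.Coprime (3 ^ v3 (Fintype.card Ω)) (A.subgroupOf D).index := by
    apply Nat.Coprime.pow_left
    have h7 : ¬ 3 ∣ (A.subgroupOf D).index := by
      intro h8
      have := Nat.le_of_dvd (by norm_num) (h8.trans h6)
      omega
    exact (Nat.Prime.coprime_iff_not_dvd Nat.prime_three).mpr h7
  have h8 : 3 ^ v3 (Fintype.card Ω) ∣ Nat.card D₀ := by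
    rw [← h5, ← h4] at hD
    exact hcop.dvd_of_dvd_mul_right hD
  have h9 : 3 ^ (v3 (Fintype.card Ω) + 1) ∣ (Fintype.card Ω)! := by
    rw [← h2, ← h1, pow_succ]
    exact Dvd.dvd.mul_left (mul_dvd_mul h8 h3) 2
  exact pow_succ_padicValNat_not_dvd (Nat.factorial_ne_zero _) h9

/-- Stabilizer of a function. -/
def fibStab {α ι : Type*} (f : α → ι) : Subgroup (Perm α) where
  carrier := {g | ∀ x, f (g x) = f x}
  mul_mem' := by
    intro a b ha hb x
    rw [Perm.mul_apply, ha, hb]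
  one_mem' := fun x => rfl
  inv_mem' := by
    intro a ha x
    have := ha (a⁻¹ x)
    rw [show a (a⁻¹ x) = x by simp] at this
    exact this.symm

theorem card_fibStab {α ι : Type*} [Fintype α] [DecidableEq α] [Fintype ι] [DecidableEq ι] (f : α → ι) :
    Nat.card (fibStab f) = ∏ i, (Fintype.card {a // f a = i})! := by
  rw [← DomMulAct.stabilizer_card f, ← Nat.card_eq_fintype_card]
  refine Nat.card_congr (Equiv.subtypeEquivRight ?_)
  intro g
  show (∀ x, f (g x) = f x) ↔ f ∘ g = f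
  rw [funext_iff]
  rfl

/-- Permutations inducing on the fibres of `f` a permutation in `G₀`. -/
def WF {α β : Type*} (f : α → β) (G₀ : Subgroup (Perm β)) : Subgroup (Perm α) where
  carrier := {σ | ∃ π ∈ G₀, ∀ x, f (σ x) = π (f x)}
  mul_mem' := by
    rintro a b ⟨π₁, h₁, ha⟩ ⟨π₂, h₂, hb⟩
    exact ⟨π₁ * π₂, G₀.mul_mem h₁ h₂, fun x => by rw [Perm.mul_apply, ha, hb]; rfl⟩
  one_mem' := ⟨1, G₀.one_mem, fun x => rfl⟩
  inv_mem' := by
    rintro a ⟨π, h, ha⟩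
    refine ⟨π⁻¹, G₀.inv_mem h, fun x => ?_⟩
    have := ha (a⁻¹ x)
    rw [show a (a⁻¹ x) = x by simp] at this
    rw [this]
    simp

theorem WF_mono {α β : Type*} (f : α → β) {G₀ G₁ : Subgroup (Perm β)} (h : G₀ ≤ G₁) : WF f G₀ ≤ WF f G₁ := by
  rintro σ ⟨π, hπ, hσ⟩
  exact ⟨π, h hπ, hσ⟩

/-- The wreath-like group over `G₀` on `β × Fin 3`. -/
abbrev W {β : Type*} (G₀ : Subgroup (Perm β)) : Subgroup (Perm (β × Fin 3)) := WF Prod.fst G₀

/-- Lift of a permutation of `β` to `β × Fin 3`. -/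
def lft {β : Type*} (π : Perm β) : Perm (β × Fin 3) := Equiv.prodCongr π (Equiv.refl _)

@[simp] theorem lft_apply {β : Type*} (π : Perm β) (x : β × Fin 3) : lft π x = (π x.1, x.2) := rfl

theorem lft_mul {β : Type*} (π ρ : Perm β) : lft (π * ρ) = lft π * lft ρ := by
  ext x <;> rfl

theorem lft_inv {β : Type*} (π : Perm β) : lft π⁻¹ = (lft π)⁻¹ := by
  rw [eq_inv_iff_mul_eq_one, ← lft_mul, inv_mul_cancel]
  ext x <;> rfl

theorem card_W {β : Type*} (G₀ : Subgroup (Perm β)) [Finite β] :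
    Nat.card (W G₀) = Nat.card (fibStab (Prod.fst : β × Fin 3 → β)) * Nat.card G₀ := by
  rw [← Nat.card_prod]
  have hmem : ∀ (k : fibStab (Prod.fst : β × Fin 3 → β)) (g : G₀), k.1 * lft g.1 ∈ W G₀ := by
    intro k g
    refine ⟨g.1, g.2, fun x => ?_⟩
    rw [Perm.mul_apply]
    exact (k.2 _).trans rfl
  symm
  refine Nat.card_eq_of_bijective (fun p => ⟨p.1.1 * lft p.2.1, hmem p.1 p.2⟩) ⟨?_, ?_⟩
  · rintro ⟨k, g⟩ ⟨k', g'⟩ h
    have h1 : k.1 * lft g.1 = k'.1 * lft g'.1 := congrArg Subtype.val h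
    have h2 : g = g' := by
      apply Subtype.ext
      ext b
      have h3 := congrArg (fun σ : Perm (β × Fin 3) => (σ (b, 0)).1) h1
      simp only [Perm.mul_apply, lft_apply] at h3
      have h4 := k.2 (g.1 b, 0)
      have h5 := k'.2 (g'.1 b, 0)
      simp only at h4 h5
      rw [h4, h5] at h3
      exact h3
    subst h2
    have h6 : k.1 = k'.1 := mul_right_cancel h1
    rw [show k = k' from Subtype.ext h6]
  · rintro ⟨σ, π, hπ, hσ⟩
    refine ⟨⟨⟨σ * (lft π)⁻¹, fun x => ?_⟩, ⟨π, hπ⟩⟩, Subtype.ext (by simp)⟩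
    rw [Perm.mul_apply, hσ, ← lft_inv, lft_apply]
    simp

theorem card_ker {β : Type*} [Fintype β] [DecidableEq β] :
    Nat.card (fibStab (Prod.fst : β × Fin 3 → β)) = 6 ^ Fintype.card β := by
  rw [card_fibStab]
  have h : ∀ b : β, Fintype.card {a : β × Fin 3 // a.1 = b} = 3 := by
    intro b
    have e : {a : β × Fin 3 // a.1 = b} ≃ Fin 3 :=
      ⟨fun a => a.1.2, fun i => ⟨(b, i), rfl⟩, by rintro ⟨⟨c, i⟩, rfl⟩; rfl, fun i => rfl⟩
    rw [Fintype.card_congr e, Fintype.card_fin]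
  simp [h, Nat.factorial]

/-- The predicate "full 3-part". -/
def Q3 {α : Type*} [Fintype α] (D : Subgroup (Perm α)) : Prop := 3 ^ v3 (Fintype.card α) ∣ Nat.card D

theorem Q3_top {α : Type*} [Fintype α] [DecidableEq α] : Q3 (⊤ : Subgroup (Perm α)) := by
  unfold Q3
  rw [Subgroup.card_top, Nat.card_perm, Nat.card_eq_fintype_card]
  exact pow_padicValNat_dvd

theorem Q3_W {β : Type*} [Fintype β] [DecidableEq β] {G₀ : Subgroup (Perm β)} (h : Q3 G₀) : Q3 (W G₀) := by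
  unfold Q3 at *
  rw [Fintype.card_prod, Fintype.card_fin, mul_comm, v3_mul, card_W, card_ker, pow_add, mul_comm]
  refine mul_dvd_mul (pow_dvd_pow_of_dvd (by norm_num) _) h

/-! ### 3-cycles -/

theorem cyc_cases {p q s x : Ω} (hpq : p ≠ q) (hps : p ≠ s) (hqs : q ≠ s) :
    (x = p ∧ cyc p q s x = s) ∨ (x = q ∧ cyc p q s x = p) ∨ (x = s ∧ cyc p q s x = q) ∨ cyc p q s x = x := by
  by_cases h1 : x = p
  · subst h1; left; exact ⟨rfl, cyc_apply_left hpq hps hqs⟩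
  by_cases h2 : x = q
  · subst h2; right; left; exact ⟨rfl, cyc_apply_mid hpq hps hqs⟩
  by_cases h3 : x = s
  · subst h3; right; right; left; exact ⟨rfl, cyc_apply_right⟩
  right; right; right; exact cyc_apply_of_ne h1 h2 h3

theorem cyc_mem_fibStab {ι : Type*} {f : Ω → ι} {p q s : Ω} (hpq : p ≠ q) (hps : p ≠ s) (hqs : q ≠ s)
    (h1 : f p = f q) (h2 : f q = f s) : cyc p q s ∈ fibStab f := by
  intro x
  rcases cyc_cases (x := x) hpq hps hqs with ⟨rfl, h⟩ | ⟨rfl, h⟩ | ⟨rfl, h⟩ | h <;> rw [h]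
  · rw [h1, h2]
  · exact h1
  · exact h2

theorem cyc_not_mem_fibStab {ι : Type*} {f : Ω → ι} {p q s : Ω} (hpq : p ≠ q) (hps : p ≠ s) (hqs : q ≠ s)
    (h : f p ≠ f s) : cyc p q s ∉ fibStab f := by
  intro hc
  have := hc p
  rw [cyc_apply_left hpq hps hqs] at this
  exact h this.symm

theorem cyc_not_mem_WF {β : Type*} {f : Ω → β} {G₀ : Subgroup (Perm β)} {p q s : Ω} (hpq : p ≠ q) (hps : p ≠ s)
    (hqs : q ≠ s) (h1 : f q = f s) (h2 : f p ≠ f s) : cyc p q s ∉ WF f G₀ := by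
  rintro ⟨π, -, hπ⟩
  have e1 := hπ s
  have e2 := hπ q
  rw [cyc_apply_right] at e1
  rw [cyc_apply_mid hpq hps hqs, h1, ← e1, h1] at e2
  exact h2 e2

theorem alt_le_of_orb (Y : Subgroup (Perm Ω)) (a : Ω)
    (h : ∀ x, InOrb (closure {c : Perm Ω | c.IsThreeCycle ∧ c ∈ Y}) a x)
    (hm : ∃ c : Perm Ω, c.IsThreeCycle ∧ c ∈ Y ∧ c a ≠ a) : alternatingGroup Ω ≤ Y := by
  rw [← closure_three_cycles_eq_alternating]
  rw [closure_le]
  intro t ht
  obtain ⟨c, hc1, hc2, hc3⟩ := hm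
  classical
  have := three_cycle_mem_closure (C := {c : Perm Ω | c.IsThreeCycle ∧ c ∈ Y}) (a := a) (fun c hc => hc.1)
    ht (fun x _ => h x) ⟨c, ⟨hc1, hc2⟩, hc3⟩
  have hle : closure {c : Perm Ω | c.IsThreeCycle ∧ c ∈ Y} ≤ Y := by
    rw [closure_le]
    exact fun c hc => hc.2
  exact hle this

theorem join_eq_top (H₁ H₂ : Subgroup (Perm Ω))
    (h : ∀ Y : Subgroup (Perm Ω), H₁ ⊓ alternatingGroup Ω ≤ Y → H₂ ⊓ alternatingGroup Ω ≤ Y →
      alternatingGroup Ω ≤ Y) :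
    H₁.subgroupOf (alternatingGroup Ω) ⊔ H₂.subgroupOf (alternatingGroup Ω) = ⊤ := by
  set A := alternatingGroup Ω
  set J := H₁.subgroupOf A ⊔ H₂.subgroupOf A with hJ
  have hle : A ≤ J.map A.subtype := by
    apply h
    · rintro x ⟨hx1, hx2⟩
      exact ⟨⟨x, hx2⟩, (le_sup_left : H₁.subgroupOf A ≤ J) (by simpa [Subgroup.mem_subgroupOf] using hx1), rfl⟩
    · rintro x ⟨hx1, hx2⟩
      exact ⟨⟨x, hx2⟩, (le_sup_right : H₂.subgroupOf A ≤ J) (by simpa [Subgroup.mem_subgroupOf] using hx1), rfl⟩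
  rw [eq_top_iff]
  rintro ⟨x, hx⟩ -
  obtain ⟨y, hy, hyx⟩ := hle hx
  have : y = ⟨x, hx⟩ := Subtype.ext hyx
  exact this ▸ hy

theorem subgroupOf_ne_top {H : Subgroup (Perm Ω)} {c : Perm Ω} (hc : c ∈ alternatingGroup Ω) (h : c ∉ H) :
    H.subgroupOf (alternatingGroup Ω) ≠ ⊤ := by
  intro ht
  have : (⟨c, hc⟩ : alternatingGroup Ω) ∈ H.subgroupOf (alternatingGroup Ω) := by rw [ht]; trivial
  exact h (by simpa [Subgroup.mem_subgroupOf] using this)

/-- The general criterion. -/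
theorem NP_of [Nontrivial Ω] (H₁ H₂ D : Subgroup (Perm Ω)) (hD1 : D ≤ H₁) (hD2 : D ≤ H₂) (hQ : Q3 D)
    {c₁ c₂ : Perm Ω} (hc₁ : c₁ ∈ alternatingGroup Ω) (hc₁' : c₁ ∉ H₁)
    (hc₂ : c₂ ∈ alternatingGroup Ω) (hc₂' : c₂ ∉ H₂)
    (h : ∀ Y : Subgroup (Perm Ω), H₁ ⊓ alternatingGroup Ω ≤ Y → H₂ ⊓ alternatingGroup Ω ≤ Y →
      alternatingGroup Ω ≤ Y) : NP (alternatingGroup Ω) := by
  refine ⟨H₁.subgroupOf _, H₂.subgroupOf _, subgroupOf_ne_top hc₁ hc₁', subgroupOf_ne_top hc₂ hc₂',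
    join_eq_top H₁ H₂ h, ?_⟩
  intro h3
  apply index_lemma D hQ
  refine h3.trans (Subgroup.index_dvd_of_le ?_)
  exact le_inf (fun x hx => Subgroup.mem_subgroupOf.mpr (hD1 (Subgroup.mem_subgroupOf.mp hx)))
    (fun x hx => Subgroup.mem_subgroupOf.mpr (hD2 (Subgroup.mem_subgroupOf.mp hx)))

end Cfsg.Agent.Lib.Perm.ThreeMinA
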