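import Mathlib
import Cfsg.Agent.Lib.Perm.ThreeMinA

/-!
# Alternating groups of degree outside `{6, 9} ∪ {3^a + 1}` are not 3-minimal
-/

set_option autoImplicit false
set_option linter.unusedSectionVars false
set_option linter.unusedVariables false

namespace Cfsg.Agent.Lib.Perm.ThreeMinA

open Equiv Equiv.Perm Subgroup
open Cfsg.Agent.Lib.Perm.IndexAlt Cfsg.Agent.Lib.Perm.ThreeCycleGen
open scoped Nat

section Steps
variable {Ω : Type*} [Fintype Ω] [DecidableEq Ω]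

theorem exists_third {T : Ω → Prop} [DecidablePred T] (h : 3 ≤ Fintype.card {y // T y}) (a b : Ω) :
    ∃ y, T y ∧ y ≠ a ∧ y ≠ b := by
  rw [Fintype.card_subtype] at h
  have h1 : ((Finset.univ.filter T) \ {a, b}).Nonempty := by
    rw [← Finset.card_pos]
    have h2 := Finset.le_card_sdiff ({a, b} : Finset Ω) (Finset.univ.filter T)
    have h3 : ({a, b} : Finset Ω).card ≤ 2 := Finset.card_le_two
    have h4 : 3 ≤ (Finset.univ.filter T).card := by convert h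
    omega
  obtain ⟨y, hy⟩ := h1
  simp only [Finset.mem_sdiff, Finset.mem_filter, Finset.mem_univ, true_and, Finset.mem_insert,
    Finset.mem_singleton, not_or] at hy
  exact ⟨y, hy.1, hy.2.1, hy.2.2⟩

theorem mem_closure_cyc {Y : Subgroup (Perm Ω)} {p q s : Ω} (hpq : p ≠ q) (hps : p ≠ s) (hqs : q ≠ s)
    (h : cyc p q s ∈ Y) : cyc p q s ∈ closure {c : Perm Ω | c.IsThreeCycle ∧ c ∈ Y} :=
  subset_closure ⟨cyc_isThreeCycle hpq hps hqs, h⟩

theorem gen_step {ι : Type*} {g : Ω → ι} {Y : Subgroup (Perm Ω)} (hY : fibStab g ⊓ alternatingGroup Ω ≤ Y)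
    {z x : Ω} (hx : g x = g z) [DecidablePred (fun y => g y = g z)]
    (hT : 3 ≤ Fintype.card {y // g y = g z}) :
    InOrb (closure {c : Perm Ω | c.IsThreeCycle ∧ c ∈ Y}) z x := by
  by_cases hzx : z = x
  · subst hzx; exact inOrb_self _ _
  obtain ⟨y, hy, hy1, hy2⟩ := exists_third hT z x
  refine ⟨cyc z y x, mem_closure_cyc hy1.symm hzx hy2 (hY ⟨?_, cyc_mem_alt hy1.symm hzx hy2⟩),
    cyc_apply_left hy1.symm hzx hy2⟩
  exact cyc_mem_fibStab hy1.symm hzx hy2 hy.symm (hy.trans hx.symm)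

theorem moved_step {ι : Type*} {g : Ω → ι} {Y : Subgroup (Perm Ω)} (hY : fibStab g ⊓ alternatingGroup Ω ≤ Y)
    {z : Ω} [DecidablePred (fun y => g y = g z)] (hT : 3 ≤ Fintype.card {y // g y = g z}) :
    ∃ c : Perm Ω, c.IsThreeCycle ∧ c ∈ Y ∧ c z ≠ z := by
  obtain ⟨y, hy, hy1, -⟩ := exists_third hT z z
  obtain ⟨y', hy', hy1', hy2'⟩ := exists_third hT z y
  refine ⟨cyc z y y', cyc_isThreeCycle hy1.symm hy1'.symm hy2'.symm, hY ⟨?_, cyc_mem_alt hy1.symm hy1'.symm hy2'.symm⟩, ?_⟩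
  · exact cyc_mem_fibStab hy1.symm hy1'.symm hy2'.symm hy.symm (hy.trans hy'.symm)
  · rw [cyc_apply_left hy1.symm hy1'.symm hy2'.symm]
    exact hy1'

end Steps

/-! ### Family I: two disjoint subsets -/

section FamilyOne

variable (s : Fin 3 → ℕ)

/-- The model. -/
abbrev M1 := Σ i : Fin 3, Fin (s i)

theorem card_M1 : Fintype.card (M1 s) = s 0 + s 1 + s 2 := by
  rw [Fintype.card_sigma]
  simp [Fin.sum_univ_three]

theorem card_fib (i : Fin 3) : Fintype.card {a : M1 s // a.1 = i} = s i := by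
  rw [Fintype.card_congr (Equiv.sigmaSubtype i), Fintype.card_fin]

theorem card_not_fib (i : Fin 3) : Fintype.card {a : M1 s // ¬ a.1 = i} = Fintype.card (M1 s) - s i := by
  rw [Fintype.card_subtype_compl, card_fib]

theorem Q3_M1 (hv : v3 (s 0 + s 1 + s 2) = v3 (s 0) + v3 (s 1) + v3 (s 2)) :
    Q3 (fibStab (Sigma.fst : M1 s → Fin 3)) := by
  unfold Q3
  rw [card_M1, hv, card_fibStab, Fin.prod_univ_three, card_fib, card_fib, card_fib, pow_add, pow_add]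
  exact mul_dvd_mul (mul_dvd_mul pow_padicValNat_dvd pow_padicValNat_dvd) pow_padicValNat_dvd

/-- Indicator of the fibre over `i`. -/
def ind (i : Fin 3) : M1 s → Prop := fun a => a.1 = i

theorem family1 (hs0 : 1 ≤ s 0) (hs1 : 1 ≤ s 1) (hs2 : 1 ≤ s 2) (hA : 3 ≤ s 1 + s 2) (hB : 3 ≤ s 0 + s 2)
    (hv : v3 (s 0 + s 1 + s 2) = v3 (s 0) + v3 (s 1) + v3 (s 2)) : NP (alternatingGroup (M1 s)) := by
  classical
  have hcard := card_M1 s
  haveI : Nontrivial (M1 s) := by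
    apply Fintype.one_lt_card_iff_nontrivial.mp
    omega
  let a₀ : M1 s := ⟨0, ⟨0, by omega⟩⟩
  let a₁ : M1 s := ⟨1, ⟨0, by omega⟩⟩
  let z : M1 s := ⟨2, ⟨0, by omega⟩⟩
  let g₀ : M1 s → Prop := fun a => a.1 = 0
  let g₁ : M1 s → Prop := fun a => a.1 = 1
  have hT₀ : 3 ≤ Fintype.card {y // g₀ y = g₀ z} := by
    have e : {y : M1 s // g₀ y = g₀ z} ≃ {y : M1 s // ¬ y.1 = 0} :=
      Equiv.subtypeEquivRight (fun y => by simp [g₀, z])
    rw [Fintype.card_congr e, card_not_fib]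
    omega
  have hT₁ : 3 ≤ Fintype.card {y // g₁ y = g₁ z} := by
    have e : {y : M1 s // g₁ y = g₁ z} ≃ {y : M1 s // ¬ y.1 = 1} :=
      Equiv.subtypeEquivRight (fun y => by simp [g₁, z])
    rw [Fintype.card_congr e, card_not_fib]
    omega
  have hD0 : fibStab (Sigma.fst : M1 s → Fin 3) ≤ fibStab g₀ := by
    intro σ hσ x
    show ((σ x).1 = 0) = (x.1 = 0)
    rw [hσ x]
  have hD1 : fibStab (Sigma.fst : M1 s → Fin 3) ≤ fibStab g₁ := by
    intro σ hσ x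
    show ((σ x).1 = 1) = (x.1 = 1)
    rw [hσ x]
  -- the witnesses
  have hn : 3 ≤ Fintype.card (M1 s) := by omega
  have hT : 3 ≤ Fintype.card {y : M1 s // True} := by
    rw [Fintype.card_subtype_true]
    exact hn
  obtain ⟨y₀, -, hy₀, hy₀'⟩ := exists_third hT a₀ z
  obtain ⟨y₁, -, hy₁, hy₁'⟩ := exists_third hT a₁ z
  have haz : a₀ ≠ z := by simp [a₀, z]
  have hbz : a₁ ≠ z := by simp [a₁, z]
  refine NP_of (fibStab g₀) (fibStab g₁) (fibStab Sigma.fst) hD0 hD1 (Q3_M1 s hv)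
    (c₁ := cyc a₀ y₀ z) (c₂ := cyc a₁ y₁ z) (cyc_mem_alt hy₀.symm haz hy₀')
    (cyc_not_mem_fibStab hy₀.symm haz hy₀' (by simp [g₀, a₀, z])) (cyc_mem_alt hy₁.symm hbz hy₁')
    (cyc_not_mem_fibStab hy₁.symm hbz hy₁' (by simp [g₁, a₁, z])) ?_
  intro Y hY1 hY2
  refine alt_le_of_orb Y z (fun x => ?_) (moved_step hY1 hT₀)
  by_cases hx : x.1 = 0
  · refine gen_step hY2 ?_ hT₁
    simp [g₁, z, hx]
  · refine gen_step hY1 ?_ hT₀
    simp [g₀, z, hx]

end FamilyOne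

/-! ### Family II: three-point blocks -/

section FamilyTwo

variable {β : Type*} [Fintype β] [DecidableEq β]

theorem top_W_of_fib {c : Perm (β × Fin 3)} (hc : c ∈ fibStab (Prod.fst : β × Fin 3 → β)) :
    c ∈ W (⊤ : Subgroup (Perm β)) :=
  ⟨1, trivial, fun x => hc x⟩

theorem exists_w {b₀ b₁ b : β} (h1 : b₁ ≠ b₀) (h2 : b₁ ≠ b) :
    ∃ w ∈ W (⊤ : Subgroup (Perm β)), w ∈ alternatingGroup (β × Fin 3) ∧ w (b₀, 0) = (b, 0) ∧
      ∀ k, w (b₁, k) = (b₁, k) := by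
  have hσ : lft (swap b₀ b) ∈ W (⊤ : Subgroup (Perm β)) := ⟨swap b₀ b, trivial, fun x => rfl⟩
  have hσ0 : lft (swap b₀ b) (b₀, 0) = (b, 0) := by simp
  have hσ1 : ∀ k, lft (swap b₀ b) (b₁, k) = (b₁, k) := by
    intro k
    simp [swap_apply_of_ne_of_ne h1 h2]
  rcases Int.units_eq_one_or (sign (lft (swap b₀ b))) with hs | hs
  · exact ⟨_, hσ, hs, hσ0, hσ1⟩
  · have hne : ((b₀, 1) : β × Fin 3) ≠ (b₀, 2) := by simp
    have ht : swap ((b₀, 1) : β × Fin 3) (b₀, 2) ∈ W (⊤ : Subgroup (Perm β)) := by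
      refine top_W_of_fib ?_
      intro x
      by_cases h : x = (b₀, 1)
      · subst h; simp
      by_cases h' : x = (b₀, 2)
      · subst h'; simp
      rw [swap_apply_of_ne_of_ne h h']
    refine ⟨_, Subgroup.mul_mem _ hσ ht, ?_, ?_, ?_⟩
    · rw [mem_alternatingGroup, map_mul, hs, sign_swap hne]
      rfl
    · rw [Perm.mul_apply, swap_apply_of_ne_of_ne (by simp) (by simp), hσ0]
    · intro k
      rw [Perm.mul_apply, swap_apply_of_ne_of_ne (by simp [h1]) (by simp [h1]), hσ1]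

theorem family2 (P : β → Prop) {b₀ b₁ b : β} (h0 : P b₀) (h1 : P b₁) (hb : ¬ P b) (h01 : b₀ ≠ b₁)
    (H₂ D : Subgroup (Perm (β × Fin 3)))
    (h3 : ∀ p q s : β × Fin 3, P p.1 → P q.1 → P s.1 → p ≠ q → p ≠ s → q ≠ s → cyc p q s ∈ H₂)
    {c₂ : Perm (β × Fin 3)} (hc₂ : c₂ ∈ alternatingGroup (β × Fin 3)) (hc₂' : c₂ ∉ H₂)
    (hD1 : D ≤ W (⊤ : Subgroup (Perm β))) (hD2 : D ≤ H₂) (hQ : Q3 D) :
    NP (alternatingGroup (β × Fin 3)) := by
  have hb1 : b₁ ≠ b := fun h => hb (h ▸ h1)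
  have hb0 : b₀ ≠ b := fun h => hb (h ▸ h0)
  haveI : Nontrivial (β × Fin 3) := ⟨⟨(b₀, 0), (b₀, 1), by simp⟩⟩
  have n1 : ((b₀, 0) : β × Fin 3) ≠ (b₁, 1) := by simp [h01]
  have n2 : ((b₀, 0) : β × Fin 3) ≠ (b₁, 0) := by simp [h01]
  have n3 : ((b₁, 1) : β × Fin 3) ≠ (b₁, 0) := by simp
  refine NP_of (W ⊤) H₂ D hD1 hD2 hQ (c₁ := cyc (b₀, 0) (b₁, 1) (b₁, 0)) (cyc_mem_alt n1 n2 n3)
    (cyc_not_mem_WF n1 n2 n3 rfl h01) hc₂ hc₂' ?_
  intro Y hY1 hY2
  have hc0Y : cyc (b₀, 0) (b₁, 1) (b₁, 0) ∈ Y :=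
    hY2 ⟨h3 _ _ _ h0 h1 h1 n1 n2 n3, cyc_mem_alt n1 n2 n3⟩
  set N := closure {c : Perm (β × Fin 3) | c.IsThreeCycle ∧ c ∈ Y} with hN
  -- points over `P`
  have hP : ∀ x : β × Fin 3, P x.1 → InOrb N (b₀, 0) x := by
    intro x hx
    by_cases hax : ((b₀, 0) : β × Fin 3) = x
    · subst hax; exact inOrb_self _ _
    obtain ⟨y, hy1, hy2⟩ : ∃ y : Fin 3, y ≠ 0 ∧ ((b₀, y) : β × Fin 3) ≠ x := by
      by_cases h : ((b₀, 1) : β × Fin 3) = x
      · exact ⟨2, by decide, by rw [← h]; simp⟩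
      · exact ⟨1, by decide, h⟩
    have e1 : ((b₀, 0) : β × Fin 3) ≠ (b₀, y) := by simp [hy1.symm]
    refine ⟨cyc (b₀, 0) (b₀, y) x, mem_closure_cyc e1 hax hy2 (hY2 ⟨h3 _ _ _ h0 h0 hx e1 hax hy2, cyc_mem_alt e1 hax hy2⟩),
      cyc_apply_left e1 hax hy2⟩
  -- fibres
  have hfib : ∀ (c : β) (i : Fin 3), InOrb N (b₀, 0) (c, 0) → InOrb N (b₀, 0) (c, i) := by
    intro c i hc
    by_cases hi : i = 0
    · subst hi; exact hc
    obtain ⟨j, hj0, hji⟩ : ∃ j : Fin 3, j ≠ 0 ∧ j ≠ i := by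
      revert hi; revert i; decide
    have e1 : ((c, 0) : β × Fin 3) ≠ (c, j) := by simp [hj0.symm]
    have e2 : ((c, 0) : β × Fin 3) ≠ (c, i) := by simp [Ne.symm hi]
    have e3 : ((c, j) : β × Fin 3) ≠ (c, i) := by simp [hji]
    have hcyc : cyc ((c, 0) : β × Fin 3) (c, j) (c, i) ∈ Y := by
      refine hY1 ⟨top_W_of_fib (cyc_mem_fibStab e1 e2 e3 rfl rfl), cyc_mem_alt e1 e2 e3⟩
    have := inOrb_apply hc (mem_closure_cyc e1 e2 e3 hcyc)
    rwa [cyc_apply_left e1 e2 e3] at this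
  refine alt_le_of_orb Y (b₀, 0) (fun x => ?_) ⟨_, cyc_isThreeCycle n1 n2 n3, hc0Y, ?_⟩
  · obtain ⟨c, i⟩ := x
    by_cases hc : P c
    · exact hP _ hc
    -- a point outside
    apply hfib
    have hcb1 : b₁ ≠ c := fun h => hc (h ▸ h1)
    obtain ⟨w, hw1, hw2, hw3, hw4⟩ := exists_w (b₀ := b₀) (b₁ := b₁) (b := c) h01.symm hcb1
    have e : w * cyc (b₀, 0) (b₁, 1) (b₁, 0) * w⁻¹ = cyc (c, 0) (b₁, 1) (b₁, 0) := by
      rw [cyc_conj, hw3, hw4, hw4]
    have m1 : ((c, 0) : β × Fin 3) ≠ (b₁, 1) := by simp [hcb1.symm]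
    have m2 : ((c, 0) : β × Fin 3) ≠ (b₁, 0) := by simp [hcb1.symm]
    have hwY : w ∈ Y := hY1 ⟨hw1, hw2⟩
    have hY3 : cyc ((c, 0) : β × Fin 3) (b₁, 1) (b₁, 0) ∈ Y := by
      rw [← e]
      exact Y.mul_mem (Y.mul_mem hwY hc0Y) (Y.inv_mem hwY)
    have h5 := mem_closure_cyc m1 m2 n3 hY3
    have h6 := inOrb_apply (hP (b₁, 0) h1) (N.inv_mem h5)
    rwa [show (cyc ((c, 0) : β × Fin 3) (b₁, 1) (b₁, 0))⁻¹ (b₁, 0) = (c, 0) by
      rw [Perm.inv_eq_iff_eq, cyc_apply_left m1 m2 n3]] at h6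
  · rw [cyc_apply_left n1 n2 n3]
    exact n2.symm

end FamilyTwo

/-! ### The three configurations on blocks -/

section Cases

/-- `n = 3 q`, `q` split in two pieces. -/
theorem case_b (s : Fin 2 → ℕ) (h0 : 2 ≤ s 0) (h1 : 1 ≤ s 1) (hv : v3 (s 0 + s 1) = v3 (s 0) + v3 (s 1)) :
    NP (alternatingGroup ((Σ i : Fin 2, Fin (s i)) × Fin 3)) := by
  classical
  let β := Σ i : Fin 2, Fin (s i)
  let g : β × Fin 3 → Fin 2 := fun x => x.1.1
  let b₀ : β := ⟨0, ⟨0, by omega⟩⟩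
  let b₁ : β := ⟨0, ⟨1, by omega⟩⟩
  let b : β := ⟨1, ⟨0, by omega⟩⟩
  have hfib : ∀ i : Fin 2, Fintype.card {a : β // a.1 = i} = s i := fun i => by
    rw [Fintype.card_congr (Equiv.sigmaSubtype i), Fintype.card_fin]
  have hQ0 : Q3 (fibStab (Sigma.fst : β → Fin 2)) := by
    unfold Q3
    have hc : Fintype.card β = s 0 + s 1 := by
      rw [Fintype.card_sigma]; simp [Fin.sum_univ_two]
    rw [hc, hv, card_fibStab, Fin.prod_univ_two, hfib, hfib, pow_add]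
    exact mul_dvd_mul pow_padicValNat_dvd pow_padicValNat_dvd
  have n01 : b₀ ≠ b₁ := by
    intro h
    have := congrArg (fun z : β => (z.2 : ℕ)) h
    simp [b₀, b₁] at this
  have e1 : ((b₀, 0) : β × Fin 3) ≠ (b₀, 1) := by simp
  have n0b : b₀.1 ≠ b.1 := by simp [b₀, b]
  have e2 : ((b₀, 0) : β × Fin 3) ≠ (b, 0) := fun h => n0b (congrArg (fun z : β × Fin 3 => z.1.1) h)
  have e3 : ((b₀, 1) : β × Fin 3) ≠ (b, 0) := fun h => n0b (congrArg (fun z : β × Fin 3 => z.1.1) h)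
  refine family2 (fun c : β => c.1 = 0) (b₀ := b₀) (b₁ := b₁) (b := b) rfl rfl (by simp [b]) n01
    (fibStab g) (W (fibStab (Sigma.fst : β → Fin 2))) ?_
    (c₂ := cyc (b₀, 0) (b₀, 1) (b, 0)) (cyc_mem_alt e1 e2 e3)
    (cyc_not_mem_fibStab e1 e2 e3 n0b) (WF_mono _ le_top) ?_ (Q3_W hQ0)
  · intro p q r hp hq hr hpq hpr hqr
    exact cyc_mem_fibStab hpq hpr hqr (hp.trans hq.symm) (hq.trans hr.symm)
  · rintro σ ⟨π, hπ, hσ⟩ x
    show (σ x).1.1 = x.1.1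
    rw [hσ x]
    exact hπ x.1

/-- `n = 9 m`: blocks of size 3 and of size 9. -/
theorem case_c (m : ℕ) (hm : 2 ≤ m) : NP (alternatingGroup ((Fin m × Fin 3) × Fin 3)) := by
  classical
  let β' := Fin m
  let f₂ : (β' × Fin 3) × Fin 3 → β' := fun x => x.1.1
  let u₀ : β' := ⟨0, by omega⟩
  let u₁ : β' := ⟨1, by omega⟩
  have hu : u₀ ≠ u₁ := fun h => by
    have h' : (0 : ℕ) = 1 := congrArg (fun z : Fin m => (z : ℕ)) h
    omega
  have n01 : ((u₀, 0) : β' × Fin 3) ≠ (u₀, 1) := by simp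
  have e1 : (((u₁, 0), 0) : (β' × Fin 3) × Fin 3) ≠ ((u₀, 0), 1) := by simp [hu.symm]
  have e2 : (((u₁, 0), 0) : (β' × Fin 3) × Fin 3) ≠ ((u₀, 0), 0) := by simp [hu.symm]
  have e3 : (((u₀, 0), 1) : (β' × Fin 3) × Fin 3) ≠ ((u₀, 0), 0) := by simp
  refine family2 (fun c : β' × Fin 3 => c.1 = u₀) (b₀ := (u₀, 0)) (b₁ := (u₀, 1)) (b := (u₁, 0)) rfl rfl
    hu.symm n01 (WF f₂ ⊤) (W (W (⊤ : Subgroup (Perm β')))) ?_
    (c₂ := cyc ((u₁, 0), 0) ((u₀, 0), 1) ((u₀, 0), 0)) (cyc_mem_alt e1 e2 e3)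
    (cyc_not_mem_WF e1 e2 e3 rfl hu.symm) (WF_mono _ le_top) ?_ (Q3_W (Q3_W Q3_top))
  · intro p q r hp hq hr hpq hpr hqr
    exact ⟨1, trivial, cyc_mem_fibStab (f := f₂) hpq hpr hqr (hp.trans hq.symm) (hq.trans hr.symm)⟩
  · rintro σ ⟨π, ⟨π', -, hπ'⟩, hσ⟩
    refine ⟨π', trivial, fun x => ?_⟩
    show (σ x).1.1 = π' x.1.1
    rw [hσ x]
    exact hπ' x.1

/-- Transport to `Fin n`. -/
theorem NP_fin {Ω : Type*} [Fintype Ω] [DecidableEq Ω] {n : ℕ} (hc : Fintype.card Ω = n)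
    (h : NP (alternatingGroup Ω)) : NP (alternatingGroup (Fin n)) :=
  h.map (Equiv.altCongrHom (Fintype.equivFinOfCardEq hc))

/-- Every degree outside the exceptional list. -/
theorem NP_alt (n : ℕ) (hn : 5 ≤ n) (hex : ¬ (n = 6 ∨ n = 9 ∨ ∃ a : ℕ, 2 ≤ a ∧ n = 3 ^ a + 1)) :
    NP (alternatingGroup (Fin n)) := by
  have hq : n = 3 * (n / 3) + n % 3 := by omega
  set q := n / 3 with hqd
  have hr : n % 3 < 3 := Nat.mod_lt _ (by norm_num)
  -- a splitting of `q` when it is not a power of 3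
  have hsplit : (∀ a, q ≠ 3 ^ a) → ∃ a w, 1 ≤ w ∧ w < 2 * 3 ^ a ∧ q = 3 ^ a + w := by
    intro hne
    have hq0 : q ≠ 0 := by omega
    refine ⟨Nat.log 3 q, q - 3 ^ Nat.log 3 q, ?_, ?_, ?_⟩
    · have h1 := Nat.pow_log_le_self 3 hq0
      have h2 := hne (Nat.log 3 q)
      omega
    · have h1 := Nat.lt_pow_succ_log_self (b := 3) (by norm_num) q
      rw [pow_succ] at h1
      omega
    · have h1 := Nat.pow_log_le_self 3 hq0
      omega
  obtain h2 | h1 | h0 : n % 3 = 2 ∨ n % 3 = 1 ∨ n % 3 = 0 := by omega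
  · -- `n = 3 q + 2`
    let s : Fin 3 → ℕ := ![1, 1, 3 * q]
    have hc : Fintype.card (M1 s) = n := by
      rw [card_M1]; simp [s]; omega
    refine NP_fin hc (family1 s (by simp [s]) (by simp [s]) (by simp [s]; omega) (by simp [s]; omega)
      (by simp [s]; omega) ?_)
    have e : s 0 + s 1 + s 2 = 3 * q + 2 := by simp [s]; omega
    rw [e, v3_mul_add _ _ (by norm_num)]
    simp only [s, Matrix.cons_val_zero, Matrix.cons_val_one, Matrix.cons_val, v3_one, v3_mul]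
    omega
  · -- `n = 3 q + 1`
    have hne : ∀ a, q ≠ 3 ^ a := by
      intro a ha
      rcases a with _ | a
      · simp at ha; omega
      · apply hex
        right; right
        refine ⟨a + 2, by omega, ?_⟩
        rw [pow_succ 3 (a + 1), ← ha]
        omega
    obtain ⟨a, w, hw1, hw2, hqw⟩ := hsplit hne
    let s : Fin 3 → ℕ := ![1, 3 * w, 3 * 3 ^ a]
    have hpa : 1 ≤ 3 ^ a := Nat.one_le_pow _ _ (by norm_num)
    have hc : Fintype.card (M1 s) = n := by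
      rw [card_M1]; simp [s]; omega
    refine NP_fin hc (family1 s (by simp [s]) (by simp [s]; omega) (by simp [s]; omega) (by simp [s]; omega)
      (by simp [s]; omega) ?_)
    have e : s 0 + s 1 + s 2 = 3 * q + 1 := by simp [s]; omega
    rw [e, v3_mul_add _ _ (by norm_num), hqw, v3_pow_add a w hw2]
    simp only [s, Matrix.cons_val_zero, Matrix.cons_val_one, Matrix.cons_val, v3_one, v3_mul]
    omega
  · -- `n = 3 q`
    by_cases hpow : ∀ a, q ≠ 3 ^ a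
    · obtain ⟨a, w, hw1, hw2, hqw⟩ := hsplit hpow
      have hpa : 2 ≤ 3 ^ a := by
        rcases a with _ | a
        · simp at hw2 hqw
          exact absurd (Or.inl (by omega)) hex
        · have : 1 ≤ 3 ^ a := Nat.one_le_pow _ _ (by norm_num)
          rw [pow_succ]; omega
      let s : Fin 2 → ℕ := ![3 ^ a, w]
      have hc : Fintype.card ((Σ i : Fin 2, Fin (s i)) × Fin 3) = n := by
        rw [Fintype.card_prod, Fintype.card_sigma]
        simp [s, Fin.sum_univ_two]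
        omega
      refine NP_fin hc (case_b s (by simpa [s] using hpa) (by simpa [s] using hw1) ?_)
      simpa [s] using v3_pow_add a w hw2
    · push Not at hpow
      obtain ⟨a, ha⟩ := hpow
      rcases a with _ | _ | a
      · simp at ha; omega
      · simp at ha
        exact absurd (Or.inr (Or.inl (by omega))) hex
      · have hpa : 1 ≤ 3 ^ a := Nat.one_le_pow _ _ (by norm_num)
        have hm : 2 ≤ 3 ^ (a + 1) := by rw [pow_succ]; omega
        have hc : Fintype.card ((Fin (3 ^ (a + 1)) × Fin 3) × Fin 3) = n := by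
          simp only [Fintype.card_prod, Fintype.card_fin]
          rw [pow_succ 3 (a + 1)] at ha
          omega
        exact NP_fin hc (case_c _ hm)

end Cases

end Cfsg.Agent.Lib.Perm.ThreeMinA
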