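import Mathlib

/-!
# Three primes between `n` and `2n` (`n ≥ 9`)

A strengthening of Bertrand's postulate, following the proof in Mathlib.
-/

set_option autoImplicit false

namespace Cfsg.Agent.Lib.Perm.ThreePrimes

section Real

open Real

theorem real_ineq {x : ℝ} (x_large : (2048 : ℝ) ≤ x) :
    x * (2 * x) ^ (√(2 * x) + 2) * 4 ^ (2 * x / 3) ≤ 4 ^ x := by
  let f : ℝ → ℝ := fun x => 3 * log x + 2 * log 2 + √(2 * x) * log (2 * x) - log 4 / 3 * x
  have hf' : ∀ x, 0 < x → 0 < x * (2 * x) ^ (√(2 * x) + 2) / 4 ^ (x / 3) := fun x h =>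
    div_pos (mul_pos h (rpow_pos_of_pos (mul_pos two_pos h) _)) (rpow_pos_of_pos four_pos _)
  have hf : ∀ x, 0 < x → f x = log (x * (2 * x) ^ (√(2 * x) + 2) / 4 ^ (x / 3)) := by
    intro x h5
    have h6 := mul_pos (zero_lt_two' ℝ) h5
    have h7 := rpow_pos_of_pos h6 (√(2 * x) + 2)
    rw [log_div (mul_pos h5 h7).ne' (rpow_pos_of_pos four_pos _).ne', log_mul h5.ne' h7.ne',
      log_rpow h6, log_rpow zero_lt_four]
    have hl : log (2 * x) = log 2 + log x := log_mul two_ne_zero h5.ne'
    simp only [f]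
    rw [hl]
    ring
  have h5 : 0 < x := lt_of_lt_of_le (by norm_num1) x_large
  rw [← div_le_one (rpow_pos_of_pos four_pos x), ← div_div_eq_mul_div, ← rpow_sub four_pos, ←
    mul_div 2 x, mul_div_left_comm, ← mul_one_sub, (by norm_num1 : (1 : ℝ) - 2 / 3 = 1 / 3),
    mul_one_div, ← log_nonpos_iff (hf' x h5).le, ← hf x h5]
  have h : ConcaveOn ℝ (Set.Ioi 0.5) f := by
    apply ConcaveOn.sub
    · apply ConcaveOn.add
      · apply ConcaveOn.add
        · have := strictConcaveOn_log_Ioi.concaveOn.subset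
            (Set.Ioi_subset_Ioi (by norm_num : (0 : ℝ) ≤ 0.5)) (convex_Ioi 0.5)
          exact this.smul (by norm_num : (0 : ℝ) ≤ 3)
        · exact concaveOn_const _ (convex_Ioi 0.5)
      convert!
        ((strictConcaveOn_sqrt_mul_log_Ioi.concaveOn.comp_linearMap ((2 : ℝ) • LinearMap.id)))
        using 1
      ext x
      simp only [Set.mem_Ioi, Set.mem_preimage, LinearMap.smul_apply,
        LinearMap.id_coe, id_eq, smul_eq_mul]
      rw [← mul_lt_mul_iff_right₀ (two_pos)]
      norm_num1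
      rfl
    apply ConvexOn.smul
    · refine div_nonneg (log_nonneg (by norm_num1)) (by norm_num1)
    · exact convexOn_id (convex_Ioi (0.5 : ℝ))
  suffices ∃ x1 x2, 0.5 < x1 ∧ x1 < x2 ∧ x2 ≤ x ∧ 0 ≤ f x1 ∧ f x2 ≤ 0 by
    obtain ⟨x1, x2, h1, h2, h0, h3, h4⟩ := this
    exact (h.right_le_of_le_left'' h1 ((h1.trans h2).trans_le h0) h2 h0 (h4.trans h3)).trans h4
  refine ⟨18, 2048, by norm_num1, by norm_num1, x_large, ?_, ?_⟩
  · have : √(2 * 18 : ℝ) = 6 := (sqrt_eq_iff_mul_self_eq_of_pos (by norm_num1)).mpr (by norm_num1)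
    rw [hf _ (by norm_num1), log_nonneg_iff (by positivity), this, one_le_div (by norm_num1)]
    have e : (6 : ℝ) + 2 = ((8 : ℕ) : ℝ) := by norm_num
    rw [e, rpow_natCast]
    have e2 : (18 / 3 : ℝ) = ((6 : ℕ) : ℝ) := by norm_num
    rw [e2, rpow_natCast]
    norm_num1
  · have : √(2 * 2048) = 64 :=
      (sqrt_eq_iff_mul_self_eq_of_pos (by norm_num1)).mpr (by norm_num1)
    rw [hf _ (by norm_num1), log_nonpos_iff (hf' _ (by norm_num1)).le, this,
        div_le_one (by positivity)]
    have e : (64 : ℝ) + 2 = ((66 : ℕ) : ℝ) := by norm_num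
    rw [e, rpow_natCast]
    have e4 : (4 : ℝ) ^ ((2048 : ℝ) / 3) = (2 : ℝ) ^ ((4096 : ℝ) / 3) := by
      have : (4 : ℝ) = (2 : ℝ) ^ (2 : ℝ) := by rw [rpow_two]; norm_num1
      have h2 : (2 : ℝ) * (2048 / 3) = 4096 / 3 := by norm_num
      rw [this, ← rpow_mul (by norm_num1), h2]
    rw [e4]
    have e5 : (2048 : ℝ) * (2 * 2048) ^ (66 : ℕ) = (2 : ℝ) ^ ((803 : ℕ) : ℝ) := by
      rw [rpow_natCast]
      have a1 : (2048 : ℝ) = 2 ^ 11 := by norm_num
      have a2 : (2 * 2048 : ℝ) = 2 ^ 12 := by norm_num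
      rw [a2, a1, ← pow_mul, ← pow_add]
    rw [e5]
    apply rpow_le_rpow_of_exponent_le (by norm_num1)
    norm_num1

end Real

section Nat

open Nat

theorem main_ineq {n : ℕ} (n_large : 2048 ≤ n) :
    n * (2 * n) ^ (sqrt (2 * n) + 2) * 4 ^ (2 * n / 3) ≤ 4 ^ n := by
  rw [← @cast_le ℝ]
  simp only [cast_mul, cast_pow, ← Real.rpow_natCast, cast_ofNat]
  refine _root_.trans ?_ (real_ineq (by exact_mod_cast n_large))
  gcongr
  · have n2_pos : 0 < 2 * n := by omega
    exact mod_cast n2_pos
  · push_cast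
    gcongr
    exact_mod_cast Real.nat_sqrt_le_real_sqrt
  · norm_num1
  · exact cast_div_le.trans (by norm_cast)

/-- If `T` contains the primes in `(n, 2n]` and has at most two elements ... -/
theorem centralBinom_le_of_few_primes (n : ℕ) (n_large : 2 < n)
    (few : (Finset.filter (fun p => p.Prime ∧ n < p) (Finset.Ico (2 * n / 3 + 1) (2 * n + 1))).card ≤ 2) :
    centralBinom n ≤ (2 * n) ^ (sqrt (2 * n) + 2) * 4 ^ (2 * n / 3) := by
  have n_pos : 0 < n := (Nat.zero_le _).trans_lt n_large
  have n2_pos : 1 ≤ 2 * n := mul_pos (zero_lt_two' ℕ) n_pos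
  let f x := x ^ n.centralBinom.factorization x
  have hle : 2 * n / 3 + 1 ≤ 2 * n + 1 := by omega
  have hsplit : centralBinom n =
      (∏ x ∈ Finset.range (2 * n / 3 + 1), f x) * ∏ x ∈ Finset.Ico (2 * n / 3 + 1) (2 * n + 1), f x := by
    rw [Finset.prod_range_mul_prod_Ico _ hle]
    exact n.prod_pow_factorization_centralBinom.symm
  -- large primes
  have hlarge : ∏ x ∈ Finset.Ico (2 * n / 3 + 1) (2 * n + 1), f x ≤ (2 * n) ^ 2 := by
    let T := Finset.filter (fun p => p.Prime ∧ n < p) (Finset.Ico (2 * n / 3 + 1) (2 * n + 1))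
    have h1 : ∏ x ∈ T, f x = ∏ x ∈ Finset.Ico (2 * n / 3 + 1) (2 * n + 1), f x := by
      refine Finset.prod_filter_of_ne fun p hp h => ?_
      rw [Finset.mem_Ico] at hp
      contrapose h
      dsimp only [f]
      by_cases hpp : p.Prime
      · have hpn : p ≤ n := by
          by_contra hlt
          exact h ⟨hpp, by omega⟩
        have h2 : 2 * n < 3 * p := by
          have := hp.1
          have h3 : 2 * n / 3 < p := by omega
          rw [Nat.div_lt_iff_lt_mul three_pos] at h3
          omega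
        rw [factorization_centralBinom_of_two_mul_self_lt_three_mul n_large hpn h2, _root_.pow_zero]
      · rw [factorization_eq_zero_of_not_prime n.centralBinom hpp, _root_.pow_zero]
    rw [← h1]
    refine (Finset.prod_le_prod' fun p _ => (?_ : f p ≤ 2 * n)).trans ?_
    · exact pow_factorization_choose_le (mul_pos two_pos n_pos)
    rw [Finset.prod_const]
    exact pow_right_mono₀ n2_pos few
  -- small primes
  have hsmall : ∏ x ∈ Finset.range (2 * n / 3 + 1), f x ≤ (2 * n) ^ sqrt (2 * n) * 4 ^ (2 * n / 3) := by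
    let S := {p ∈ Finset.range (2 * n / 3 + 1) | Nat.Prime p}
    have : ∏ x ∈ S, f x = ∏ x ∈ Finset.range (2 * n / 3 + 1), f x := by
      refine Finset.prod_filter_of_ne fun p _ h => ?_
      contrapose h; dsimp only [f]
      rw [factorization_eq_zero_of_not_prime n.centralBinom h, _root_.pow_zero]
    rw [← this, ← Finset.prod_filter_mul_prod_filter_not S (· ≤ sqrt (2 * n))]
    apply mul_le_mul'
    · refine (Finset.prod_le_prod' fun p _ => (?_ : f p ≤ 2 * n)).trans ?_
      · exact pow_factorization_choose_le (mul_pos two_pos n_pos)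
      have : (Finset.Icc 1 (sqrt (2 * n))).card = sqrt (2 * n) := by rw [card_Icc, Nat.add_sub_cancel]
      rw [Finset.prod_const]
      refine pow_right_mono₀ n2_pos ((Finset.card_le_card fun x hx => ?_).trans this.le)
      obtain ⟨h1, h2⟩ := Finset.mem_filter.1 hx
      exact Finset.mem_Icc.mpr ⟨(Finset.mem_filter.1 h1).2.one_lt.le, h2⟩
    · refine le_trans ?_ (primorial_le_four_pow (2 * n / 3))
      refine (Finset.prod_le_prod' fun p hp => (?_ : f p ≤ p)).trans ?_
      · obtain ⟨h1, h2⟩ := Finset.mem_filter.1 hp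
        refine (pow_right_mono₀ (Finset.mem_filter.1 h1).2.one_lt.le ?_).trans (pow_one p).le
        exact Nat.factorization_choose_le_one (sqrt_lt'.mp <| not_le.1 h2)
      refine Finset.prod_le_prod_of_subset_of_one_le' (Finset.filter_subset _ _) ?_
      exact fun p hp _ => (Finset.mem_filter.1 hp).2.one_lt.le
  rw [hsplit, pow_add, mul_right_comm]
  exact mul_le_mul' hsmall hlarge

/-- The property: three primes in `(n, 2n]`. -/
def Three (n : ℕ) : Prop :=
  ∃ a b c : ℕ, a.Prime ∧ b.Prime ∧ c.Prime ∧ n < a ∧ a < b ∧ b < c ∧ c ≤ 2 * n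

theorem three_eventually (n : ℕ) (n_large : 2048 ≤ n) : Three n := by
  by_contra hno
  have hfew : (Finset.filter (fun p => p.Prime ∧ n < p) (Finset.Ico (2 * n / 3 + 1) (2 * n + 1))).card ≤ 2 := by
    by_contra hc
    push Not at hc
    obtain ⟨a, ha, b, hb, c, hc', hab, hac, hbc⟩ := Finset.two_lt_card.mp hc
    simp only [Finset.mem_filter, Finset.mem_Ico] at ha hb hc'
    apply hno
    rcases lt_or_gt_of_ne hab with h1 | h1 <;> rcases lt_or_gt_of_ne hac with h2 | h2 <;>
      rcases lt_or_gt_of_ne hbc with h3 | h3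
    · exact ⟨a, b, c, ha.2.1, hb.2.1, hc'.2.1, ha.2.2, h1, h3, by omega⟩
    · exact ⟨a, c, b, ha.2.1, hc'.2.1, hb.2.1, ha.2.2, h2, h3, by omega⟩
    · omega
    · exact ⟨c, a, b, hc'.2.1, ha.2.1, hb.2.1, hc'.2.2, h2, h1, by omega⟩
    · exact ⟨b, a, c, hb.2.1, ha.2.1, hc'.2.1, hb.2.2, h1, h2, by omega⟩
    · omega
    · exact ⟨b, c, a, hb.2.1, hc'.2.1, ha.2.1, hb.2.2, h3, h2, by omega⟩
    · exact ⟨c, b, a, hc'.2.1, hb.2.1, ha.2.1, hc'.2.2, h3, h1, by omega⟩
  have h1 : 4 ^ n < n * n.centralBinom :=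
    Nat.four_pow_lt_mul_centralBinom n (le_trans (by norm_num1) n_large)
  have h2 := centralBinom_le_of_few_primes n (by omega) hfew
  have h3 := main_ineq n_large
  have h4 : n * n.centralBinom ≤ n * ((2 * n) ^ (sqrt (2 * n) + 2) * 4 ^ (2 * n / 3)) :=
    Nat.mul_le_mul_left _ h2
  rw [← mul_assoc] at h4
  omega

theorem step {n : ℕ} {a b c d : ℕ} (hb : b.Prime) (hc : c.Prime) (hd : d.Prime) (hbc : b < c)
    (hcd : c < d) (hda : d ≤ 2 * a) (H : n < a → Three n) (hnb : n < b) : Three n := by
  by_cases hna : n < a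
  · exact H hna
  · exact ⟨b, c, d, hb, hc, hd, hnb, hbc, hcd, by omega⟩

/-- Three primes in `(n, 2n]`, for `n ≥ 9`. -/
theorem three_primes (n : ℕ) (hn : 9 ≤ n) : Three n := by
  rcases le_or_gt 2048 n with h | h
  · exact three_eventually n h
  have h' : n < 2053 := by omega
  revert h'
  intro h'
  revert h'
  intro h
  refine step (a := 1035) (b := 2053) (c := 2063) (d := 2069) (by norm_num) (by norm_num) (by norm_num) (by norm_num) (by norm_num) (by norm_num) ?_ (by omega)
  intro h
  refine step (a := 526) (b := 1039) (c := 1049) (d := 1051) (by norm_num) (by norm_num) (by norm_num) (by norm_num) (by norm_num) (by norm_num) ?_ (by omega)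
  intro h
  refine step (a := 279) (b := 541) (c := 547) (d := 557) (by norm_num) (by norm_num) (by norm_num) (by norm_num) (by norm_num) (by norm_num) ?_ (by omega)
  intro h
  refine step (a := 147) (b := 281) (c := 283) (d := 293) (by norm_num) (by norm_num) (by norm_num) (by norm_num) (by norm_num) (by norm_num) ?_ (by omega)
  intro h
  refine step (a := 79) (b := 149) (c := 151) (d := 157) (by norm_num) (by norm_num) (by norm_num) (by norm_num) (by norm_num) (by norm_num) ?_ (by omega)
  intro h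
  refine step (a := 45) (b := 79) (c := 83) (d := 89) (by norm_num) (by norm_num) (by norm_num) (by norm_num) (by norm_num) (by norm_num) ?_ (by omega)
  intro h
  refine step (a := 30) (b := 47) (c := 53) (d := 59) (by norm_num) (by norm_num) (by norm_num) (by norm_num) (by norm_num) (by norm_num) ?_ (by omega)
  intro h
  refine step (a := 21) (b := 31) (c := 37) (d := 41) (by norm_num) (by norm_num) (by norm_num) (by norm_num) (by norm_num) (by norm_num) ?_ (by omega)
  intro h
  refine step (a := 16) (b := 23) (c := 29) (d := 31) (by norm_num) (by norm_num) (by norm_num) (by norm_num) (by norm_num) (by norm_num) ?_ (by omega)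
  intro h
  refine step (a := 12) (b := 17) (c := 19) (d := 23) (by norm_num) (by norm_num) (by norm_num) (by norm_num) (by norm_num) (by norm_num) ?_ (by omega)
  intro h
  refine step (a := 10) (b := 13) (c := 17) (d := 19) (by norm_num) (by norm_num) (by norm_num) (by norm_num) (by norm_num) (by norm_num) ?_ (by omega)
  intro h
  refine step (a := 9) (b := 11) (c := 13) (d := 17) (by norm_num) (by norm_num) (by norm_num) (by norm_num) (by norm_num) (by norm_num) ?_ (by omega)
  intro h
  omega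

end Nat

end Cfsg.Agent.Lib.Perm.ThreePrimes
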