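import Mathlib
import Cfsg.Agent.S0731
import Cfsg.Agent.S0345
import Cfsg.Agent.Lib.Perm.ZassCyc
import Cfsg.Agent.Lib.Perm.ZassSharp

/-!
# Sharply triply transitive groups of even degree

The two-point stabiliser has a normal subgroup of index two: the two-point stabiliser of the simple
subgroup generated by the kernels.
-/

set_option autoImplicit false
set_option linter.style.haveILetI false
set_option linter.unusedSectionVars false

namespace Cfsg.Agent.Lib.Perm.ZassSharpEven

open MulAction Cfsg Cfsg.Agent.Lib.Zass.Basic Cfsg.Agent.Lib.Zass.Simple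

universe u v

variable {G : Type u} {Ω : Type v} [Group G] [MulAction G Ω]

/-- Sharp triple transitivity, unpacked. -/
structure Sharp3 (G : Type u) (Ω : Type v) [Group G] [MulAction G Ω] : Prop where
  tr : ∀ a b c a' b' c' : Ω, a ≠ b → a ≠ c → b ≠ c → a' ≠ b' → a' ≠ c' → b' ≠ c' →
    ∃ g : G, g • a = a' ∧ g • b = b' ∧ g • c = c'
  fix : ∀ g : G, ∀ a b c : Ω, a ≠ b → a ≠ c → b ≠ c → g • a = a → g • b = b → g • c = c → g = 1

/-- The embedding of a triple of distinct points. -/
def emb3 {a b c : Ω} (hab : a ≠ b) (hac : a ≠ c) (hbc : b ≠ c) : Fin 3 ↪ Ω :=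
  ⟨![a, b, c], by
    intro i j h
    fin_cases i <;> fin_cases j <;> simp_all [eq_comm]⟩

theorem sharp3_of (h3 : IsMultiplyPretransitive G Ω 3)
    (hsharp : ∀ x : Fin 3 ↪ Ω, stabilizer G x = ⊥) : Sharp3 G Ω := by
  refine ⟨?_, ?_⟩
  · intro a b c a' b' c' hab hac hbc hab' hac' hbc'
    obtain ⟨g, hg⟩ := h3.exists_smul_eq (emb3 hab hac hbc) (emb3 hab' hac' hbc')
    refine ⟨g, ?_, ?_, ?_⟩
    · exact DFunLike.congr_fun hg 0
    · exact DFunLike.congr_fun hg 1
    · exact DFunLike.congr_fun hg 2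
  · intro g a b c hab hac hbc ha hb hc
    have hg : g ∈ stabilizer G (emb3 hab hac hbc) := by
      rw [mem_stabilizer_iff]
      ext i
      fin_cases i
      · exact ha
      · exact hb
      · exact hc
    rw [hsharp] at hg
    simpa using hg

theorem exists_notMem [Fintype Ω] (s : Finset Ω) (hs : s.card < Fintype.card Ω) : ∃ x : Ω, x ∉ s := by
  classical
  by_contra h
  push Not at h
  have h1 : s = Finset.univ := Finset.eq_univ_of_forall h
  rw [h1, Finset.card_univ] at hs
  omega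

section Sharp

variable [Finite G] [Fintype Ω] [FaithfulSMul G Ω]

/-- The order of the two-point stabiliser. -/
theorem card_two_point (hS : Sharp3 G Ω) {a b c : Ω} (hab : a ≠ b) (hac : a ≠ c) (hbc : b ≠ c) :
    Nat.card ↥(stabilizer G a ⊓ stabilizer G b) + 2 = Fintype.card Ω := by
  classical
  have hbij : Function.Bijective (fun h : ↥(stabilizer G a ⊓ stabilizer G b) =>
      (⟨(h : G) • c, by
        have hha : (h : G) • a = a := h.2.1
        have hhb : (h : G) • b = b := h.2.2
        constructor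
        · intro he
          apply hac
          exact MulAction.injective (h : G) (by show (h : G) • a = (h : G) • c; rw [hha]; exact he.symm)
        · intro he
          apply hbc
          exact MulAction.injective (h : G) (by show (h : G) • b = (h : G) • c; rw [hhb]; exact he.symm)⟩ : {x : Ω // x ≠ a ∧ x ≠ b})) := by
    constructor
    · intro h k hhk
      have h1 : (h : G) • c = (k : G) • c := congrArg Subtype.val hhk
      have h2 : (k : G)⁻¹ * (h : G) = 1 := by
        apply hS.fix _ a b c hab hac hbc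
        · rw [mul_smul, show (h : G) • a = a from h.2.1]
          exact inv_smul_eq_iff.mpr (k.2.1 : (k : G) • a = a).symm
        · rw [mul_smul, show (h : G) • b = b from h.2.2]
          exact inv_smul_eq_iff.mpr (k.2.2 : (k : G) • b = b).symm
        · rw [mul_smul, h1, inv_smul_smul]
      apply Subtype.ext
      exact (inv_mul_eq_one.mp h2).symm
    · rintro ⟨d, hda, hdb⟩
      obtain ⟨g, h1, h2, h3⟩ := hS.tr a b c a b d hab hac hbc hab hda.symm hdb.symm
      exact ⟨⟨g, h1, h2⟩, Subtype.ext h3⟩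
  have h1 := Nat.card_congr (Equiv.ofBijective _ hbij)
  rw [h1, Nat.card_eq_fintype_card, Fintype.card_subtype]
  have h2 : (Finset.univ.filter fun x : Ω => x ≠ a ∧ x ≠ b) = (Finset.univ.erase a).erase b := by
    ext x
    simp [and_comm]
  rw [h2, Finset.card_erase_of_mem (by simp [hab.symm]), Finset.card_erase_of_mem (by simp),
    Finset.card_univ]
  have h3 : 3 ≤ Fintype.card Ω := by
    have h4 : ({a, b, c} : Finset Ω).card = 3 := by
      rw [Finset.card_eq_three]
      exact ⟨a, b, c, hab, hac, hbc, rfl⟩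
    rw [← h4]
    exact Finset.card_le_univ _
  omega

/-- No regular normal subgroup. -/
theorem no_regular (hS : Sharp3 G Ω) (heven : Even (Fintype.card Ω)) (h6 : 6 ≤ Fintype.card Ω)
    (K : Subgroup G) (hKn : K.Normal) (hK : IsPretransitive K Ω) :
    ∃ a : Ω, stabilizer K a ≠ ⊥ := by
  classical
  by_contra hcon
  push Not at hcon
  -- points
  obtain ⟨a⟩ : Nonempty Ω := by
    apply Fintype.card_pos_iff.mp
    omega
  obtain ⟨b, hb⟩ := exists_notMem ({a} : Finset Ω) (by simp; omega)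
  obtain ⟨c, hc⟩ := exists_notMem ({a, b} : Finset Ω) (by
    have := Finset.card_le_two (a := a) (b := b)
    omega)
  have hab : a ≠ b := fun h => hb (by simp [h])
  have hac : a ≠ c := fun h => hc (by simp [h])
  have hbc : b ≠ c := fun h => hc (by simp [h])
  -- regularity
  have hreg : ∀ y y' : G, y ∈ K → y' ∈ K → y • a = y' • a → y = y' := by
    intro y y' hy hy' he
    have h1 : (⟨y'⁻¹ * y, K.mul_mem (K.inv_mem hy') hy⟩ : K) ∈ stabilizer K a := by
      show (y'⁻¹ * y) • a = a
      rw [mul_smul, he, inv_smul_smul]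
    rw [hcon a] at h1
    have h2 : y'⁻¹ * y = 1 := congrArg Subtype.val ((Subgroup.mem_bot).mp h1)
    exact (inv_mul_eq_one.mp h2).symm
  have hex : ∀ x : Ω, ∃ y ∈ K, y • a = x := by
    intro x
    obtain ⟨k, hk⟩ := hK.exists_smul_eq a x
    exact ⟨k, k.2, hk⟩
  have hcardK : Nat.card K = Fintype.card Ω := by
    have hbij : Function.Bijective (fun y : K => (y : G) • a) := by
      constructor
      · intro y y' he
        exact Subtype.ext (hreg _ _ y.2 y'.2 he)
      · intro x
        obtain ⟨y, hy, he⟩ := hex x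
        exact ⟨⟨y, hy⟩, he⟩
    rw [Nat.card_congr (Equiv.ofBijective _ hbij), Nat.card_eq_fintype_card]
  -- an involution of `K`
  haveI : Fact (Nat.Prime 2) := ⟨Nat.prime_two⟩
  obtain ⟨y₀, hy₀⟩ := exists_prime_orderOf_dvd_card' (G := K) 2 (by
    rw [hcardK]; exact heven.two_dvd)
  have hy₀1 : (y₀ : G) ≠ 1 := by
    intro h
    have : y₀ = 1 := Subtype.ext h
    rw [this, orderOf_one] at hy₀
    omega
  have hy₀2 : (y₀ : G) * (y₀ : G) = 1 := by
    have : y₀ ^ 2 = 1 := by rw [← hy₀]; exact pow_orderOf_eq_one y₀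
    have h1 := congrArg Subtype.val this
    simpa [pow_two] using h1
  have hmove : ∀ y : G, y ∈ K → y ≠ 1 → y • a ≠ a := by
    intro y hy hy1 he
    exact hy1 (hreg y 1 hy K.one_mem (by rw [he, one_smul]))
  -- all elements of `K` are involutions
  have hexp : ∀ y : G, y ∈ K → y * y = 1 := by
    intro y hy
    by_cases hy1 : y = 1
    · rw [hy1, mul_one]
    obtain ⟨d, hd⟩ : ∃ d : Ω, d ∉ ({a, (y₀ : G) • a} : Finset Ω) := exists_notMem _ (by
      have := Finset.card_le_two (a := a) (b := (y₀ : G) • a)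
      omega)
    have hd1 : a ≠ d := fun h => hd (by simp [h])
    have hd2 : (y₀ : G) • a ≠ d := fun h => hd (by simp [h])
    obtain ⟨e, he⟩ : ∃ e : Ω, e ∉ ({a, y • a} : Finset Ω) := exists_notMem _ (by
      have := Finset.card_le_two (a := a) (b := y • a)
      omega)
    have he1 : a ≠ e := fun h => he (by simp [h])
    have he2 : y • a ≠ e := fun h => he (by simp [h])
    obtain ⟨g, hga, hgy, -⟩ := hS.tr a ((y₀ : G) • a) d a (y • a) e (hmove _ y₀.2 hy₀1).symm hd1 hd2
      (hmove _ hy hy1).symm he1 he2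
    have hconj : g * (y₀ : G) * g⁻¹ = y := by
      apply hreg _ _ (hKn.conj_mem _ y₀.2 g) hy
      rw [mul_smul, mul_smul, inv_smul_eq_iff.mpr hga.symm, hgy]
    rw [← hconj]
    have : g * (y₀ : G) * g⁻¹ * (g * (y₀ : G) * g⁻¹) = g * ((y₀ : G) * (y₀ : G)) * g⁻¹ := by group
    rw [this, hy₀2]
    group
  have hinv : ∀ y : G, y ∈ K → y⁻¹ = y := fun y hy => inv_eq_of_mul_eq_one_left (hexp y hy)
  have hcomm : ∀ y : G, y ∈ K → ∀ y' : G, y' ∈ K → y * y' = y' * y := by
    intro y hy y' hy'
    have h1 := hexp _ (K.mul_mem hy hy')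
    have h2 := inv_eq_of_mul_eq_one_left h1
    rw [mul_inv_rev, hinv y hy, hinv y' hy'] at h2
    exact h2.symm
  -- an involution of the two-point stabiliser
  have hcardH := card_two_point hS hab hac hbc
  obtain ⟨z, hz⟩ := exists_prime_orderOf_dvd_card' (G := ↥(stabilizer G a ⊓ stabilizer G b)) 2 (by
    have h1 : Even (Nat.card ↥(stabilizer G a ⊓ stabilizer G b)) := by
      have h2 : Nat.card ↥(stabilizer G a ⊓ stabilizer G b) = Fintype.card Ω - 2 := by omega
      rw [h2]
      obtain ⟨r, hr⟩ := heven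
      exact ⟨r - 1, by omega⟩
    exact h1.two_dvd)
  have hz1 : (z : G) ≠ 1 := by
    intro h
    have : z = 1 := Subtype.ext h
    rw [this, orderOf_one] at hz
    omega
  have hz2 : (z : G) * (z : G) = 1 := by
    have : z ^ 2 = 1 := by rw [← hz]; exact pow_orderOf_eq_one z
    have h1 := congrArg Subtype.val this
    simpa [pow_two] using h1
  have hzinv : (z : G)⁻¹ = z := inv_eq_of_mul_eq_one_left hz2
  have hza : (z : G) • a = a := z.2.1
  have hzb : (z : G) • b = b := z.2.2
  -- fixed points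
  obtain ⟨kb, hkb, hkbe⟩ := hex b
  have hP : ∀ y : G, y ∈ K → (z : G) * y * (z : G)⁻¹ = y → y = 1 ∨ y = kb := by
    intro y hy he
    have h1 : (z : G) • (y • a) = y • a := by
      have := congrArg (fun g : G => g • a) he
      simp only [mul_smul] at this
      rwa [inv_smul_eq_iff.mpr hza.symm] at this
    by_cases h2 : y • a = a
    · left
      exact hreg y 1 hy K.one_mem (by rw [h2, one_smul])
    by_cases h3 : y • a = b
    · right
      exact hreg y kb hy hkb (by rw [h3, hkbe])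
    · exact absurd (hS.fix _ a b (y • a) hab (Ne.symm h2) (Ne.symm h3) hza hzb h1) hz1
  -- the map `w`
  have hwP : ∀ y : G, y ∈ K → y * ((z : G) * y * (z : G)⁻¹) = 1 ∨ y * ((z : G) * y * (z : G)⁻¹) = kb := by
    intro y hy
    apply hP _ (K.mul_mem hy (hKn.conj_mem _ hy _))
    have h1 : (z : G) * (y * ((z : G) * y * (z : G)⁻¹)) * (z : G)⁻¹ =
        ((z : G) * y * (z : G)⁻¹) * (((z : G) * (z : G)) * y * (((z : G) * (z : G))⁻¹)) := by group
    rw [h1, hz2]
    simp only [one_mul, inv_one, mul_one]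
    exact hcomm _ (hKn.conj_mem _ hy _) _ hy
  have hw1 : ∀ y : G, y ∈ K → y * ((z : G) * y * (z : G)⁻¹) = 1 → y = 1 ∨ y = kb := by
    intro y hy he
    apply hP y hy
    have := eq_inv_of_mul_eq_one_right he
    rw [this, hinv y hy]
  obtain ⟨y₁, hy₁, hy₁1, hy₁b⟩ : ∃ y₁ : G, y₁ ∈ K ∧ y₁ ≠ 1 ∧ y₁ ≠ kb := by
    obtain ⟨y, hy, hye⟩ := hex c
    refine ⟨y, hy, ?_, ?_⟩
    · rintro rfl
      rw [one_smul] at hye
      exact hac hye
    · rintro rfl
      rw [hkbe] at hye
      exact hbc hye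
  have hy₁w : y₁ * ((z : G) * y₁ * (z : G)⁻¹) = kb := by
    rcases hwP y₁ hy₁ with h | h
    · rcases hw1 y₁ hy₁ h with h' | h'
      · exact absurd h' hy₁1
      · exact absurd h' hy₁b
    · exact h
  have hkb2 : kb * kb = 1 := hexp kb hkb
  -- every element of `K` lies in `{1, kb, y₁, y₁ kb}`
  have hall : ∀ y : G, y ∈ K → y = 1 ∨ y = kb ∨ y = y₁ ∨ y = y₁ * kb := by
    intro y hy
    by_cases h1 : y = 1
    · exact Or.inl h1
    by_cases h2 : y = kb
    · exact Or.inr (Or.inl h2)
    right; right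
    have hyw : y * ((z : G) * y * (z : G)⁻¹) = kb := by
      rcases hwP y hy with h | h
      · rcases hw1 y hy h with h' | h'
        · exact absurd h' h1
        · exact absurd h' h2
      · exact h
    have hprod : (y₁ * y) * ((z : G) * (y₁ * y) * (z : G)⁻¹) = 1 := by
      have h3 : (y₁ * y) * ((z : G) * (y₁ * y) * (z : G)⁻¹) =
          (y₁ * ((z : G) * y₁ * (z : G)⁻¹)) * (y * ((z : G) * y * (z : G)⁻¹)) := by
        have h4 : (z : G) * (y₁ * y) * (z : G)⁻¹ = ((z : G) * y₁ * (z : G)⁻¹) * ((z : G) * y * (z : G)⁻¹) := by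
          group
        rw [h4, mul_assoc y₁ y, ← mul_assoc y, hcomm y hy _ (hKn.conj_mem _ hy₁ _)]
        simp only [mul_assoc]
      rw [h3, hy₁w, hyw, hkb2]
    rcases hw1 _ (K.mul_mem hy₁ hy) hprod with h | h
    · left
      have := eq_inv_of_mul_eq_one_right h
      rw [this, hinv y₁ hy₁]
    · right
      have h3 : y = y₁⁻¹ * kb := eq_inv_mul_of_mul_eq h
      rw [h3, hinv y₁ hy₁]
  -- counting
  have hsub : ∀ x : Ω, x ∈ ({a, b, y₁ • a, (y₁ * kb) • a} : Finset Ω) := by
    intro x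
    obtain ⟨y, hy, rfl⟩ := hex x
    rcases hall y hy with rfl | rfl | rfl | rfl
    · simp
    · simp [hkbe]
    · simp
    · simp
  have hle : Fintype.card Ω ≤ ({a, b, y₁ • a, (y₁ * kb) • a} : Finset Ω).card := by
    rw [← Finset.card_univ]
    exact Finset.card_le_card (fun x _ => hsub x)
  have h4 : ({a, b, y₁ • a, (y₁ * kb) • a} : Finset Ω).card ≤ 4 := Finset.card_le_four
  omega

/-- A sharply triply transitive group of even degree at least `6` is a Zassenhaus group. -/
theorem isZassenhaus (hS : Sharp3 G Ω) (heven : Even (Fintype.card Ω)) (h6 : 6 ≤ Fintype.card Ω) :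
    IsZassenhausGroup G Ω := by
  classical
  refine ⟨inferInstance, ?_, ?_, ?_, ?_⟩
  · rw [is_two_pretransitive_iff]
    intro a b a' b' hab hab'
    obtain ⟨c, hc⟩ := exists_notMem ({a, b} : Finset Ω) (by
      have := Finset.card_le_two (a := a) (b := b)
      omega)
    obtain ⟨c', hc'⟩ := exists_notMem ({a', b'} : Finset Ω) (by
      have := Finset.card_le_two (a := a') (b := b')
      omega)
    obtain ⟨g, h1, h2, -⟩ := hS.tr a b c a' b' c' hab (fun h => hc (by simp [h]))
      (fun h => hc (by simp [h])) hab' (fun h => hc' (by simp [h])) (fun h => hc' (by simp [h]))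
    exact ⟨g, h1, h2⟩
  · intro g a b c hab hbc hac ha hb hc
    exact hS.fix g a b c hab hac hbc ha hb hc
  · obtain ⟨a⟩ : Nonempty Ω := by
      apply Fintype.card_pos_iff.mp
      omega
    obtain ⟨b, hb⟩ := exists_notMem ({a} : Finset Ω) (by simp; omega)
    obtain ⟨c, hc⟩ := exists_notMem ({a, b} : Finset Ω) (by
      have := Finset.card_le_two (a := a) (b := b)
      omega)
    obtain ⟨d, hd⟩ := exists_notMem ({a, b, c} : Finset Ω) (by
      have := Finset.card_le_three (a := a) (b := b) (c := c)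
      omega)
    have hab : a ≠ b := fun h => hb (by simp [h])
    have hac : a ≠ c := fun h => hc (by simp [h])
    have hbc : b ≠ c := fun h => hc (by simp [h])
    have had : a ≠ d := fun h => hd (by simp [h])
    have hbd : b ≠ d := fun h => hd (by simp [h])
    have hcd : c ≠ d := fun h => hd (by simp [h])
    obtain ⟨g, h1, h2, h3⟩ := hS.tr a b c a b d hab hac hbc hab had hbd
    refine ⟨g, ?_, a, b, hab, h1, h2⟩
    rintro rfl
    rw [one_smul] at h3
    exact hcd h3
  · intro N hN hNt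
    exact no_regular hS heven h6 N hN hNt

variable (hZ : IsZassenhausGroup G Ω)

/-- The kernels are abelian. -/
theorem kernel_comm (hS : Sharp3 G Ω) (a : Ω) :
    ∀ x ∈ kernel hZ a, ∀ y ∈ kernel hZ a, x * y = y * x := by
  classical
  obtain ⟨c, hac⟩ := exists_other hZ a
  -- conjugacy
  have hconj : ∀ x ∈ kernel hZ a, ∀ y ∈ kernel hZ a, x ≠ 1 → y ≠ 1 →
      ∃ g : G, g • a = a ∧ g * x * g⁻¹ = y := by
    intro x hx y hy hx1 hy1
    have h1 : x • c ≠ a := smul_ne_self_of_kernel hZ hac.symm hx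
    have h2 : x • c ≠ c := smul_ne_of_kernel hZ hac.symm hx hx1
    have h3 : y • c ≠ a := smul_ne_self_of_kernel hZ hac.symm hy
    have h4 : y • c ≠ c := smul_ne_of_kernel hZ hac.symm hy hy1
    obtain ⟨g, hga, hgc, hgx⟩ := hS.tr a c (x • c) a c (y • c) hac h1.symm h2.symm hac h3.symm h4.symm
    refine ⟨g, hga, ?_⟩
    apply kernel_eq_of_smul_eq hZ hac.symm (conj_mem_kernel_of_fix hZ hga hx) hy
    rw [mul_smul, mul_smul, inv_smul_eq_iff.mpr hgc.symm, hgx]
  -- a prime order
  have hne := kernel_ne_bot hZ a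
  obtain ⟨p, hp, hpdvd⟩ : ∃ p : ℕ, p.Prime ∧ p ∣ Nat.card (kernel hZ a) := by
    refine Nat.exists_prime_and_dvd ?_
    intro h
    apply hne
    exact (Subgroup.card_eq_one).mp h
  haveI : Fact p.Prime := ⟨hp⟩
  obtain ⟨y₀, hy₀⟩ := exists_prime_orderOf_dvd_card' (G := kernel hZ a) p hpdvd
  have hy₀1 : (y₀ : G) ≠ 1 := by
    intro h
    have : y₀ = 1 := Subtype.ext h
    rw [this, orderOf_one] at hy₀
    exact hp.one_lt.ne hy₀
  have hord : ∀ y : kernel hZ a, orderOf y = 1 ∨ orderOf y = p := by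
    intro y
    by_cases hy1 : (y : G) = 1
    · left
      have : y = 1 := Subtype.ext hy1
      rw [this, orderOf_one]
    · right
      obtain ⟨g, -, hg⟩ := hconj _ y₀.2 _ y.2 hy₀1 hy1
      rw [← hy₀, ← Subgroup.orderOf_coe, ← Subgroup.orderOf_coe, ← hg]
      exact orderOf_injective (MulAut.conj g).toMonoidHom (MulEquiv.injective _) (y₀ : G)
  have hpg : IsPGroup p (kernel hZ a) := by
    rw [IsPGroup.iff_orderOf]
    intro y
    rcases hord y with h | h
    · exact ⟨0, by simpa using h⟩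
    · exact ⟨1, by simpa using h⟩
  haveI : Nontrivial (kernel hZ a) := (Subgroup.nontrivial_iff_ne_bot _).mpr hne
  haveI := hpg.center_nontrivial
  obtain ⟨z₀, hz₀⟩ := exists_ne (1 : Subgroup.center (kernel hZ a))
  have hz₀G : (((z₀ : kernel hZ a) : G)) ≠ 1 := by
    intro h
    apply hz₀
    exact Subtype.ext (Subtype.ext h)
  have hcen : ∀ y ∈ kernel hZ a, ∀ u ∈ kernel hZ a, y * u = u * y := by
    intro y hy u hu
    by_cases hy1 : y = 1
    · rw [hy1, one_mul, mul_one]
    obtain ⟨g, hga, hg⟩ := hconj _ (z₀ : kernel hZ a).2 y hy hz₀G hy1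
    have hu' : g⁻¹ * u * g ∈ kernel hZ a := by
      have h1 : g⁻¹ • a = a := inv_smul_eq_iff.mpr hga.symm
      have := conj_mem_kernel_of_fix hZ h1 hu
      simpa using this
    have h2 := z₀.2.comm ⟨_, hu'⟩
    have h3 : ((z₀ : kernel hZ a) : G) * (g⁻¹ * u * g) = (g⁻¹ * u * g) * ((z₀ : kernel hZ a) : G) :=
      congrArg Subtype.val h2
    rw [← hg]
    calc g * ((z₀ : kernel hZ a) : G) * g⁻¹ * u
        = g * (((z₀ : kernel hZ a) : G) * (g⁻¹ * u * g)) * g⁻¹ := by group
      _ = g * ((g⁻¹ * u * g) * ((z₀ : kernel hZ a) : G)) * g⁻¹ := by rw [h3]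
      _ = u * (g * ((z₀ : kernel hZ a) : G) * g⁻¹) := by group
  exact hcen

section Main

/-- The degree is `2 d_L + 2`. -/
theorem card_eq_two_join (hS : Sharp3 G Ω) (heven : Even (Fintype.card Ω)) {a b : Ω} (hab : a ≠ b) :
    Fintype.card Ω = 2 * Nat.card ↥(stabilizer (joinKernels hZ) a ⊓ stabilizer (joinKernels hZ) b) + 2 := by
  classical
  have hL1 := join_ne_bot hZ
  have hLn := join_normal hZ
  have hZL : IsZassenhausGroup (joinKernels hZ) Ω := normal_isZassenhaus hZ _ hLn hL1
  haveI := Cfsg.Agent.S0731.join_simple hZ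
  by_cases hd : Even (Nat.card ↥(stabilizer (joinKernels hZ) a ⊓ stabilizer (joinKernels hZ) b))
  · rcases Cfsg.Agent.Lib.Perm.ZassCyc.card_even hZL hab hd with h1 | h2
    · exact (Cfsg.Agent.Lib.Perm.ZassSharp.not_simple hZL hab hd h1).elim
    · exact h2
  · have hodd := Nat.not_even_iff_odd.mp hd
    have h1 := Cfsg.Agent.S0731.feit_join hZ hab rfl (kernel_comm hZ hS a) hodd
    obtain ⟨e, he1, he⟩ := Cfsg.Agent.Lib.Perm.ZassCyc.card_eq_mul hZL hab
    set d := Nat.card ↥(stabilizer (joinKernels hZ) a ⊓ stabilizer (joinKernels hZ) b) with hdd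
    have hdpos : 0 < d := hodd.pos
    have he2 : e ≤ 2 := by
      by_contra hc
      have : d * 3 ≤ d * e := Nat.mul_le_mul_left d (by omega)
      omega
    have he3 : e ≠ 1 := by
      rintro rfl
      rw [mul_one] at he
      have : Odd (Fintype.card Ω) := by
        rw [he]
        exact hodd.add_even even_two
      exact (Nat.not_even_iff_odd.mpr this) heven
    have : e = 2 := by omega
    subst this
    omega

/-- The subgroup of index two. -/
noncomputable def N₀ (a b : Ω) : Subgroup G :=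
  joinKernels hZ ⊓ (stabilizer G a ⊓ stabilizer G b)

theorem N₀_le (a b : Ω) : N₀ hZ a b ≤ stabilizer G a ⊓ stabilizer G b := inf_le_right

theorem card_N₀ (a b : Ω) : Nat.card (N₀ hZ a b) =
    Nat.card ↥(stabilizer (joinKernels hZ) a ⊓ stabilizer (joinKernels hZ) b) := by
  refine Nat.card_congr ⟨fun y => ⟨⟨y, y.2.1⟩, y.2.2.1, y.2.2.2⟩,
    fun y => ⟨((y : joinKernels hZ) : G), (y : joinKernels hZ).2, y.2.1, y.2.2⟩, ?_, ?_⟩
  · intro y; rfl
  · intro y; rfl

theorem relIndex_N₀ (hS : Sharp3 G Ω) (heven : Even (Fintype.card Ω)) {a b c : Ω} (hab : a ≠ b)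
    (hac : a ≠ c) (hbc : b ≠ c) : (N₀ hZ a b).relIndex (stabilizer G a ⊓ stabilizer G b) = 2 := by
  have h1 := card_two_point hS hab hac hbc
  have h2 := card_eq_two_join hZ hS heven hab
  have h3 := card_N₀ hZ a b
  have h4 : Nat.card ↥((N₀ hZ a b).subgroupOf (stabilizer G a ⊓ stabilizer G b)) =
      Nat.card (N₀ hZ a b) :=
    Nat.card_congr (Subgroup.subgroupOfEquivOfLe (N₀_le hZ a b)).toEquiv
  have h5 := Subgroup.card_mul_index ((N₀ hZ a b).subgroupOf (stabilizer G a ⊓ stabilizer G b))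
  rw [h4, h3] at h5
  have h6 : ((N₀ hZ a b).subgroupOf (stabilizer G a ⊓ stabilizer G b)).index =
      (N₀ hZ a b).relIndex (stabilizer G a ⊓ stabilizer G b) := rfl
  rw [h6] at h5
  set d := Nat.card ↥(stabilizer (joinKernels hZ) a ⊓ stabilizer (joinKernels hZ) b) with hd
  have hdpos : 0 < d := Nat.card_pos
  have h7 : d * (N₀ hZ a b).relIndex (stabilizer G a ⊓ stabilizer G b) = d * 2 := by
    rw [h5]
    omega
  exact Nat.eq_of_mul_eq_mul_left hdpos h7

theorem N₀_normal (a b : Ω) : ((N₀ hZ a b).subgroupOf (stabilizer G a ⊓ stabilizer G b)).Normal := by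
  refine ⟨fun n hn g => ?_⟩
  rw [Subgroup.mem_subgroupOf] at hn ⊢
  have hLn := join_normal hZ
  refine ⟨hLn.conj_mem _ hn.1 _, ?_⟩
  exact ((stabilizer G a ⊓ stabilizer G b).mul_mem (
    (stabilizer G a ⊓ stabilizer G b).mul_mem g.2 hn.2) ((stabilizer G a ⊓ stabilizer G b).inv_mem g.2))

theorem N₀_conj {a b : Ω} {s : G} (hsa : s • a = b) (hsb : s • b = a) {n : G} (hn : n ∈ N₀ hZ a b) :
    s * n * s⁻¹ ∈ N₀ hZ a b := by
  have hLn := join_normal hZ
  refine ⟨hLn.conj_mem _ hn.1 _, ?_, ?_⟩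
  · show (s * n * s⁻¹) • a = a
    have h1 : s⁻¹ • a = b := inv_smul_eq_iff.mpr hsb.symm
    have h2 : n • b = b := hn.2.2
    rw [mul_smul, mul_smul, h1, h2, hsb]
  · show (s * n * s⁻¹) • b = b
    have h1 : s⁻¹ • b = a := inv_smul_eq_iff.mpr hsa.symm
    have h2 : n • a = a := hn.2.1
    rw [mul_smul, mul_smul, h1, h2, hsa]

/-- `N₀` is cyclic. -/
theorem N₀_cyclic (a b : Ω) (hab : a ≠ b) : IsCyclic (N₀ hZ a b) := by
  classical
  have hL1 := join_ne_bot hZ
  have hLn := join_normal hZ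
  have hZL : IsZassenhausGroup (joinKernels hZ) Ω := normal_isZassenhaus hZ _ hLn hL1
  haveI := Cfsg.Agent.S0731.join_simple hZ
  have h1 := (Cfsg.Agent.S0345.result hZL hab).1
  let e : ↥(stabilizer (joinKernels hZ) a ⊓ stabilizer (joinKernels hZ) b) ≃* N₀ hZ a b :=
    { toFun := fun y => ⟨((y : joinKernels hZ) : G), (y : joinKernels hZ).2, y.2.1, y.2.2⟩
      invFun := fun y => ⟨⟨y, y.2.1⟩, y.2.2.1, y.2.2.2⟩
      left_inv := fun _ => rfl
      right_inv := fun _ => rfl
      map_mul' := fun _ _ => rfl }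
  exact isCyclic_of_surjective e.toMonoidHom e.surjective

end Main

end Sharp

end Cfsg.Agent.Lib.Perm.ZassSharpEven
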